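import Mathlib
import Cfsg.Agent.Pres.TG2
import Cfsg.Agent.Chev.All2
import Cfsg.Agent.Chev.Tw3

/-! Two generators for Chevalley groups. -/

set_option autoImplicit false
set_option linter.unusedSectionVars false
set_option maxRecDepth 100000

namespace Cfsg.Agent.Chev.CV

open Cfsg.Lie StSys
open Cfsg.Agent.Pres (exists_prim_sq mulR mem_mulR pow_split two_gen_of two_gen_map)

variable {D : ChevalleyDatum} [g : Good2 D] {F : Type*} [Field F] {G : Type*} [Group G] {S : StSys D F G}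
  {K : Subgroup G}

theorem ct_spec {p q : ℕ → Bool} {m : ℕ} {s a b : Rt D} {k : ℕ} (h : chkCT D p q m s (a, b, k) = true) :
    b ≠ a ∧ b ≠ ng a ∧ ∃ (l1 l2 : List (ℕ × ℤ × ℕ × ℕ)) (C : ℤ) (i : ℕ), C.natAbs = m ∧
      D.commTerms a b = l1 ++ ((s : ℕ), C, i, 1) :: l2 ∧ ∀ c ∈ l1 ++ l2, q c.1 = true := by
  simp only [chkCT, Bool.and_eq_true, Nat.blt_eq, Nat.beq_eq, Bool.not_eq_true', lall_iff,
    ← Bool.not_eq_true] at h
  obtain ⟨⟨⟨⟨⟨⟨⟨-, h3⟩, h4⟩, h5⟩, h6⟩, h7⟩, h8⟩, h9⟩ := h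
  rw [List.getD_eq_getElem _ _ h5] at h6 h7 h8
  refine ⟨fun e => h3 (by rw [e]), fun e => h4 (by rw [e, ng_val']),
    (D.commTerms a b).take k, (D.commTerms a b).drop (k + 1), _,
    ((D.commTerms a b)[k]).2.2.1, h7, ?_, fun c hc => (h9 c hc).2⟩
  have e : (D.commTerms a b)[k] = ((s : ℕ), ((D.commTerms a b)[k]).2.1,
      ((D.commTerms a b)[k]).2.2.1, 1) := by rw [← h6, ← h8]
  rw [← e, ← List.drop_eq_getElem_cons h5, List.take_append_drop]

theorem x_mem_ct {a b v : Rt D} (h1 : b ≠ a) (h2 : b ≠ ng a) {l1 l2 : List (ℕ × ℤ × ℕ × ℕ)} {C : ℤ} {i : ℕ}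
    (e : D.commTerms a b = l1 ++ ((v : ℕ), C, i, 1) :: l2) (hC : (C : F) ≠ 0) {t : F} (ht : t ≠ 0)
    (hc : ∀ u, (S.x a t * S.x b u)⁻¹ * (S.x b u * S.x a t) ∈ K)
    (h3 : ∀ c ∈ l1 ++ l2, ∀ y : Rt D, c.1 = y → ∀ z, S.x y z ∈ K) (u : F) : S.x v u ∈ K := by
  have hl : ∀ l : List (ℕ × ℤ × ℕ × ℕ), (∀ q ∈ l, q ∈ l1 ++ l2) → ∀ t' u' : F,
      wd S.x (l.map fun q => (q.1, (q.2.1 : F) * (-t') ^ q.2.2.1 * u' ^ q.2.2.2)) ∈ K := by
    intro l hl t' u'
    refine wd_mem fun v y hv => ?_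
    obtain ⟨q, hq, e'⟩ := List.mem_map.mp hv
    exact h3 q (hl q hq) v (congrArg Prod.fst e') y
  have h0 : (C : F) * (-t) ^ i ≠ 0 := mul_ne_zero hC (pow_ne_zero _ (neg_ne_zero.2 ht))
  have hc := hc (((C : F) * (-t) ^ i)⁻¹ * u)
  rw [S.comm a b h1 h2, inv_mul_cancel_left, ChevalleyDatum.commWord, e, List.map_append,
    List.map_cons, wd_append, wd_cons,
    mul_mem_cancel_left (hl l1 (fun q hq => List.mem_append_left _ hq) _ _),
    mul_mem_cancel_right (hl l2 (fun q hq => List.mem_append_right _ hq) _ _)] at hc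
  simpa only [pow_one, mul_inv_cancel_left₀ h0] using hc

/-- part of an orbit -/
noncomputable def orbL (f : ℕ → ℕ) (h v : ℕ) : List ℕ :=
  Nat.rec (motive := fun _ => ℕ → List ℕ) (fun _ => []) (fun _ ih v => force v fun v => v :: ih (f v)) h v

/-- closing a set of roots under commutators -/
noncomputable def chkRun (D : ChevalleyDatum) (f : ℕ → ℕ) (h m s : ℕ) (E : List (ℕ × ℕ × ℕ × ℕ)) (L : List ℕ) : Bool :=
  List.rec (motive := fun _ => List ℕ → Bool) (fun L => allN D.nroots L.contains)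
    (fun e _ ih L => Nat.blt e.1 D.nroots && chkCT D (fun _ => true) L.contains m e.1 e.2 && L.contains e.2.2.1 &&
      (L.contains e.2.1 || (Nat.beq e.2.1 s && (D.commTerms (D.neg s) e.2.2.1).isEmpty)) && ih (orbL f h e.1 ++ L)) E L

/-- closure properties of the set of root subgroups inside `K` -/
def CK (S : StSys D F G) (K : Subgroup G) (f : ℕ → ℕ) (s : Rt D) : Prop :=
  (∀ v : Rt D, ∃ v' : Rt D, (v' : ℕ) = f v ∧ ((∀ t, S.x v t ∈ K) → ∀ t, S.x v' t ∈ K)) ∧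
  ∃ c : F, c ≠ 0 ∧ ∀ b, b ≠ s → b ≠ ng s → D.commTerms (ng s) b = [] → (∀ t, S.x b t ∈ K) →
    ∀ u, (S.x s c * S.x b u)⁻¹ * (S.x b u * S.x s c) ∈ K

theorem orbL_spec {P : Rt D → Prop} {f : ℕ → ℕ} (hf : ∀ v : Rt D, ∃ v' : Rt D, (v' : ℕ) = f v ∧ (P v → P v'))
    (h : ℕ) {v : Rt D} (hv : P v) (y : Rt D) (hy : (y : ℕ) ∈ orbL f h v) : P y := by
  induction h generalizing v with
  | zero => simp [orbL] at hy
  | succ h ih =>
    obtain ⟨v', e, h1⟩ := hf v
    have : orbL f (h + 1) v = (v : ℕ) :: orbL f h (f v) :=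
      force_eq (v : ℕ) fun v => v :: orbL f h (f v)
    rw [this, List.mem_cons, ← e] at hy
    exact hy.elim (fun e => Fin.ext e ▸ hv) (ih (h1 hv))

theorem run_spec {f : ℕ → ℕ} {s : Rt D} (hK : CK S K f s) {h m : ℕ} (hm : (m : F) ≠ 0) {E : List (ℕ × ℕ × ℕ × ℕ)}
    {L : List ℕ} (hL : ∀ v : Rt D, (v : ℕ) ∈ L → ∀ t, S.x v t ∈ K) (hE : chkRun D f h m s E L = true) :
    S.grp ≤ K := by
  induction E generalizing L with
  | nil => exact S.XS_le.mpr fun v _ => hL v (List.contains_iff_mem.mp ((allN_iff _ _).mp hE v v.2))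
  | cons e E ih =>
    obtain ⟨v, a, b, k⟩ := e
    have hE' : (Nat.blt v D.nroots && chkCT D (fun _ => true) L.contains m v (a, b, k) && L.contains b &&
      (L.contains a || (Nat.beq a s && (D.commTerms (D.neg s) b).isEmpty)) && chkRun D f h m s E (orbL f h v ++ L)) = true :=
      hE
    simp only [Bool.and_eq_true, Bool.or_eq_true, Nat.blt_eq, Nat.beq_eq, List.contains_iff_mem, List.isEmpty_iff] at hE'
    obtain ⟨⟨⟨⟨h1, h2⟩, h3⟩, h4⟩, h5⟩ := hE'
    have h6 : a < D.nroots ∧ b < D.nroots := by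
      simp only [chkCT, Bool.and_eq_true, Nat.blt_eq] at h2; tauto
    lift v to Rt D using h1
    lift a to Rt D using h6.1
    lift b to Rt D using h6.2
    obtain ⟨k1, k2, l1, l2, C, i, hC, e, k3⟩ := ct_spec h2
    have hC' : (C : F) ≠ 0 := by
      rcases Int.natAbs_eq C with h | h <;> rw [h, hC] <;> simpa using hm
    obtain ⟨t, ht, hc⟩ : ∃ t : F, t ≠ 0 ∧ ∀ u, (S.x a t * S.x b u)⁻¹ * (S.x b u * S.x a t) ∈ K := by
      rcases h4 with h4 | ⟨h4, h7⟩
      · exact ⟨1, one_ne_zero, fun u => mul_mem (inv_mem (mul_mem (hL a h4 _) (hL b h3 _))) (mul_mem (hL b h3 _) (hL a h4 _))⟩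
      · obtain rfl : a = s := Fin.ext h4
        obtain ⟨c, c0, hc⟩ := hK.2
        exact ⟨c, c0, hc b k1 k2 h7 (hL b h3)⟩
    refine ih (fun y hy => (List.mem_append.mp hy).elim (orbL_spec (P := fun v => ∀ t, S.x v t ∈ K) hK.1 h
      (x_mem_ct k1 k2 e hC' ht hc fun c hc y e => hL y (e ▸ List.contains_iff_mem.mp (k3 c hc))) y) (hL y)) h5

theorem x_pow (r : Rt D) (t : F) (n : ℕ) : S.x r t ^ n = S.x r (n * t) := by
  induction n with
  | zero => simp
  | succ n ih => rw [pow_succ, ih, ← S.add, Nat.cast_succ, add_mul, one_mul]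

theorem h_pow (h3 : S.R3) (r : Rt D) {t : F} (ht : t ≠ 0) (n : ℕ) : S.h r t ^ n = S.h r (t ^ n) := by
  induction n with
  | zero => simp
  | succ n ih => rw [pow_succ, ih, ← h3 _ _ _ (pow_ne_zero _ ht) ht, pow_succ]

theorem exists_g [Fintype F] (h3 : S.R3) (s : Rt D) : ∃ y ∈ S.XS {s, ng s}, y ^ (Fintype.card F ^ 2) = y ∧
    (∃ c : F, c ≠ 0 ∧ ∀ b, (∀ t u, Commute (S.x (ng s) t) (S.x b u)) → ∃ χ : F, χ ≠ 0 ∧
      ∀ u, y * S.x b u * y⁻¹ = S.x s c * S.x b (χ * u) * (S.x s c)⁻¹) ∧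
    ∀ b, (pr s b = 1 ∨ pr s b = 2) → (∀ t u, Commute (S.x s t) (S.x b u)) → ∀ A : AddSubgroup F,
      (∀ l, (∀ u, y * S.x b u * y⁻¹ = S.x b (l * u)) → ∀ t ∈ A, l * t ∈ A) → ∀ c ∈ A, c ≠ 0 → ∀ t, t ∈ A := by
  obtain ⟨ζ, ζ0, h1, h2, h4⟩ := exists_prim_sq F
  have m1 : ∀ t, S.x s t ∈ S.XS {s, ng s} := S.x_mem (by simp)
  by_cases hz : ζ ^ 2 = 1
  · refine ⟨S.x s 1 * S.x (ng s) 1, mul_mem (m1 1) (S.x_mem (by simp) 1), ?_, ⟨1, one_ne_zero, fun b hb =>
      ⟨1, one_ne_zero, fun u => by rw [mul_assoc (S.x s 1), (hb 1 u).eq, one_mul]; group⟩⟩, fun b _ _ A _ c hc c0 t => ?_⟩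
    · have := orderOf_le_of_pow_eq_one two_pos hz
      have c := FiniteField.cast_card_eq_zero F
      rcases show Fintype.card F = 2 ∨ Fintype.card F = 3 by have := Fintype.one_lt_card (α := F); omega with e | e <;>
        rw [e] at c ⊢
      · have e1 : (-1 : F) = 1 := by linear_combination -c
        have e2 := S.n_ng s one_ne_zero
        rw [inv_one, S.n_neg, eq_inv_iff_mul_eq_one, ← inv_mul_cancel_left (S.n s 1) (_ * _), mul_eq_one_iff_inv_eq,
          inv_inv, ← mul_assoc, eq_comm, mul_eq_right, n, n, ng_ng, inv_one, e1] at e2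
        rw [show 2 ^ 2 = 3 + 1 by rfl, pow_succ, show (S.x s 1 * S.x (ng s) 1) ^ 3 = 1 by
          rw [← e2]; simp only [pow_succ, pow_zero, one_mul, mul_assoc], one_mul]
      · have e1 : S.x s 1 * S.x (ng s) 1 = S.x s (-1) * S.n s (-1) * (S.x s (-1))⁻¹ := by
          rw [n, mul_assoc (S.x s (-1)), mul_inv_cancel_right, ← mul_assoc, ← S.add]
          congr 2
          · linear_combination c
          · simp
        have e2 : S.n s (-1) ^ 4 = 1 := by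
          rw [show 4 = 2 * 2 by rfl, pow_mul, pow_two (S.n s _), ← h, h_pow h3 _ (by simp)]; simp
        rw [e1, conj_pow, show 3 ^ 2 = 4 * 2 + 1 by rfl, pow_succ, pow_mul, e2, one_pow, one_mul]
    · simpa [c0] using h4 (mulR (RingHom.id F) A) (hz ▸ one_mem _) (t / c) c hc
  · have e : S.x s 1 * S.h s ζ * (S.x s 1)⁻¹ = S.x s (1 - ζ ^ 2) * S.h s ζ := by
      have := S.h_conj s ζ0 s (-1)
      rw [pr_self, mul_inv_eq_iff_eq_mul] at this
      rw [← S.x_neg, mul_assoc, this, ← mul_assoc, ← S.add]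
      congr 2; simp [sub_eq_add_neg, zpow_ofNat]
    have e' : ∀ b u, S.x s (1 - ζ ^ 2) * S.h s ζ * S.x b u * (S.x s (1 - ζ ^ 2) * S.h s ζ)⁻¹ =
        S.x s (1 - ζ ^ 2) * S.x b (ζ ^ pr s b * u) * (S.x s (1 - ζ ^ 2))⁻¹ := fun b u => by
      rw [← S.h_conj s ζ0]; group
    refine ⟨S.x s (1 - ζ ^ 2) * S.h s ζ, mul_mem (m1 _) (S.h_mem (by simp) (by simp) _), ?_,
      ⟨_, sub_ne_zero.2 (Ne.symm hz), fun b _ => ⟨_, zpow_ne_zero _ ζ0, e' b⟩⟩, fun b hb hc A hA c hc' c0 t => ?_⟩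
    · rw [← e, conj_pow, h_pow h3 _ ζ0, FiniteField.pow_card_pow]
    · have := hA (ζ ^ pr s b) fun u => by rw [e', (hc _ _).eq, mul_inv_cancel_right]
      have h5 : ζ ^ 2 ∈ mulR (RingHom.id F) A := by
        rcases hb with e | e <;> rw [e] at this
        · exact pow_mem (show ζ ∈ mulR (RingHom.id F) A by simpa [mem_mulR] using this) 2
        · simpa [mem_mulR, zpow_ofNat] using this
      simpa [c0] using h4 _ h5 (t / c) c hc'

theorem two_gen_cv [Fintype F] (h3 : S.R3) (l : List ℕ) (hl : ∀ i ∈ l, i < D.rank) (r s r' : Rt D) (k : ℕ)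
    (h : SO D r s ∧ (g.cert.appW l)^[k] r = r' ∧ (pr s r' = 1 ∨ pr s r' = 2) ∧
      r' ≠ s ∧ r' ≠ ng s ∧ D.commTerms s r' = [])
    (hK : ∀ K : Subgroup G, CK S K (g.cert.appW l) s → (∀ t, S.x r' t ∈ K) → S.grp ≤ K) :
    ∃ f : Fin 2 → S.grp, Subgroup.closure (Set.range f) = ⊤ := by
  obtain ⟨hso, hk, h1, h2⟩ := h
  obtain ⟨w, -, hw⟩ := exists_appW (D := D) l Set.univ fun i hi => ⟨⟨i, hl i hi⟩, trivial, rfl⟩
  obtain ⟨n, hn, hm⟩ := S.exists_N w
  obtain ⟨y, y1, y2, ⟨c, c0, y3⟩, y4⟩ := exists_g h3 s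
  refine two_gen_of (mul_mem (S.x_mem_grp r 1) (S.XS_le_grp _ y1)) (S.N_le_grp hn) fun K k1 k2 => ?_
  obtain ⟨k3, k4⟩ := pow_split (hso.commute S (S.x_mem (by simp) 1) y1)
    (by rw [x_pow]; simp [FiniteField.cast_card_eq_zero]) y2 k1
  refine hK K ⟨fun v => ⟨w • v, hw v, fun hv t => ?_⟩, -c, neg_ne_zero.2 c0, fun b b1 b2 b3 hb u => ?_⟩ ?_
  · obtain ⟨c, hc, h1, -⟩ := hm.exists_conj v
    rw [← mul_inv_cancel_left₀ hc t, ← h1]
    exact mul_mem (mul_mem k2 (hv _)) (inv_mem k2)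
  · obtain ⟨χ, χ0, e⟩ := y3 b (S.commute_nil ⟨b2, by rwa [ng_ng], b3⟩)
    have := mul_mem (inv_mem (hb u)) (mul_mem (mul_mem k4 (hb (χ⁻¹ * u))) (inv_mem k4))
    rw [e, mul_inv_cancel_left₀ χ0] at this
    simpa [S.x_neg, mul_assoc] using this
  · obtain ⟨c', h5, h6⟩ : ∃ c' : F, c' ≠ 0 ∧ S.x r' c' ∈ K := by
      clear h1 h2 hK
      induction k generalizing r' with
      | zero => exact ⟨1, one_ne_zero, Fin.ext hk ▸ k3⟩
      | succ k ih =>
        obtain ⟨v, hv⟩ : ∃ v : Rt D, (g.cert.appW l)^[k] r = v := by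
          clear ih hk
          induction k with
          | zero => exact ⟨r, rfl⟩
          | succ k ih => obtain ⟨v, hv⟩ := ih; exact ⟨w • v, by rw [Function.iterate_succ_apply', hv, hw]⟩
        obtain ⟨c', h5, h6⟩ := ih v hv
        obtain ⟨c, hc, h1, -⟩ := hm.exists_conj v
        rw [Function.iterate_succ_apply', hv, ← hw] at hk
        exact ⟨_, mul_ne_zero hc h5, Fin.ext hk ▸ h1 c' ▸ mul_mem (mul_mem k2 h6) (inv_mem k2)⟩
    let A : AddSubgroup F :=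
      { carrier := {t | S.x r' t ∈ K}
        add_mem' := fun h h' => by rw [Set.mem_setOf_eq, S.add]; exact mul_mem h h'
        zero_mem' := by simp
        neg_mem' := fun h => by rw [Set.mem_setOf_eq, S.x_neg]; exact inv_mem h }
    exact y4 r' h1 (S.commute_nil h2) A (fun l hl t ht => by
      change S.x r' (l * t) ∈ K
      rw [← hl]; exact mul_mem (mul_mem k4 ht) (inv_mem k4)) c' h6 h5

theorem two_gen_run [Fintype F] (h3 : S.R3) (l : List ℕ) (hl : ∀ i ∈ l, i < D.rank) (r s r' : Rt D) (k : ℕ)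
    (h : SO D r s ∧ (g.cert.appW l)^[k] r = r' ∧ (pr s r' = 1 ∨ pr s r' = 2) ∧
      r' ≠ s ∧ r' ≠ ng s ∧ D.commTerms s r' = []) {N m : ℕ} (hm : (m : F) ≠ 0) {E : List (ℕ × ℕ × ℕ × ℕ)}
    (hE : chkRun D (g.cert.appW l) N m s E (orbL (g.cert.appW l) N r') = true) :
    ∃ f : Fin 2 → S.grp, Subgroup.closure (Set.range f) = ⊤ :=
  two_gen_cv h3 l hl r s r' k h fun K h1 h2 =>
    run_spec h1 hm (orbL_spec (P := fun v => ∀ t, S.x v t ∈ K) h1.1 N h2) hE

theorem gl_two {f : Fin 2 → (glSys D F).grp} (h : Subgroup.closure (Set.range f) = ⊤) :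
    ∃ a b : D.group F, Subgroup.closure ({a, b} : Set (D.group F)) = ⊤ :=
  two_gen_map h (MulEquiv.subgroupCongr group_eq.symm).toMonoidHom (MulEquiv.surjective _)

variable [Fintype F]

attribute [local instance] good2G2 good2D4 good2F4 good2E6 good2E7 good2E8

theorem two_F4 : ∃ a b : chevF4.group F, Subgroup.closure ({a, b} : Set (chevF4.group F)) = ⊤ :=
  (two_gen_run gl_R3 [0, 1, 2, 3] (by decide) ⟨0, by decide⟩ ⟨10, by decide⟩ ⟨26, by decide⟩ 8 (by decide +kernel)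
    (N := 12) (m := 1) (by simp) (E := [(5, 0, 32, 0), (8, 10, 21, 0), (9, 0, 39, 0)]) (by decide +kernel)).elim fun _ => gl_two

theorem two_E6 : ∃ a b : chevE6.group F, Subgroup.closure ({a, b} : Set (chevE6.group F)) = ⊤ :=
  (two_gen_run gl_R3 [0, 1, 2, 3, 4, 5] (by decide) ⟨0, by decide⟩ ⟨11, by decide⟩ ⟨1, by decide⟩ 1 (by decide +kernel)
    (N := 12) (m := 1) (by simp) (E := [(22, 0, 67, 0), (2, 11, 20, 0), (8, 0, 53, 0), (3, 2, 37, 0), (19, 0, 64, 0)])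
    (by decide +kernel)).elim fun _ => gl_two

theorem two_E7 : ∃ a b : chevE7.group F, Subgroup.closure ({a, b} : Set (chevE7.group F)) = ⊤ :=
  (two_gen_run gl_R3 [0, 1, 2, 3, 4, 5, 6] (by decide) ⟨0, by decide⟩ ⟨34, by decide⟩ ⟨1, by decide⟩ 1 (by decide +kernel)
    (N := 18) (m := 1) (by simp)
    (E := [(17, 0, 109, 0), (11, 0, 103, 0), (20, 0, 112, 0), (3, 34, 24, 0), (18, 0, 110, 0), (23, 0, 115, 0)])
    (by decide +kernel)).elim fun _ => gl_two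

theorem two_E8 : ∃ a b : chevE8.group F, Subgroup.closure ({a, b} : Set (chevE8.group F)) = ⊤ :=
  (two_gen_run gl_R3 [0, 1, 2, 3, 4, 5, 6, 7] (by decide) ⟨0, by decide⟩ ⟨13, by decide⟩ ⟨161, by decide⟩ 19
    (by decide +kernel) (N := 30) (m := 1) (by simp) (E := [(12, 0, 161, 0), (11, 0, 160, 0), (30, 0, 201, 0),
      (24, 0, 193, 0), (28, 0, 199, 0), (47, 0, 216, 0), (62, 0, 223, 0)]) (by decide +kernel)).elim fun _ => gl_two

theorem two_D4 : ∃ a b : chevD4.group F, Subgroup.closure ({a, b} : Set (chevD4.group F)) = ⊤ :=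
  (two_gen_run gl_R3 [0, 1, 2, 3] (by decide) ⟨1, by decide⟩ ⟨7, by decide⟩ ⟨18, by decide⟩ 1 (by decide +kernel)
    (N := 6) (m := 1) (by simp) (E := [(0, 1, 9, 0), (2, 7, 5, 0), (3, 1, 13, 0)]) (by decide +kernel)).elim fun _ => gl_two

theorem two_G2 : ∃ a b : chevG2.group F, Subgroup.closure ({a, b} : Set (chevG2.group F)) = ⊤ := by
  by_cases h3 : (3 : F) = 0
  swap
  · exact (two_gen_run gl_R3 [0, 1] (by decide) ⟨9, by decide⟩ ⟨6, by decide⟩ ⟨8, by decide⟩ 1 (by decide +kernel)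
      (N := 6) (m := 3) (by simpa using h3) (E := [(0, 2, 3, 0)]) (by decide +kernel)).elim fun _ => gl_two
  refine (two_gen_cv gl_R3 [0, 1] (by decide) ⟨9, by decide⟩ ⟨6, by decide⟩ ⟨8, by decide⟩ 1 (by decide +kernel)
    fun K h1 h2 => ?_).elim fun _ => gl_two
  generalize glSys chevG2 F = S at h1 h2
  have h4 := orbL_spec (P := fun v => ∀ t, S.x v t ∈ K) h1.1 6 h2
  have h5 : ∀ u, S.x ⟨10, by decide⟩ u ∈ K := fun u => by
    obtain ⟨c, c0, hc⟩ := h1.2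
    haveI : CharP F 3 := (CharP.charP_iff_prime_eq_zero Nat.prime_three).2 h3
    haveI : Fact (Nat.Prime 3) := ⟨Nat.prime_three⟩
    obtain ⟨t, ht⟩ := surjective_frobenius F 3 (u / c)
    have a0 := h4 ⟨7, by decide⟩ (by decide +kernel)
    have a1 := h4 (ng ⟨7, by decide⟩) (by decide +kernel)
    have k := hc ⟨7, by decide⟩ (by decide) (by decide +kernel) (by decide +kernel) a0 t
    rw [S.comm_of (r := ⟨6, by decide⟩) (s := ⟨7, by decide⟩) (l := [(8, 1, 1, 1), (9, 1, 1, 2), (10, -1, 1, 3), (11, -2, 2, 3)]) (by decide +kernel),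
      inv_mul_cancel_left] at k
    simp only [List.map_cons, List.map_nil] at k
    rw [wd_cons_lt _ (by decide), wd_cons_lt _ (by decide), wd_cons_lt _ (by decide), wd_cons_lt _ (by decide), wd_nil, mul_one,
      mul_mem_cancel_left (h4 _ (by decide +kernel) _), mul_mem_cancel_left (h4 _ (by decide +kernel) _)] at k
    have hh : S.h ⟨7, by decide⟩ (-1) ∈ K :=
      mul_mem (mul_mem (mul_mem (a0 _) (a1 _)) (a0 _)) (mul_mem (mul_mem (a0 _) (a1 _)) (a0 _))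
    have k2 := mul_mem (mul_mem (mul_mem hh k) (inv_mem hh)) (inv_mem k)
    rw [← conj_mul, S.h_conj _ (by simp), S.h_conj _ (by simp), show pr (D := chevG2) ⟨7, by decide⟩ ⟨10, by decide⟩ = 3 by
      decide +kernel, show pr (D := chevG2) ⟨7, by decide⟩ ⟨11, by decide⟩ = 0 by decide +kernel, zpow_zero, one_mul,
      mul_inv_rev, mul_assoc, mul_inv_cancel_left, ← S.x_neg, ← S.add] at k2
    convert k2 using 2
    rw [frobenius_def] at ht
    rw [ht]; norm_num [zpow_ofNat]; field_simp; linear_combination u * h3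
  exact run_spec (h := 6) (m := 1) (E := []) h1 (by simp) (fun y hy => (List.mem_append.mp hy).elim
    (orbL_spec (P := fun v => ∀ t, S.x v t ∈ K) h1.1 6 h5 y) (h4 y)) (by decide +kernel)

end Cfsg.Agent.Chev.CV
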