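import Mathlib
import Cfsg.Agent.Pres.CV1
import Cfsg.Agent.Chev.TwE6
import Cfsg.Agent.Chev.TwF4

/-! Two generators for twisted groups. -/

set_option autoImplicit false
set_option linter.unusedSectionVars false
set_option maxRecDepth 100000

namespace Cfsg.Agent.Chev.CV

open Cfsg.Lie StSys Cfsg.Agent.BN Tw
open Cfsg.Agent.Pres (exists_prim_sq mulR mem_mulR pow_split two_gen_of two_gen_map)

section
variable {D : ChevalleyDatum} [g : Good2 D] {F : Type*} [Field F] {G : Type*} [Group G] {S : StSys D F G}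
  {L : Subgroup G} {σ : Sym D} {T : Tw S σ}

theorem cox_n {A : Type} {O : Orb σ A} {K : Subgroup G} (h : IsTw T O K) (l : List (Ix D))
    (hρ : ∀ r, l.foldr rf (σ.p r) = σ.p (l.foldr rf r)) :
    ∃ n ∈ K, ∀ k, ∃ w : W D, S.Mono (n ^ k) w ∧ ∀ r, w • r = (fun r => l.foldr rf r)^[k] r := by
  have h1 : ∀ r : Rt D, wp sW l • r = l.foldr rf r := fun r => by
    clear hρ
    induction l with
    | nil => simp
    | cons i l ih => rw [wp_cons, mul_smul, ih, sW_smul, List.foldr_cons]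
  obtain ⟨n, h2, -, h3⟩ := h.exists_n (w := wp sW l) (O.mem_C.mpr (W_ext fun r => by
    obtain ⟨r, rfl⟩ := σ.p.surjective r
    rw [σ.ρ_smul, h1, h1, hρ]))
  refine ⟨n, h2, fun k => ?_⟩
  induction k with
  | zero => exact ⟨1, by simpa using Mono.one, by simp⟩
  | succ k ih =>
    obtain ⟨w, h4, h5⟩ := ih
    exact ⟨_, pow_succ n k ▸ h4.mul h3, fun r => by rw [mul_smul, h5, h1, Function.iterate_succ_apply]⟩

theorem f_mem {y : G} (hy : y ∈ S.grp) : T.f y ∈ S.grp := T.mem_XS (R' := Set.univ) (fun _ _ => Set.mem_univ _) hy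

theorem f_conj {n y : G} (hn : n ∈ T.Fx) (hy : y ∈ S.grp) : T.f (n * y * n⁻¹) = n * T.f y * n⁻¹ := by
  rw [T.f_mul3 hn.1 hy (inv_mem hn.1), T.f_inv hn.1, hn.2]

theorem FK_conj {n : G} (h1 : n ∈ L) (h2 : n ∈ T.Fx) {w : W D} (hm : S.Mono n w) {R R' : Set (Rt D)}
    (h : ∀ r ∈ R', w • r ∈ R) (hR : T.Fx ⊓ S.XS R ≤ L) : T.Fx ⊓ S.XS R' ≤ L := fun y hy => by
  simpa [mul_assoc] using mul_mem (mul_mem (inv_mem h1) (hR (Subgroup.mem_inf.mpr
    ⟨T.Fx.mul_mem (T.Fx.mul_mem h2 hy.1) (T.Fx.inv_mem h2), hm.conj_mem h hy.2⟩))) h1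

theorem FK_neg {n : G} (h1 : n ∈ L) (h2 : n ∈ T.Fx) {w : W D} (hm : S.Mono n w) {J : Set (Ix D)} {M : List (Rt D)}
    (hJ : ∀ v, v ∈ M ↔ v ∈ {r | Pos r ∧ PhiK J r}) (h : ∀ r ∈ M, w • ng r ∈ M) (hR : T.Fx ⊓ S.Xp J ≤ L) :
    (T.Fx ⊓ S.Xp J) ⊔ (T.Fx ⊓ S.Xm J) ≤ L :=
  sup_le hR (FK_conj h1 h2 hm (fun r hr => (hJ _).mp (by
    simpa using h (ng r) ((hJ _).mpr (by simpa using hr)))) hR)

theorem conj1 {r b v : Rt D} {C : ℤ} (h : b ≠ r ∧ b ≠ ng r ∧ D.commTerms r b = [((v : ℕ), C, 1, 1)]) (t u : F) :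
    S.x r t * S.x b u * (S.x r t)⁻¹ = S.x b u * S.x v (C * t * u) := by
  have := S.comm_of h (-t) u
  simp only [List.map_cons, List.map_nil, wd_cons, wd_nil, mul_one, neg_neg, pow_one, S.x_neg] at this
  rw [mul_assoc, this]; group

theorem comm_XS {y z : G} {R : Set (Rt D)} (h : ∀ r ∈ R, ∀ t, y * S.x r t * y⁻¹ = S.x r t) (hz : z ∈ S.XS R) :
    Commute z y := by
  induction hz using S.XS_ind with
  | h1 => exact Commute.one_left _
  | hs r hr t a _ ih => exact Commute.mul_left (mul_inv_eq_iff_eq_mul.mp (h r hr t)).symm ih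

/-- the parameters of an additive family inside `L` -/
def par (L : Subgroup G) (X : F → G) (h : ∀ t u, X (t + u) = X t * X u) : AddSubgroup F where
  carrier := {t | X t ∈ L}
  add_mem' h1 h2 := by rw [Set.mem_setOf_eq, h]; exact mul_mem h1 h2
  zero_mem' := by rw [Set.mem_setOf_eq, left_eq_mul.mp ((congrArg X (add_zero 0)).symm.trans (h 0 0))]; exact one_mem _
  neg_mem' {t} h1 := by
    rw [Set.mem_setOf_eq, eq_inv_of_mul_eq_one_left (show X (-t) * X t = 1 by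
      rw [← h, neg_add_cancel, left_eq_mul.mp ((congrArg X (add_zero 0)).symm.trans (h 0 0))])]
    exact inv_mem h1

theorem mem_par {X : F → G} {h : ∀ t u, X (t + u) = X t * X u} {t : F} : t ∈ par L X h ↔ X t ∈ L := Iff.rfl

theorem fixed_mem [Fintype F] {ζ : F} (h1 : orderOf ζ + 1 = Fintype.card F) (h2 : ∀ t, t ≠ 0 → ∃ k : ℕ, ζ ^ k = t)
    {q M : ℕ} (hq : 2 ≤ q) (hM : Fintype.card F = (q - 1) * M + 1) {A : AddSubgroup F} (hA : ∀ t ∈ A, ζ ^ M * t ∈ A)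
    {c u : F} (hc : c ∈ A) (c0 : c ≠ 0) (hc' : c ^ q = c) (hu : u ^ q = u) : u ∈ A := by
  by_cases u0 : u = 0
  · rw [u0]; exact zero_mem _
  obtain ⟨k, hk⟩ := h2 (u / c) (div_ne_zero u0 c0)
  obtain ⟨p, rfl⟩ : ∃ p, q = p + 1 := ⟨q - 1, by omega⟩
  have h3 : (ζ ^ k) ^ p = 1 := by
    have : (u / c) ^ (p + 1) = u / c := by rw [div_pow, hc', hu]
    rw [hk]; exact mul_right_cancel₀ (div_ne_zero u0 c0) (by rw [← pow_succ, this, one_mul])
  rw [← pow_mul, ← orderOf_dvd_iff_pow_eq_one, show orderOf ζ = M * p by simp at hM; linarith] at h3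
  obtain ⟨j, rfl⟩ := Nat.dvd_of_mul_dvd_mul_right (by omega) h3
  rw [← div_mul_cancel₀ u c0, ← hk, pow_mul]
  clear hk h3
  induction j with
  | zero => simpa using hc
  | succ j ih => rw [pow_succ', mul_assoc]; exact hA _ ih

theorem all_mem {ζ : F} (h : ∀ R : Subring F, ζ ^ 2 ∈ R → ∀ t, t ∈ R) {A : AddSubgroup F} (hA : ∀ t ∈ A, ζ ^ 2 * t ∈ A)
    {c : F} (hc : c ∈ A) (c0 : c ≠ 0) (t : F) : t ∈ A := by
  simpa [c0] using h (mulR (RingHom.id F) A) hA (t / c) c hc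

end

attribute [local instance] good2E6 good2F4

variable {K : Type*} [Field K] [Fintype K]

theorem two_2E6 {q : ℕ} (hq : IsPrimePow q) (hK : Fintype.card K = q ^ 2) :
    ∃ f : Fin 2 → twistedE6 K q, Subgroup.closure (Set.range f) = ⊤ := by
  obtain ⟨C⟩ := exists_CE6 hq hK
  obtain ⟨ζ, ζ0, z1, z2, z3⟩ := exists_prim_sq K
  have q2 := hq.two_le
  have hz : ζ ^ 2 ≠ 1 := fun h => by have := orderOf_le_of_pow_eq_one two_pos h; nlinarith
  have ζ1 : C.ψ ζ ≠ 0 := (map_ne_zero _).mpr ζ0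
  obtain ⟨n, n1, n2⟩ := cox_n C.isTw [nE6 1, nE6 3, nE6 2, nE6 4, nE6 0, nE6 5] (by decide +kernel)
  have hX := C.two_mem (r := sim (nE6 0)) (s := sim (nE6 5)) (by decide +kernel)
  have hh := so3_E6.h_mem _ C.ψ hX (C.two_mem (by decide +kernel)) ζ
  have h3 := gl_R3 (D := chevE6) (F := K)
  have hr := C.one_mem (r := sim (nE6 1)) (by decide +kernel) (map_one _)
  have gen := C.gen
  have o0 := C.o0.1
  have o1 := C.o1.1
  have o2 := C.o2.1
  have o3 := C.o3.1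
  have le := C.isTw.le
  have hT := C.hT
  have φs := C.φ_sim
  have φf := @C.φ_fix
  obtain ⟨ψ, T, hψ, ψψ, hT'⟩ := C
  dsimp only at *
  clear hT'
  generalize twistedE6 K q = E at *
  generalize glSys chevE6 K = S at *
  have Xa : ∀ t u, S.x (sim (nE6 0)) (t + u) * S.x (sim (nE6 5)) (ψ (t + u)) =
      S.x (sim (nE6 0)) t * S.x (sim (nE6 5)) (ψ t) * (S.x (sim (nE6 0)) u * S.x (sim (nE6 5)) (ψ u)) := fun t u => by
    rw [map_add, S.add, S.add, (so3_E6.x S _ _).mul_mul_mul_comm]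
  have hc := S.conj_hh (sim (nE6 0)) (sim (nE6 5)) ζ0 ζ1
  have hp : (S.h (sim (nE6 0)) ζ * S.h (sim (nE6 5)) (ψ ζ)) ^ Fintype.card K =
      S.h (sim (nE6 0)) ζ * S.h (sim (nE6 5)) (ψ ζ) := by
    rw [Commute.mul_pow (h3.h_comm _ _ ζ0 ζ1), h_pow h3 _ ζ0, h_pow h3 _ ζ1, FiniteField.pow_card, FiniteField.pow_card]
  generalize S.h (sim (nE6 0)) ζ * S.h (sim (nE6 5)) (ψ ζ) = h at hh hc hp
  have hX2 : ∀ t, h * (S.x (sim (nE6 0)) t * S.x (sim (nE6 5)) (ψ t)) * h⁻¹ =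
      S.x (sim (nE6 0)) (ζ ^ 2 * t) * S.x (sim (nE6 5)) (ψ (ζ ^ 2 * t)) := fun t => by
    rw [← conj_mul, hc, hc, pr_self, pr_self, show pr (sim (nE6 5)) (sim (nE6 0)) = 0 by decide +kernel,
      show pr (sim (nE6 0)) (sim (nE6 5)) = 0 by decide +kernel]
    simp [zpow_ofNat]
  obtain ⟨X, hXe⟩ : ∃ X : K → _, ∀ t, X t = S.x (sim (nE6 0)) t * S.x (sim (nE6 5)) (ψ t) := ⟨_, fun _ => rfl⟩
  simp only [← hXe] at hX Xa hX2 o3
  have X0 : X 0 = 1 := by simp [hXe]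
  have Xi : ∀ t, (X t)⁻¹ = X (-t) := fun t => inv_eq_of_mul_eq_one_right (by rw [← Xa, add_neg_cancel, X0])
  have cX : ∀ b, (b ≠ sim (nE6 0) ∧ b ≠ ng (sim (nE6 0)) ∧ chevE6.commTerms (sim (nE6 0) : Rt chevE6) b = []) ∧
      (b ≠ sim (nE6 5) ∧ b ≠ ng (sim (nE6 5)) ∧ chevE6.commTerms (sim (nE6 5) : Rt chevE6) b = []) →
      ∀ t u, Commute (X t) (S.x b u) := fun b hb t u =>
    hXe t ▸ (S.commute_nil hb.1 _ _).mul_left (S.commute_nil hb.2 _ _)
  refine two_gen_of (mul_mem hr (mul_mem (mul_mem (hX 1) hh) (inv_mem (hX 1)))) n1 fun L k1 k2 => ?_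
  have c1 := (cX (sim (nE6 1)) (by decide +kernel) 1 1).symm
  have c2 : Commute (S.x (sim (nE6 1)) 1) h := (mul_inv_eq_iff_eq_mul.mp (by
    rw [hc, show pr (sim (nE6 0)) (sim (nE6 1)) = 0 by decide +kernel,
      show pr (sim (nE6 5)) (sim (nE6 1)) = 0 by decide +kernel]; simp)).symm
  obtain ⟨k3, k4⟩ := pow_split (N := Fintype.card K) ((c1.mul_right c2).mul_right c1.inv_right)
    (by rw [x_pow]; simp) (by rw [conj_pow, hp]) k1
  rw [Xi, mul_assoc, mul_inv_eq_iff_eq_mul.mp (hX2 (-1)), ← mul_assoc, ← Xa, mul_neg_one, ← sub_eq_add_neg] at k4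
  have kc : ∀ y ∈ L, X (1 - ζ ^ 2) * (h * y * h⁻¹) * (X (1 - ζ ^ 2))⁻¹ ∈ L := fun y hy => by
    simpa only [mul_inv_rev, mul_assoc] using mul_mem (mul_mem k4 hy) (inv_mem k4)
  have nk : ∀ k, n ^ k ∈ T.Fx := fun k => pow_mem (le n1) k
  have l1 : T.Fx ⊓ S.XS {⟨65, by decide⟩} ≤ L := fun y hy => by
    have fx : symE6.p ⟨65, by decide⟩ = ⟨65, by decide⟩ := by decide +kernel
    obtain ⟨u, hu, rfl⟩ := (mem_one fx).mp hy
    obtain ⟨w, h1, h2⟩ := n2 3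
    obtain ⟨c, c0, h4, -⟩ := h1.exists_conj (sim (nE6 1))
    have h5 := h4 1
    rw [show w • sim (nE6 1) = ⟨65, by decide⟩ from (h2 _).trans (by decide +kernel), mul_one] at h5
    have h6 := (x_mem_Fx fx).mp (h5 ▸ mul_mem (mul_mem (nk 3) (le hr)) (inv_mem (nk 3)))
    rw [φf fx, hψ] at hu h6
    refine fixed_mem z1 z2 q2 (M := q + 1) (by rw [hK]; zify [show 1 ≤ q by omega]; ring) (A := par L _ (S.add _))
      (fun t ht => ?_) (mem_par.mpr (h5 ▸ mul_mem (mul_mem (pow_mem k2 3) k3) (inv_mem (pow_mem k2 3)))) c0 h6 hu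
    have := kc _ (mem_par.mp ht)
    rwa [hc, (cX ⟨65, by decide⟩ (by decide +kernel) _ _).eq,
      mul_inv_cancel_right, show pr (sim (nE6 0)) ⟨65, by decide⟩ = 1 by decide +kernel,
      show pr (sim (nE6 5)) ⟨65, by decide⟩ = 1 by decide +kernel, zpow_one, zpow_one, hψ, ← pow_succ'] at this
  have l2 : ∀ k (v : Rt chevE6), (fun r => [nE6 1, nE6 3, nE6 2, nE6 4, nE6 0, nE6 5].foldr rf r)^[k] v = ⟨65, by decide⟩ ∧
      symE6.p v = v → ∀ u, ψ u = u → S.x v u ∈ L := fun k v hv u hu => by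
    obtain ⟨w, h1, h2⟩ := n2 k
    exact FK_conj (pow_mem k2 k) (nk k) h1 (R' := {v}) (fun r hr => by rw [hr, h2, hv.1]; rfl) l1
      ((mem_one hv.2).mpr ⟨u, by rw [φf hv.2, hu], rfl⟩)
  have tr : ∀ k (v v' : Rt chevE6), (fun r => [nE6 1, nE6 3, nE6 2, nE6 4, nE6 0, nE6 5].foldr rf r)^[k] v = v' →
      ∃ c : K, c ≠ 0 ∧ ∀ t, S.x v t * T.f (S.x v t) ∈ L → S.x v' (c * t) * T.f (S.x v' (c * t)) ∈ L := fun k v v' hv => by
    obtain ⟨w, h1, h2⟩ := n2 k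
    obtain ⟨c, c0, h4, -⟩ := h1.exists_conj v
    refine ⟨c, c0, fun t ht => ?_⟩
    rw [← hv, ← h2, ← h4, f_conj (nk k) (S.x_mem_grp _ _), conj_mul]
    exact mul_mem (mul_mem (pow_mem k2 k) ht) (inv_mem (pow_mem k2 k))
  have l3 : ∀ t, X t ∈ L := by
    have a := hc ⟨51, by decide⟩ (ζ * ψ ζ)
    rw [show pr (sim (nE6 0)) ⟨51, by decide⟩ = -1 by decide +kernel,
      show pr (sim (nE6 5)) ⟨51, by decide⟩ = -1 by decide +kernel, zpow_neg_one, zpow_neg_one, ← mul_inv,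
      inv_mul_cancel₀ (mul_ne_zero ζ0 ζ1)] at a
    have b := kc _ (l2 1 ⟨51, by decide⟩ (by decide +kernel) (ζ * ψ ζ) (by simp [ψψ, mul_comm]))
    rw [a, hXe, mul_inv_rev, ← mul_assoc, mul_assoc (S.x _ _),
      mul_assoc (S.x _ _), conj1 (v := ⟨52, by decide⟩) (C := 1) (by decide +kernel), ← conj_mul,
      conj1 (v := ⟨62, by decide⟩) (C := -1) (by decide +kernel), conj1 (v := ⟨63, by decide⟩) (C := -1) (by decide +kernel),
      mul_assoc, mul_mem_cancel_left (l2 1 _ (by decide +kernel) 1 (map_one _)), ← mul_assoc,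
      mul_mem_cancel_right (l2 10 _ (by decide +kernel) _ (by simp [ψψ]; ring))] at b
    obtain ⟨c, c0, h4⟩ := tr 3 ⟨62, by decide⟩ (sim (nE6 0)) (by decide +kernel)
    have h5 := h4 _ (by
      rw [T.f_x, show symE6.p ⟨62, by decide⟩ = ⟨52, by decide⟩ by decide +kernel, hT,
        show sgn (bit gEE6 62) 1 = -1 by decide +kernel]
      convert b using 3; simp)
    rw [T.f_x, symE6.p_sim, π_E6, φs] at h5
    refine all_mem z3 (A := par L X Xa) (fun t ht => ?_) (mem_par.mpr (hXe _ ▸ h5)) 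
      (mul_ne_zero c0 (by simpa only [mul_one, Int.cast_neg, Int.cast_one, neg_mul, one_mul, ne_eq, neg_eq_zero, sub_eq_zero] using hz.symm))
    have := kc _ (mem_par.mp ht)
    rwa [hX2, Xi, ← Xa, ← Xa, add_neg_cancel_comm] at this
  obtain ⟨w, h1, h2⟩ := n2 6
  refine gen.trans (iSup_le fun a => ?_)
  fin_cases a
  · refine FK_neg (pow_mem k2 6) (nk 6) h1 J0_E6 (by simp only [h2]; decide +kernel) fun y hy => ?_
    obtain ⟨t, ht, rfl⟩ := (o0 y).mp hy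
    exact l2 3 _ (by decide +kernel) t ht
  · refine FK_neg (pow_mem k2 6) (nk 6) h1 J1_E6 (by simp only [h2]; decide +kernel) fun y hy => ?_
    obtain ⟨t, ht, rfl⟩ := (o1 y).mp hy
    exact l2 2 _ (by decide +kernel) t ht
  · refine FK_neg (pow_mem k2 6) (nk 6) h1 J2_E6 (by simp only [h2]; decide +kernel) fun y hy => ?_
    obtain ⟨t, rfl⟩ := (o2 y).mp hy
    obtain ⟨c, c0, h4⟩ := tr 11 (sim (nE6 0)) (sim (nE6 2)) (by decide +kernel)
    have := h4 (c⁻¹ * t) (by rw [T.f_x, symE6.p_sim, π_E6, φs]; exact hXe _ ▸ l3 _)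
    rwa [mul_inv_cancel_left₀ c0, T.f_x, symE6.p_sim, π_E6, φs] at this
  · refine FK_neg (pow_mem k2 6) (nk 6) h1 J3_E6 (by simp only [h2]; decide +kernel) fun y hy => ?_
    obtain ⟨t, rfl⟩ := (o3 y).mp hy
    exact l3 t

end Cfsg.Agent.Chev.CV
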