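import Mathlib

/-! Normal-basis elements for groups acting on commutative rings; free modules over a
complement. -/

namespace Cfsg.Agent.Pres.FrA

open Finset

theorem exists_nb (G L : Type*) [Group G] [Fintype G] [Field L] [MulSemiringAction G L]
    [FaithfulSMul G L] : ∃ θ : L, ∀ c : G → L, (∀ s : G, ∑ t, c t * (t • s • θ) = 0) → c = 0 := by
  classical
  let K := FixedPoints.subfield G L
  let b := IsGalois.normalBasis K L
  refine ⟨b 1, fun c hc => ?_⟩
  let f : L →ₗ[K] L := ∑ t, c t • (MulSemiringAction.toAlgHom K L t).toLinearMap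
  have hf : f = 0 := b.ext fun σ => by
    obtain ⟨s, rfl⟩ := (FixedPoints.toAlgAut_bijective G L).surjective σ
    rw [IsGalois.normalBasis_apply]
    simpa [f, LinearMap.sum_apply] using hc s
  have hli := (linearIndependent_monoidHom L L).comp
    (fun t : G => (MulSemiringAction.toRingHom G L t : L →* L)) (fun t t' h =>
      eq_of_smul_eq_smul fun x : L => DFunLike.congr_fun h x)
  funext t
  refine Fintype.linearIndependent_iff.1 hli c ?_ t
  funext x
  have := LinearMap.congr_fun hf x
  simpa [f, LinearMap.sum_apply] using this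

theorem exists_det {H R : Type*} [Group H] [Fintype H] [DecidableEq H] [CommRing R]
    [MulSemiringAction H R] (m : Ideal R) [hm : m.IsMaximal]
    (hg : ∀ g : H, g ≠ 1 → ∃ x : R, g • x - x ∉ m) :
    ∃ θ : R, (Matrix.of fun w u : H => (w * u) • θ).det ∉ m := by
  classical
  let H1 : Subgroup H :=
    { carrier := {g | ∀ x, g • x ∈ m ↔ x ∈ m}
      mul_mem' := fun {a b} ha hb x => by rw [mul_smul, ha, hb]
      one_mem' := fun x => by rw [one_smul]
      inv_mem' := fun {a} ha x => by rw [← ha, smul_inv_smul] }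
  letI : Field (R ⧸ m) := Ideal.Quotient.field m
  let q : H1 → (R ⧸ m) →+* (R ⧸ m) := fun g =>
    Ideal.quotientMap m (MulSemiringAction.toRingHom H R g) fun x hx => (g.2 x).2 hx
  have hq : ∀ g x, q g (Ideal.Quotient.mk m x) = Ideal.Quotient.mk m ((g : H) • x) := fun g x => rfl
  letI : MulSemiringAction H1 (R ⧸ m) :=
    { smul := fun g x => q g x
      one_smul := fun x => by
        obtain ⟨x, rfl⟩ := Ideal.Quotient.mk_surjective x
        show q 1 _ = _
        rw [hq]; simp
      mul_smul := fun a b x => by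
        obtain ⟨x, rfl⟩ := Ideal.Quotient.mk_surjective x
        show q (a * b) _ = q a (q b _)
        rw [hq, hq, hq]; simp [mul_smul]
      smul_zero := fun g => map_zero (q g)
      smul_add := fun g => map_add (q g)
      smul_one := fun g => map_one (q g)
      smul_mul := fun g => map_mul (q g) }
  have hs : ∀ (g : H1) x, g • (Ideal.Quotient.mk m x) = Ideal.Quotient.mk m ((g : H) • x) := hq
  haveI : FaithfulSMul H1 (R ⧸ m) := ⟨fun {a b} h => by
    by_contra hab
    obtain ⟨x, hx⟩ := hg ((b : H)⁻¹ * a) (fun e => hab (Subtype.ext (inv_mul_eq_one.1 e).symm))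
    apply hx
    have := h (Ideal.Quotient.mk m x)
    rw [hs, hs, Ideal.Quotient.eq] at this
    rw [← b.2, smul_sub, mul_smul, smul_inv_smul]
    exact this⟩
  obtain ⟨θ1, hθ1⟩ := exists_nb H1 (R ⧸ m)
  obtain ⟨θ0, rfl⟩ := Ideal.Quotient.mk_surjective θ1
  have hy : ∀ g : H, ∃ y : R, Ideal.Quotient.mk m y = 1 ∧ (g ∉ H1 → g • y ∈ m) := by
    intro g
    by_cases hgH : g ∈ H1
    · exact ⟨1, rfl, fun h => absurd hgH h⟩
    have hmax : (m.comap (MulSemiringAction.toRingHom H R g)).IsMaximal :=
      Ideal.comap_isMaximal_of_surjective _ (MulAction.surjective g)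
    have : ¬ m.comap (MulSemiringAction.toRingHom H R g) ≤ m := fun h => hgH fun x => by
      have e := hmax.eq_of_le hm.ne_top h
      conv_rhs => rw [← e]
      rfl
    obtain ⟨y, hy1, hy2⟩ := SetLike.not_le_iff_exists.1 this
    obtain ⟨z, hz⟩ := Ideal.Quotient.mk_surjective (Ideal.Quotient.mk m y)⁻¹
    refine ⟨z * y, ?_, fun _ => ?_⟩
    · rw [map_mul, hz, inv_mul_cancel₀ (fun h => hy2 (Ideal.Quotient.eq_zero_iff_mem.1 h))]
    · rw [smul_mul']; exact m.mul_mem_left _ hy1
  choose y hy1 hy2 using hy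
  set θ := θ0 * ∏ g, y g with hθ
  have h1 : Ideal.Quotient.mk m θ = Ideal.Quotient.mk m θ0 := by
    rw [hθ, map_mul, map_prod]; simp [hy1]
  have h2 : ∀ g, g ∉ H1 → Ideal.Quotient.mk m (g • θ) = 0 := by
    intro g hg
    rw [Ideal.Quotient.eq_zero_iff_mem, hθ, ← Finset.mul_prod_erase _ _ (mem_univ g), smul_mul',
      smul_mul']
    exact m.mul_mem_left _ (m.mul_mem_right _ (hy2 g hg))
  refine ⟨θ, fun hdet => ?_⟩
  rw [← Ideal.Quotient.eq_zero_iff_mem, RingHom.map_det, ← Matrix.exists_vecMul_eq_zero_iff] at hdet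
  obtain ⟨c, hc0, hc⟩ := hdet
  apply hc0
  funext w0
  have := hθ1 (fun t => c (t * w0)) fun s => by
    have e := congrFun hc (w0⁻¹ * s)
    simp only [Matrix.vecMul, dotProduct, RingHom.mapMatrix_apply, Matrix.map_apply,
      Matrix.of_apply, Pi.zero_apply] at e
    rw [← e]
    refine Finset.sum_of_injOn (fun t : H1 => (t : H) * w0)
      (fun a _ b _ h => Subtype.ext (mul_right_cancel h)) (fun _ _ => mem_univ _) ?_ ?_
    · intro w _ hw
      rw [h2, mul_zero]
      intro h
      refine hw ⟨⟨w * w0⁻¹, ?_⟩, mem_univ _, by simp⟩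
      have := H1.mul_mem h (H1.inv_mem s.2)
      simpa [mul_assoc] using this
    · intro t _
      rw [← h1, hs, hs, ← mul_smul]
      simp [mul_assoc]
  simpa using congrFun this 1

variable {k H V : Type*} [Field k] [Group H] [Fintype H] [AddCommGroup V] [Module k V]

/-- `V` is spanned by the translates of a subspace of dimension at most `dim V / #H`. -/
def Fr (σ : Representation k H V) : Prop :=
  ∃ W : Submodule k V, (⨆ h, W.map (σ h)) = ⊤ ∧
    Fintype.card H * Module.finrank k W ≤ Module.finrank k V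

theorem fr_of_inj [FiniteDimensional k V] (σ : Representation k H V) (θ : Module.End k V)
    (hθ : ∀ v : H → V, (∀ w, ∑ u, σ (w * u) (θ (σ (w * u)⁻¹ (v u))) = 0) → v = 0) : Fr σ := by
  classical
  let Ψ : (H → V) →ₗ[k] (H → V) := LinearMap.pi fun w =>
    ∑ u, (σ (w * u) * θ * σ (w * u)⁻¹) ∘ₗ LinearMap.proj u
  have hΨ : ∀ v w, Ψ v w = ∑ u, σ (w * u) (θ (σ (w * u)⁻¹ (v u))) := fun v w => by
    simp [Ψ, LinearMap.sum_apply]
  have hinj : Function.Injective Ψ := by
    rw [injective_iff_map_eq_zero]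
    exact fun v hv => hθ v fun w => by rw [← hΨ, hv]; rfl
  have hsurj := LinearMap.injective_iff_surjective.1 hinj
  have hmul : ∀ a b x, σ a (σ b x) = σ (a * b) x := fun a b x => by rw [map_mul]; rfl
  refine ⟨σ.invariants.map θ, ?_, ?_⟩
  · rw [eq_top_iff]
    intro x _
    obtain ⟨v, hv⟩ := hsurj fun w => σ w x
    have hfix : ∀ t, (fun u => σ t (v u)) = v := by
      intro t
      apply hinj
      funext w
      rw [hv, hΨ]
      have := congrArg (σ t) (congrFun hv (t⁻¹ * w))
      rw [hΨ, map_sum] at this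
      beta_reduce at this ⊢
      rw [hmul, mul_inv_cancel_left] at this
      rw [← this]
      refine sum_congr rfl fun u _ => ?_
      rw [hmul, hmul, show t * (t⁻¹ * w * u) = w * u by group,
        show (w * u)⁻¹ * t = (t⁻¹ * w * u)⁻¹ by group]
    have h1 := congrFun hv 1
    rw [hΨ, map_one, Module.End.one_apply] at h1
    rw [← h1]
    refine Submodule.sum_mem _ fun u _ => Submodule.mem_iSup_of_mem (1 * u) ⟨_, ⟨v u, fun t => congrFun (hfix t) u, rfl⟩, ?_⟩
    rw [congrFun (hfix (1 * u)⁻¹) u]
  · let Φ : (H → σ.invariants) →ₗ[k] V := ∑ u, (σ u * θ) ∘ₗ σ.invariants.subtype ∘ₗ LinearMap.proj u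
    have hΦ : Function.Injective Φ := by
      rw [injective_iff_map_eq_zero]
      intro c hc
      have := hθ (fun u => c u) fun w => by
        have e := congrArg (σ w) hc
        simp only [Φ, LinearMap.sum_apply, map_sum, map_zero] at e
        rw [← e]
        refine sum_congr rfl fun u _ => ?_
        rw [(c u).2, ← hmul]; rfl
      funext u
      exact Subtype.ext (congrFun this u)
    have h1 := LinearMap.finrank_le_finrank_of_injective hΦ
    rw [Module.finrank_pi_fintype, sum_const, card_univ, smul_eq_mul] at h1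
    exact (Nat.mul_le_mul_left _ (Submodule.finrank_map_le θ _)).trans h1

theorem fr_ext [FiniteDimensional k V] (σ : Representation k H V) (U : Submodule k V)
    (hU : ∀ g, U ≤ U.comap (σ g)) (h1 : Fr (σ.subrepresentation U hU))
    (h2 : Fr (σ.quotient U hU)) : Fr σ := by
  obtain ⟨W1, a1, b1⟩ := h1
  obtain ⟨W2, a2, b2⟩ := h2
  obtain ⟨s, hs⟩ := U.mkQ.exists_rightInverse_of_surjective U.range_mkQ
  set W := W1.map U.subtype ⊔ W2.map s with hW
  refine ⟨W, ?_, ?_⟩
  · have hUle : U ≤ ⨆ h, W.map (σ h) := by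
      have : (⊤ : Submodule k U) ≤ (⨆ h, W.map (σ h)).comap U.subtype := by
        rw [← a1]
        refine iSup_le fun h => ?_
        rintro _ ⟨x, hx, rfl⟩
        exact Submodule.mem_iSup_of_mem h ⟨x, Submodule.mem_sup_left ⟨x, hx, rfl⟩, rfl⟩
      exact fun x hx => this (x := ⟨x, hx⟩) trivial
    have : (⊤ : Submodule k (V ⧸ U)) ≤ (⨆ h, W.map (σ h)).map U.mkQ := by
      rw [← a2]
      refine iSup_le fun h => ?_
      rintro _ ⟨x, hx, rfl⟩
      refine ⟨σ h (s x), Submodule.mem_iSup_of_mem h ⟨s x, Submodule.mem_sup_right ⟨x, hx, rfl⟩, rfl⟩, ?_⟩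
      conv_rhs => rw [← show U.mkQ (s x) = x from LinearMap.congr_fun hs x]
      rfl
    rw [eq_top_iff]
    intro x _
    obtain ⟨y, hy, e⟩ := this (x := U.mkQ x) trivial
    have := Submodule.add_mem _ (hUle ((Submodule.Quotient.eq U).1 e.symm)) hy
    simpa using this
  · have e1 := Submodule.finrank_add_le_finrank_add_finrank (W1.map U.subtype) (W2.map s)
    have e2 := Submodule.finrank_map_le U.subtype W1
    have e3 := Submodule.finrank_map_le s W2
    have e4 := U.finrank_quotient_add_finrank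
    rw [← hW] at e1
    nlinarith

theorem Fr.isInternal [FiniteDimensional k V] [DecidableEq H] {σ : Representation k H V}
    (h : Fr σ) : ∃ W : Submodule k V, DirectSum.IsInternal fun h : H => W.map (σ h) := by
  obtain ⟨W, a, b⟩ := h
  refine ⟨W, ?_⟩
  have hs : Function.Surjective (DirectSum.coeLinearMap fun h : H => W.map (σ h)) := by
    rw [← LinearMap.range_eq_top, DirectSum.range_coeLinearMap, a]
  have h1 := LinearMap.finrank_le_finrank_of_surjective hs
  have h2 : Module.finrank k (DirectSum H fun h : H => W.map (σ h)) ≤ Module.finrank k V := by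
    rw [Module.finrank_directSum]
    refine le_trans (sum_le_sum fun h _ => Submodule.finrank_map_le (σ h) W) ?_
    simpa using b
  exact ⟨(LinearMap.injective_iff_surjective_of_finrank_eq_finrank (le_antisymm h2 h1)).2 hs, hs⟩

end Cfsg.Agent.Pres.FrA
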