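import Mathlib
import Cfsg.Agent.Pres.FrA
import Cfsg.Agent.Core.Coprime2

/-! Modules for a Frobenius group without fixed points of the kernel are free over the
complement. -/

namespace Cfsg.Agent.Pres.FrB

open Finset FrA
open scoped commutatorElement

universe v

variable {k A : Type*} [Field k] [Group A] [Finite A] {F H : Subgroup A} [F.Normal] [Fintype H]

theorem nak {R V : Type*} [CommRing R] [AddCommGroup V] [Module k V] [Module R V] [Algebra k R]
    [IsScalarTower k R V] [FiniteDimensional k V] (m : Ideal R) (hm : m ≠ ⊤)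
    (hf : ∀ r : R, (∀ v : V, r • v = 0) → r = 0) (S : Set V) (hS : Submodule.span k S = ⊤)
    (h : ∀ x ∈ S, ∃ r ∈ m, ∃ v : V, x = r • v) : False := by
  haveI : Module.Finite R V := Module.Finite.of_restrictScalars_finite k R V
  have h1 : Submodule.span k S ≤ (m • (⊤ : Submodule R V)).restrictScalars k := by
    refine Submodule.span_le.2 fun x hx => ?_
    obtain ⟨r, hr, v, rfl⟩ := h x hx
    exact Submodule.smul_mem_smul (I := m) (N := (⊤ : Submodule R V)) hr Submodule.mem_top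
  have h2 : (⊤ : Submodule R V) ≤ m • (⊤ : Submodule R V) := by
    intro v _
    have : v ∈ Submodule.span k S := by rw [hS]; trivial
    exact h1 this
  obtain ⟨r, hr1, hr2⟩ := Submodule.exists_sub_one_mem_and_smul_eq_zero_of_fg_of_le_smul m
    (⊤ : Submodule R V) Module.Finite.fg_top h2
  rw [hf r fun v => hr2 v Submodule.mem_top, zero_sub, neg_mem_iff] at hr1
  exact hm ((Ideal.eq_top_iff_one m).2 hr1)

theorem inj_of_det {R V ι : Type*} [CommRing R] [AddCommGroup V] [Module R V] [Fintype ι]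
    [DecidableEq ι] (M : Matrix ι ι R) (v : ι → V) (hv : ∀ w, ∑ u, M w u • v u = 0) (u0 : ι) :
    M.det • v u0 = 0 := by
  calc M.det • v u0 = ∑ u, (M.adjugate * M) u0 u • v u := by
        rw [Matrix.adjugate_mul]
        simp [Matrix.one_apply, ite_smul]
    _ = ∑ w, M.adjugate u0 w • ∑ u, M w u • v u := by
        simp only [Matrix.mul_apply, sum_smul, smul_sum, mul_smul]
        exact sum_comm
    _ = 0 := by simp [hv]

theorem smul_det {R H : Type*} [CommRing R] [Group H] [Fintype H] [DecidableEq H]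
    [MulSemiringAction H R] (θ : R) (h : H) :
    h • (Matrix.of fun w u : H => (w * u) • θ).det = (Matrix.of fun w u : H => (w * u) • θ).det ∨
    h • (Matrix.of fun w u : H => (w * u) • θ).det = -(Matrix.of fun w u : H => (w * u) • θ).det := by
  set M : Matrix H H R := Matrix.of fun w u : H => (w * u) • θ with hM
  have e1 : h • M.det = (M.submatrix (Equiv.mulLeft h) id).det := by
    have := RingHom.map_det (MulSemiringAction.toRingHom H R h) M
    rw [MulSemiringAction.toRingHom_apply] at this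
    rw [this]
    congr 1
    ext w u
    simp [hM, mul_smul]
  rw [e1, Matrix.det_permute]
  rcases Int.units_eq_one_or (Equiv.Perm.sign (Equiv.mulLeft h)) with e | e <;> rw [e] <;> simp

theorem fr_irr {V : Type v} [AddCommGroup V] [Module k V] [FiniteDimensional k V]
    (hnil : Group.IsNilpotent F) (hFH : ∀ a, ∃ f ∈ F, ∃ h ∈ H, a = f * h)
    (hfpf : ∀ h ∈ H, h ≠ 1 → ∀ f ∈ F, h * f * h⁻¹ = f → f = 1)
    (ρ : Representation k A V)
    (hirr : ∀ U : Submodule k V, (∀ g, U ≤ U.comap (ρ g)) → U = ⊥ ∨ U = ⊤)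
    (hnt : ¬ F ≤ MonoidHom.ker ρ) : Fr (ρ.comp H.subtype) := by
  classical
  obtain ⟨Z, ⟨hZn, hZF, hZk⟩, hmin⟩ := exists_minimal_of_wellFoundedLT
    (fun Z : Subgroup A => Z.Normal ∧ Z ≤ F ∧ ¬ Z ≤ MonoidHom.ker ρ) ⟨F, inferInstance, le_rfl, hnt⟩
  have hlt : ⁅Z, F⁆ < Z := Core.commutator_lt_of_nilpotent hnil hZF le_rfl
    Subgroup.le_normalizer_of_normal (fun h => hZk (h ▸ bot_le))
  have hcm : ⁅Z, F⁆ ≤ MonoidHom.ker ρ := by
    by_contra h
    exact hlt.not_ge (hmin ⟨inferInstance, hlt.le.trans hZF, h⟩ hlt.le)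
  have hinv : ∀ a : A, ρ a⁻¹ * ρ a = 1 := fun a => by rw [← map_mul, inv_mul_cancel, map_one]
  have hinv' : ∀ a : A, ρ a * ρ a⁻¹ = 1 := fun a => by rw [← map_mul, mul_inv_cancel, map_one]
  have hZc : ∀ z ∈ Z, ∀ f ∈ F, ρ f * ρ z = ρ z * ρ f := by
    intro z hz f hf
    have := hcm (Subgroup.commutator_mem_commutator hz hf)
    rw [MonoidHom.mem_ker] at this
    rw [← map_mul, ← map_mul, show z * f = ⁅z, f⁆ * (f * z) by rw [commutatorElement_def]; group,
      map_mul ρ ⁅z, f⁆, this, one_mul]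
  let C : Subalgebra k (Module.End k V) := Subalgebra.centralizer k (ρ '' F)
  have hC : ∀ x, x ∈ C ↔ ∀ f ∈ F, ρ f * x = x * ρ f := fun x => by
    rw [Subalgebra.mem_centralizer_iff]
    exact ⟨fun h f hf => h _ ⟨f, hf, rfl⟩, by rintro h _ ⟨f, hf, rfl⟩; exact h f hf⟩
  have hCc : ∀ a : A, ∀ x ∈ C, ρ a * x * ρ a⁻¹ ∈ C := by
    intro a x hx
    rw [hC] at hx ⊢
    intro f hf
    have h1 := hx (a⁻¹ * f * a⁻¹⁻¹) (‹F.Normal›.conj_mem f hf a⁻¹)
    rw [inv_inv, map_mul, map_mul] at h1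
    calc ρ f * (ρ a * x * ρ a⁻¹) = (ρ a * ρ a⁻¹) * ρ f * (ρ a * x * ρ a⁻¹) := by rw [hinv', one_mul]
      _ = ρ a * (ρ a⁻¹ * ρ f * ρ a * x) * ρ a⁻¹ := by simp only [mul_assoc]
      _ = ρ a * x * ρ a⁻¹ * ρ f * (ρ a * ρ a⁻¹) := by rw [h1]; simp only [mul_assoc]
      _ = _ := by rw [hinv', mul_one]
  let R : Subalgebra k (Module.End k V) := C ⊓ Subalgebra.centralizer k (C : Set (Module.End k V))
  have hR : ∀ x, x ∈ R ↔ x ∈ C ∧ ∀ y ∈ C, y * x = x * y := fun x => by
    rw [Algebra.mem_inf, Subalgebra.mem_centralizer_iff]; rfl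
  have hRc : ∀ a : A, ∀ x ∈ R, ρ a * x * ρ a⁻¹ ∈ R := by
    intro a x hx
    rw [hR] at hx ⊢
    refine ⟨hCc a x hx.1, fun y hy => ?_⟩
    have h1 := hx.2 _ (hCc a⁻¹ y hy)
    rw [inv_inv] at h1
    calc y * (ρ a * x * ρ a⁻¹) = (ρ a * ρ a⁻¹) * y * (ρ a * x * ρ a⁻¹) := by rw [hinv', one_mul]
      _ = ρ a * (ρ a⁻¹ * y * ρ a * x) * ρ a⁻¹ := by simp only [mul_assoc]
      _ = ρ a * x * ρ a⁻¹ * y * (ρ a * ρ a⁻¹) := by rw [h1]; simp only [mul_assoc]
      _ = _ := by rw [hinv', mul_one]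
  have hZR : ∀ z ∈ Z, ρ z ∈ R := fun z hz => (hR _).2 ⟨(hC _).2 (hZc z hz), fun y hy =>
    ((hC y).1 hy z (hZF hz)).symm⟩
  letI : CommRing R := { (inferInstance : Ring R) with
    mul_comm := fun a b => Subtype.ext (((hR _).1 b.2).2 a ((hR _).1 a.2).1) }
  letI : MulSemiringAction H R :=
    { smul := fun h x => ⟨ρ h * x * ρ (h : A)⁻¹, hRc _ _ x.2⟩
      one_smul := fun x => Subtype.ext (by
        show ρ (1 : A) * x * ρ (1 : A)⁻¹ = x
        simp)
      mul_smul := fun a b x => Subtype.ext (by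
        show ρ ((a : A) * b) * x * ρ ((a : A) * b)⁻¹ = ρ a * (ρ b * x * ρ (b : A)⁻¹) * ρ (a : A)⁻¹
        rw [mul_inv_rev, map_mul, map_mul]; simp only [mul_assoc])
      smul_zero := fun a => Subtype.ext (by
        show ρ a * 0 * ρ (a : A)⁻¹ = 0
        simp)
      smul_add := fun a x y => Subtype.ext (by
        show ρ a * ((x : Module.End k V) + y) * ρ (a : A)⁻¹ =
          ρ a * x * ρ (a : A)⁻¹ + ρ a * y * ρ (a : A)⁻¹
        rw [mul_add, add_mul])
      smul_one := fun a => Subtype.ext (by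
        show ρ a * 1 * ρ (a : A)⁻¹ = 1
        rw [mul_one, hinv'])
      smul_mul := fun a x y => Subtype.ext (by
        show ρ a * ((x : Module.End k V) * y) * ρ (a : A)⁻¹ =
          ρ a * x * ρ (a : A)⁻¹ * (ρ a * y * ρ (a : A)⁻¹)
        calc _ = ρ a * x * (ρ (a : A)⁻¹ * ρ a) * y * ρ (a : A)⁻¹ := by
              rw [hinv]; simp only [mul_assoc, one_mul]
          _ = _ := by simp only [mul_assoc]) }
  have hsm : ∀ (h : H) (x : R), ((h • x : R) : Module.End k V) = ρ h * x * ρ (h : A)⁻¹ :=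
    fun _ _ => rfl
  obtain ⟨z0, hz0, hz0k⟩ := SetLike.not_le_iff_exists.1 hZk
  rw [MonoidHom.mem_ker] at hz0k
  haveI : Nontrivial R := ⟨⟨⟨ρ z0, hZR z0 hz0⟩, 1, fun h => hz0k (congrArg Subtype.val h)⟩⟩
  obtain ⟨m, hm⟩ := Ideal.exists_maximal R
  have hg : ∀ g : H, g ≠ 1 → ∃ x : R, g • x - x ∉ m := by
    intro g hg1
    by_contra hcon
    push Not at hcon
    have hsurj : Function.Surjective fun y : Z =>
        (⟨g * y * (g : A)⁻¹ * (y : A)⁻¹, Z.mul_mem (hZn.conj_mem _ y.2 _) (Z.inv_mem y.2)⟩ : Z) := by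
      rw [← Finite.injective_iff_surjective]
      intro y y' h
      have h : (g : A) * y * (g : A)⁻¹ * (y : A)⁻¹ = g * y' * (g : A)⁻¹ * (y' : A)⁻¹ :=
        congrArg Subtype.val h
      have := hfpf g g.2 (fun e => hg1 (Subtype.ext e)) ((y' : A)⁻¹ * y)
        (hZF (Z.mul_mem (Z.inv_mem y'.2) y.2)) (by
          calc (g : A) * ((y' : A)⁻¹ * y) * (g : A)⁻¹
              = ((g : A) * (y' : A) * (g : A)⁻¹)⁻¹ * ((g : A) * (y : A) * (g : A)⁻¹ * (y : A)⁻¹) * y := by group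
            _ = _ := by rw [h]; group)
      exact Subtype.ext (inv_mul_eq_one.1 this).symm
    have hzm : ∀ z (hz : z ∈ Z), (⟨ρ z, hZR z hz⟩ : R) - 1 ∈ m := by
      intro z hz
      obtain ⟨y, hy⟩ := hsurj ⟨z, hz⟩
      have hy : (g : A) * y * (g : A)⁻¹ * (y : A)⁻¹ = z := congrArg Subtype.val hy
      have := m.mul_mem_right ⟨ρ (y : A)⁻¹, hZR _ (Z.inv_mem y.2)⟩ (hcon ⟨ρ y, hZR _ y.2⟩)
      convert this using 1
      apply Subtype.ext
      show ρ z - 1 = (ρ g * ρ y * ρ (g : A)⁻¹ - ρ y) * ρ (y : A)⁻¹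
      rw [sub_mul, hinv', ← hy, map_mul, map_mul, map_mul]
    let U : Submodule k V := Submodule.span k {x | ∃ z ∈ Z, ∃ v, x = ρ z v - v}
    have hU : ∀ a, U ≤ U.comap (ρ a) := fun a => Submodule.span_le.2 (by
      rintro _ ⟨z, hz, v, rfl⟩
      refine Submodule.subset_span ⟨a * z * a⁻¹, hZn.conj_mem z hz a, ρ a v, ?_⟩
      rw [map_sub, map_mul, map_mul]
      simp)
    rcases hirr U hU with h | h
    · apply hz0k
      ext v
      have : ρ z0 v - v ∈ U := Submodule.subset_span ⟨z0, hz0, v, rfl⟩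
      rw [h, Submodule.mem_bot, sub_eq_zero] at this
      exact this
    · refine nak (k := k) (V := V) m hm.ne_top (fun r hr => Subtype.ext (LinearMap.ext hr)) _ h ?_
      rintro _ ⟨z, hz, v, rfl⟩
      exact ⟨_, hzm z hz, v, rfl⟩
  obtain ⟨θ, hθ⟩ := exists_det m hg
  set M : Matrix H H R := Matrix.of fun w u : H => (w * u) • θ with hM
  have hδ : ∀ h : H, h • M.det = M.det ∨ h • M.det = -M.det := smul_det θ
  have hker : LinearMap.ker (M.det : Module.End k V) = ⊥ := by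
    refine (hirr _ fun a v hv => ?_).resolve_right fun h => hθ ?_
    · obtain ⟨f, hf, h, hh, rfl⟩ := hFH a
      rw [Submodule.mem_comap, LinearMap.mem_ker] at *
      have e1 : (M.det : Module.End k V) * ρ (f * h) =
          ρ f * ρ h * (((⟨h, hh⟩ : H)⁻¹ • M.det : R) : Module.End k V) := by
        rw [hsm, map_mul, ← mul_assoc, ← (hC _).1 ((hR _).1 M.det.2).1 f hf]
        show _ = ρ f * ρ h * (ρ h⁻¹ * _ * ρ h⁻¹⁻¹)
        rw [inv_inv]
        calc _ = ρ f * (ρ h * ρ h⁻¹) * M.det * ρ h := by rw [hinv', mul_one]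
          _ = _ := by simp only [mul_assoc]
      have e2 := LinearMap.congr_fun e1 v
      rw [Module.End.mul_apply] at e2
      rw [e2, Module.End.mul_apply]
      rcases hδ (⟨h, hh⟩ : H)⁻¹ with e | e <;> rw [e]
      · rw [hv, map_zero]
      · show (ρ f * ρ h) (-((M.det : Module.End k V) v)) = 0
        rw [hv, neg_zero, map_zero]
    · have : M.det = 0 := Subtype.ext (LinearMap.ker_eq_top.1 h)
      rw [this]; exact m.zero_mem
  refine fr_of_inj _ (θ : Module.End k V) fun v hv => ?_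
  funext u0
  exact (LinearMap.ker_eq_bot'.1 hker) _ (inj_of_det M v hv u0)

theorem fr_all (hnil : Group.IsNilpotent F) (hFH : ∀ a, ∃ f ∈ F, ∃ h ∈ H, a = f * h)
    (hfpf : ∀ h ∈ H, h ≠ 1 → ∀ f ∈ F, h * f * h⁻¹ = f → f = 1) {K : Subgroup A} (hKF : K ≤ F)
    (hK : (Nat.card K : k) ≠ 0) (n : ℕ) :
    ∀ (V : Type v) [AddCommGroup V] [Module k V] [FiniteDimensional k V]
      (ρ : Representation k A V), Module.finrank k V = n →
      (∀ v : V, (∀ f ∈ K, ρ f v = v) → v = 0) → Fr (ρ.comp H.subtype) := by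
  induction n using Nat.strong_induction_on with
  | _ n ih =>
  intro V _ _ _ ρ hn hC
  by_cases hirr : ∀ U : Submodule k V, (∀ g, U ≤ U.comap (ρ g)) → U = ⊥ ∨ U = ⊤
  · by_cases hnt : F ≤ MonoidHom.ker ρ
    · have : ∀ v : V, v = 0 := fun v => hC v fun f hf => by
        rw [MonoidHom.mem_ker.1 (hnt (hKF hf))]; rfl
      haveI : Subsingleton V := ⟨fun a b => by rw [this a, this b]⟩
      exact ⟨⊥, Subsingleton.elim _ _, by simp⟩
    · exact fr_irr hnil hFH hfpf ρ hirr hnt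
  push Not at hirr
  obtain ⟨U, hU, h0, h1⟩ := hirr
  have e4 := U.finrank_quotient_add_finrank
  have e5 := Submodule.finrank_lt h1
  have e6 : Module.finrank k U ≠ 0 := fun h => h0 (Submodule.finrank_eq_zero.1 h)
  refine fr_ext _ U (fun g => hU g) (ih _ (hn ▸ e5) U (ρ.subrepresentation U hU) rfl ?_)
    (ih _ (by omega) (V ⧸ U) (ρ.quotient U hU) rfl ?_)
  · exact fun v hv => Subtype.ext (hC v fun f hf => congrArg Subtype.val (hv f hf))
  · intro x hx
    obtain ⟨x, rfl⟩ := U.mkQ_surjective x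
    have := Fintype.ofFinite K
    have h2 : ∑ f : K, ρ f x = 0 := hC _ fun g hg => by
      rw [map_sum]
      refine Fintype.sum_equiv (Equiv.mulLeft (⟨g, hg⟩ : K)) _ _ fun f => ?_
      simp
    have h3 := congrArg U.mkQ h2
    rw [map_sum, map_zero] at h3
    have h4 : ∀ f : K, U.mkQ (ρ f x) = U.mkQ x := fun f => hx f f.2
    simp only [h4, sum_const, card_univ] at h3
    rw [← Nat.cast_smul_eq_nsmul k, ← Nat.card_eq_fintype_card] at h3
    exact (smul_eq_zero.1 h3).resolve_left hK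

end Cfsg.Agent.Pres.FrB
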