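import Mathlib
import Cfsg.Agent.Pres.TG1

/-! Transvections in subgroups of the special linear group. -/

set_option autoImplicit false
set_option linter.unusedSectionVars false

namespace Cfsg.Agent.Pres.RU

open Matrix

variable {F : Type*} [Field F] {ι : Type*} [Fintype ι] [DecidableEq ι]

/-- `A` is the matrix of an element of `K` -/
def MK (K : Subgroup (SpecialLinearGroup ι F)) (A : Matrix ι ι F) : Prop := ∃ k ∈ K, k.1 = A

/-- the transvection with centre `a` and axis `φ` -/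
def T (a φ : ι → F) : Matrix ι ι F := 1 + vecMulVec a φ

variable {K : Subgroup (SpecialLinearGroup ι F)}

theorem MK.of {k : SpecialLinearGroup ι F} (h : k ∈ K) : MK K k.1 := ⟨k, h, rfl⟩

theorem MK.one : MK K 1 := ⟨1, K.one_mem, rfl⟩

theorem MK.mul {A B : Matrix ι ι F} (h : MK K A) (h' : MK K B) : MK K (A * B) := by
  obtain ⟨k, hk, rfl⟩ := h
  obtain ⟨k', hk', rfl⟩ := h'
  exact ⟨k * k', K.mul_mem hk hk', rfl⟩

theorem MK.pow {A : Matrix ι ι F} (h : MK K A) (n : ℕ) : MK K (A ^ n) := by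
  obtain ⟨k, hk, rfl⟩ := h
  exact ⟨k ^ n, K.pow_mem hk n, rfl⟩

theorem MK.inv {A B : Matrix ι ι F} (h : MK K A) (e : A * B = 1) : MK K B := by
  obtain ⟨k, hk, rfl⟩ := h
  refine ⟨k⁻¹, K.inv_mem hk, ?_⟩
  calc (k⁻¹).1 = (k⁻¹).1 * (k.1 * B) := by rw [e, mul_one]
    _ = (k⁻¹ * k).1 * B := by rw [← mul_assoc]; rfl
    _ = B := by rw [inv_mul_cancel]; exact one_mul B

theorem MK.mem {k : SpecialLinearGroup ι F} (h : MK K k.1) : k ∈ K := by
  obtain ⟨k', hk, e⟩ := h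
  rwa [← Subtype.ext e]

theorem MK.cast {A B : Matrix ι ι F} (h : MK K A) (e : A = B) : MK K B := e ▸ h

theorem T_mul (a φ b χ : ι → F) :
    T a φ * T b χ = 1 + vecMulVec a φ + vecMulVec b χ + (φ ⬝ᵥ b) • vecMulVec a χ := by
  simp only [T, mul_add, add_mul, one_mul, mul_one, vecMulVec_mul_vecMulVec, vecMulVec_smul]
  abel

theorem T_mulVec (a φ v : ι → F) : T a φ *ᵥ v = v + (φ ⬝ᵥ v) • a := by
  rw [T, add_mulVec, one_mulVec, vecMulVec_mulVec, op_smul_eq_smul]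

theorem vecMul_T (a φ v : ι → F) : v ᵥ* T a φ = v + (v ⬝ᵥ a) • φ := by
  rw [T, vecMul_add, vecMul_one, vecMul_vecMulVec]

theorem T_smul (c : F) (a φ : ι → F) : T (c • a) φ = T a (c • φ) := by
  rw [T, T, smul_vecMulVec, vecMulVec_smul]

theorem T_add_right {a φ : ι → F} (χ : ι → F) (h : φ ⬝ᵥ a = 0) : T a φ * T a χ = T a (φ + χ) := by
  rw [T_mul, h, zero_smul, add_zero, T, vecMulVec_add, add_assoc]

theorem T_add_left {b φ : ι → F} (a : ι → F) (h : φ ⬝ᵥ b = 0) : T a φ * T b φ = T (a + b) φ := by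
  rw [T_mul, h, zero_smul, add_zero, T, add_vecMulVec, add_assoc]

theorem T_zero (a : ι → F) : T a 0 = 1 := by simp [T]

theorem zero_T (a : ι → F) : T 0 a = 1 := by simp [T]

theorem T_neg {a φ : ι → F} (h : φ ⬝ᵥ a = 0) : T a φ * T a (-φ) = 1 := by
  rw [T_add_right _ h, add_neg_cancel, T_zero]

theorem T_det {a φ : ι → F} (h : φ ⬝ᵥ a = 0) : (T a φ).det = 1 := by
  rw [T, vecMulVec_eq Unit, det_one_add_replicateCol_mul_replicateRow, h, add_zero]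

/-- the transvection as a group element -/
def Tv (a φ : ι → F) (h : φ ⬝ᵥ a = 0) : SpecialLinearGroup ι F := ⟨T a φ, T_det h⟩

theorem T_conj {A B : Matrix ι ι F} (e : A * B = 1) (a φ : ι → F) : A * T a φ * B = T (A *ᵥ a) (φ ᵥ* B) := by
  rw [T, T, mul_add, add_mul, mul_one, e, mul_vecMulVec, vecMulVec_mul]

theorem MK.addr {a φ χ : ι → F} (h0 : φ ⬝ᵥ a = 0) (h : MK K (T a φ)) (h' : MK K (T a χ)) : MK K (T a (φ + χ)) :=
  (h.mul h').cast (T_add_right _ h0)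

theorem MK.addl {a b φ : ι → F} (h0 : φ ⬝ᵥ b = 0) (h : MK K (T a φ)) (h' : MK K (T b φ)) : MK K (T (a + b) φ) :=
  (h.mul h').cast (T_add_left _ h0)

theorem MK.negr {a φ : ι → F} (h0 : φ ⬝ᵥ a = 0) (h : MK K (T a φ)) : MK K (T a (-φ)) := h.inv (T_neg h0)

theorem MK.negl {a φ : ι → F} (h0 : φ ⬝ᵥ a = 0) (h : MK K (T a φ)) : MK K (T (-a) φ) :=
  (h.negr h0).cast (by rw [← neg_one_smul F φ, ← T_smul, neg_one_smul])

theorem MK.conj {A B : Matrix ι ι F} (hA : MK K A) (e : A * B = 1) {a φ : ι → F} (h : MK K (T a φ)) :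
    MK K (T (A *ᵥ a) (φ ᵥ* B)) := ((hA.mul h).mul (hA.inv e)).cast (T_conj e a φ)

theorem MK.conj' {A : Matrix ι ι F} (hA : MK K A) {a φ : ι → F} (h : MK K (T a (φ ᵥ* A))) :
    MK K (T (A *ᵥ a) φ) := by
  obtain ⟨k, hk, rfl⟩ := hA
  have e : k.1 * (k⁻¹).1 = 1 := congrArg Subtype.val (mul_inv_cancel k)
  simpa only [vecMul_vecMul, e, vecMul_one] using (MK.of hk).conj e h

theorem MK.shift {A : Matrix ι ι F} (hA : MK K A) {a φ : ι → F} (h0 : φ ⬝ᵥ a = 0) (h1 : φ ᵥ* A = φ)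
    (h : MK K (T a φ)) : MK K (T (A *ᵥ a - a) φ) := by
  rw [sub_eq_add_neg]
  exact MK.addl (by rw [dotProduct_neg, h0, neg_zero]) (hA.conj' (h1.symm ▸ h)) (h.negl h0)

theorem MK.comm {a φ b χ : ι → F} (h2 : χ ⬝ᵥ b = 0) (h3 : χ ⬝ᵥ a = 0)
    (h : MK K (T a φ)) (h' : MK K (T b χ)) : MK K (T a ((φ ⬝ᵥ b) • χ)) := by
  have := h.shift h2 (by rw [vecMul_T, h3, zero_smul, add_zero]) h'
  rwa [T_mulVec, add_sub_cancel_left, T_smul] at this

/-- all transvections with centre `a` -/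
def Full (K : Subgroup (SpecialLinearGroup ι F)) (a : ι → F) : Prop := ∀ φ, φ ⬝ᵥ a = 0 → MK K (T a φ)

theorem Full.map {A : Matrix ι ι F} (hA : MK K A) {a : ι → F} (h : Full K a) : Full K (A *ᵥ a) := fun φ hφ =>
  hA.conj' (h _ (by rwa [← dotProduct_mulVec]))

theorem T_single (i j : ι) (c : F) : T (Pi.single i 1) (Pi.single j c) = 1 + single i j c := by
  rw [T]
  congr 1
  ext k l
  simp only [vecMulVec_apply, single_apply, Pi.single_apply]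
  split_ifs <;> simp_all [eq_comm]

theorem top_of_full (h : ∀ i, Full K (Pi.single i 1)) : K = ⊤ := slSt_top fun i j t hij => MK.mem (by
  rw [tr_coe hij, ← T_single]
  exact h i _ (by simp [hij]))

/-- the three-transvection calculus -/
theorem three {a1 a2 a3 ψ1 ψ2 ψ3 : ι → F} {ε : F} (h11 : ψ1 ⬝ᵥ a1 = 0) (h12 : ψ1 ⬝ᵥ a2 = 0) (h13 : ψ1 ⬝ᵥ a3 = 0)
    (h22 : ψ2 ⬝ᵥ a2 = 0) (h23 : ψ2 ⬝ᵥ a3 = 0) (h33 : ψ3 ⬝ᵥ a3 = 0) (h21 : ψ2 ⬝ᵥ a1 = ε) (h32 : ψ3 ⬝ᵥ a2 = ε)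
    (w21 : MK K (T a2 ψ2 * T a1 (-ψ1))) (w31 : MK K (T a3 ψ3 * T a1 (-ψ1))) : MK K (T a3 ((ε * ε) • ψ1)) := by
  set γ := ψ3 ⬝ᵥ a1 with h31
  let P : F → F → F → F → F → F → Matrix ι ι F := fun x1 x2 x3 y21 y32 z =>
    1 + x1 • vecMulVec a1 ψ1 + x2 • vecMulVec a2 ψ2 + x3 • vecMulVec a3 ψ3 + y21 • vecMulVec a2 ψ1 +
      y32 • vecMulVec a3 ψ2 + z • vecMulVec a3 ψ1
  have hm : ∀ x1 x2 x3 y21 y32 z x1' x2' x3' y21' y32' z', P x1 x2 x3 y21 y32 z * P x1' x2' x3' y21' y32' z' =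
      P (x1 + x1') (x2 + x2') (x3 + x3') (y21 + y21' + x2 * ε * x1') (y32 + y32' + x3 * ε * x2')
        (z + z' + x3 * γ * x1' + x3 * ε * y21' + y32 * ε * x1') := by
    intros
    simp only [P, mul_add, add_mul, one_mul, mul_one, smul_mul_assoc, mul_smul_comm, vecMulVec_mul_vecMulVec,
      vecMulVec_smul, h11, h12, h13, h22, h23, h33, h21, h32, ← h31, zero_smul, smul_zero, add_zero, vecMulVec_zero]
    module
  have h0 : P 0 0 0 0 0 0 = 1 := by simp [P]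
  have e1 : MK K (P (-1) 1 0 (-ε) 0 0) := w21.cast (by
    simp only [P, T_mul, vecMulVec_neg, h21]; module)
  have e2 : MK K (P (-1) 0 1 0 0 (-γ)) := w31.cast (by
    simp only [P, T_mul, vecMulVec_neg, ← h31]; module)
  have i1 : MK K (P 1 (-1) 0 0 0 0) := e1.inv (by rw [hm, ← h0]; congr 1 <;> ring)
  have i2 : MK K (P 1 0 (-1) 0 0 0) := e2.inv (by rw [hm, ← h0]; congr 1 <;> ring)
  have c := ((e2.mul e1).mul i2).mul i1
  simp only [hm] at c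
  have c' := ((e1.mul e2).mul i1).mul i2
  simp only [hm] at c'
  have d := ((e1.mul c).mul i1).mul c'
  simp only [hm] at d
  refine d.cast ?_
  have : T a3 ((ε * ε) • ψ1) = P 0 0 0 0 0 (ε * ε) := by simp [P, T, vecMulVec_smul]
  rw [this]
  congr 1 <;> ring

end Cfsg.Agent.Pres.RU
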