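import Mathlib
import Cfsg.Agent.Pres.RU1

/-! The Jordan block and its transvections. -/

set_option autoImplicit false
set_option linter.unusedSectionVars false

namespace Cfsg.Agent.Pres.RU

open Matrix

variable {F : Type*} [Field F] {n : ℕ}

/-- the shift -/
def nu (n : ℕ) (F : Type*) [Field F] : Matrix (Fin (n + 1)) (Fin (n + 1)) F :=
  Matrix.of fun i j => if (i : ℕ) = j + 1 then 1 else 0

theorem nu_pow (k : ℕ) (i j : Fin (n + 1)) : (nu n F ^ k) i j = if (i : ℕ) = j + k then 1 else 0 := by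
  induction k generalizing i j with
  | zero => simp [one_apply, Fin.ext_iff]
  | succ k ih =>
    rw [pow_succ, mul_apply]
    simp only [ih]
    simp only [nu, of_apply]
    by_cases h : (j : ℕ) + 1 < n + 1
    · rw [Finset.sum_eq_single ⟨j + 1, h⟩]
      · simp only [if_true, mul_one]
        congr 1
        apply propext
        omega
      · intro b _ hb
        rw [if_neg (fun e : (b : ℕ) = j + 1 => hb (Fin.ext e)), mul_zero]
      · simp
    · rw [if_neg (by omega)]
      refine Finset.sum_eq_zero fun b _ => ?_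
      rw [if_neg (show ¬ (b : ℕ) = j + 1 by omega), mul_zero]

theorem nu_nil : IsNilpotent (nu n F) := ⟨n + 1, by
  ext i j
  rw [nu_pow, if_neg (by omega)]
  rfl⟩

theorem nu_ne : nu n F ^ n ≠ 0 := fun e => by
  have := congrFun (congrFun e (Fin.last n)) 0
  rw [nu_pow] at this
  simp at this

/-- the Jordan block -/
def Jb (n : ℕ) (F : Type*) [Field F] : SpecialLinearGroup (Fin (n + 1)) F := ⟨1 + nu n F, by
  rw [det_of_lowerTriangular]
  · simp [nu]
  · intro i j h
    have h' : (i : ℕ) < j := h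
    simp only [Matrix.add_apply, nu, of_apply]
    rw [one_apply_ne (fun e => by rw [e] at h'; omega), if_neg (by omega), add_zero]⟩

theorem Jb_coe : (Jb n F).1 = 1 + nu n F := rfl

theorem Jb_sub : (Jb n F).1 - 1 = nu n F := add_sub_cancel_left _ _

theorem nu_mulVec_zero (v : Fin (n + 1) → F) : (nu n F *ᵥ v) 0 = 0 := by simp [mulVec, dotProduct, nu]

theorem nu_mulVec_succ (v : Fin (n + 1) → F) (i : Fin n) : (nu n F *ᵥ v) i.succ = v i.castSucc := by
  simp only [mulVec, dotProduct, nu, of_apply]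
  rw [Finset.sum_eq_single i.castSucc]
  · simp
  · intro b _ hb
    rw [if_neg (fun e => hb (Fin.ext (by simpa using e.symm))), zero_mul]
  · simp

/-- the orbit of the first basis vector -/
def av (n : ℕ) (F : Type*) [Field F] (j : ℤ) : Fin (n + 1) → F := (Jb n F ^ j).1 *ᵥ Pi.single 0 1

/-- the orbit of the last coordinate -/
def ps (n : ℕ) (F : Type*) [Field F] (i : ℤ) : Fin (n + 1) → F := Pi.single (Fin.last n) 1 ᵥ* (Jb n F ^ (-i)).1

/-- the pairing -/
def gg (n : ℕ) (F : Type*) [Field F] (k : ℤ) : F := av n F k (Fin.last n)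

theorem zpow_coe_add (i j : ℤ) : (Jb n F ^ i).1 * (Jb n F ^ j).1 = (Jb n F ^ (i + j)).1 := by
  rw [_root_.zpow_add]; rfl

theorem mul_av (s j : ℤ) : (Jb n F ^ s).1 *ᵥ av n F j = av n F (j + s) := by
  rw [av, mulVec_mulVec, zpow_coe_add, add_comm s]; rfl

theorem ps_mul (s i : ℤ) : ps n F i ᵥ* (Jb n F ^ s).1 = ps n F (i - s) := by
  rw [ps, vecMul_vecMul, zpow_coe_add, ps]; congr 3; ring

theorem ps_av (i j : ℤ) : ps n F i ⬝ᵥ av n F j = gg n F (j - i) := by
  rw [ps, ← dotProduct_mulVec, mul_av, single_one_dotProduct, gg, sub_eq_add_neg]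

theorem av_zero : av n F 0 = Pi.single 0 1 := by rw [av, zpow_zero]; exact one_mulVec _

theorem ps_zero : ps n F 0 = Pi.single (Fin.last n) 1 := by rw [ps, neg_zero, zpow_zero]; exact vecMul_one _

theorem av_succ (j : ℤ) : av n F (j + 1) = av n F j + nu n F *ᵥ av n F j := by
  rw [← mul_av, zpow_one, Jb_coe, add_mulVec, one_mulVec]

theorem av_nat (k : ℕ) (i : Fin (n + 1)) : av n F k i = (k.choose i : F) := by
  induction k generalizing i with
  | zero =>
    rw [Nat.cast_zero, av_zero]
    induction i using Fin.cases <;> simp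
  | succ k ih =>
    rw [Nat.cast_succ, av_succ, Pi.add_apply]
    induction i using Fin.cases with
    | zero => simp [nu_mulVec_zero, ih]
    | succ i => rw [nu_mulVec_succ, ih, ih]; simp [Nat.choose_succ_succ, add_comm]

theorem gg_nat (k : ℕ) : gg n F k = (k.choose n : F) := av_nat k _

theorem gg_lt {k : ℤ} (h0 : 0 ≤ k) (h : k < n) : gg n F k = 0 := by
  lift k to ℕ using h0
  rw [gg_nat, Nat.choose_eq_zero_of_lt (by exact_mod_cast h), Nat.cast_zero]

theorem gg_self : gg n F n = 1 := by rw [gg_nat, Nat.choose_self, Nat.cast_one]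

theorem gg_neg : gg n F (-1) = (((-1) ^ n : ℤ) : F) := by
  have h : av n F (-1) = fun i : Fin (n + 1) => (-1 : F) ^ (i : ℕ) := by
    have h1 : (Jb n F).1 *ᵥ (fun i : Fin (n + 1) => (-1 : F) ^ (i : ℕ)) = Pi.single 0 1 := by
      rw [Jb_coe, add_mulVec, one_mulVec]
      ext i
      induction i using Fin.cases with
      | zero => simp [nu_mulVec_zero]
      | succ i => simp [nu_mulVec_succ, pow_succ]
    rw [av, ← h1, mulVec_mulVec, _root_.zpow_neg_one]
    exact (congrArg (fun x : SpecialLinearGroup (Fin (n + 1)) F => x.1 *ᵥ _) (inv_mul_cancel _)).trans (one_mulVec _)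
  simp [gg, h]

variable {K : Subgroup (SpecialLinearGroup (Fin (n + 1)) F)}

/-- graded pieces -/
def tau (K : Subgroup (SpecialLinearGroup (Fin (n + 1)) F)) (d : ℤ) (c : F) : Prop :=
  ∀ j i, j - i = d → MK K (T (av n F j) (c • ps n F i))

theorem tau_of (hu : Jb n F ∈ K) {j i d : ℤ} {c : F} (h : MK K (T (av n F j) (c • ps n F i))) (e : j - i = d) :
    tau K d c := fun j' i' e' => by
  have := (MK.of (K.zpow_mem hu (j' - j))).conj' (a := av n F j) (φ := c • ps n F i')
    (by rwa [smul_vecMul, ps_mul, show i' - (j' - j) = i by omega])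
  rwa [mul_av, add_sub_cancel] at this

theorem tau_comm {d d' e : ℤ} (k : ℤ) {c c' : F} (h : tau K d c) (h' : tau K d' c') (h0 : gg n F d' = 0)
    (h1 : gg n F e = 0) (he : e = d + d' - k) : tau K e (gg n F k * (c * c')) := fun j l e' => by
  have := MK.comm (by rw [smul_dotProduct, ps_av, show j - d + k - l = d' by omega, h0, smul_zero])
    (by rw [smul_dotProduct, ps_av, e', h1, smul_zero]) (h j (j - d) (by omega)) (h' (j - d + k) l (by omega))
  rw [smul_dotProduct, ps_av, smul_smul, show j - d + k - (j - d) = k by omega] at this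
  convert this using 3
  rw [smul_eq_mul]; ring

/-- graded pieces as additive subgroups -/
def tauS (K : Subgroup (SpecialLinearGroup (Fin (n + 1)) F)) {d : ℤ} (h : gg n F d = 0) : AddSubgroup F where
  carrier := {c | tau K d c}
  zero_mem' j i _ := by rw [zero_smul, T_zero]; exact MK.one
  add_mem' h1 h2 j i e := by
    rw [add_smul]
    exact MK.addr (by rw [smul_dotProduct, ps_av, e, h, smul_zero]) (h1 j i e) (h2 j i e)
  neg_mem' h1 j i e := by
    rw [neg_smul]
    exact MK.negr (by rw [smul_dotProduct, ps_av, e, h, smul_zero]) (h1 j i e)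

theorem tau_int {d : ℤ} (h : gg n F d = 0) (z : ℤ) {c : F} (hc : tau K d c) : tau K d (z * c) := by
  have := (tauS K h).zsmul_mem (x := c) hc z
  rwa [zsmul_eq_mul] at this

theorem tau_sign {d : ℤ} (h : gg n F d = 0) {c : F} (hc : tau K d (gg n F (-1) * c)) : tau K d c := by
  have := tau_int h ((-1) ^ n) hc
  rwa [gg_neg, ← mul_assoc, ← Int.cast_mul, ← mul_pow, neg_one_mul, neg_neg, one_pow, Int.cast_one, one_mul] at this

theorem top_of_tau (hu : Jb n F ∈ K) (h : ∀ d : ℤ, 0 ≤ d → d < n → ∀ c, tau K d c) : K = ⊤ := by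
  let S : Submodule F (Fin (n + 1) → F) :=
    { carrier := {φ | φ 0 = 0 ∧ ∀ c : F, MK K (T (Pi.single 0 1) (c • φ))}
      zero_mem' := ⟨rfl, fun c => by rw [smul_zero, T_zero]; exact MK.one⟩
      add_mem' := fun {φ χ} h1 h2 => ⟨by simp [h1.1, h2.1], fun c => by
        rw [smul_add]; exact MK.addr (by simp [h1.1]) (h1.2 c) (h2.2 c)⟩
      smul_mem' := fun c φ h1 => ⟨by simp [h1.1], fun c' => by rw [smul_smul]; exact h1.2 _⟩ }
  have h1 : ∀ d : ℕ, ∀ j : ℤ, 0 ≤ j → j + d < n → ps n F (-j) ᵥ* nu n F ^ d ∈ S := by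
    intro d
    induction d with
    | zero =>
      intro j h0 hj
      rw [pow_zero, vecMul_one]
      refine ⟨?_, fun c => av_zero (n := n) (F := F) ▸ h j h0 (by simpa using hj) c 0 (-j) (by omega)⟩
      have := ps_av (n := n) (F := F) (-j) 0
      rwa [av_zero, dotProduct_single_one, gg_lt (by omega) (by simpa using hj)] at this
    | succ d ih =>
      intro j h0 hj
      have := S.sub_mem (ih (j + 1) (by omega) (by push_cast at hj; omega)) (ih j h0 (by push_cast at hj; omega))
      rwa [← sub_vecMul, show -(j + 1) = -j - 1 by ring, ← ps_mul, zpow_one, Jb_coe, vecMul_add, vecMul_one,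
        add_sub_cancel_left, vecMul_vecMul, ← pow_succ'] at this
  have h2 : ∀ i : Fin (n + 1), i ≠ 0 → Pi.single i 1 ∈ S := fun i hi => by
    have hi' : (i : ℕ) ≠ 0 := fun e => hi (Fin.ext e)
    have := h1 (n - i) 0 le_rfl (by omega)
    convert this using 1
    ext k
    rw [neg_zero, ps_zero, single_one_vecMul, row_apply, nu_pow, Pi.single_apply]
    congr 1
    apply propext
    rw [Fin.ext_iff, Fin.val_last]
    omega
  have h3 : Full K (Pi.single 0 1) := fun φ hφ => by
    have : φ ∈ S := by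
      rw [pi_eq_sum_univ' φ]
      refine S.sum_mem fun i _ => ?_
      by_cases hi : i = 0
      · rw [hi, show φ 0 = 0 by simpa using hφ, zero_smul]; exact S.zero_mem
      · exact S.smul_mem _ (h2 i hi)
    simpa using this.2 1
  refine top_of_full fun i => ?_
  induction i using Fin.induction with
  | zero => exact h3
  | succ i ih =>
    have hne : i.castSucc ≠ i.succ := (Fin.castSucc_lt_succ).ne
    have h4 := (ih.map (MK.of hu)).map (ih (Pi.single i.succ (-1)) (by simp [hne]))
    have h5 : nu n F *ᵥ Pi.single i.castSucc 1 = Pi.single i.succ 1 := by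
      ext k
      induction k using Fin.cases with
      | zero => simp [nu_mulVec_zero]
      | succ k => simp [nu_mulVec_succ, Pi.single_apply]
    rw [Jb_coe, add_mulVec, one_mulVec, h5, T_mulVec] at h4
    convert h4 using 1
    simp [hne]

theorem top_of_last (hu : Jb n F ∈ K) (h : ∀ c, tau K (n - 1) c) : K = ⊤ := by
  refine top_of_tau hu fun d h0 hd => ?_
  obtain ⟨k, rfl⟩ : ∃ k : ℕ, d = n - 1 - k := ⟨(n - 1 - d).toNat, by omega⟩
  induction k with
  | zero => simpa using h
  | succ k ih =>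
    intro c
    push_cast at h0 hd ⊢
    have := tau_comm (e := n - 1 - (k + 1)) n (h c) (ih (by omega) (by omega) 1) (gg_lt (by omega) (by omega))
      (gg_lt h0 hd) (by omega)
    rwa [gg_self, one_mul, mul_one] at this

theorem choose_lucas {p : ℕ} [Fact p.Prime] (e m : ℕ) :
    ((p ^ e * m + p ^ e - 1).choose (p ^ e) : ℤ) ≡ m [ZMOD p] := by
  have hp := (Fact.out : p.Prime).pos
  induction e with
  | zero => simp
  | succ e ih =>
    refine Choose.choose_modEq_choose_mod_mul_choose_div.trans ?_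
    have h0 : 0 < p ^ e := pow_pos hp e
    have h1 : p ^ (e + 1) * m + p ^ (e + 1) - 1 = (p - 1) + p * (p ^ e * m + p ^ e - 1) := by
      obtain ⟨r, hr⟩ : ∃ r, p ^ e = r + 1 := ⟨p ^ e - 1, by omega⟩
      obtain ⟨s, rfl⟩ : ∃ s, p = s + 1 := ⟨p - 1, by omega⟩
      rw [pow_succ, hr, Nat.add_sub_cancel, ← add_assoc, Nat.add_sub_cancel]
      apply Nat.sub_eq_of_eq_add
      ring
    rw [h1, Nat.add_mul_div_left _ _ hp, Nat.div_eq_of_lt (by omega), zero_add, pow_succ, Nat.mul_mod_left,
      Nat.choose_zero_right, Nat.mul_div_cancel _ hp]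
    simpa using ih

theorem mem_of_pow_char [Fintype F] {p : ℕ} [CharP F p] {R : Subring F} {b : F} {e : ℕ} (h : b ^ p ^ e ∈ R) :
    b ∈ R := by
  obtain ⟨⟨f, hf⟩, -, hq⟩ := FiniteField.card F p
  obtain ⟨f, rfl⟩ : ∃ g, f = g + 1 := ⟨f - 1, by omega⟩
  have := R.pow_mem h (p ^ (f * e))
  rwa [← pow_mul, ← pow_add, show e + f * e = (f + 1) * e by ring, pow_mul, show p ^ (f + 1) = Fintype.card F from hq.symm,
    FiniteField.pow_card_pow] at this

/-- the climbing lemma -/
theorem climb [Fintype F] (hn : 2 ≤ n) (hn' : 3 ≤ n ∨ (3 : F) = 0) (hu : Jb n F ∈ K) {b : F} (hb : b ≠ 0)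
    (hgen : ∀ R : Subring F, b ∈ R → ∀ t, t ∈ R)
    (hup : ∀ d : ℤ, 0 ≤ d → d + 1 < n → ∀ c, tau K d c → tau K (d + 1) (b * c)) (h0 : tau K (n - 1) (b ^ n)) :
    K = ⊤ := by
  have g1 : gg n F (n - 1) = 0 := gg_lt (by omega) (by omega)
  let R := mulR (RingHom.id F) (tauS K g1)
  have h1 : ∀ c, tau K (n - 1) c → b * c ∈ R := fun c hc t ht => by
    have := hup _ (by omega) (by omega) _
      (tau_comm (e := n - 2) n hc ht g1 (gg_lt (by omega) (by omega)) (by omega))
    rw [gg_self, one_mul, ← mul_assoc, show (n : ℤ) - 2 + 1 = n - 1 by ring] at this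
    exact this
  have h2 : tau K (n - 1) b⁻¹ := by
    have := subring_inv (h1 _ h0) _ h0
    rwa [RingHom.id_apply, mul_inv, inv_mul_cancel_right₀ (pow_ne_zero n hb)] at this
  have hup' : ∀ k : ℕ, ∀ d : ℤ, 0 ≤ d → d + k < n → ∀ c, tau K d c → tau K (d + k) (b ^ k * c) := by
    intro k
    induction k with
    | zero => intro d _ _ c hc; simpa using hc
    | succ k ih =>
      intro d hd hk c hc
      push_cast at hk ⊢
      have := hup _ (by omega) (by omega) _ (ih d hd (by omega) c hc)
      rwa [← mul_assoc, ← pow_succ', add_assoc] at this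
  obtain ⟨p, hp⟩ := CharP.exists F
  have : Fact p.Prime := ⟨CharP.char_is_prime F p⟩
  have hp2 := this.out.two_le
  obtain ⟨e, m, hm, hN⟩ := Nat.exists_eq_pow_mul_and_not_dvd (n.succ_ne_zero) p (by omega)
  have hP : 0 < p ^ e := pow_pos (by omega) e
  have h3 : b ^ p ^ e ∈ R := by
    by_cases hm1 : m = 1
    · rw [hm1, mul_one] at hN
      rw [← hN, Nat.succ_eq_add_one, pow_succ']
      exact h1 _ h0
    have hm0 : m ≠ 0 := by rintro rfl; simp at hm
    have hle : p ^ e + 2 ≤ n := by
      obtain ⟨m, rfl⟩ : ∃ k, m = k + 2 := ⟨m - 2, by omega⟩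
      have h4 : n + 1 = p ^ e * m + 2 * p ^ e := by rw [Nat.succ_eq_add_one] at hN; rw [hN]; ring
      by_contra h5
      rcases Nat.eq_zero_or_pos e with rfl | he
      · simp only [pow_zero, one_mul, mul_one] at h4 h5
        obtain rfl : m = 1 := by omega
        rcases hn' with h6 | h6
        · omega
        · exact hm ((CharP.cast_eq_zero_iff F p 3).1 (by exact_mod_cast h6))
      · have h6 : p ≤ p ^ e := Nat.le_self_pow he.ne' p
        have h7 : p ^ e = 2 := by omega
        rw [h7] at h4 h5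
        obtain rfl : m = 0 := by omega
        obtain rfl : p = 2 := by omega
        exact hm dvd_rfl
    have h4 : gg n F (n + p ^ e : ℕ) = m := by
      rw [gg_nat, Nat.choose_symm_add, show n + p ^ e = p ^ e * m + p ^ e - 1 by omega]
      have := (CharP.intCast_eq_intCast F p).2 (choose_lucas (p := p) e m)
      exact_mod_cast this
    have h5 := hup' (p ^ e + 1) _ (by omega) (by push_cast; omega) _
      (tau_comm (e := n - 2 - (p ^ e : ℕ)) (n + p ^ e : ℕ) h2 h2 g1 (gg_lt (by omega) (by omega)) (by push_cast; omega))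
    rw [h4, show (n : ℤ) - 2 - (p ^ e : ℕ) + (p ^ e + 1 : ℕ) = n - 1 by push_cast; ring] at h5
    have h6 : (m : F) ≠ 0 := fun e => hm ((CharP.cast_eq_zero_iff F p m).1 e)
    have := R.mul_mem (subring_inv (natCast_mem R m)) (h1 _ h5)
    convert this using 1
    rw [pow_succ]
    field_simp
  refine top_of_last hu fun c => ?_
  have := hgen R (mem_of_pow_char h3) (c * b) _ h2
  rwa [RingHom.id_apply, mul_inv_cancel_right₀ hb] at this

end Cfsg.Agent.Pres.RU
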