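import Mathlib
import Cfsg.Agent.Pres.RU2

/-! Two conjugate regular unipotent generators of `SL_n`. -/

set_option autoImplicit false
set_option linter.unusedSectionVars false

namespace Cfsg.Agent.Pres.RU

open Matrix

variable {F : Type*} [Field F] [Fintype F] {n : ℕ}

theorem prim_gen : ∃ b : F, b ≠ 0 ∧ ∀ R : Subring F, b ∈ R → ∀ t, t ∈ R := by
  obtain ⟨ζ, h0, -, h⟩ := exists_prim F
  refine ⟨ζ, h0, fun R hR t => ?_⟩
  by_cases ht : t = 0
  · rw [ht]; exact R.zero_mem
  · obtain ⟨k, rfl⟩ := h t ht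
    exact R.pow_mem hR k

theorem sl_big (hn : 3 ≤ n) : ∃ g : SpecialLinearGroup (Fin (n + 1)) F,
    Subgroup.closure {Jb n F, g * Jb n F * g⁻¹} = ⊤ := by
  obtain ⟨b, hb, hgen⟩ := prim_gen (F := F)
  have z : ∀ {k : ℤ}, 0 ≤ k → k < n → gg n F k = 0 := gg_lt
  have d0 : ∀ (c : F) (i j : ℤ), (c • ps n F i) ⬝ᵥ av n F j = c * gg n F (j - i) := fun c i j => by
    rw [smul_dotProduct, ps_av, smul_eq_mul]
  have d1 : ∀ (c : F) {i j : ℤ}, 0 ≤ j - i → j - i < n → (c • ps n F i) ⬝ᵥ av n F j = 0 := fun c i j h h' => by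
    rw [d0, z h h', mul_zero]
  let t := Tv (av n F 0) (b • ps n F 0) (d1 b (by omega) (by omega))
  refine ⟨t, ?_⟩
  set K := Subgroup.closure {Jb n F, t * Jb n F * t⁻¹}
  have hu : Jb n F ∈ K := Subgroup.subset_closure (by simp)
  have hv : t * Jb n F * t⁻¹ ∈ K := Subgroup.subset_closure (by simp)
  have cj : ∀ (j : ℤ) (c : F), (Jb n F ^ j).1 * T (av n F 0) (c • ps n F 0) * (Jb n F ^ (-j)).1 =
      T (av n F j) (c • ps n F j) := fun j c => by
    rw [T_conj (by rw [zpow_coe_add, add_neg_cancel]; rfl), mul_av, smul_vecMul, ps_mul]; simp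
  have ti : (t⁻¹).1 = T (av n F 0) ((-b) • ps n F 0) := by
    have : t⁻¹ = Tv (av n F 0) ((-b) • ps n F 0) (d1 _ (by omega) (by omega)) :=
      inv_eq_of_mul_eq_one_right (Subtype.ext (by
        change T _ _ * T _ _ = 1
        rw [neg_smul]; exact T_neg (d1 b (by omega) (by omega))))
    rw [this]; rfl
  have W : ∀ j : ℤ, MK K (T (av n F (j + 1)) (b • ps n F (j + 1)) * T (av n F j) (-(b • ps n F j))) := fun j => by
    have h1 : (Jb n F ^ (j + 1) * t * Jb n F ^ (-(j + 1))) * (Jb n F ^ j * t⁻¹ * Jb n F ^ (-j)) ∈ K := by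
      have := K.mul_mem (K.mul_mem (K.zpow_mem hu (j + 1)) (K.inv_mem hv)) (K.zpow_mem hu (-j))
      convert this using 1
      group
    refine (MK.of h1).cast ?_
    rw [← neg_smul, ← cj (j + 1), ← cj j, ← ti]
    rfl
  have hup : ∀ d : ℤ, 0 ≤ d → d + 1 < n → ∀ c, tau K d c → tau K (d + 1) (b * c) := fun d h0 hd c hc => by
    have := (W d).shift (d1 c (i := 0) (j := d) (by omega) (by omega)) (by
      rw [← vecMul_vecMul, vecMul_T (av n F (d + 1)), d1 c (by omega) (by omega), zero_smul, add_zero, vecMul_T,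
        d1 c (by omega) (by omega), zero_smul, add_zero]) (hc d 0 (by omega))
    rw [← mulVec_mulVec, T_mulVec (av n F d), neg_dotProduct, d1 b (by omega) (by omega), neg_zero, zero_smul, add_zero,
      T_mulVec, add_sub_cancel_left, T_smul, smul_smul, d0, show d - (d + 1) = -1 by ring] at this
    refine tau_sign (z (by omega) hd) ?_
    convert tau_of hu this (sub_zero _) using 1
    ring
  have h2 : tau K 2 (b ^ 3) := by
    have w21 := W 1
    have w31 := (W 2).mul w21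
    rw [mul_assoc, ← mul_assoc (T (av n F 2) _), show (1 : ℤ) + 1 = 2 from rfl, ← neg_neg (b • ps n F 2), neg_neg (-_),
      T_neg (by rw [neg_dotProduct, d1 b (by omega) (by omega), neg_zero]), one_mul] at w31
    have := three (ε := b * gg n F (-1)) (a1 := av n F 1) (a2 := av n F 2) (a3 := av n F (2 + 1))
      (ψ1 := b • ps n F 1) (ψ2 := b • ps n F 2) (ψ3 := b • ps n F (2 + 1))
      (d1 b (by omega) (by omega)) (d1 b (by omega) (by omega))
      (d1 b (by omega) (by omega)) (d1 b (by omega) (by omega)) (d1 b (by omega) (by omega)) (d1 b (by omega) (by omega))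
      (by rw [d0]; norm_num) (by rw [d0]; norm_num) w21 w31
    rw [smul_smul] at this
    refine tau_sign (z (by omega) (by omega)) (tau_sign (z (by omega) (by omega)) ?_)
    convert tau_of hu this (d := 2) (by norm_num) using 1
    ring
  refine climb (by omega) (Or.inl hn) hu hb hgen hup ?_
  have : ∀ k : ℕ, 3 + k ≤ n → tau K (2 + k) (b ^ (3 + k)) := by
    intro k
    induction k with
    | zero => intro _; simpa using h2
    | succ k ih =>
      intro hk
      have := hup _ (by omega) (by omega) _ (ih (by omega))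
      rwa [← pow_succ', add_assoc, add_assoc] at this
  obtain ⟨k, rfl⟩ := Nat.exists_eq_add_of_le hn
  convert this k le_rfl using 1
  push_cast; ring

theorem MK.cancel {ι : Type*} [Fintype ι] [DecidableEq ι] {K : Subgroup (SpecialLinearGroup ι F)} {A B : Matrix ι ι F}
    (h : MK K A) (h' : MK K (A * B)) : MK K B := by
  obtain ⟨k, hk, rfl⟩ := h
  refine ((MK.of (K.inv_mem hk)).mul h').cast ?_
  rw [← mul_assoc]
  exact (congrArg (fun x : SpecialLinearGroup ι F => x.1 * B) (inv_mul_cancel k)).trans (one_mul B)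

theorem sep {ι : Type*} [Fintype ι] [DecidableEq ι] {K : Subgroup (SpecialLinearGroup ι F)} {l μ : F} (hμ : μ ≠ 1)
    {p φ a χ : ι → F} (h1 : φ ⬝ᵥ p = μ - 1) (h2 : φ ⬝ᵥ a = 0) (h3 : χ ⬝ᵥ p = 0) (h4 : χ ⬝ᵥ a = 0)
    (h : MK K (l • (T p φ * T a χ))) : MK K (l • T p φ) ∧ MK K (T a χ) := by
  have hc : Commute (T p φ) (T a χ) := by
    rw [Commute, SemiconjBy, T_mul, T_mul, h2, h3, zero_smul, zero_smul, add_right_comm 1]
  have e1 : ∀ k : ℕ, T p φ ^ k = T p (((μ ^ k - 1) / (μ - 1)) • φ) := by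
    intro k
    induction k with
    | zero => simp [T_zero]
    | succ k ih =>
      have := sub_ne_zero.2 hμ
      rw [pow_succ, ih, T_mul, smul_dotProduct, h1, T, vecMulVec_smul, vecMulVec_smul]
      match_scalars
      · ring
      · rw [smul_eq_mul]; field_simp; ring
  have e2 : ∀ k : ℕ, T a χ ^ k = T a ((k : F) • χ) := by
    intro k
    induction k with
    | zero => simp [T_zero]
    | succ k ih => rw [pow_succ, ih, T_add_right _ (by rw [smul_dotProduct, h4, smul_zero]), Nat.cast_succ, add_smul, one_smul]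
  have h5 := h.pow (Fintype.card F)
  rw [smul_pow, hc.mul_pow, e1, e2, FiniteField.pow_card, FiniteField.pow_card, FiniteField.cast_card_eq_zero,
    zero_smul, T_zero, mul_one, div_self (sub_ne_zero.2 hμ), one_smul] at h5
  exact ⟨h5, h5.cancel (by rwa [smul_mul_assoc])⟩

theorem Jb2 : (Jb 2 F).1 = !![1, 0, 0; 1, 1, 0; 0, 1, 1] := by
  ext i j
  fin_cases i <;> fin_cases j <;> simp [Jb_coe, nu]

theorem av20 : av 2 F 0 = ![1, 0, 0] := by
  rw [av_zero]; ext i; fin_cases i <;> simp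

theorem av21 : av 2 F 1 = ![1, 1, 0] := by
  ext i
  have := av_nat (F := F) 1 i
  fin_cases i <;> simpa using this

theorem ps20 : ps 2 F 0 = ![0, 0, 1] := by
  rw [ps_zero]; ext i; fin_cases i <;> simp [Fin.last]

theorem ps21 : ps 2 F (-1) = ![0, 1, 1] := by
  have := ps_mul (n := 2) (F := F) 1 0
  rw [zero_sub, zpow_one, Jb2, ps20] at this
  rw [← this]; ext i; fin_cases i <;> simp [vecMul, dotProduct, Fin.sum_univ_three]

theorem T3 (a b c x y z : F) : T ![a, b, c] ![x, y, z] =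
    !![1 + a * x, a * y, a * z; b * x, 1 + b * y, b * z; c * x, c * y, 1 + c * z] := by
  ext i j
  fin_cases i <;> fin_cases j <;> simp [T, vecMulVec_apply]

theorem sm3 (c x y z : F) : c • ![x, y, z] = ![c * x, c * y, c * z] := by simp

theorem smul3 (c a1 a2 a3 b1 b2 b3 c1 c2 c3 : F) : c • !![a1, a2, a3; b1, b2, b3; c1, c2, c3] =
    !![c * a1, c * a2, c * a3; c * b1, c * b2, c * b3; c * c1, c * c2, c * c3] := by simp

theorem MK_conj {ι : Type*} [Fintype ι] [DecidableEq ι] (u g : SpecialLinearGroup ι F) {y : Matrix ι ι F}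
    (h : u.1 * y * g.1 = g.1 * u.1) : MK (Subgroup.closure {u, g * u * g⁻¹}) y := by
  refine (MK.of (Subgroup.subset_closure (by simp) : u ∈ _)).cancel
    ((MK.of (Subgroup.subset_closure (by simp) : g * u * g⁻¹ ∈ _)).cast ?_)
  change g.1 * u.1 * (g⁻¹).1 = _
  rw [← h, mul_assoc]
  exact (congrArg (fun x : SpecialLinearGroup ι F => u.1 * y * x.1) (mul_inv_cancel g)).trans (mul_one _)

theorem tau_up {K : Subgroup (SpecialLinearGroup (Fin (2 + 1)) F)} {c c' : F} (h : tau K 0 c) (h' : tau K 0 c') :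
    tau K 1 (c * c') :=
  tau_sign (gg_lt (by omega) (by omega))
    (tau_comm (-1) h h' (gg_lt (by omega) (by omega)) (gg_lt (by omega) (by omega)) (by omega))

theorem sl3_two (h2 : (2 : F) = 0) : ∃ g : SpecialLinearGroup (Fin (2 + 1)) F,
    Subgroup.closure {Jb 2 F, g * Jb 2 F * g⁻¹} = ⊤ := by
  obtain ⟨b, hb, hgen⟩ := prim_gen (F := F)
  let g : SpecialLinearGroup (Fin (2 + 1)) F := ⟨!![0, b + 1, 1; 0, 1, 0; 1, 0, 0], by
    rw [det_fin_three]; simp; linear_combination -h2⟩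
  refine ⟨g, ?_⟩
  set K := Subgroup.closure {Jb 2 F, g * Jb 2 F * g⁻¹}
  have hu : Jb 2 F ∈ K := Subgroup.subset_closure (by simp)
  have hv : MK K !![1, 1, b + 1; 0, 1, 1; 0, 0, 1] := by
    refine (MK.of (Subgroup.subset_closure (by simp) : g * Jb 2 F * g⁻¹ ∈ _)).cast ?_
    have : g.1 * (Jb 2 F).1 = !![1, 1, b + 1; 0, 1, 1; 0, 0, 1] * g.1 := by
      rw [Jb2]; ext i j; fin_cases i <;> fin_cases j <;> simp [g, mul_apply, Fin.sum_univ_three]
    change g.1 * (Jb 2 F).1 * (g⁻¹).1 = _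
    rw [this, mul_assoc]
    exact (congrArg (fun x : SpecialLinearGroup (Fin (2 + 1)) F => _ * x.1) (mul_inv_cancel g)).trans (mul_one _)
  have h0 : tau K 0 1 := tau_of hu (j := 0) (i := 0) ((hv.mul hv).cast (by
    rw [av20, ps20]; ext i j
    fin_cases i <;> fin_cases j <;> simp [T, mul_apply, Fin.sum_univ_three, vecMulVec_apply] <;>
      first | linear_combination h2 | linear_combination (b + 1) * h2)) rfl
  have h1 : tau K 1 1 := by simpa using tau_up h0 h0
  have h3 : tau K 0 b := tau_of hu (j := 0) (i := 0) (((h1 0 (-1) rfl).mul (h1 1 0 rfl)).cancel (hv.cast (by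
    rw [av20, ps20, av21, ps21, sm3, sm3, sm3]
    erw [T3, T3, T3, mul_fin_three, mul_fin_three]
    ext i j
    fin_cases i <;> fin_cases j <;> simp
    first | linear_combination -h2 | linear_combination h2))) rfl
  have g1 : gg 2 F 1 = 0 := gg_lt (by omega) (by omega)
  refine top_of_last hu fun c => ?_
  have := hgen (mulR (RingHom.id F) (tauS K g1)) (fun t ht => tau_up h3 ?_) c 1 h1
  · rw [RingHom.id_apply, mul_one] at this; exact this
  · have := tau_comm (e := 0) (2 : ℕ) ht h1 g1 (gg_lt (by omega) (by omega)) (by omega)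
    rwa [gg_self, one_mul, mul_one] at this

theorem sl3_three (h3 : (3 : F) = 0) : ∃ g : SpecialLinearGroup (Fin (2 + 1)) F,
    Subgroup.closure {Jb 2 F, g * Jb 2 F * g⁻¹} = ⊤ := by
  obtain ⟨a, ha, -, -, hgen⟩ := exists_prim_sq F
  let g : SpecialLinearGroup (Fin (2 + 1)) F := ⟨!![1, -2, 2 - 2 * a; 0, -1, -2 * a; 0, 0, -1], by
    rw [det_fin_three]; simp⟩
  refine ⟨g, ?_⟩
  have hy := MK_conj (Jb 2 F) g (y := (-1 : F) • (T ![a + 1, 1, 0] ![0, -2, 2 * a - 2] *
      T (av 2 F 0) ((6 + 2 * a ^ 2) • ps 2 F 0))) (by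
    rw [av20, ps20, Jb2, sm3]
    erw [T3, T3]
    simp only [g, smul3, mul_fin_three]
    ext i j
    fin_cases i <;> fin_cases j <;> simp <;> ring)
  set K := Subgroup.closure {Jb 2 F, g * Jb 2 F * g⁻¹}
  have hu : Jb 2 F ∈ K := Subgroup.subset_closure (by simp)
  have h0 := tau_of hu (sep (μ := -1) (fun e => one_ne_zero (α := F) (by linear_combination e + h3))
    (by simp; ring) (by simp [av20]) (by simp [ps20]) (by simp [ps20, av20]) hy).2 (sub_self 0)
  have e : a ^ 2 = -(6 + 2 * a ^ 2) := by linear_combination (2 + a ^ 2) * h3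
  refine climb le_rfl (Or.inr h3) hu (b := 6 + 2 * a ^ 2) (fun e' => ha ?_) (fun R hR => hgen R ?_)
    (fun d h1 h2 c hc => ?_) ?_
  · rw [e', neg_zero] at e
    exact pow_eq_zero_iff two_ne_zero |>.1 e
  · rw [e]; exact R.neg_mem hR
  · obtain rfl : d = 0 := by omega
    exact tau_up h0 hc
  · rw [sq]; exact tau_up h0 h0

theorem sl3_big (h3 : (3 : F) ≠ 0) (hq : 5 ≤ Fintype.card F) : ∃ g : SpecialLinearGroup (Fin (2 + 1)) F,
    Subgroup.closure {Jb 2 F, g * Jb 2 F * g⁻¹} = ⊤ := by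
  obtain ⟨p, hp⟩ := CharP.exists F
  have : Fact p.Prime := ⟨CharP.char_is_prime F p⟩
  let _ := ZMod.algebra F p
  obtain ⟨z, hz, ho, -⟩ := exists_prim F
  have hgen : ∀ R : Subring F, z ^ 3 ∈ R → ∀ t, t ∈ R := fun R hR t => by
    obtain ⟨f, rfl⟩ := aeval_surj_pow (p := p) hz ho three_ne_zero (fun m hm => by
      rcases (Nat.dvd_prime Nat.prime_three).1 (Nat.gcd_dvd_right (orderOf z) 3) with h | h <;> rw [h] at hm <;>
        nlinarith) t
    exact aeval_mem_subring hR f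
  have hz3 : z ^ 3 ≠ 1 := fun e => by
    have := Nat.le_of_dvd (by norm_num) (orderOf_dvd_of_pow_eq_one e)
    omega
  have hz1 : z - 1 ≠ 0 := fun e => hz3 (by rw [sub_eq_zero.1 e, one_pow])
  let g : SpecialLinearGroup (Fin (2 + 1)) F := ⟨!![1, z⁻¹ - 1, 1 - 2 * z⁻¹ + z; 0, z⁻¹, 2 * z - 2 * z⁻¹; 0, 0, z], by
    rw [det_fin_three]; simp [hz]⟩
  refine ⟨g, ?_⟩
  have hy := MK_conj (Jb 2 F) g (y := z⁻¹ • (T (av 2 F 1) ![0, z ^ 3 - 1, 3 * z - 1 - 2 * z ^ 3] *
      T (av 2 F 0) ((3 - 3 * z⁻¹) • ps 2 F 0))) (by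
    rw [av20, av21, ps20, Jb2, sm3]
    erw [T3, T3]
    simp only [g, smul3, mul_fin_three]
    ext i j
    fin_cases i <;> fin_cases j <;> simp <;> field_simp <;> ring)
  set K := Subgroup.closure {Jb 2 F, g * Jb 2 F * g⁻¹}
  have hu : Jb 2 F ∈ K := Subgroup.subset_closure (by simp)
  obtain ⟨hs, ht⟩ := sep hz3 (by simp [av21]) (by simp [av20]) (by simp [ps20, av21]) (by simp [ps20, av20]) hy
  have g0 : gg 2 F 0 = 0 := gg_lt (by omega) (by omega)
  have h0 := tau_of hu ht (sub_self 0)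
  have h1 := hgen (mulR (RingHom.id F) (tauS K g0)) (fun c hc => by
    have := hs.conj' (a := av 2 F 1) (φ := (z * c) • ps 2 F 1) ((hc 1 1 rfl).cast (by
      rw [vecMul_smul, vecMul_T, smul_dotProduct, ps_av, sub_self, g0, smul_zero, zero_smul, add_zero, smul_smul,
        inv_mul_cancel_left₀ hz]))
    rw [smul_mulVec, T_mulVec, show ![0, z ^ 3 - 1, 3 * z - 1 - 2 * z ^ 3] ⬝ᵥ av 2 F 1 = z ^ 3 - 1 by simp [av21],
      show av 2 F 1 + (z ^ 3 - 1) • av 2 F 1 = z ^ 3 • av 2 F 1 by module, smul_smul, T_smul, smul_smul] at this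
    change tau K 0 (z ^ 3 * c)
    convert tau_of hu this (sub_self 1) using 1
    field_simp)
  have hb : 3 - 3 * z⁻¹ ≠ 0 := fun e => mul_ne_zero h3 hz1 (by field_simp at e; linear_combination e)
  have h2 : ∀ c, tau K 0 c := fun c => by
    have := h1 (c / (3 - 3 * z⁻¹)) _ h0
    rwa [RingHom.id_apply, div_mul_cancel₀ _ hb] at this
  refine top_of_last hu fun c => ?_
  simpa using tau_up (h2 c) (h2 1)

theorem sl_two_conj (hn : 2 ≤ n) : ∃ g : SpecialLinearGroup (Fin (n + 1)) F,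
    Subgroup.closure {Jb n F, g * Jb n F * g⁻¹} = ⊤ := by
  rcases hn.eq_or_lt with rfl | h
  · by_cases h2 : (2 : F) = 0
    · exact sl3_two h2
    by_cases h3 : (3 : F) = 0
    · exact sl3_three h3
    refine sl3_big h3 ?_
    by_contra h
    have h1 := Fintype.one_lt_card (α := F)
    have h4 := FiniteField.cast_card_eq_zero F
    rcases (by omega : Fintype.card F = 2 ∨ Fintype.card F = 3 ∨ Fintype.card F = 4) with e | e | e <;> rw [e] at h4
    · exact h2 (by exact_mod_cast h4)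
    · exact h3 (by exact_mod_cast h4)
    · exact mul_ne_zero h2 h2 (by push_cast at h4; linear_combination h4)
  · exact sl_big h

theorem Jb_reg : IsNilpotent ((Jb n F).1 - 1) ∧ ((Jb n F).1 - 1) ^ n ≠ 0 := by
  rw [Jb_sub]; exact ⟨nu_nil, nu_ne⟩

theorem reg_conj {ι : Type*} [Fintype ι] [DecidableEq ι] {u : SpecialLinearGroup ι F} (g : SpecialLinearGroup ι F) {k : ℕ}
    (h : IsNilpotent (u.1 - 1) ∧ (u.1 - 1) ^ k ≠ 0) :
    IsNilpotent ((g * u * g⁻¹).1 - 1) ∧ ((g * u * g⁻¹).1 - 1) ^ k ≠ 0 := by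
  have e1 : g.1 * (g⁻¹).1 = 1 := congrArg Subtype.val (mul_inv_cancel g)
  have e2 : (g⁻¹).1 * g.1 = 1 := congrArg Subtype.val (inv_mul_cancel g)
  have e : ∀ m : ℕ, ((g * u * g⁻¹).1 - 1) ^ m = g.1 * (u.1 - 1) ^ m * (g⁻¹).1 := by
    intro m
    induction m with
    | zero => simp only [pow_zero, mul_one, e1]
    | succ m ih =>
      have : (g * u * g⁻¹).1 - 1 = g.1 * (u.1 - 1) * (g⁻¹).1 := by rw [mul_sub, sub_mul, mul_one, e1]; rfl
      rw [pow_succ, ih, this, pow_succ]
      simp only [mul_assoc]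
      rw [← mul_assoc (g⁻¹).1, e2, one_mul]
  obtain ⟨⟨m, hm⟩, h⟩ := h
  refine ⟨⟨m, by rw [e, hm, mul_zero, zero_mul]⟩, fun e' => h ?_⟩
  have := congrArg (fun x => (g⁻¹).1 * x * g.1) e'
  simp only [e, mul_zero, zero_mul] at this
  rwa [← mul_assoc, ← mul_assoc, e2, one_mul, mul_assoc, e2, mul_one] at this

end Cfsg.Agent.Pres.RU
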