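import Mathlib
import Cfsg.Agent.Pres.RU3
import Cfsg.Agent.Classical.SpMat

/-! Subgroups of symplectic groups containing transvection groups. -/

set_option autoImplicit false
set_option linter.unusedSectionVars false

namespace Cfsg.Agent.Pres.RU

open Cfsg.Agent.Classical.SpWitt Module

variable {F V : Type*} [Field F] [AddCommGroup V] [Module F V] {B : LinearMap.BilinForm F V}

section
variable (hA : B.IsAlt) {S : Set V} (hS : ∀ a ∈ S, ∀ b ∈ S, B a b ≠ 0 → ∀ c : F, a + c • b ∈ S)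
include hA hS

theorem cm_step {a b b' : V} (h : ∃ w ∈ S, B a w ≠ 0 ∧ B b w ≠ 0) (hb : b ∈ S) (e : B b b' ≠ 0) :
    ∃ w ∈ S, B a w ≠ 0 ∧ B b' w ≠ 0 := by
  obtain ⟨w, hw, h1, h2⟩ := h
  have e' : B b' b ≠ 0 := fun z => e (hA.isRefl _ _ z)
  by_cases h3 : B b' w = 0
  · by_cases h4 : B a b = 0
    · refine ⟨w + (1 : F) • b, hS w hw b hb (fun z => h2 (hA.isRefl _ _ z)) 1, ?_, ?_⟩
      · simpa [h4] using h1
      · simpa [h3] using e'
    · exact ⟨b, hb, h4, e'⟩
  · exact ⟨w, hw, h1, h3⟩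

theorem add_three {a b w : V} (ha : a ∈ S) (hb : b ∈ S) (hw : w ∈ S) (e : B a b = 0) (h1 : B a w ≠ 0) (h2 : B b w ≠ 0)
    (h3 : B a w + B b w ≠ 0) : a + b ∈ S := by
  have r := hA.isRefl
  have s1 := hS w hw a ha (fun z => h1 (r _ _ z)) 1
  have s2 := hS _ s1 b hb (fun z => h2 (r _ _ (by simpa [e] using z))) 1
  have s3 := hS _ s2 w hw (by simpa [hA.self_eq_zero] using h3) (-1)
  convert s3 using 1
  module

theorem add_big (h3 : ∀ x : F, ∃ c, c ≠ 0 ∧ c ≠ x) {a b w z : V} (ha : a ∈ S) (hb : b ∈ S) (hw : w ∈ S) (hz : z ∈ S)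
    (h1 : B a w ≠ 0) (h2 : B b w ≠ 0) (h4 : B a z + B b z ≠ 0) : a + b ∈ S := by
  have r := hA.isRefl
  by_cases e : B a b = 0
  swap
  · simpa using hS a ha b hb e 1
  wlog h5 : B a z ≠ 0 generalizing a b
  · rw [add_comm]
    exact this hb ha h2 h1 (by rwa [add_comm]) (r _ _ e) (fun z => h4 (by rw [z, not_not.1 h5, add_zero]))
  by_cases h6 : B b z = 0
  swap
  · exact add_three hA hS ha hb hz e h5 h6 h4
  by_cases h7 : B a w + B b w = 0
  swap
  · exact add_three hA hS ha hb hw e h1 h2 h7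
  wlog h8 : B w z ≠ 0 generalizing w
  · refine this (hS w hw a ha (fun z => h1 (r _ _ z)) 1) ?_ ?_ ?_ ?_
    · simpa [hA.self_eq_zero] using h1
    · simpa [r _ _ e] using h2
    · simpa [hA.self_eq_zero, r _ _ e] using h7
    · simpa [not_not.1 h8] using h5
  obtain ⟨c, c0, c1⟩ := h3 (-(B a w / B a z))
  refine add_three hA hS ha hb (hS w hw z hz h8 c) e ?_ ?_ ?_
  · simp only [map_add, map_smul, smul_eq_mul]
    intro e'
    exact c1 (by field_simp; linear_combination e')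
  · simpa [h6] using h2
  · simp only [map_add, map_smul, smul_eq_mul, h6]
    intro e'
    exact mul_ne_zero c0 h5 (by linear_combination e' - h7)

variable (h2 : ∀ x : F, x ≠ 0 → x = 1)
include h2

omit hA hS in
theorem two_zero : (2 : F) = 0 := by
  by_contra h
  exact one_ne_zero (α := F) (by linear_combination h2 2 h)

theorem two_comm (a b : V) : B a b = B b a := by
  rw [← hA.neg_eq a b]
  linear_combination (B a b) * two_zero h2

omit hA hS in
theorem two_self (a : V) : a + a = 0 := by rw [← two_smul F, two_zero h2, zero_smul]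

omit hA h2 in
theorem add_one' {a b : V} (ha : a ∈ S) (hb : b ∈ S) (e : B a b = 1) : a + b ∈ S := by
  simpa using hS a ha b hb (by rw [e]; exact one_ne_zero) 1

theorem lemQ {x y z : V} (hy : y ∈ S) (hxy : x + y ∈ S) (hz : z ∈ S) (e1 : B x y = 0) (e2 : B x z = 0)
    (e3 : B y z = 1) : x + z ∈ S := by
  have s1 := add_one' hS hxy hz (by simp [e2, e3])
  have s2 := add_one' hS s1 hy (by simp [e1, hA.self_eq_zero, two_comm hA hS h2 z y, e3])
  convert s2 using 1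
  rw [add_right_comm x y z, add_assoc, two_self h2, add_zero]

theorem lemStar {x y z s : V} (hx : x ∈ S) (hy : y ∈ S) (hz : z ∈ S) (hp : x + y + z ∈ S) (hxy : x + y ∈ S)
    (hs : s ∈ S) (e1 : B x y = 0) (e2 : B x z = 0) (e3 : B y z = 0) (f1 : B s x + B s y = 1)
    (f2 : B s x + B s z = 1) : x + z ∈ S := by
  have t := two_zero h2
  have c := two_comm hA hS h2
  have o := hA.self_eq_zero
  have s1 : s + y + z ∈ S := by
    by_cases h : B s y = 0
    · have h' : B s x = 1 := by linear_combination f1 - h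
      have := add_one' hS (add_one' hS hs hx h') hp (by
        simp only [map_add, LinearMap.add_apply, o, e1, e2]; linear_combination f2 + h)
      convert this using 1
      rw [show s + x + (x + y + z) = s + y + z + (x + x) by abel, two_self h2, add_zero]
    · exact add_one' hS (add_one' hS hs hy (h2 _ h)) hz (by
        simp only [map_add, LinearMap.add_apply, e3]; linear_combination f2 - f1 + h2 _ h)
  have s2 := add_one' hS hs hxy (by simpa using f1)
  have s3 := add_one' hS s2 s1 (by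
    simp only [map_add, LinearMap.add_apply, o, e1, e2, e3, c x s, c y s]
    linear_combination f2 + (B s y) * t)
  convert s3 using 1
  rw [show s + (x + y) + (s + y + z) = x + z + (s + s) + (y + y) by abel, two_self h2, two_self h2, add_zero, add_zero]

theorem add_small (hN : ∀ r, r ≠ 0 → ∃ s ∈ S, B s r ≠ 0) (h0 : (0 : V) ∉ S) {x y z w : V} (hx : x ∈ S) (hy : y ∈ S)
    (hz : z ∈ S) (hxy : x + y ∈ S) (hw : w ∈ S) (e1 : B x y = 0) (f1 : B y w ≠ 0) (f2 : B z w ≠ 0)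
    (hne : x + z ≠ 0) : x + z ∈ S := by
  have t := two_zero h2
  have c := two_comm hA hS h2
  have o := hA.self_eq_zero
  have f1 := h2 _ f1
  have f2 := h2 _ f2
  by_cases e2 : B x z = 0
  swap
  · exact add_one' hS hx hz (h2 _ e2)
  by_cases e3 : B y z = 0
  swap
  · exact lemQ hA hS h2 hy hxy hz e1 e2 (h2 _ e3)
  by_cases e4 : B x w = 0
  · exact lemQ hA hS h2 hw (lemQ hA hS h2 hy hxy hw e1 e4 f1) hz e4 e2 (by rw [c, f2])
  have e4 := h2 _ e4
  have e5 : B (x + y) w = 0 := by simp only [map_add, LinearMap.add_apply, e4, f1]; linear_combination t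
  have hp : x + y + z ∈ S := lemQ hA hS h2 hw (lemQ hA hS h2 hx
    (by rwa [add_right_comm, two_self h2, zero_add]) hw (by simp [o, c y x, e1]) e5 e4) hz e5 (by simp [e2, e3])
    (by rw [c, f2])
  obtain ⟨s', hs', g1⟩ := hN (x + y) (fun e => h0 (e ▸ hxy))
  have g1 := h2 _ g1
  rw [map_add] at g1
  by_cases g2 : B s' x + B s' z = 0
  swap
  · exact lemStar hA hS h2 hx hy hz hp hxy hs' e1 e2 e3 g1 (h2 _ g2)
  have hyz : y + z ∈ S := lemStar hA hS h2 hy hx hz (by rwa [add_comm y x]) (by rwa [add_comm y x]) hs'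
    (by rw [c, e1]) e3 e2 (by rwa [add_comm]) (by linear_combination g1 + g2 - (B s' x) * t)
  obtain ⟨s, hs, g3⟩ := hN (x + z) hne
  have g3 := h2 _ g3
  rw [map_add] at g3
  by_cases g4 : B s x + B s y = 0
  swap
  · exact lemStar hA hS h2 hx hy hz hp hxy hs e1 e2 e3 (h2 _ g4) g3
  rw [add_comm]
  exact lemStar hA hS h2 hz hy hx (by rwa [add_comm z y, add_comm, ← add_assoc]) (by rwa [add_comm z y]) hs
    (by rw [c, e3]) (by rw [c, e2]) (by rw [c, e1]) (by linear_combination g3 + g4 - (B s x) * t) (by rwa [add_comm])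

end

theorem prim_gen' [Fintype F] : ∃ b : F, b ≠ 0 ∧ (∀ t, t ≠ 0 → ∃ k : ℕ, b ^ k = t) ∧
    ∀ R : Subring F, b ∈ R → ∀ t, t ∈ R := by
  obtain ⟨ζ, h0, -, h⟩ := exists_prim F
  refine ⟨ζ, h0, h, fun R hR t => ?_⟩
  by_cases ht : t = 0
  · rw [ht]; exact R.zero_mem
  · obtain ⟨k, rfl⟩ := h t ht
    exact R.pow_mem hR k

variable [FiniteDimensional F V] (hB : B.Nondegenerate) (hA : B.IsAlt)

theorem tv_conj_mem {K : Subgroup (SG B)} {g : SG B} (hg : g ∈ K) {w : V} {c : F} (h : tv hA w c ∈ K) :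
    tv hA (g.1 w) c ∈ K := by
  rw [← conj_tv]; exact K.mul_mem (K.mul_mem hg h) (K.inv_mem hg)

include hB in
theorem sp_fin {K : Subgroup (SG B)} {v : SG B} (hv : v ∈ K) {a : V} (ha : ∀ c, tv hA a c ∈ K) (h1 : B a (v.1 a) ≠ 0)
    (hcyc : ∀ W : Submodule F V, a ∈ W → (∀ x ∈ W, v.1 x ∈ W) → W = ⊤)
    (h : (∀ x : F, ∃ c, c ≠ 0 ∧ c ≠ x) ∨ ((∀ x : F, x ≠ 0 → x = 1) ∧
      ∃ y, y ≠ 0 ∧ a + y ≠ 0 ∧ B a y = 0 ∧ tv hA y 1 ∈ K ∧ tv hA (a + y) 1 ∈ K)) : K = ⊤ := by
  have r := hA.isRefl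
  let S : Set V := {w | w ≠ 0 ∧ ∀ c, tv hA w c ∈ K}
  have hg : ∀ g ∈ K, ∀ w ∈ S, g.1 w ∈ S := fun g hg w hw =>
    ⟨by simpa using hw.1, fun c => tv_conj_mem hA hg (hw.2 c)⟩
  have hS : ∀ a ∈ S, ∀ b ∈ S, B a b ≠ 0 → ∀ c : F, a + c • b ∈ S := fun a ha b hb e c => by
    have := hg _ (hb.2 (c / B a b)) a ha
    rwa [tv_apply, div_mul_cancel₀ _ e] at this
  have a0 : a ∈ S := ⟨by rintro rfl; simp at h1, ha⟩
  let C : Set V := {b | b ∈ S ∧ ∃ w ∈ S, B a w ≠ 0 ∧ B b w ≠ 0}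
  have st : ∀ b ∈ C, ∀ b' ∈ S, B b b' ≠ 0 → b' ∈ C := fun b hb b' hb' e => ⟨hb', cm_step hA hS hb.2 hb.1 e⟩
  have aC : a ∈ C := ⟨a0, _, hg v hv a a0, h1, h1⟩
  have vC : ∀ b ∈ C, v.1 b ∈ C := by
    rintro b ⟨hb, w, hw, e1, e2⟩
    exact st _ (st _ (st a aC _ (hg v hv a a0) h1) _ (hg v hv w hw) (by rwa [SG.map])) _ (hg v hv b hb)
      (by rw [SG.map]; exact fun z => e2 (r _ _ z))
  have cm : ∀ b ∈ C, ∀ b' ∈ C, ∃ w ∈ S, B b w ≠ 0 ∧ B b' w ≠ 0 := by
    rintro b ⟨hb, w, hw, e1, e2⟩ b' ⟨hb', w', hw', e1', e2'⟩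
    exact cm_step hA hS (cm_step hA hS ⟨w, hw, e2, e1⟩ a0 e1') hw' (fun z => e2' (r _ _ z))
  have hN : ∀ x, x ≠ 0 → ∃ s ∈ C, B s x ≠ 0 := fun x hx => by
    by_contra! h
    have h2 := hcyc (Submodule.span F C) (Submodule.subset_span aC) (fun y hy => by
      induction hy using Submodule.span_induction with
      | mem y hy => exact Submodule.subset_span (vC y hy)
      | zero => simp
      | add y z _ _ h1 h2 => rw [map_add]; exact add_mem h1 h2
      | smul c y _ h1 => rw [map_smul]; exact Submodule.smul_mem _ c h1)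
    have h3 : Submodule.span F C ≤ LinearMap.ker (B.flip x) := Submodule.span_le.2 fun s hs => h s hs
    exact hx (hB.2 x fun y => h3 (h2 ▸ Submodule.mem_top : y ∈ _))
  have hadd : ∀ x ∈ C, ∀ z ∈ C, x + z ≠ 0 → x + z ∈ C := fun x hx z hz hne => by
    obtain ⟨s, hs, e⟩ := hN _ hne
    refine st s hs _ ?_ e
    rcases h with h | ⟨h2, y0, y1, y2, y3, y4, y5⟩
    · obtain ⟨w, hw, e1, e2⟩ := cm x hx z hz
      exact add_big hA hS h hx.1 hz.1 hw hs.1 e1 e2 (fun z => e (r _ _ (by simpa using z)))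
    have h01 : ∀ w, w ≠ 0 → tv hA w 1 ∈ K → w ∈ S := fun w w0 hw => ⟨w0, fun c => by
      by_cases c0 : c = 0
      · rw [c0, tv_zero]; exact K.one_mem
      · rwa [h2 c c0]⟩
    have L : ∀ p ∈ S, ∀ p' ∈ S, B p p' ≠ 0 → (∃ y ∈ S, p + y ∈ S ∧ B p y = 0) → ∃ y ∈ S, p' + y ∈ S ∧ B p' y = 0 := by
      rintro p hp p' hp' e ⟨y, hy, hy', e'⟩
      have h3 := (add_one' hS hp hp' (h2 _ e)).2 1
      have h4 : (tv hA (p + p') 1).1 p = p' := by
        rw [tv_apply, map_add, hA.self_eq_zero, h2 _ e, zero_add, mul_one, one_smul, ← add_assoc, two_self h2, zero_add]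
      generalize tv hA (p + p') 1 = g at h3 h4
      exact ⟨_, hg _ h3 y hy, by rw [← h4, ← map_add]; exact hg _ h3 _ hy', by rw [← h4, SG.map, e']⟩
    obtain ⟨w, hw, e1, e2⟩ := hx.2
    obtain ⟨y, hy, hxy, e3⟩ := L w hw x hx.1 (fun z => e2 (r _ _ z)) (L a a0 w hw e1 ⟨y0, h01 _ y1 y4, h01 _ y2 y5, y3⟩)
    have wC := st a aC w hw e1
    wlog yC : y ∈ C generalizing y
    · refine this (x + y) hxy (by rwa [← add_assoc, two_self h2, zero_add]) (by simp [e3, hA.self_eq_zero])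
        (st w wC _ hxy ?_)
      have : B w y = 0 := by_contra fun z => yC (st w wC y hy z)
      rw [map_add, this, add_zero]
      exact fun z => e2 (r _ _ z)
    obtain ⟨w', hw', f1, f2⟩ := cm y yC z hz
    exact add_small hA hS h2 (fun x hx => (hN x hx).imp fun s hs => ⟨hs.1.1, hs.2⟩) (fun z => z.1 rfl) hx.1 hy hz.1 hxy
      hw' e3 f1 f2 hne
  let W : Submodule F V :=
    { carrier := {x | x = 0 ∨ x ∈ C}
      zero_mem' := Or.inl rfl
      add_mem' := by
        rintro x z (rfl | hx) (rfl | hz)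
        · simp
        · exact Or.inr (by rwa [zero_add])
        · exact Or.inr (by rwa [add_zero])
        · exact (em (x + z = 0)).imp_right (hadd x hx z hz)
      smul_mem' := by
        rintro c x (rfl | ⟨hx, w, hw, e1, e2⟩)
        · simp
        · by_cases c0 : c = 0
          · simp [c0]
          · exact Or.inr ⟨⟨smul_ne_zero c0 hx.1, fun d => by rw [tv_smul]; exact hx.2 _⟩, w, hw, e1, by simp [c0, e2]⟩ }
  have hW := hcyc W (Or.inr aC) (by
    rintro x (rfl | hx)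
    · simp
    · exact Or.inr (vC x hx))
  refine eq_top_of_tv hB hA K fun w c => ?_
  rcases (hW ▸ Submodule.mem_top : w ∈ W) with rfl | hw
  · rw [tv_zero_vec]; exact K.one_mem
  · exact hw.1.2 c

/-- cyclic vectors -/
def Cyc (v : V ≃ₗ[F] V) (a : V) : Prop := ∀ W : Submodule F V, a ∈ W → (∀ x ∈ W, v x ∈ W) → W = ⊤

theorem Cyc.smul {v : V ≃ₗ[F] V} {a : V} (h : Cyc v a) {c : F} (hc : c ≠ 0) : Cyc v (c • a) := fun W ha hW =>
  h W ((W.smul_mem_iff hc).1 ha) hW

theorem Cyc.conj {v : V ≃ₗ[F] V} {a : V} (h : Cyc v a) (k : V ≃ₗ[F] V) : Cyc (k * v * k⁻¹) (k a) := fun W ha hW => by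
  have := h (W.comap k.toLinearMap) ha fun x hx => by simpa using hW _ hx
  rw [eq_top_iff] at this ⊢
  intro x _
  simpa using this (x := k.symm x) trivial

theorem Cyc.indep {v : V ≃ₗ[F] V} {a : V} (h : Cyc v a) (h3 : 3 ≤ finrank F V) (c : F) :
    LinearIndependent F ![a, v (v a) + c • v a] := by
  have key : v (v a) ∉ Submodule.span F {a, v a} := fun h1 => by
    have h2 := h (Submodule.span F {a, v a}) (Submodule.subset_span (by simp)) fun x hx => by
      obtain ⟨s, t, rfl⟩ := Submodule.mem_span_pair.1 hx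
      rw [map_add, map_smul, map_smul]
      exact add_mem (Submodule.smul_mem _ _ (Submodule.subset_span (by simp))) (Submodule.smul_mem _ _ h1)
    classical
    have h4 := finrank_span_finset_le_card (R := F) ({a, v a} : Finset V)
    rw [Set.finrank, Finset.coe_pair, h2, finrank_top] at h4
    have := Finset.card_le_two (a := a) (b := v a)
    omega
  rw [LinearIndependent.pair_iff]
  intro s t e
  by_cases t0 : t = 0
  · refine ⟨by_contra fun s0 => key ?_, t0⟩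
    rw [t0, zero_smul, add_zero, smul_eq_zero_iff_right s0] at e
    simp [e]
  · exact absurd (Submodule.mem_span_pair.2 ⟨-(s / t), -c, by
      rw [← sub_eq_zero, ← smul_eq_zero_iff_right (neg_ne_zero.2 t0), ← e]
      match_scalars <;> field_simp <;> ring⟩) key

include hB in
theorem sp_config (h3 : 3 ≤ finrank F V) {u : SG B} {a E y : V} (hc : Cyc u.1 a) {d : F}
    (hd : B a (u.1 (u.1 a)) + d * B (u.1 (u.1 a)) (u.1 a) * B a (u.1 a) = 0) (hy : LinearIndependent F ![E, y])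
    (e : B E y = 0) : ∃ k : SG B, k.1 a = E ∧ ∀ K : Subgroup (SG B), k * u * k⁻¹ ∈ K → tv hA E d ∈ K →
      ∃ g ∈ K, g.1 E = y := by
  obtain ⟨k, -, k1, k2⟩ := witt_two hB hA ⊤ (fun _ _ => trivial) (hc.indep h3 (d * B (u.1 (u.1 a)) (u.1 a))) hy
    (by rw [e, map_add, map_smul, smul_eq_mul, hd])
  refine ⟨k, k1, fun K hv ht => ⟨tv hA ((k * u * k⁻¹).1 E) d * (k * u * k⁻¹) * (k * u * k⁻¹),
    K.mul_mem (K.mul_mem (tv_conj_mem hA hv ht) hv) hv, ?_⟩⟩
  simp only [SG.mul_apply, ← k1, SG.inv_apply, tv_apply, SG.map, ← k2, map_add, map_smul]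

theorem conj_of {G : Type*} [Group G] {u z t : G} (h : u * z * u⁻¹ = z * t) : z⁻¹ * u * z⁻¹⁻¹ = t * u := by
  rw [inv_inv, mul_assoc, inv_mul_eq_iff_eq_mul, ← mul_assoc, ← h, inv_mul_cancel_right]

theorem sp_L1 {u : SG B} {E1 E2 : V} (u1 : u.1 E1 = E1) (u2 : u.1 E2 = E2 + E1) (e : B E1 E2 = 0) (c : F) :
    ∃ g : SG B, g * u * g⁻¹ = tv hA E1 (2 * c) * u := by
  refine ⟨(tv hA E2 c * tv hA (E2 - E1) (-c))⁻¹, conj_of ?_⟩
  rw [show u * (tv hA E2 c * tv hA (E2 - E1) (-c)) * u⁻¹ = (u * tv hA E2 c * u⁻¹) * (u * tv hA (E2 - E1) (-c) * u⁻¹) by group,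
    conj_tv, conj_tv, map_sub, u1, u2]
  have e' := hA.isRefl _ _ e
  refine SG.ext fun x => ?_
  simp only [SG.mul_apply, tv_apply, map_add, map_sub, map_smul, LinearMap.add_apply, LinearMap.sub_apply,
    LinearMap.smul_apply, hA.self_eq_zero, e, e', smul_eq_mul]
  module

theorem sp_L2 {u : SG B} {E1 E2 E3 : V} (u1 : u.1 E1 = E1) (u2 : u.1 E2 = E2 + E1) (u3 : u.1 E3 = E3 + E2)
    (e : B E1 E2 = 0) (f : B E1 E3 = 0) (c : F) :
    ∃ g : SG B, g * u * g⁻¹ = tv hA E1 (c * (1 + c * B E2 E3)) * u := by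
  refine ⟨(tv hA E2 c * tv hA (E3 + E1) (-c) * tv hA E3 c)⁻¹, conj_of ?_⟩
  rw [show u * (tv hA E2 c * tv hA (E3 + E1) (-c) * tv hA E3 c) * u⁻¹ =
      (u * tv hA E2 c * u⁻¹) * (u * tv hA (E3 + E1) (-c) * u⁻¹) * (u * tv hA E3 c * u⁻¹) by group,
    conj_tv, conj_tv, conj_tv, map_add, u1, u2, u3]
  have e' := hA.isRefl _ _ e
  have f' := hA.isRefl _ _ f
  refine SG.ext fun x => ?_
  simp only [SG.mul_apply, tv_apply, map_add, map_smul, LinearMap.add_apply,
    LinearMap.smul_apply, hA.self_eq_zero, e, e', f, f', smul_eq_mul, ← hA.neg_eq E2 E3]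
  module

theorem sp_torus [Fintype F] (h2 : (2 : F) = 0) {b b' : V} {c ρ : F} (h0 : ρ ≠ 0) (h1 : ρ ≠ 1)
    (hc : c * B b b' = ρ + ρ⁻¹) : (tv hA b' c * tv hA b c).1 (b + ρ • b') = ρ ^ 2 • (b + ρ • b') ∧
      (tv hA b' c * tv hA b c) ^ (Fintype.card F - 1) = 1 := by
  have key : ∀ ρ : F, ρ ≠ 0 → c * B b b' = ρ + ρ⁻¹ →
      (tv hA b' c * tv hA b c).1 (b + ρ • b') = ρ ^ 2 • (b + ρ • b') := fun ρ h0 hc => by
    have h3 : ρ * ρ⁻¹ = 1 := mul_inv_cancel₀ h0
    simp only [SG.mul_apply, tv_apply, map_add, map_smul, LinearMap.add_apply,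
      LinearMap.smul_apply, hA.self_eq_zero, smul_eq_mul, ← hA.neg_eq b b']
    generalize ρ⁻¹ = σ at *
    match_scalars
    · linear_combination -ρ * hc - h3 - ρ ^ 2 * h2
    · linear_combination (1 - ρ * (c * B b b' + ρ + σ)) * hc + (-2 * ρ - σ) * h3 - ρ ^ 3 * h2
  refine ⟨key ρ h0 hc, SG.ext fun x => ?_⟩
  set s := tv hA b' c * tv hA b c
  have hp : ∀ (y : V) (t : F), s.1 y = t • y → ∀ n : ℕ, (s ^ n).1 y = t ^ n • y := fun y t h n => by
    induction n with
    | zero => rw [pow_zero, pow_zero, one_smul]; rfl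
    | succ n ih => rw [pow_succ, SG.mul_apply, h, map_smul, ih, smul_smul, pow_succ']
  have h4 : ρ + ρ⁻¹ ≠ 0 := fun e => h1 (by
    field_simp at e
    have : (ρ - 1) ^ 2 = 0 := by linear_combination e - ρ * h2
    exact sub_eq_zero.1 (pow_eq_zero_iff two_ne_zero |>.1 this))
  have h5 : B b b' ≠ 0 := fun e => h4 (by rw [← hc, e, mul_zero])
  have k1 := hp _ _ (key ρ h0 hc) (Fintype.card F - 1)
  have k2 := hp _ _ (key ρ⁻¹ (inv_ne_zero h0) (by rw [hc, inv_inv, add_comm])) (Fintype.card F - 1)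
  rw [FiniteField.pow_card_sub_one_eq_one _ (pow_ne_zero 2 h0), one_smul] at k1
  rw [FiniteField.pow_card_sub_one_eq_one _ (pow_ne_zero 2 (inv_ne_zero h0)), one_smul] at k2
  have k3 : (s ^ (Fintype.card F - 1)).1 b' = b' := by
    have := congrArg₂ (· - ·) k1 k2
    simp only [← map_sub, add_sub_add_left_eq_sub, ← sub_smul, map_smul] at this
    exact smul_right_injective V (fun e => h4 (by linear_combination e + ρ⁻¹ * h2)) this
  have k4 : (s ^ (Fintype.card F - 1)).1 b = b := by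
    rwa [map_add, map_smul, k3, add_left_inj] at k1
  have k5 := hp (x - (B x b' / B b b') • b + (B x b / B b b') • b') 1 (by
    have e1 : B (x - (B x b' / B b b') • b + (B x b / B b b') • b') b = 0 := by
      simp only [map_add, map_sub, map_smul, LinearMap.add_apply, LinearMap.sub_apply,
        LinearMap.smul_apply, hA.self_eq_zero, smul_eq_mul, ← hA.neg_eq b b']
      field_simp; ring
    have e2 : B (x - (B x b' / B b b') • b + (B x b / B b b') • b') b' = 0 := by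
      simp only [map_add, map_sub, map_smul, LinearMap.add_apply, LinearMap.sub_apply,
        LinearMap.smul_apply, hA.self_eq_zero, smul_eq_mul]
      field_simp; ring
    rw [SG.mul_apply, tv_apply hA b, e1, mul_zero, zero_smul, add_zero, tv_apply, e2, mul_zero, zero_smul, add_zero,
      one_smul]) (Fintype.card F - 1)
  rw [one_pow, one_smul, map_add, map_sub, map_smul, map_smul, k3, k4, add_left_inj, sub_left_inj] at k5
  exact k5

/-- the parameters of the transvections with a given centre -/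
def tvD (K : Subgroup (SG B)) (w : V) : AddSubgroup F where
  carrier := {c | tv hA w c ∈ K}
  zero_mem' := by change _ ∈ K; rw [tv_zero]; exact K.one_mem
  add_mem' h h' := by change _ ∈ K; rw [tv_add]; exact K.mul_mem h h'
  neg_mem' h := by change _ ∈ K; rw [tv_neg]; exact K.inv_mem h

theorem tvD_all {K : Subgroup (SG B)} {w : V} {d : F} (h0 : d ≠ 0) (hd : tv hA w d ∈ K)
    (h : ∀ t, t ∈ mulR (RingHom.id F) (tvD hA K w)) (c : F) : tv hA w c ∈ K := by
  have := h (c / d) d hd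
  rwa [RingHom.id_apply, div_mul_cancel₀ _ h0] at this

set_option maxHeartbeats 800000 in
include hB hA in
theorem sp_three [Fintype F] (h3 : 3 ≤ finrank F V) {u : SG B} {E1 E2 E3 a b : V} (E0 : E1 ≠ 0) (u1 : u.1 E1 = E1)
    (u2 : u.1 E2 = E2 + E1) (u3 : u.1 E3 = E3 + E2) (e : B E1 E2 = 0) (f : B E1 E3 = 0)
    (hq : (∀ x : F, ∃ c, c ≠ 0 ∧ c ≠ x) ∨ B E2 E3 = 0) (hc : Cyc u.1 a) (ha : B a (u.1 a) ≠ 0)
    (hb : B E1 b = 0) (hb' : B (u.1 b) b ≠ 0) :
    ∃ g h : SG B, Subgroup.closure {u, g * u * g⁻¹, h * u * h⁻¹} = ⊤ := by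
  have r := hA.isRefl
  have ind : ∀ x : F, x ≠ 0 → LinearIndependent F ![E1, x • E2] := fun x hx => by
    rw [LinearIndependent.pair_iff]
    intro s t h
    have h1 := congrArg u.1 h
    rw [map_add, map_smul, map_smul, map_smul, u1, u2, map_zero, smul_add, smul_add, ← add_assoc, h, zero_add,
      smul_smul, smul_eq_zero_iff_left E0, mul_eq_zero_iff_right hx] at h1
    rw [h1, zero_smul, add_zero, smul_eq_zero_iff_left E0] at h
    exact ⟨h, h1⟩
  have g1 : B (u.1 (u.1 a)) (u.1 a) = -B a (u.1 a) := by rw [SG.map, hA.neg_eq]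
  have fin : ∀ (k : SG B) (x : F), x ≠ 0 → k.1 (x • a) = E1 → ∀ K : Subgroup (SG B), k * u * k⁻¹ ∈ K →
      (∀ c, tv hA E1 c ∈ K) → ((∀ x : F, ∃ c, c ≠ 0 ∧ c ≠ x) ∨ ((∀ x : F, x ≠ 0 → x = 1) ∧
      ∃ y, y ≠ 0 ∧ E1 + y ≠ 0 ∧ B E1 y = 0 ∧ tv hA y 1 ∈ K ∧ tv hA (E1 + y) 1 ∈ K)) → K = ⊤ :=
    fun k x hx hk K hv ht h => sp_fin hB hA hv ht (by
      rw [← hk, SG.mul_apply, SG.mul_apply, SG.inv_apply, SG.map]; simp [hx, ha]) (hk ▸ (hc.smul hx).conj k.1) h
  by_cases h2 : (2 : F) = 0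
  swap
  · obtain ⟨x, hx, -, -, hgen⟩ := exists_prim_sq F
    obtain ⟨d, d0, hd⟩ : ∃ d : F, d ≠ 0 ∧ (B a (u.1 (u.1 a)) / B a (u.1 a) ^ 2 = 0 ∨
        B a (u.1 (u.1 a)) / B a (u.1 a) ^ 2 = d) := by
      by_cases h : B a (u.1 (u.1 a)) / B a (u.1 a) ^ 2 = 0
      · exact ⟨1, one_ne_zero, Or.inl h⟩
      · exact ⟨_, h, Or.inr rfl⟩
    obtain ⟨g, hg⟩ := sp_L1 hA u1 u2 e (d / 2)
    rw [mul_div_cancel₀ _ h2] at hg
    obtain ⟨k, k1, hk⟩ := sp_config hB hA h3 hc (d := B a (u.1 (u.1 a)) / B a (u.1 a) ^ 2)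
      (by rw [g1]; field_simp; ring) (ind x hx) (by simp [e])
    refine ⟨g, k, ?_⟩
    set K := Subgroup.closure {u, g * u * g⁻¹, k * u * k⁻¹}
    have hu : u ∈ K := Subgroup.subset_closure (by simp)
    have hv : k * u * k⁻¹ ∈ K := Subgroup.subset_closure (by simp)
    have ht : tv hA E1 d ∈ K := (K.mul_mem_cancel_right hu).1 (hg ▸ Subgroup.subset_closure (by simp))
    obtain ⟨κ, hκ, κ1⟩ := hk K hv (by
      rcases hd with h | h <;> rw [h]
      · rw [tv_zero]; exact K.one_mem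
      · exact ht)
    refine fin k 1 one_ne_zero (by rw [one_smul, k1]) K hv (tvD_all hA d0 ht (hgen _ fun t ht => ?_))
      (Or.inl fun y => ?_)
    · have t1 : tv hA (x • E2) (t / 2) ∈ K := by
        have h4 := subring_inv (R := mulR (RingHom.id F) (tvD hA K E1)) (x := 2) (ofNat_mem _ 2) t ht
        rw [RingHom.id_apply, ← div_eq_inv_mul] at h4
        rw [← κ1]
        exact tv_conj_mem hA hκ h4
      have t2 := tv_conj_mem hA hu t1
      have t3 := tv_conj_mem hA (K.inv_mem hu) t1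
      have u4 : (u⁻¹).1 E2 = E2 - E1 := by
        rw [← u.1.injective.eq_iff, SG.apply_inv, map_sub, u1, u2, add_sub_cancel_right]
      rw [map_smul, u2] at t2
      rw [map_smul, u4] at t3
      have t4 := K.mul_mem (K.mul_mem t2 t3) (K.inv_mem (K.mul_mem t1 t1))
      rw [← tv_add, ← tv_neg] at t4
      change tv hA E1 (x ^ 2 * t) ∈ K
      convert t4 using 1
      have e' := r _ _ e
      refine SG.ext fun z => ?_
      simp only [SG.mul_apply, tv_apply, map_add, map_sub, map_smul, LinearMap.add_apply, LinearMap.sub_apply,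
        LinearMap.smul_apply, hA.self_eq_zero, e, e', smul_eq_mul]
      match_scalars <;> field_simp <;> ring
    · by_cases h : y = 1
      · exact ⟨-1, by simp, fun e => h2 (by linear_combination -e - h)⟩
      · exact ⟨1, one_ne_zero, fun e => h e.symm⟩
  have : CharP F 2 := CharTwo.of_one_ne_zero_of_two_eq_zero one_ne_zero h2
  obtain ⟨c, c0, c1⟩ : ∃ c : F, c ≠ 0 ∧ 1 + c * B E2 E3 ≠ 0 := by
    by_cases h : B E2 E3 = 0
    · exact ⟨1, one_ne_zero, by simp [h]⟩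
    · obtain ⟨c, c0, c1⟩ := hq.resolve_right h (-(B E2 E3)⁻¹)
      exact ⟨c, c0, fun e => c1 (by field_simp; linear_combination e)⟩
  obtain ⟨g, hg⟩ := sp_L2 hA u1 u2 u3 e f c
  have d0 := mul_ne_zero c0 c1
  generalize c * (1 + c * B E2 E3) = d at hg d0
  obtain ⟨x, x0, d', hd, hd'⟩ : ∃ x : F, x ≠ 0 ∧ ∃ d', (d' = 0 ∨ d' = d) ∧ B (x • a) (u.1 (u.1 (x • a))) +
      d' * B (u.1 (u.1 (x • a))) (u.1 (x • a)) * B (x • a) (u.1 (x • a)) = 0 := by
    by_cases h : B a (u.1 (u.1 a)) = 0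
    · exact ⟨1, one_ne_zero, 0, Or.inl rfl, by simp [h]⟩
    · obtain ⟨x, hx⟩ := (frobeniusEquiv F 2).surjective (B a (u.1 (u.1 a)) / (d * B a (u.1 a) ^ 2))
      rw [frobeniusEquiv_def] at hx
      refine ⟨x, fun e => ?_, d, Or.inr rfl, ?_⟩
      · rw [e, zero_pow two_ne_zero, eq_comm, div_eq_zero_iff] at hx
        exact hx.elim h (mul_ne_zero d0 (pow_ne_zero 2 ha))
      · simp only [map_smul, LinearMap.smul_apply, smul_eq_mul, g1]
        rw [eq_div_iff (mul_ne_zero d0 (pow_ne_zero 2 ha))] at hx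
        linear_combination -x ^ 2 * hx
  have hz : ∀ K : Subgroup (SG B), tv hA E1 d ∈ K → tv hA E1 d' ∈ K := fun K ht => by
    rcases hd with h | h <;> rw [h]
    · rw [tv_zero]; exact K.one_mem
    · exact ht
  by_cases hF : ∀ x : F, x ≠ 0 → x = 1
  · obtain ⟨k, k1, hk⟩ := sp_config hB hA h3 (hc.smul x0) hd' (ind 1 one_ne_zero) (by simp [e])
    refine ⟨g, k, ?_⟩
    set K := Subgroup.closure {u, g * u * g⁻¹, k * u * k⁻¹}
    have hu : u ∈ K := Subgroup.subset_closure (by simp)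
    have hv : k * u * k⁻¹ ∈ K := Subgroup.subset_closure (by simp)
    have ht : tv hA E1 d ∈ K := (K.mul_mem_cancel_right hu).1 (hg ▸ Subgroup.subset_closure (by simp))
    obtain ⟨κ, hκ, κ1⟩ := hk K hv (hz K ht)
    rw [hF d d0] at ht
    have t1 := tv_conj_mem hA hκ ht
    rw [κ1, one_smul] at t1
    have t2 := tv_conj_mem hA hu t1
    have i := LinearIndependent.pair_iff.1 (ind 1 one_ne_zero)
    refine fin k x x0 k1 K hv (fun c => ?_) (Or.inr ⟨hF, E2, fun z => one_ne_zero (i 0 1 (by simp [z])).2,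
      fun z => one_ne_zero (i 1 1 (by simpa using z)).1, e, t1, by rwa [u2, add_comm] at t2⟩)
    by_cases c0 : c = 0
    · rw [c0, tv_zero]; exact K.one_mem
    · rwa [hF c c0]
  obtain ⟨ρ, ρ0, hgen⟩ := prim_gen' (F := F)
  have ρ1 : ρ ≠ 1 := fun e => hF fun x hx => by
    obtain ⟨k, rfl⟩ := hgen.1 x hx
    rw [e, one_pow]
  have hb2 : B E1 (u.1 b) = 0 := by rw [← u1, SG.map, hb]
  obtain ⟨s1, s2⟩ := sp_torus hA h2 (b := u.1 b) (b' := b) (c := (ρ + ρ⁻¹) / B (u.1 b) b) ρ0 ρ1 (div_mul_cancel₀ _ hb')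
  generalize (ρ + ρ⁻¹) / B (u.1 b) b = c' at s1 s2
  obtain ⟨k, k1, hk⟩ := sp_config hB hA h3 (hc.smul x0) hd' (E := E1) (y := u.1 b + ρ • b) (by
    rw [LinearIndependent.pair_iff]
    intro s t h
    have h1 := congrArg (fun z => B z b) h
    simp [hb, hA.self_eq_zero, hb'] at h1
    rw [h1, zero_smul, add_zero, smul_eq_zero_iff_left E0] at h
    exact ⟨h, h1⟩) (by simp [hb, hb2])
  refine ⟨tv hA b c' * g, k, ?_⟩
  set K := Subgroup.closure {u, tv hA b c' * g * u * (tv hA b c' * g)⁻¹, k * u * k⁻¹}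
  have hu : u ∈ K := Subgroup.subset_closure (by simp)
  have hv : k * u * k⁻¹ ∈ K := Subgroup.subset_closure (by simp)
  have cm : ∀ w t, B E1 w = 0 → Commute (tv hA E1 d) (tv hA w t) := fun w t h => by
    rw [Commute.symm_iff, Commute, SemiconjBy, ← mul_inv_eq_iff_eq_mul, conj_tv, tv_apply, h]; simp
  have hy : tv hA E1 d * (tv hA b c' * tv hA (u.1 b) c') ∈ K := by
    have h1 := K.mul_mem (Subgroup.subset_closure (by simp) : tv hA b c' * g * u * (tv hA b c' * g)⁻¹ ∈ K) (K.inv_mem hu)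
    rw [show tv hA b c' * g * u * (tv hA b c' * g)⁻¹ * u⁻¹ = tv hA b c' * (g * u * g⁻¹) * u⁻¹ *
      (u * (tv hA b c')⁻¹ * u⁻¹) by group, hg, ← tv_neg, conj_tv, CharTwo.neg_eq, mul_assoc _ _ u⁻¹,
      mul_inv_cancel_right, ← (cm b c' hb).eq, mul_assoc] at h1
    exact h1
  have ht : tv hA E1 d ∈ K := by
    have h1 := K.pow_mem hy (Fintype.card F - 1)
    rw [((cm b c' hb).mul_right (cm _ c' hb2)).mul_pow, s2, mul_one] at h1
    have h4 : ∀ n : ℕ, tv hA E1 d ^ n = tv hA E1 (n * d) := fun n => by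
      induction n with
      | zero => simp [tv_zero]
      | succ n ih => rw [pow_succ, ih, ← tv_add, Nat.cast_succ, add_one_mul]
    rwa [h4, Nat.cast_pred Fintype.card_pos, FiniteField.cast_card_eq_zero, zero_sub, CharTwo.neg_eq, one_mul] at h1
  have hs := (K.mul_mem_cancel_left ht).1 hy
  obtain ⟨κ, hκ, κ1⟩ := hk K hv (hz K ht)
  refine fin k x x0 k1 K hv (tvD_all hA d0 ht (hgen.2 _ (mem_of_pow_char (p := 2) (e := 2) fun t ht => ?_)))
    (Or.inl fun y => ?_)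
  · have t1 := tv_conj_mem hA (K.mul_mem (K.inv_mem hκ) (K.mul_mem hs hκ)) ht
    rw [SG.mul_apply, SG.mul_apply, κ1, s1, map_smul, ← κ1, SG.inv_apply, tv_smul, ← pow_mul] at t1
    exact t1
  · by_cases h : y = 1
    · exact ⟨ρ, ρ0, h ▸ ρ1⟩
    · exact ⟨1, one_ne_zero, fun e => h e.symm⟩

end Cfsg.Agent.Pres.RU
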