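import Mathlib
import Cfsg.Agent.Pres.RU4

/-! Invariant forms of the Jordan block. -/

set_option autoImplicit false
set_option linter.unusedSectionVars false

namespace Cfsg.Agent.Pres.RU

open Matrix Cfsg.Agent.Classical.SpWitt Module

variable {F : Type*} [Field F] {n : ℕ}

theorem Jb_inv_mul : ((Jb n F)⁻¹).1 * (Jb n F).1 = 1 := congrArg Subtype.val (inv_mul_cancel (Jb n F))

theorem Jb_mul_inv : (Jb n F).1 * ((Jb n F)⁻¹).1 = 1 := congrArg Subtype.val (mul_inv_cancel (Jb n F))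

theorem nu_pow_eq_zero {k : ℕ} (h : n < k) : nu n F ^ k = 0 := by
  ext i j
  rw [nu_pow, if_neg (by omega)]
  rfl

theorem Ninv_pow (j : ℕ) : (((Jb n F)⁻¹).1 - 1) ^ j = (-((Jb n F)⁻¹).1) ^ j * nu n F ^ j := by
  have h1 : ((Jb n F)⁻¹).1 - 1 = -((Jb n F)⁻¹).1 * nu n F := by
    rw [← Jb_sub, mul_sub, neg_mul, Jb_inv_mul, mul_one]; abel
  have h2 : Commute (-((Jb n F)⁻¹).1) (nu n F) := by
    rw [← Jb_sub]
    have : Commute ((Jb n F)⁻¹).1 (Jb n F).1 := Jb_inv_mul.trans Jb_mul_inv.symm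
    exact (this.sub_right (Commute.one_right _)).neg_left
  rw [h1, h2.mul_pow]

/-- the polarity -/
def Th (ψ : Fin (n + 1) → F) : Matrix (Fin (n + 1)) (Fin (n + 1)) F :=
  Matrix.of fun j => ψ ᵥ* (((Jb n F)⁻¹).1 - 1) ^ (j : ℕ)

theorem nu_Th (ψ y : Fin (n + 1) → F) : (nu n F *ᵥ y) ᵥ* Th ψ = (y ᵥ* Th ψ) ᵥ* (((Jb n F)⁻¹).1 - 1) := by
  rw [vecMul_eq_sum, vecMul_eq_sum y, sum_vecMul, Fin.sum_univ_succ, Fin.sum_univ_castSucc, nu_mulVec_zero, zero_smul,
    zero_add]
  have h : ∀ j, Th ψ j = ψ ᵥ* (((Jb n F)⁻¹).1 - 1) ^ (j : ℕ) := fun _ => rfl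
  simp only [nu_mulVec_succ, h, smul_vecMul, vecMul_vecMul, ← pow_succ, Fin.val_succ, Fin.val_castSucc, Fin.val_last]
  rw [Ninv_pow (n + 1), nu_pow_eq_zero (Nat.lt_succ_self n), mul_zero, vecMul_zero, smul_zero, add_zero]

theorem Jb_Th (ψ y : Fin (n + 1) → F) : ((Jb n F).1 *ᵥ y) ᵥ* Th ψ = (y ᵥ* Th ψ) ᵥ* ((Jb n F)⁻¹).1 := by
  rw [Jb_coe, add_mulVec, one_mulVec, add_vecMul, nu_Th, vecMul_sub, vecMul_one, add_sub_cancel]

theorem av_succ' (j : ℤ) : av n F (j + 1) = (Jb n F).1 *ᵥ av n F j := by rw [← mul_av, zpow_one]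

theorem av_Th (ψ : Fin (n + 1) → F) (i : ℤ) : av n F i ᵥ* Th ψ = ψ ᵥ* (Jb n F ^ (-i)).1 := by
  induction i using Int.induction_on with
  | zero => rw [av_zero, single_one_vecMul, neg_zero, zpow_zero]; rfl
  | succ i ih => rw [av_succ', Jb_Th, ih, vecMul_vecMul, ← _root_.zpow_neg_one, zpow_coe_add, neg_add]
  | pred i ih =>
    have := congrArg (· ᵥ* (Jb n F).1) (Jb_Th ψ (av n F (-i - 1)))
    simp only [vecMul_vecMul _ ((Jb n F)⁻¹).1, Jb_inv_mul, vecMul_one] at this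
    rw [← this, ← av_succ', sub_add_cancel, ih, vecMul_vecMul, show -(-(i : ℤ) - 1) = - -i + 1 by ring, ← zpow_coe_add,
      zpow_one]

/-- the Jordan chain -/
def Ej (n : ℕ) (F : Type*) [Field F] (j : ℕ) : Fin (n + 1) → F := nu n F ^ j *ᵥ Pi.single 0 1

theorem Jb_Ej (j : ℕ) : (Jb n F).1 *ᵥ Ej n F j = Ej n F j + Ej n F (j + 1) := by
  rw [Jb_coe, add_mulVec, one_mulVec, Ej, Ej, mulVec_mulVec, pow_succ']

theorem Ej_zero {j : ℕ} (h : n < j) : Ej n F j = 0 := by rw [Ej, nu_pow_eq_zero h, zero_mulVec]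

theorem Ej_apply (j : ℕ) (i : Fin (n + 1)) : Ej n F j i = if (i : ℕ) = j then 1 else 0 := by
  simp [Ej, nu_pow]

theorem Ej_last : Ej n F n = Pi.single (Fin.last n) 1 := by
  ext i; simp [Ej_apply, Pi.single_apply, Fin.ext_iff]

theorem Ej_Th (ψ : Fin (n + 1) → F) (j : ℕ) : Ej n F j ᵥ* Th ψ = ψ ᵥ* (((Jb n F)⁻¹).1 - 1) ^ j := by
  induction j with
  | zero => rw [Ej, pow_zero, one_mulVec, single_one_vecMul]; rfl
  | succ j ih => rw [Ej, pow_succ', ← mulVec_mulVec, nu_Th, ← Ej, ih, vecMul_vecMul, pow_succ]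

theorem Ej_orth (ψ : Fin (n + 1) → F) {i j : ℕ} (h : n < j + i) : Ej n F i ⬝ᵥ (Ej n F j ᵥ* Th ψ) = 0 := by
  rw [Ej_Th, dotProduct_comm, ← dotProduct_mulVec, Ninv_pow, Ej, mulVec_mulVec, mul_assoc, ← pow_add, nu_pow_eq_zero h,
    mul_zero, zero_mulVec, dotProduct_zero]

theorem zpow_Ej (s : ℤ) : (Jb n F ^ s).1 *ᵥ Ej n F n = Ej n F n := by
  have h : (Jb n F).1 *ᵥ Ej n F n = Ej n F n := by rw [Jb_Ej, Ej_zero (Nat.lt_succ_self n), add_zero]
  exact (MulAction.stabilizer (SpecialLinearGroup (Fin (n + 1)) F) (Ej n F n)).zpow_mem h s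

theorem Ej_ps (t : ℤ) : Ej n F n ⬝ᵥ ps n F t = 1 := by
  rw [dotProduct_comm, ps, ← dotProduct_mulVec, zpow_Ej, Ej_last]; simp

theorem nu_pow_mulVec (d : ℕ) (x : Fin (n + 1) → F) (j : Fin (n + 1)) :
    (nu n F ^ d *ᵥ x) j = if h : d ≤ j then x ⟨j - d, by omega⟩ else 0 := by
  simp only [mulVec, dotProduct, nu_pow]
  split_ifs with h
  · rw [Finset.sum_eq_single ⟨j - d, by omega⟩]
    · simp [h]
    · intro b _ hb
      rw [if_neg (fun e => hb (Fin.ext (by simp; omega))), zero_mul]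
    · simp
  · exact Finset.sum_eq_zero fun b _ => by rw [if_neg (by omega), zero_mul]

theorem nu_pow_mem {W : Submodule F (Fin (n + 1) → F)} (hW : ∀ x ∈ W, (Jb n F).1 *ᵥ x ∈ W) (d : ℕ) :
    ∀ x ∈ W, nu n F ^ d *ᵥ x ∈ W := fun x hx => by
  induction d with
  | zero => simpa using hx
  | succ d ih =>
    have := W.sub_mem (hW _ ih) ih
    rwa [Jb_coe, add_mulVec, one_mulVec, add_sub_cancel_left, mulVec_mulVec, ← pow_succ'] at this

theorem eq_zero_of_inv {W : Submodule F (Fin (n + 1) → F)} (hW : ∀ x ∈ W, (Jb n F).1 *ᵥ x ∈ W)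
    (h : Ej n F n ∉ W) : ∀ x ∈ W, x = 0 := fun x hx => by
  ext i
  induction i using Fin.strong_induction_on with | _ i ih =>
  by_contra hi
  refine h ((W.smul_mem_iff hi).1 ?_)
  convert nu_pow_mem hW (n - i) x hx using 1
  ext j
  rw [nu_pow_mulVec, Pi.smul_apply, Ej_apply]
  split_ifs with h1 h2 h2
  · simp only [smul_eq_mul, mul_one]
    congr 1
    ext; simp; omega
  · omega
  · rw [smul_zero]
    exact (ih _ (by rw [Fin.lt_def]; simp; omega)).symm
  · exact smul_zero _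

theorem cyc_of {a : Fin (n + 1) → F} (h : a 0 ≠ 0) : Cyc (SpecialLinearGroup.toLin' (Jb n F)) a := fun W ha hW => by
  have key : ∀ k, k ≤ n + 1 → ∀ x : Fin (n + 1) → F, (∀ i : Fin (n + 1), (i : ℕ) + k ≤ n → x i = 0) → x ∈ W := by
    intro k
    induction k with
    | zero =>
      intro _ x hx
      rw [show x = 0 from funext fun i => hx i (by omega)]
      exact W.zero_mem
    | succ k ih =>
      intro hk x hx
      have h1 := W.smul_mem (x ⟨n - k, by omega⟩ / a 0) (nu_pow_mem hW (n - k) a ha)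
      rw [← W.sub_mem_iff_left h1]
      refine ih (by omega) _ fun i hi => ?_
      rw [Pi.sub_apply, Pi.smul_apply, nu_pow_mulVec]
      split_ifs with h2
      · have e1 : (⟨n - k, by omega⟩ : Fin (n + 1)) = i := Fin.ext (by simp; omega)
        have e2 : (⟨i - (n - k), by omega⟩ : Fin (n + 1)) = 0 := Fin.ext (by simp; omega)
        rw [e1, e2, smul_eq_mul, div_mul_cancel₀ _ h, sub_self]
      · rw [hx i (by omega), smul_zero, sub_zero]
  exact eq_top_iff.2 fun x _ => key (n + 1) le_rfl x fun i hi => by omega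

theorem span_av : Submodule.span F (Set.range (av n F)) = ⊤ := by
  refine cyc_of (a := av n F 0) (by simp [av_zero]) _ (Submodule.subset_span ⟨0, rfl⟩) fun x hx => ?_
  induction hx using Submodule.span_induction with
  | mem y hy =>
    obtain ⟨i, rfl⟩ := hy
    exact Submodule.subset_span ⟨i + 1, av_succ' i⟩
  | zero => simp
  | add y z _ _ h1 h2 => rw [map_add]; exact add_mem h1 h2
  | smul c y _ h1 => rw [map_smul]; exact Submodule.smul_mem _ c h1

theorem av_neg (r : ℕ) (i : Fin (n + 1)) : av n F (-(r + 1)) i = (-1) ^ (i : ℕ) * ((r + i).choose i : F) := by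
  have key : ∀ (j : ℤ) (x : Fin (n + 1) → F), (Jb n F).1 *ᵥ x = av n F (j + 1) → av n F j = x := fun j x h => by
    rw [av_succ'] at h
    simpa only [mulVec_mulVec, Jb_inv_mul, one_mulVec] using (congrArg (((Jb n F)⁻¹).1 *ᵥ ·) h).symm
  induction r generalizing i with
  | zero =>
    refine congrFun (key _ (fun i => (-1) ^ (i : ℕ) * ((0 + i : ℕ).choose i : F)) ?_) i
    rw [Jb_coe, add_mulVec, one_mulVec]
    ext i
    induction i using Fin.cases with
    | zero => simp [nu_mulVec_zero, av_zero]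
    | succ i => simp [nu_mulVec_succ, pow_succ, av_zero]
  | succ r ih =>
    refine congrFun (key _ (fun i => (-1) ^ (i : ℕ) * ((r + 1 + i : ℕ).choose i : F)) ?_) i
    rw [Jb_coe, add_mulVec, one_mulVec, show -(((r + 1 : ℕ) : ℤ) + 1) + 1 = -(r + 1) by push_cast; ring]
    ext i
    rw [ih]
    induction i using Fin.cases with
    | zero => simp [nu_mulVec_zero]
    | succ i =>
      simp only [Pi.add_apply, nu_mulVec_succ, Fin.val_succ, Fin.val_castSucc]
      rw [show r + 1 + (i + 1) = (r + 1 + i) + 1 by ring, Nat.choose_succ_succ', show r + (i + 1) = r + 1 + i by ring]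
      push_cast; ring

theorem gg_refl (k : ℤ) : gg n F (n - 1 - k) = (-1) ^ n * gg n F k := by
  have key : ∀ k : ℤ, n ≤ k → gg n F (n - 1 - k) = (-1) ^ n * gg n F k := fun k h => by
    obtain ⟨r, rfl⟩ : ∃ r : ℕ, k = (r + n : ℕ) := ⟨(k - n).toNat, by push_cast; omega⟩
    rw [gg_nat, show (n : ℤ) - 1 - (r + n : ℕ) = -(r + 1) by push_cast; ring, gg, av_neg, Fin.val_last]
  rcases le_or_gt (n : ℤ) k with h | h
  · exact key k h
  rcases le_or_gt 0 k with h' | h'
  · rw [gg_lt h' h, gg_lt (by omega) (by omega), mul_zero]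
  · have := key (n - 1 - k) (by omega)
    rw [sub_sub_cancel] at this
    rw [this, ← mul_assoc, ← mul_pow]; simp

theorem av_apply_zero (i : ℤ) : av n F i 0 = 1 := by
  rcases le_or_gt 0 i with h | h
  · lift i to ℕ using h
    simp [av_nat]
  · obtain ⟨r, rfl⟩ : ∃ r : ℕ, i = -(r + 1) := ⟨(-i - 1).toNat, by omega⟩
    rw [av_neg]; simp

/-- the invariant alternating form -/
noncomputable def Bm (k : ℕ) (F : Type*) [Field F] : LinearMap.BilinForm F (Fin (2 * k + 1 + 1) → F) :=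
  Matrix.toBilin' (Th (ps (2 * k + 1) F (-k)))ᵀ

variable {k : ℕ}

theorem Bm_apply (x y : Fin (2 * k + 1 + 1) → F) : Bm k F x y = x ⬝ᵥ (y ᵥ* Th (ps (2 * k + 1) F (-k))) := by
  rw [Bm, toBilin'_apply', mulVec_transpose]

theorem Bm_av' (x : Fin (2 * k + 1 + 1) → F) (i : ℤ) : Bm k F x (av _ F i) = x ⬝ᵥ ps (2 * k + 1) F (i - k) := by
  rw [Bm_apply, av_Th, ps_mul]; congr 2; ring

theorem Bm_av (j i : ℤ) : Bm k F (av _ F j) (av _ F i) = gg (2 * k + 1) F (j - i + k) := by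
  rw [Bm_av', dotProduct_comm, ps_av]; congr 1; ring

theorem Bm_alt : (Bm k F).IsAlt := by
  have h1 : ∀ x y, Bm k F x y + Bm k F y x = 0 := by
    have : Bm k F + (Bm k F).flip = 0 := LinearMap.ext_on_range span_av fun j => LinearMap.ext_on_range span_av fun i => by
      change Bm k F _ _ + Bm k F _ _ = 0
      have := gg_refl (n := 2 * k + 1) (F := F) (j - i + k)
      rw [Bm_av, Bm_av, show i - j + k = ((2 * k + 1 : ℕ) : ℤ) - 1 - (j - i + k) by push_cast; ring, this, pow_succ, pow_mul]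
      simp
    exact fun x y => LinearMap.congr_fun₂ this x y
  intro x
  have hx : x ∈ Submodule.span F (Set.range (av _ F)) := by rw [span_av]; trivial
  induction hx using Submodule.span_induction with
  | mem y hy =>
    obtain ⟨i, rfl⟩ := hy
    rw [Bm_av, gg_lt (by omega) (by push_cast; omega)]
  | zero => simp
  | add y z _ _ h2 h3 =>
    simp only [map_add, LinearMap.add_apply, h2, h3]
    linear_combination h1 y z
  | smul c y _ h2 => simp [h2]

theorem Bm_inv (x y : Fin (2 * k + 1 + 1) → F) : Bm k F ((Jb _ F).1 *ᵥ x) ((Jb _ F).1 *ᵥ y) = Bm k F x y := by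
  rw [Bm_apply, Bm_apply, Jb_Th, dotProduct_comm, ← dotProduct_mulVec, mulVec_mulVec, Jb_inv_mul, one_mulVec,
    dotProduct_comm]

theorem Bm_nondeg : (Bm k F).Nondegenerate := by
  refine (LinearMap.IsRefl.nondegenerate_iff_separatingRight (Bm_alt (k := k) (F := F)).isRefl).2 fun y hy => ?_
  refine eq_zero_of_inv (W := LinearMap.ker (Bm k F).flip) (fun y hy => ?_) (fun h => ?_) y (LinearMap.ext hy)
  · refine LinearMap.ext fun x => ?_
    change Bm k F x _ = 0
    rw [← one_mulVec x, ← Jb_mul_inv, ← mulVec_mulVec, Bm_inv]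
    exact LinearMap.congr_fun hy _
  · have := Bm_alt.isRefl _ _ (show Bm k F (av _ F 0) _ = 0 from LinearMap.congr_fun h (av _ F 0))
    rw [Bm_av', Ej_ps] at this
    exact one_ne_zero this

theorem closure_three_map {G H : Type*} [Group G] [Group H] (e : G ≃* H) {u g h : G}
    (hh : Subgroup.closure {u, g * u * g⁻¹, h * u * h⁻¹} = ⊤) :
    Subgroup.closure {e u, e g * e u * (e g)⁻¹, e h * e u * (e h)⁻¹} = ⊤ := by
  have := congrArg (Subgroup.map e.toMonoidHom) hh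
  rw [MonoidHom.map_closure, Subgroup.map_top_of_surjective _ e.surjective] at this
  simpa [Set.image_insert_eq] using this

theorem reg_toMatrix {ι : Type*} [Fintype ι] [DecidableEq ι] (b : Basis ι F (Fin (n + 1) → F)) {A : Matrix ι ι F}
    (h : ∀ x, Matrix.toLin b b A x = (Jb n F).1 *ᵥ x) : IsNilpotent (A - 1) ∧ (A - 1) ^ n ≠ 0 := by
  have h1 : ∀ m : ℕ, Matrix.toLinAlgEquiv b ((A - 1) ^ m) = Matrix.toLinAlgEquiv' (nu n F ^ m) := fun m => by
    rw [map_pow, map_pow, ← Jb_sub, map_sub, map_sub, map_one, map_one]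
    congr 2
    exact LinearMap.ext h
  refine ⟨⟨n + 1, (Matrix.toLinAlgEquiv b).injective ?_⟩, fun e => nu_ne (n := n) (F := F)
    (Matrix.toLinAlgEquiv'.injective ?_)⟩
  · rw [h1, nu_pow_eq_zero (Nat.lt_succ_self n), map_zero, map_zero]
  · rw [← h1, e, map_zero, map_zero]

theorem sp_main [Fintype F] (h22 : ¬ (k = 0 ∧ Fintype.card F = 2)) :
    ∃ u g h : Matrix.symplecticGroup (Fin (k + 2)) F, IsNilpotent (u.1 - 1) ∧ (u.1 - 1) ^ (2 * (k + 1) + 1) ≠ 0 ∧
      Subgroup.closure {u, g * u * g⁻¹, h * u * h⁻¹} = ⊤ := by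
  let u : SG (Bm (k + 1) F) := ⟨SpecialLinearGroup.toLin' (Jb _ F), Bm_inv⟩
  have hu : ∀ x, u.1 x = (Jb _ F).1 *ᵥ x := fun _ => rfl
  have hq : (∀ x : F, ∃ c, c ≠ 0 ∧ c ≠ x) ∨ 1 ≤ k := by
    by_contra! h
    obtain ⟨⟨x, hx⟩, h⟩ := h
    refine h22 ⟨by omega, ?_⟩
    classical
    rw [← Finset.card_univ, Finset.card_eq_two]
    refine ⟨0, 1, zero_ne_one, Finset.ext fun y => ?_⟩
    by_cases y0 : y = 0
    · simp [y0]
    · simp [hx y y0, hx 1 one_ne_zero]
  have z : ∀ j : ℤ, 0 ≤ j → j < 2 * k + 3 → gg (3 + k * 2) F j = 0 := fun j h h' => gg_lt h (by push_cast; omega)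
  have o : gg (3 + k * 2) F (3 + k * 2) = 1 := by
    rw [← gg_self (n := 3 + k * 2) (F := F)]; congr 1
  obtain ⟨c, c0, c1⟩ : ∃ c : F, c ≠ 0 ∧ c ≠ -gg (3 + k * 2) F (-1 + k) := by
    rcases hq with h | h
    · exact h _
    · exact ⟨1, one_ne_zero, by rw [z _ (by omega) (by omega)]; simp⟩
  have m1 : gg (3 + k * 2) F (-1) = -1 := by rw [gg_neg, pow_add, mul_comm k, pow_mul]; norm_num
  obtain ⟨g, h, hh⟩ := sp_three Bm_nondeg Bm_alt (by simp; omega) (u := u) (E1 := Ej _ F (2 * (k + 1) + 1))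
    (E2 := Ej _ F (2 * (k + 1))) (E3 := Ej _ F (2 * k + 1)) (a := av _ F 1 + c • (av _ F 0 - av _ F (k + 1)))
    (b := av _ F 0 - av _ F (k + 1)) (by simp [Ej_last]) (by rw [hu, Jb_Ej, Ej_zero (Nat.lt_succ_self _), add_zero])
    (Jb_Ej _) (Jb_Ej _) (by rw [Bm_apply, Ej_orth _ (by omega)]) (by rw [Bm_apply, Ej_orth _ (by omega)])
    (hq.imp_right fun h => by rw [Bm_apply, Ej_orth _ (by omega)]) (cyc_of (by simp [av_apply_zero])) (by
      simp only [hu, mulVec_add, mulVec_sub, mulVec_smul, ← av_succ', map_add, map_sub, map_smul, LinearMap.add_apply,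
        LinearMap.sub_apply, LinearMap.smul_apply, Bm_av, smul_eq_mul]
      push_cast
      ring_nf
      rw [m1, z k (by omega) (by omega), z (k * 2) (by omega) (by omega), z (1 + k) (by omega) (by omega),
        z 0 (by omega) (by omega), z (1 + k * 2) (by omega) (by omega)]
      exact fun e => mul_ne_zero c0 (sub_ne_zero.2 c1) (by linear_combination e)) (by rw [map_sub, Bm_av', Bm_av', Ej_ps, Ej_ps, sub_self]) (by
      simp only [hu, mulVec_sub, ← av_succ', map_sub, LinearMap.sub_apply, Bm_av]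
      push_cast
      ring_nf
      rw [o, z 1 (by omega) (by omega), z (2 + k) (by omega) (by omega)]
      simp)
  obtain ⟨m, b, h1, hb⟩ := Classical.SpSimple.exists_basis_J (Bm_nondeg (k := k + 1) (F := F)) Bm_alt
  obtain rfl : m = k + 2 := by simp at h1; omega
  let e := (Classical.SpMat.sgEquiv b hb).symm
  have := reg_toMatrix b (A := (e u).1) fun x => by
    rw [← Classical.SpMat.sgEquiv_apply b hb, MulEquiv.apply_symm_apply, hu]
  exact ⟨e u, e g, e h, this.1, this.2, closure_three_map e hh⟩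

end Cfsg.Agent.Pres.RU
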