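import Mathlib
import Cfsg.Agent.Pres.RU5
import Cfsg.Agent.Herm.Matrix
import Cfsg.Agent.Herm.SU

/-! Subgroups of unitary groups containing Eichler transformations. -/

set_option autoImplicit false
set_option linter.unusedSectionVars false

namespace Cfsg.Agent.Pres.RU

open Cfsg.Agent.Herm Module

variable {F V : Type*} [Field F] [AddCommGroup V] [Module F V] [FiniteDimensional F V]
  {σ : F →+* F} {B : V →ₛₗ[σ] V →ₗ[F] F} (hB : HF B) {K : Subgroup (UG B)}

/-- the Eichler transformations in `K` with centre `e` -/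
def AE (K : Subgroup (UG B)) {e : V} (he : B e e = 0) : AddSubgroup V where
  carrier := {w | B e w = 0 ∧ ∃ l, l + σ l = B w w ∧ hB.eich e w l ∈ K}
  zero_mem' := ⟨map_zero _, 0, by simp, by rw [hB.eich_zero he, neg_zero, hB.qr_zero]; exact K.one_mem⟩
  add_mem' := by
    rintro v w ⟨h1, l, h2, h3⟩ ⟨h4, m, h5, h6⟩
    exact ⟨by rw [map_add, h1, h4, add_zero], _, hB.trace_add h2 h5, by
      rw [← hB.eich_mul he h1 h2 h4 h5]; exact K.mul_mem h3 h6⟩
  neg_mem' := by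
    rintro v ⟨h1, l, h2, h3⟩
    exact ⟨by rw [map_neg, h1, neg_zero], σ l, by simp [hB.invol, ← h2, add_comm], by
      rw [← hB.eich_inv he h1 h2]; exact K.inv_mem h3⟩

theorem AE_self {e : V} (he : B e e = 0) (c : F) : c • e ∈ AE hB K he := by
  refine ⟨by simp [he], σ c - c, by simp [he, hB.invol], ?_⟩
  have := hB.eich_add_smul (v := 0) (l := σ c - c) he (map_zero _) (by simp [hB.invol]) c
  rw [zero_add] at this
  rw [this, sub_add_cancel, sub_self, hB.eich_zero he, neg_zero, hB.qr_zero]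
  exact K.one_mem

theorem AE_map {e e' : V} {he : B e e = 0} (he' : B e' e' = 0) {g : UG B} (hg : g ∈ K) {c : F} (h : g.1 e = c • e')
    {w : V} (hw : w ∈ AE hB K he) (c0 : c ≠ 0) : σ c • g.1 w ∈ AE hB K he' := by
  obtain ⟨h1, l, h2, h3⟩ := hw
  have h4 : B e' (g.1 w) = 0 := by
    rw [← UG.map_b g, h, b_smul_left] at h1
    exact (mul_eq_zero.1 h1).resolve_left (by simpa using c0)
  have h5 : l + σ l = B (g.1 w) (g.1 w) := by rw [UG.map_b, h2]
  refine ⟨by simp [h4], c * σ c * l, by simp [hB.invol, ← h2]; ring, ?_⟩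
  rw [← hB.eich_smul_left he' h4 h5, ← h, ← hB.eich_conj]
  exact K.mul_mem (K.mul_mem hg h3) (K.inv_mem hg)

theorem AE_map' {e e' : V} {he : B e e = 0} (he' : B e' e' = 0) {g : UG B} (hg : g ∈ K) (h : g.1 e = e')
    {w : V} (hw : w ∈ AE hB K he) : g.1 w ∈ AE hB K he' := by
  simpa using AE_map hB he' hg (c := 1) (by rw [h, one_smul]) hw one_ne_zero

theorem AE_act {e e' : V} {he : B e e = 0} {he' : B e' e' = 0} (h : B e' e = 0) {w w' : V} (hw : w ∈ AE hB K he)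
    (hw' : w' ∈ AE hB K he') (h' : B w' e = 0) :
    ∃ l, (B w' w - l * B e' w) • e' - B e' w • w' ∈ AE hB K he := by
  obtain ⟨h1, l, h2, h3⟩ := hw'
  have := (AE hB K he).sub_mem (AE_map' hB he h3 (hB.eich_apply_of_orth l h h') hw) hw
  rw [hB.eich_apply he' h1 h2] at this
  exact ⟨l, by convert this using 1; abel⟩

theorem full_of {e d : V} (he : B e e = 0) (h : ∀ w, B e w = 0 → w ∈ AE hB K he) (hd : B e d = 0) (hd' : B d d ≠ 0)
    (w : V) (l : F) : hB.eich e w l ∈ K := by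
  by_cases hv : B e e = 0 ∧ B e w = 0 ∧ l + σ l = B w w
  swap
  · rw [hB.eich_of_not hv]; exact K.one_mem
  obtain ⟨-, h1, h2⟩ := hv
  obtain ⟨-, m, h3, h4⟩ := h w h1
  obtain ⟨b, hb⟩ := hB.exists_sub (c := (l - m) / B d d) (by
    rw [map_div₀, hB.fix, ← add_div, map_sub]; exact div_eq_zero_iff.2 (Or.inl (by linear_combination h2 - h3)))
  obtain ⟨h5, l1, h6, h7⟩ := h d hd
  obtain ⟨h8, l2, h9, h10⟩ := h (b • d) (by simp [hd])
  have h11 := K.mul_mem (K.mul_mem (K.mul_mem h7 h10) (K.inv_mem h7)) (K.inv_mem h10)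
  rw [← commutatorElement_def, hB.eich_commutator he h5 h6 h8 h9, hB.tv_eq_eich he] at h11
  have h12 : -(B (b • d) d - B d (b • d)) = l - m := by
    rw [eq_div_iff hd'] at hb
    simp only [b_smul_left, map_smul, smul_eq_mul]
    linear_combination hb
  have := K.mul_mem h4 h11
  rwa [h12, hB.eich_mul he h1 h3 (map_zero _) (by simp; linear_combination h2 - h3), add_zero, map_zero, add_zero,
    add_sub_cancel] at this

theorem su_fin [Finite F] (hn : 2 ≤ finrank F V) {e : V} (he : B e e = 0) (h : ∀ w l, hB.eich e w l ∈ K) {g : UG B}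
    (hg : g ∈ K) (hge : B e (g.1 e) ≠ 0) : SUG B ≤ K := by
  have inv : ∀ g ∈ K, ∀ x, (∀ w l, hB.eich x w l ∈ K) → ∀ w l, hB.eich (g.1 x) w l ∈ K := fun g hg x hx w l => by
    rw [← UG.apply_inv_self g w, ← hB.eich_conj]
    exact K.mul_mem (K.mul_mem hg (hx _ _)) (K.inv_mem hg)
  have sc : ∀ (x : V) (c : F), c ≠ 0 → (∀ w l, hB.eich (c • x) w l ∈ K) → ∀ w l, hB.eich x w l ∈ K := fun x c c0 hx w l => by
    by_cases hv : B x x = 0 ∧ B x w = 0 ∧ l + σ l = B w w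
    · have := hB.eich_smul_left (u := c • x) (by simp [hv.1]) (by simp [hv.2.1]) hv.2.2 c⁻¹
      rw [inv_smul_smul₀ c0] at this
      rw [this]; exact hx _ _
    · rw [hB.eich_of_not hv]; exact K.one_mem
  have opp : ∀ u y x, B u u = 0 → B y y = 0 → B x x = 0 → B u y ≠ 0 → B u x ≠ 0 → (∀ w l, hB.eich u w l ∈ K) →
      (∀ w l, hB.eich y w l ∈ K) → ∀ w l, hB.eich x w l ∈ K := fun u y x hu hy hx h1 h2 f1 f2 => by
    obtain ⟨w, l, e⟩ := hB.eich_trans_opp hu hx hy h2 h1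
    exact sc x _ (div_ne_zero h1 h2) (e ▸ inv _ (f1 w l) y f2)
  have h1 : ∀ x, B x x = 0 → B e x ≠ 0 → ∀ w l, hB.eich x w l ∈ K := fun x hx h2 =>
    opp e (g.1 e) x he (by simp [he]) hx hge h2 h (inv g hg e h)
  rw [← hB.eichGroup_eq hn, HF.eichGroup, Subgroup.closure_le]
  rintro _ ⟨x, w, l, rfl⟩
  by_cases hx : B x x = 0
  swap
  · rw [hB.eich_of_not (fun h => hx h.1)]; exact K.one_mem
  by_cases h2 : B e x = 0
  swap
  · exact h1 x hx h2 w l
  by_cases h3 : x ∈ Submodule.span F {e}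
  · obtain ⟨c, rfl⟩ := Submodule.mem_span_singleton.1 h3
    by_cases hv : B e w = 0 ∧ l + σ l = B w w
    · rw [hB.eich_smul_left he hv.1 hv.2]; exact h _ _
    · by_cases c0 : c = 0
      · by_cases hl : l + σ l = B w w
        · have : hB.eich (c • e) w l = 1 := UG.ext fun y => by
            rw [hB.eich_apply hx (by simp [c0]) hl]; simp [c0]
          rw [this]; exact K.one_mem
        · rw [hB.eich_of_not (fun h => hl h.2.2)]; exact K.one_mem
      · rw [hB.eich_of_not (fun h => hv ⟨by simpa [c0] using h.2.1, h.2.2⟩)]; exact K.one_mem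
  obtain ⟨r, r1, r2, r3⟩ := hB.exists_iso_pair (ne_zero_of_b hge) hx h2 h3 1
  exact opp r e x r1 he hx (by rw [hB.one_symm r2]; exact one_ne_zero) (by rw [hB.one_symm r3]; exact one_ne_zero)
    (h1 r r1 (by rw [r2]; exact one_ne_zero)) h w l

theorem indep3 {a b c : V} (a0 : a ≠ 0) (h1 : B b a = 0) (h2 : B c a = 0) (h3 : B b b = 0) (h4 : B c c = 0)
    (h5 : B b c ≠ 0) (h6 : B c b ≠ 0) : LinearIndependent F ![a, b, c] := by
  rw [Fintype.linearIndependent_iff]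
  intro g hg
  simp only [Fin.sum_univ_three, Matrix.cons_val_zero, Matrix.cons_val_one, Matrix.cons_val] at hg
  have e2 : g 2 = 0 := by simpa [h1, h3, h5] using congrArg (B b) hg
  have e1 : g 1 = 0 := by simpa [h2, h4, h6] using congrArg (B c) hg
  have e0 : g 0 = 0 := by simpa [e1, e2, a0] using hg
  intro i
  fin_cases i <;> assumption

include hB in
theorem fix_detU (k : UG B) {d : V} (hd : B d d ≠ 0) : ∃ c, hB.qr d c * k ∈ SUG B := by
  have h1 : σ (detU B k : F) * detU B k = 1 := hB.detU_mem k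
  have h0 : (detU B k : F) ≠ 0 := Units.ne_zero _
  have h2 : σ (detU B k : F) ≠ 0 := by simpa using h0
  refine ⟨(σ (detU B k : F) - 1) / B d d, ?_⟩
  rw [mem_SUG, map_mul, Units.val_mul, hB.detU_qr, div_mul_cancel₀ _ hd, add_sub_cancel, h1]
  rw [map_div₀, hB.fix, map_sub, map_one, hB.invol]
  field_simp
  linear_combination h1

include hB in
theorem su_big [Fintype F] {u : UG B} {E w ε d a : V} (E0 : E ≠ 0) (hE : B E E = 0) (u1 : u.1 E = E) (hw : B E w = 0)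
    (hA : ∀ A : AddSubgroup V, (∀ x ∈ A, u.1 x ∈ A) → u.1 w - w ∈ A → ε ∈ A ∧ d ∈ A)
    (e1 : B E ε = 0) (e2 : B ε ε = 0) (e3 : B E d = 0) (e4 : B ε d = 0) (hd : B d d ≠ 0)
    (hε : ε ∉ Submodule.span F {E})
    (hc : ∀ x, B E x = 0 → B ε x ≠ 0 → ∀ W : Submodule F V, x ∈ W → (∀ y ∈ W, u.1 y ∈ W) → ∀ y, B E y = 0 → y ∈ W)
    (a0 : B a a = 0) (a1 : B a (u.1 a) = 0) (a2 : B a (u.1 (u.1 a)) ≠ 0) :
    ∃ g ∈ SUG B, ∃ k ∈ SUG B, ∀ K : Subgroup (UG B), u ∈ K → g * u * g⁻¹ ∈ K → k * u * k⁻¹ ∈ K → SUG B ≤ K := by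
  have z := @hB.zero_symm
  obtain ⟨ζ, ζ0, hgen⟩ := prim_gen (F := F)
  obtain ⟨l, hl⟩ := hB.exists_trace (hB.fix w)
  obtain ⟨f, f1, f2, f3⟩ := hB.exists_hyp_partner (Submodule.span F {E, d}) (x := ε) (fun h => by
      obtain ⟨s, t, h⟩ := Submodule.mem_span_pair.1 h
      have : t = 0 := by simpa [z e3, z e4, hd] using congrArg (B d) h
      exact hε (Submodule.mem_span_singleton.2 ⟨s, by simpa [this] using h⟩)) e2 (fun y hy => by
      obtain ⟨s, t, rfl⟩ := Submodule.mem_span_pair.1 hy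
      simp [z e1, e4])
  have fE : B f E = 0 := f1 E (Submodule.subset_span (by simp))
  have fd : B f d = 0 := f1 d (Submodule.subset_span (by simp))
  have f2' := hB.one_symm f2
  set γ := B (u.1 a) ((u⁻¹).1 a) with hγ
  have γ0 : γ ≠ 0 := fun e => a2 (z (by rwa [hγ, UG.b_inv_right] at e))
  have γ1 : σ γ ≠ 0 := by simpa using γ0
  obtain ⟨t, ht⟩ := hB.exists_trace (c := -(σ ζ * ζ / B d d)) (by simp [hB.fix, hB.invol, mul_comm])
  obtain ⟨e'', he''⟩ : ∃ x, x = γ • ε + (σ ζ / B d d) • d + (t / σ γ) • f := ⟨_, rfl⟩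
  have g1 : B E e'' = 0 := by simp [he'', e1, e3, z fE]
  have g2 : B f e'' = γ := by simp [he'', f2', fd, f3]
  have g3 : B e'' d = ζ := by simp [he'', e4, fd, hB.invol, hB.fix, hd]
  have g4 : B e'' e'' = 0 := by
    simp only [he'', map_add, map_smul, LinearMap.add_apply, b_smul_left, smul_eq_mul, e2, e4, z e4, f2, f2', fd, z fd,
      f3, map_div₀, hB.invol, hB.fix]
    field_simp at ht ⊢
    linear_combination σ γ * γ * ht
  have g5 : B e'' f = σ γ := by rw [← hB.symm, g2]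
  have a3 : B ((u⁻¹).1 a) a = 0 := by rw [UG.b_inv_left, a1]
  have a4 : B ((u⁻¹).1 a) ((u⁻¹).1 a) = 0 := by rw [UG.map_b, a0]
  have a5 : B ((u⁻¹).1 a) (u.1 a) = σ γ := by rw [hγ, hB.symm]
  obtain ⟨k0, hk0⟩ := hB.witt_family ![a, u.1 a, (u⁻¹).1 a] ![E, f, e'']
    (indep3 (ne_zero_of_b a2) (z a1) a3 (by simp [a0]) a4 γ0 (fun e => γ0 (z e)))
    (indep3 E0 fE (z g1) f3 g4 (g2 ▸ γ0) (g5 ▸ γ1)) (fun i j => by
      have a6 := z a3
      have a7 := hγ.symm
      generalize (u⁻¹).1 a = b at a3 a4 a5 a6 a7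
      fin_cases i <;> fin_cases j <;>
        simp [hE, a0, a1, z fE, g1, fE, z a1, f3, g2, z g1, a3, a4, a5, a6, a7, g5, g4])
  obtain ⟨c, hc'⟩ := fix_detU hB k0 (d := d - (ζ / σ γ) • f) (by simp [fd, z fd, f3, hd])
  have k1 : (hB.qr (d - (ζ / σ γ) • f) c * k0).1 a = E := by
    rw [UG.mul_apply, show k0.1 a = E from hk0 0, hB.qr_apply_of_orth _ (by simp [z e3, fE])]
  have k2 : (hB.qr (d - (ζ / σ γ) • f) c * k0).1 (u.1 a) = f := by
    rw [UG.mul_apply, show k0.1 (u.1 a) = f from hk0 1, hB.qr_apply_of_orth _ (by simp [z fd, f3])]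
  have k3 : (hB.qr (d - (ζ / σ γ) • f) c * k0).1 ((u⁻¹).1 a) = e'' := by
    rw [UG.mul_apply, show k0.1 ((u⁻¹).1 a) = e'' from hk0 2, hB.qr_apply_of_orth _ (z (by simp [g3, g5, γ1]))]
  generalize hB.qr (d - (ζ / σ γ) • f) c * k0 = k at hc' k1 k2 k3
  refine ⟨hB.eich E w l, hB.eich_mem_SUG _ _ _, k, hc', fun K hu h2 hv => ?_⟩
  have v1 : (k * u * k⁻¹).1 E = f := by rw [← k1, ← k2]; simp
  have v2 : (k * u * k⁻¹).1 e'' = E := by rw [← k1, ← k3]; simp
  have v3 : B E ((k * u * k⁻¹ * (k * u * k⁻¹)).1 E) ≠ 0 := by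
    rw [UG.mul_apply, v1, ← k1, ← k2]; simpa using a2
  have hv2 := K.mul_mem hv hv
  generalize k * u * k⁻¹ = v at hv v1 v2 v3 hv2
  have hinv : ∀ x ∈ AE hB K hE, u.1 x ∈ AE hB K hE := fun x hx => AE_map' hB hE hu u1 hx
  obtain ⟨hε', hd'⟩ := hA (AE hB K hE) hinv (by
    have h3 := K.mul_mem hu (K.inv_mem h2)
    have h4 : B E (u.1 w) = 0 := by rw [← u1, UG.map_b, hw]
    have h5 : l + σ l = B (u.1 w) (u.1 w) := by rw [UG.map_b, hl]
    have h6 : σ l + σ (σ l) = B (-w) (-w) := by simp [hB.invol, ← hl, add_comm]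
    rw [show u * (hB.eich E w l * u * (hB.eich E w l)⁻¹)⁻¹ = u * hB.eich E w l * u⁻¹ * (hB.eich E w l)⁻¹ by group,
      hB.eich_conj, u1, hB.eich_inv hE hw hl, hB.eich_mul hE h4 h5 (by simp [hw]) h6] at h3
    rw [sub_eq_add_neg]
    exact ⟨by simp [h4, hw], _, hB.trace_add h5 h6, h3⟩)
  have hw' := AE_map' hB f3 hv v1 hd'
  have p1 : B E (v.1 d) = ζ := by rw [← v2, UG.map_b, g3]
  have R : ∀ {e e' : V} (he : B e e = 0) (he' : B e' e' = 0), B e' e = 0 → B d e = 0 → ∀ x ∈ AE hB K he,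
      ∀ c κ : F, c • d + κ • e ∈ AE hB K he' → ∃ κ' : F, (B e' x * c) • d + κ' • e' ∈ AE hB K he := by
    intro e e' he he' h1 h2 x hx c κ h3
    obtain ⟨l, h4⟩ := AE_act hB h1 hx h3 (by simp [h2, he])
    refine ⟨-(B (c • d + κ • e) x - l * B e' x), ?_⟩
    convert (AE hB K he).sub_mem ((AE hB K he).neg_mem h4) (AE_self hB he (B e' x * κ)) using 1
    module
  let S : AddSubgroup F :=
    { carrier := {c | ∃ κ : F, c • d + κ • f ∈ AE hB K hE}
      zero_mem' := ⟨0, by simp⟩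
      add_mem' := by
        rintro c c' ⟨κ, h⟩ ⟨κ', h'⟩
        exact ⟨κ + κ', by convert add_mem h h' using 1; module⟩
      neg_mem' := by
        rintro c ⟨κ, h⟩
        exact ⟨-κ, by convert neg_mem h using 1; module⟩ }
  have hS := hgen (mulR (RingHom.id F) S) (by
    rintro c ⟨κ, h⟩
    obtain ⟨κ1, h1⟩ := R f3 hE (z fE) (z fd) _ hw' c κ h
    obtain ⟨κ2, h2⟩ := R hE f3 fE (z e3) _ hε' _ κ1 h1
    rw [f2', one_mul, p1] at h2
    exact ⟨κ2, h2⟩)
  have hf : ∀ c : F, c • f ∈ AE hB K hE := fun c => by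
    obtain ⟨κ, h⟩ := hS (c / (σ ζ * B d d)) 1 ⟨0, by simpa using hd'⟩
    obtain ⟨κ1, h1⟩ := R f3 hE (z fE) (z fd) _ hw' 1 0 (by simpa using hd')
    obtain ⟨l, h4⟩ := AE_act hB fE h h1 (by simp [z e3, hE])
    convert h4 using 1
    have : σ ζ ≠ 0 := by simpa using ζ0
    simp [fd, z fd, f3, p1, e3, z fE]
    congr 1
    field_simp
  let W : Submodule F V :=
    { carrier := {x | ∀ c : F, c • x ∈ AE hB K hE}
      zero_mem' := fun c => by simp
      add_mem' := fun h h' c => by rw [smul_add]; exact add_mem (h c) (h' c)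
      smul_mem' := fun c x h c' => by rw [smul_smul]; exact h _ }
  have hW := hc f (z fE) (by rw [f2]; exact one_ne_zero) W hf (fun y hy c => by rw [← map_smul]; exact hinv _ (hy c))
  exact su_fin hB (by
    have := (indep3 E0 fE (z g1) f3 g4 (g2 ▸ γ0) (g5 ▸ γ1)).fintype_card_le_finrank
    simp at this; omega) hE (full_of hB hE (fun y hy => by simpa using hW y hy 1) e3 hd) hv2 v3

end Cfsg.Agent.Pres.RU
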