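import Mathlib
import Cfsg.Agent.Pres.RU6

/-! Regular unipotent generators of unitary groups of odd dimension at least five. -/

set_option autoImplicit false
set_option linter.unusedSectionVars false

namespace Cfsg.Agent.Pres.RU

open Matrix Cfsg.Agent.Herm Module

section
variable {F V : Type*} [Field F] [AddCommGroup V] [Module F V] [FiniteDimensional F V] [Finite F] {q : ℕ}

theorem su_transfer (hF : Nat.card F = q ^ 2) {B : V →ₛₗ[frob hF] V →ₗ[F] F} (hB : HF B) {n : ℕ} (hn : finrank F V = n) :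
    ∃ φ : SUG B ≃* Cfsg.SU n F q, ∀ (g : SUG B) (m : ℕ),
      (((φ g : SpecialLinearGroup (Fin n) F) : Matrix (Fin n) (Fin n) F) - 1) ^ m = 0 ↔
        ((g.1.1 : V →ₗ[F] V) - 1) ^ m = 0 := by
  obtain ⟨e, he⟩ := hB.exists_iso (hf_sB hF n) (by simp [hn])
  have h1 : (SUG B).map (ugCongr e he).toMonoidHom = SUG (sB hF n) := by
    ext g
    obtain ⟨g, rfl⟩ := (ugCongr e he).surjective g
    rw [mem_SUG, detU_ugCongr, ← mem_SUG]
    exact Subgroup.mem_map_iff_mem (ugCongr e he).injective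
  refine ⟨(((ugCongr e he).subgroupMap _).trans (MulEquiv.subgroupCongr h1)).trans (toSUG hF n).symm, fun g m => ?_⟩
  rw [← map_eq_zero_iff _ (Matrix.toLinAlgEquiv' (R := F) (n := Fin n)).injective,
    ← map_eq_zero_iff _ (e.conjAlgEquiv F).injective, map_pow, map_pow, map_sub, map_sub, map_one, map_one]
  have : Matrix.toLinAlgEquiv' (((((ugCongr e he).subgroupMap _).trans (MulEquiv.subgroupCongr h1)).trans
      (toSUG hF n).symm g : SpecialLinearGroup (Fin n) F) : Matrix (Fin n) (Fin n) F) =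
      e.conjAlgEquiv F (g.1.1 : V →ₗ[F] V) := LinearMap.ext fun x => toSUG_symm_mulVec hF _ x
  rw [this]

theorem closure_sub {G : Type*} [Group G] {H : Subgroup G} {s : Set H} (h : H ≤ (Subgroup.closure s).map H.subtype) :
    Subgroup.closure s = ⊤ := eq_top_iff.2 fun x _ => (Subgroup.mem_map_iff_mem H.subtype_injective).1 (h x.2)

theorem su_finish (hF : Nat.card F = q ^ 2) {B : V →ₛₗ[frob hF] V →ₗ[F] F} (hB : HF B) {n : ℕ} (hn : finrank F V = n)
    {u g h : UG B} (hu : u ∈ SUG B) (hg : g ∈ SUG B) (hh : h ∈ SUG B)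
    (H : ∀ K : Subgroup (UG B), u ∈ K → g * u * g⁻¹ ∈ K → h * u * h⁻¹ ∈ K → SUG B ≤ K) {a b : ℕ}
    (h1 : (u.1.toLinearMap - 1) ^ a = 0) (h2 : (u.1.toLinearMap - 1) ^ b ≠ 0) :
    ∃ u' : Cfsg.SU n F q, ∃ φ : SUG B → Cfsg.SU n F q, (IsNilpotent (u'.1.1 - 1) ∧ (u'.1.1 - 1) ^ b ≠ 0) ∧
      Subgroup.closure {u', φ ⟨g, hg⟩ * u' * (φ ⟨g, hg⟩)⁻¹, φ ⟨h, hh⟩ * u' * (φ ⟨h, hh⟩)⁻¹} = ⊤ := by
  obtain ⟨φ, hφ⟩ := su_transfer hF hB hn
  refine ⟨φ ⟨u, hu⟩, φ, ⟨⟨a, (hφ _ _).2 h1⟩, fun e => h2 ((hφ _ _).1 e)⟩,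
    closure_three_map φ (closure_sub (H _ ?_ ?_ ?_))⟩
  · exact ⟨⟨u, hu⟩, Subgroup.subset_closure (by simp), rfl⟩
  · exact ⟨⟨g, hg⟩ * ⟨u, hu⟩ * ⟨g, hg⟩⁻¹, Subgroup.subset_closure (by simp), rfl⟩
  · exact ⟨⟨h, hh⟩ * ⟨u, hu⟩ * ⟨h, hh⟩⁻¹, Subgroup.subset_closure (by simp), rfl⟩

end

variable {F : Type*} [Field F] {n : ℕ} {σ : F →+* F}

theorem map_av (i : ℤ) : σ ∘ av n F i = av n F i := by
  ext j
  rcases le_or_gt 0 i with h | h
  · lift i to ℕ using h
    simp [av_nat]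
  · obtain ⟨r, rfl⟩ : ∃ r : ℕ, i = -(r + 1) := ⟨(-i - 1).toNat, by omega⟩
    rw [Function.comp_apply, av_neg]; simp

theorem map_gg (i : ℤ) : σ (gg n F i) = gg n F i := congrFun (map_av i) _

theorem map_Ej (j : ℕ) : σ ∘ Ej n F j = Ej n F j := by
  ext i; simp [Ej_apply]

theorem map_Jb (x : Fin (n + 1) → F) : σ ∘ ((Jb n F).1 *ᵥ x) = (Jb n F).1 *ᵥ (σ ∘ x) := by
  ext i
  rw [Function.comp_apply, RingHom.map_mulVec]
  congr 2
  ext i j
  simp [Jb_coe, nu, one_apply, apply_ite σ]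

theorem exists_shift (x : Fin (n + 1) → F) : ∃ y, x = x 0 • Ej n F 0 + nu n F *ᵥ y := by
  refine ⟨fun i => Fin.lastCases 0 (fun i => x i.succ) i, funext fun i => ?_⟩
  induction i using Fin.cases with
  | zero => simp [nu_mulVec_zero, Ej_apply]
  | succ i => simp [nu_mulVec_succ, Ej_apply]

theorem Ej_orth' (ψ y : Fin (n + 1) → F) {i j : ℕ} (h : n < j + i) : (Ej n F j ᵥ* Th ψ) ⬝ᵥ (nu n F ^ i *ᵥ y) = 0 := by
  rw [Ej_Th, ← dotProduct_mulVec, Ninv_pow, mulVec_mulVec, mul_assoc, ← pow_add, nu_pow_eq_zero h,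
    mul_zero, zero_mulVec, dotProduct_zero]

theorem Ej_pair (ψ : Fin (n + 1) → F) {i j : ℕ} (h : j + i = n) :
    (Ej n F j ᵥ* Th ψ) ⬝ᵥ Ej n F i = (-1) ^ j * ψ ⬝ᵥ Ej n F n := by
  rw [Ej_Th, ← dotProduct_mulVec, Ninv_pow, Ej, mulVec_mulVec, mul_assoc, ← pow_add, h, ← mulVec_mulVec, ← Ej,
    ← neg_one_smul F ((Jb n F)⁻¹).1, smul_pow, smul_mulVec, dotProduct_smul, smul_eq_mul]
  congr 2
  have := zpow_Ej (n := n) (F := F) (-j)
  rwa [_root_.zpow_neg, zpow_natCast, ← inv_pow] at this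

theorem cyc_nu {x : Fin (n + 1) → F} (x0 : x 0 ≠ 0) {W : Submodule F (Fin (n + 1) → F)} (hx : nu n F *ᵥ x ∈ W)
    (hW : ∀ y ∈ W, (Jb n F).1 *ᵥ y ∈ W) (y : Fin (n + 1) → F) : nu n F *ᵥ y ∈ W := by
  have := cyc_of x0 (W.comap (Matrix.toLin' (nu n F))) hx (fun z hz => by
    have := hW _ hz
    change nu n F *ᵥ ((Jb n F).1 *ᵥ z) ∈ W
    change (Jb n F).1 *ᵥ (nu n F *ᵥ z) ∈ W at this
    rw [mulVec_mulVec, Jb_coe] at this ⊢
    rwa [mul_add, mul_one, ← one_add_mul])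
  have h : y ∈ W.comap (Matrix.toLin' (nu n F)) := by rw [this]; trivial
  exact h

/-- the invariant hermitian form -/
def Bu (σ : F →+* F) (θ : F) (m : ℕ) : (Fin (2 * m + 1) → F) →ₛₗ[σ] (Fin (2 * m + 1) → F) →ₗ[F] F :=
  LinearMap.mk₂'ₛₗ σ (RingHom.id F)
    (fun x y => ((σ ∘ x) ᵥ* Th (θ • ps (2 * m) F (-m) + σ θ • ps (2 * m) F (1 - m))) ⬝ᵥ y)
    (fun x x' y => by rw [← add_dotProduct, ← add_vecMul]; congr 2; ext; simp)
    (fun c x y => by rw [← smul_dotProduct, ← smul_vecMul]; congr 2; ext; simp)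
    (fun x y y' => dotProduct_add _ _ _) (fun c x y => dotProduct_smul _ _ _)

variable {θ : F} {m : ℕ}

theorem Bu_apply (x y : Fin (2 * m + 1) → F) :
    Bu σ θ m x y = ((σ ∘ x) ᵥ* Th (θ • ps (2 * m) F (-m) + σ θ • ps (2 * m) F (1 - m))) ⬝ᵥ y := rfl

theorem Bu_av' (i : ℤ) (y : Fin (2 * m + 1) → F) :
    Bu σ θ m (av _ F i) y = θ * ps (2 * m) F (i - m) ⬝ᵥ y + σ θ * ps (2 * m) F (i + 1 - m) ⬝ᵥ y := by
  rw [Bu_apply, map_av, av_Th, add_vecMul, smul_vecMul, smul_vecMul, ps_mul, ps_mul, add_dotProduct, smul_dotProduct,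
    smul_dotProduct, smul_eq_mul, smul_eq_mul]
  congr 4 <;> ring

theorem Bu_av (i j : ℤ) : Bu σ θ m (av _ F i) (av _ F j) =
    θ * gg (2 * m) F (j - i + m) + σ θ * gg (2 * m) F (j - i + m - 1) := by
  rw [Bu_av', ps_av, ps_av]; congr 3 <;> ring

theorem Bu_inv (x y : Fin (2 * m + 1) → F) : Bu σ θ m ((Jb _ F).1 *ᵥ x) ((Jb _ F).1 *ᵥ y) = Bu σ θ m x y := by
  rw [Bu_apply, Bu_apply, map_Jb, Jb_Th, ← dotProduct_mulVec, mulVec_mulVec, Jb_inv_mul, one_mulVec]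

theorem Bu_orth {i j : ℕ} (h : 2 * m < j + i) (y : Fin (2 * m + 1) → F) : Bu σ θ m (Ej _ F j) (nu _ F ^ i *ᵥ y) = 0 := by
  rw [Bu_apply, map_Ej, Ej_orth' _ _ h]

theorem Bu_pair (hθ : θ + σ θ = 1) {i j : ℕ} (h : j + i = 2 * m) : Bu σ θ m (Ej _ F j) (Ej _ F i) = (-1) ^ j := by
  rw [Bu_apply, map_Ej, Ej_pair _ h, add_dotProduct, smul_dotProduct, smul_dotProduct, dotProduct_comm, Ej_ps,
    dotProduct_comm, Ej_ps, smul_eq_mul, smul_eq_mul, mul_one, mul_one, hθ, mul_one]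

theorem Bu_hf (hσ : Inv σ) (hθ : θ + σ θ = 1) : HF (Bu σ θ m) := by
  have hs : ∀ x y, σ (Bu σ θ m x y) = Bu σ θ m y x := by
    have mem : ∀ x, x ∈ Submodule.span F (Set.range (av (2 * m) F)) := fun x => by rw [span_av]; trivial
    intro x y
    induction mem x using Submodule.span_induction with
    | mem x hx =>
      obtain ⟨i, rfl⟩ := hx
      induction mem y using Submodule.span_induction with
      | mem y hy =>
        obtain ⟨j, rfl⟩ := hy
        have h1 := gg_refl (n := 2 * m) (F := F) (j - i + m)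
        have h2 := gg_refl (n := 2 * m) (F := F) (j - i + m - 1)
        rw [pow_mul, neg_one_sq, one_pow, one_mul] at h1 h2
        rw [Bu_av, Bu_av, map_add, map_mul, map_mul, map_gg, map_gg, hσ.invol, ← h1, ← h2, add_comm]
        congr 3 <;> push_cast <;> ring
      | zero => simp
      | add y z _ _ h1 h2 => simp [h1, h2]
      | smul c y _ h1 => simp [h1]
    | zero => simp
    | add x z _ _ h1 h2 => simp [h1, h2]
    | smul c x _ h1 => simp [h1, hσ.invol]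
  refine ⟨hσ, hs, fun x hx => ?_⟩
  let W : Submodule F (Fin (2 * m + 1) → F) :=
    { carrier := {y | ∀ x, Bu σ θ m x y = 0}
      zero_mem' := fun x => by simp
      add_mem' := fun h h' x => by simp [h x, h' x]
      smul_mem' := fun c y h x => by simp [h x] }
  refine eq_zero_of_inv (W := W) (fun y hy x => ?_) (fun h => ?_) x (fun y => by rw [← hs, hx, map_zero])
  · rw [← one_mulVec x, ← Jb_mul_inv, ← mulVec_mulVec, Bu_inv]
    exact hy _
  · have := h (Ej _ F 0)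
    rw [Bu_pair hθ (zero_add _)] at this
    simp at this

theorem su_main5 [Fintype F] {q : ℕ} (hF : Nat.card F = q ^ 2) (k : ℕ) :
    ∃ u g h : Cfsg.SU (2 * (k + 2) + 1) F q,
      (IsNilpotent (u.1.1 - 1) ∧ (u.1.1 - 1) ^ (2 * (k + 2)) ≠ 0) ∧
      Subgroup.closure {u, g * u * g⁻¹, h * u * h⁻¹} = ⊤ := by
  obtain ⟨θ, hθ⟩ := (inv_frob hF).exists_trace_one
  have θ0 : θ ≠ 0 := by rintro rfl; simp at hθ
  have hB : HF (Bu (frob hF) θ (k + 2)) := Bu_hf (inv_frob hF) hθ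
  let u : UG (Bu (frob hF) θ (k + 2)) := ⟨SpecialLinearGroup.toLin' (Jb _ F), Bu_inv⟩
  have hu : ∀ x, u.1 x = (Jb _ F).1 *ᵥ x := fun _ => rfl
  have hu' : u.1.toLinearMap = Matrix.toLin' (Jb (2 * (k + 2)) F).1 := rfl
  have hS : u ∈ SUG _ := by rw [mem_SUG, detU_apply, hu', LinearMap.det_toLin']; exact (Jb _ F).2
  have o : ∀ {i j : ℕ}, 2 * (k + 2) < j + i → Bu (frob hF) θ (k + 2) (Ej _ F j) (Ej _ F i) = 0 := fun h => Bu_orth h _
  have sh : ∀ x, Bu (frob hF) θ (k + 2) (Ej _ F (2 * (k + 2))) x = 0 → ∃ y, x = nu _ F *ᵥ y := fun x hx => by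
    obtain ⟨y, hy⟩ := exists_shift x
    have := Bu_orth (σ := frob hF) (θ := θ) (i := 1) (Nat.lt_succ_self (2 * (k + 2))) y
    rw [hy, map_add, map_smul, Bu_pair hθ (add_zero _), ← pow_one (nu _ F), this] at hx
    refine ⟨y, hy.trans ?_⟩
    rw [show x 0 = 0 by simpa using hx, zero_smul, zero_add]
  obtain ⟨a, a0, a1, a2⟩ : ∃ a, Bu (frob hF) θ (k + 2) a a = 0 ∧ Bu (frob hF) θ (k + 2) a (u.1 a) = 0 ∧
      Bu (frob hF) θ (k + 2) a (u.1 (u.1 a)) ≠ 0 := by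
    have z : ∀ i j : ℤ, -(k + 1) ≤ j - i → j - i ≤ k + 1 → Bu (frob hF) θ (k + 2) (av _ F i) (av _ F j) = 0 :=
      fun i j h h' => by
        rw [Bu_av, gg_lt (by push_cast; omega) (by push_cast; omega), gg_lt (by push_cast; omega) (by push_cast; omega)]
        simp
    have w : ∀ i j : ℤ, j - i = k + 2 → Bu (frob hF) θ (k + 2) (av _ F i) (av _ F j) = θ := fun i j h => by
      rw [Bu_av, h, gg_lt (k := _ - 1) (by push_cast; omega) (by push_cast; omega),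
        show (k : ℤ) + 2 + (k + 2 : ℕ) = (2 * (k + 2) : ℕ) by push_cast; ring, gg_self]
      simp
    rcases Nat.eq_zero_or_pos k with h | h
    · refine ⟨av _ F 0, z _ _ (by omega) (by omega), ?_, ?_⟩ <;> simp only [hu, ← av_succ']
      · exact z _ _ (by omega) (by omega)
      · rwa [w _ _ (by omega)]
    · refine ⟨av _ F 0 + av _ F k, ?_, ?_, ?_⟩ <;>
        simp only [hu, mulVec_add, ← av_succ', map_add, LinearMap.add_apply]
      · rw [z _ _ (by omega) (by omega), z _ _ (by omega) (by omega), z _ _ (by omega) (by omega),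
          z _ _ (by omega) (by omega), add_zero, add_zero]
      · rw [z _ _ (by omega) (by omega), z _ _ (by omega) (by omega), z _ _ (by omega) (by omega),
          z _ _ (by omega) (by omega), add_zero, add_zero]
      · rw [w 0 (k + 1 + 1) (by omega), z _ _ (by omega) (by omega), z _ _ (by omega) (by omega),
          z _ _ (by omega) (by omega)]
        simpa using θ0
  obtain ⟨g, hg, h, hh, H⟩ := su_big hB (u := u) (E := Ej _ F (2 * (k + 2))) (w := Ej _ F 1) (ε := Ej _ F (2 * k + 3))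
    (d := Ej _ F (k + 2)) (a := a) (by simp [Ej_last]) (o (by omega))
    (by rw [hu, Jb_Ej, Ej_zero (Nat.lt_succ_self _), add_zero]) (o (by omega)) (fun A hA h1 => by
      have : ∀ j, Ej _ F (j + 2) ∈ A := fun j => by
        induction j with
        | zero => rwa [hu, Jb_Ej, add_sub_cancel_left] at h1
        | succ j ih =>
          have := A.sub_mem (hA _ ih) ih
          rwa [hu, Jb_Ej, add_sub_cancel_left] at this
      exact ⟨this (2 * k + 1), this k⟩) (o (by omega)) (o (by omega)) (o (by omega)) (o (by omega))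
    (by rw [Bu_pair hθ (by omega)]; simp) (fun h => by
      obtain ⟨c, hc⟩ := Submodule.mem_span_singleton.1 h
      have := congrArg (Bu (frob hF) θ (k + 2) (Ej _ F 1)) hc
      rw [map_smul, o (by omega), Bu_pair hθ (by omega)] at this
      simp at this) (fun x h1 h2 W hx hW y hy => by
      obtain ⟨x, rfl⟩ := sh x h1
      obtain ⟨y, rfl⟩ := sh y hy
      have x0 : x 0 ≠ 0 := fun e => h2 (by
        obtain ⟨x', hx'⟩ := exists_shift x
        rw [hx', e, zero_smul, zero_add, mulVec_mulVec, ← pow_two]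
        exact Bu_orth (by omega) _)
      exact cyc_nu x0 hx hW y) a0 a1 a2
  have hp : ∀ j : ℕ, (u.1.toLinearMap - 1) ^ j = 0 ↔ nu (2 * (k + 2)) F ^ j = 0 := fun j => by
    rw [← map_eq_zero_iff _ (Matrix.toLinAlgEquiv' (R := F) (n := Fin (2 * (k + 2) + 1))).injective, map_pow, ← Jb_sub,
      map_sub, map_one]
    rfl
  obtain ⟨u', φ, h1⟩ := su_finish hF hB (n := 2 * (k + 2) + 1) (by simp) hS hg hh H
    ((hp _).2 (nu_pow_eq_zero (Nat.lt_succ_self _))) (fun e => nu_ne ((hp _).1 e))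
  exact ⟨u', _, _, h1⟩

end Cfsg.Agent.Pres.RU
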