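import Mathlib
import Cfsg.Agent.Pres.RU7

/-! Two conjugate regular unipotent generators of `SU_3(q)`. -/

set_option autoImplicit false
set_option linter.unusedSectionVars false

namespace Cfsg.Agent.Pres.RU

open Matrix Cfsg.Agent.Herm Module

variable {F : Type*} [Field F] {σ : F →+* F}

theorem cayley3 (M : Matrix (Fin 3) (Fin 3) F) (h1 : M 0 0 + M 1 1 + M 2 2 = 3)
    (h2 : M 0 0 * M 1 1 - M 0 1 * M 1 0 + (M 0 0 * M 2 2 - M 0 2 * M 2 0) + (M 1 1 * M 2 2 - M 1 2 * M 2 1) = 3)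
    (h3 : M.det = 1) (z : Fin 3 → F) : M *ᵥ (M *ᵥ (M *ᵥ z)) = (3 : F) • M *ᵥ (M *ᵥ z) - (3 : F) • M *ᵥ z + z := by
  have : M *ᵥ (M *ᵥ (M *ᵥ z)) = (M 0 0 + M 1 1 + M 2 2) • M *ᵥ (M *ᵥ z) -
      (M 0 0 * M 1 1 - M 0 1 * M 1 0 + (M 0 0 * M 2 2 - M 0 2 * M 2 0) + (M 1 1 * M 2 2 - M 1 2 * M 2 1)) • M *ᵥ z +
        M.det • z := by
    ext i
    simp only [Pi.add_apply, Pi.sub_apply, Pi.smul_apply, smul_eq_mul, mulVec, dotProduct, Fin.sum_univ_three,
      det_fin_three]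
    fin_cases i <;> simp only [Fin.zero_eta, Fin.mk_one, Fin.reduceFinMk] <;> ring
  rwa [h1, h2, h3, one_smul] at this

theorem conj3 {B : (Fin 3 → F) →ₛₗ[σ] (Fin 3 → F) →ₗ[F] F} (hB : HF B) {u v : UG B}
    (hu : ∀ z, u.1 (u.1 (u.1 z)) = (3 : F) • u.1 (u.1 z) - (3 : F) • u.1 z + z)
    (hv : ∀ z, v.1 (v.1 (v.1 z)) = (3 : F) • v.1 (v.1 z) - (3 : F) • v.1 z + z) {e : Fin 3 → F} (he : B e e = 0)
    {r : F} (hr : σ r = r) (r0 : r ≠ 0) (hT : B e (u.1 e) + σ (B e (u.1 e)) ≠ 0)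
    (htr : B e (v.1 e) + σ (B e (v.1 e)) = r ^ 2 * (B e (u.1 e) + σ (B e (u.1 e))))
    (hD : (of ![e, v.1 e, v.1 (v.1 e)]).det = r ^ 3 * (of ![e, u.1 e, u.1 (u.1 e)]).det)
    (hD0 : (of ![e, v.1 e, v.1 (v.1 e)]).det ≠ 0) : ∃ g ∈ SUG B, g * u * g⁻¹ = v := by
  have G : ∀ w : UG B, (∀ z, w.1 (w.1 (w.1 z)) = (3 : F) • w.1 (w.1 z) - (3 : F) • w.1 z + z) → ∀ a, B a a = 0 →
      B a (w.1 (w.1 a)) = 3 * B a (w.1 a) + σ (B a (w.1 a)) ∧ B (w.1 a) a = σ (B a (w.1 a)) ∧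
        B (w.1 (w.1 a)) a = 3 * σ (B a (w.1 a)) + B a (w.1 a) := fun w hw a ha => by
    have h1 := congrArg (B (w.1 a)) (hw a)
    simp only [UG.map_b, map_add, map_sub, map_smul, ha, smul_eq_mul, mul_zero, sub_zero] at h1
    rw [← hB.symm a (w.1 a)] at h1
    exact ⟨h1, (hB.symm _ _).symm, by rw [← hB.symm, h1, map_add, map_mul, hB.invol, map_ofNat]⟩
  obtain ⟨g1, g2, g3⟩ := G u hu e he
  set θ := B e (u.1 e) with hθ
  set θ' := B e (v.1 e) with hθ'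
  obtain ⟨p1, hp1⟩ := hB.exists_sub (c := (θ' - r ^ 2 * θ) / (r * (θ + σ θ))) (by
    simp only [map_div₀, map_mul, map_sub, map_add, map_pow, hr, hB.invol, add_comm (σ θ) θ]
    rw [← add_div, div_eq_zero_iff]; left; linear_combination htr)
  obtain ⟨p2, hp2⟩ := hB.exists_trace (c := (σ p1 * p1 * (θ + σ θ) - r * (p1 * θ + σ p1 * σ θ)) / (r * (θ + σ θ))) (by
    simp only [map_div₀, map_mul, map_sub, map_add, hr, hB.invol]; ring)
  rw [eq_div_iff (mul_ne_zero r0 hT)] at hp1 hp2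
  obtain ⟨a, ha⟩ : ∃ a, a = r • e + p1 • (u.1 e - e) + p2 • (u.1 (u.1 e) - (2 : F) • u.1 e + e) := ⟨_, rfl⟩
  have a1 : u.1 a = r • u.1 e + p1 • (u.1 (u.1 e) - u.1 e) + p2 • (u.1 (u.1 e) - (2 : F) • u.1 e + e) := by
    simp only [ha, map_add, map_sub, map_smul, hu]; module
  have a2 : u.1 (u.1 a) = r • u.1 (u.1 e) + p1 • ((2 : F) • u.1 (u.1 e) - (3 : F) • u.1 e + e) +
      p2 • (u.1 (u.1 e) - (2 : F) • u.1 e + e) := by
    simp only [a1, map_add, map_sub, map_smul, hu]; module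
  have b0 : B a a = 0 := by
    simp only [ha, map_add, map_sub, map_smul, LinearMap.add_apply, LinearMap.sub_apply, b_smul_left, UG.map_b, he, g1,
      g2, g3, ← hθ, smul_eq_mul, hr, map_ofNat]
    linear_combination hp2
  have b1 : B a (u.1 a) = θ' := by
    rw [a1]
    simp only [ha, map_add, map_sub, map_smul, LinearMap.add_apply, LinearMap.sub_apply, b_smul_left, UG.map_b, he, g1,
      g2, g3, ← hθ, smul_eq_mul, hr, map_ofNat]
    linear_combination hp1 + hp2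
  have hD1 : (of ![a, u.1 a, u.1 (u.1 a)]).det = (of ![e, v.1 e, v.1 (v.1 e)]).det := by
    rw [hD, a2, a1, ha]
    simp [det_fin_three]
    ring
  obtain ⟨c1, c2, c3⟩ := G u hu a b0
  obtain ⟨d1, d2, d3⟩ := G v hv e he
  have i1 := (Pi.basisFun F (Fin 3)).is_basis_iff_det (v := ![a, u.1 a, u.1 (u.1 a)]) |>.2
    (by rw [Pi.basisFun_det_apply, hD1]; exact hD0.isUnit)
  have i2 := (Pi.basisFun F (Fin 3)).is_basis_iff_det (v := ![e, v.1 e, v.1 (v.1 e)]) |>.2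
    (by rw [Pi.basisFun_det_apply]; exact hD0.isUnit)
  obtain ⟨g, hg⟩ := hB.witt_family _ _ i1.1 i2.1 (fun i j => by
    fin_cases i <;> fin_cases j <;> simp [he, b0, c1, c2, c3, d1, d2, d3, b1, ← hθ'])
  have k0 : g.1 a = e := hg 0
  have k1 : g.1 (u.1 a) = v.1 e := hg 1
  have k2 : g.1 (u.1 (u.1 a)) = v.1 (v.1 e) := hg 2
  refine ⟨g, ?_, ?_⟩
  · have := (Pi.basisFun F (Fin 3)).det_comp g.1.toLinearMap ![a, u.1 a, u.1 (u.1 a)]
    rw [show g.1.toLinearMap ∘ ![a, u.1 a, u.1 (u.1 a)] = ![e, v.1 e, v.1 (v.1 e)] from funext hg,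
      Pi.basisFun_det_apply, Pi.basisFun_det_apply, hD1] at this
    rw [mem_SUG, detU_apply]
    exact mul_right_cancel₀ hD0 (by rw [← this, one_mul])
  · rw [mul_inv_eq_iff_eq_mul]
    have : (g * u).1.toLinearMap = (v * g).1.toLinearMap := LinearMap.ext_on_range i1.2 fun i => by
      fin_cases i <;> simp [k0, k1, k2, hu, hv]
    exact UG.ext fun x => LinearMap.congr_fun this x

/-- the split hermitian form in dimension three -/
def B3 (σ : F →+* F) : (Fin 3 → F) →ₛₗ[σ] (Fin 3 → F) →ₗ[F] F :=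
  LinearMap.mk₂'ₛₗ σ (RingHom.id F) (fun x y => σ (x 0) * y 2 + σ (x 1) * y 1 + σ (x 2) * y 0)
    (fun x x' y => by simp; ring) (fun c x y => by simp; ring) (fun x y y' => by simp; ring) (fun c x y => by simp; ring)

theorem B3_apply (x y : Fin 3 → F) : B3 σ x y = σ (x 0) * y 2 + σ (x 1) * y 1 + σ (x 2) * y 0 := rfl

theorem B3_hf (hσ : Inv σ) : HF (B3 σ) := ⟨hσ, fun x y => by simp [B3_apply, hσ.invol]; ring, fun x hx => by
  ext i
  fin_cases i
  · simpa [B3_apply] using hx ![0, 0, 1]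
  · simpa [B3_apply] using hx ![0, 1, 0]
  · simpa [B3_apply] using hx ![1, 0, 0]⟩

theorem cube_gen [Fintype F] (hq : 5 ≤ Fintype.card F) : ∃ z : F, z ≠ 0 ∧ orderOf z + 1 = Fintype.card F ∧
    ∀ R : Subring F, z ^ 3 ∈ R → ∀ t, t ∈ R := by
  obtain ⟨p, hp⟩ := CharP.exists F
  have : Fact p.Prime := ⟨CharP.char_is_prime F p⟩
  let _ := ZMod.algebra F p
  obtain ⟨z, hz, ho, -⟩ := exists_prim F
  refine ⟨z, hz, ho, fun R hR t => ?_⟩
  obtain ⟨f, rfl⟩ := aeval_surj_pow (p := p) hz ho three_ne_zero (fun m hm => by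
    rcases (Nat.dvd_prime Nat.prime_three).1 (Nat.gcd_dvd_right (orderOf z) 3) with h | h <;> rw [h] at hm <;>
      nlinarith) t
  exact aeval_mem_subring hR f

theorem cub {A A' L L' x x' l l' c : F} (hA : A ≠ 0) (hA' : A' ≠ 0) (hL : L ≠ 0) (hL' : L' ≠ 0) (hx : x' * x = l + l')
    (h1 : -(A * l * L) - A' * L' / (A * L) + L * c * A = 3) (h2 : -(A' * l' * L') - A * L / (A' * L') - L' * c * A' = 3)
    (z : Fin 3 → F) {M : Matrix (Fin 3) (Fin 3) F}
    (hM : M = !![-(A * l), -(A' / A) * x', A'⁻¹; -(A * x), -(A' / A), 0; A, 0, 0] * !![L, 0, L * c; 0, L' / L, 0; 0, 0, L'⁻¹]) :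
    M *ᵥ (M *ᵥ (M *ᵥ z)) = (3 : F) • M *ᵥ (M *ᵥ z) - (3 : F) • M *ᵥ z + z := by
  obtain rfl : l' = x' * x - l := by rw [hx]; ring
  rw [mul_fin_three] at hM
  refine cayley3 M ?_ ?_ ?_ z
  · rw [← h1, hM]; simp; field_simp; ring
  · rw [← h2, hM]; simp; field_simp; ring
  · rw [hM, det_fin_three]; simp; field_simp; ring

theorem mul_inv_rev_conj {G : Type*} [Group G] (s a : G) : (s * a * s⁻¹)⁻¹ = s * a⁻¹ * s⁻¹ := by group

theorem su3_core [Fintype F] (hσ : Inv σ) {t : F} (t0 : t ≠ 0) (hμ : σ t ^ 3 ≠ t ^ 3)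
    (hgen : ∀ R : Subring F, σ t ^ 3 ∈ R → ∀ x, x ∈ R) {q : ℕ} (hq : ∀ a, σ a = a ^ q) (q0 : (q : F) = 0) (q1 : 1 ≤ q) :
    ∃ u ∈ SUG (B3 σ), ∃ g ∈ SUG (B3 σ), (u.1.toLinearMap - 1) ^ 3 = 0 ∧ (u.1.toLinearMap - 1) ^ 2 ≠ 0 ∧
      ∀ K : Subgroup (UG (B3 σ)), u ∈ K → g * u * g⁻¹ ∈ K → SUG (B3 σ) ≤ K := by
  have hB := B3_hf hσ
  obtain ⟨t', ht⟩ : ∃ t', t' = σ t := ⟨_, rfl⟩
  have ht' : σ t' = t := by rw [ht, hσ.invol]
  have t0' : t' ≠ 0 := by simpa [ht] using t0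
  rw [← ht] at hμ hgen
  have tt : t - t' ≠ 0 := fun e => hμ (by rw [sub_eq_zero.1 e])
  obtain ⟨s0, s1, s2⟩ := hσ.exists_skew
  have s3 : σ s0 = -s0 := by linear_combination s2
  have n1 : 1 - t' ≠ 0 := fun e => tt (by rw [← ht', ← sub_eq_zero.1 e, map_one, sub_self])
  have n2 : 1 - t ≠ 0 := fun e => tt (by rw [ht, ← sub_eq_zero.1 e, map_one, sub_self])
  obtain ⟨A, hA⟩ : ∃ A, A = s0 / (t * (1 - t')) := ⟨_, rfl⟩
  obtain ⟨A', hA'⟩ : ∃ A', A' = σ A := ⟨_, rfl⟩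
  have hA2 : A' = -s0 / (t' * (1 - t)) := by simp [hA', hA, s3, ← ht, ht']
  have hA3 : σ A' = A := by rw [hA', hσ.invol]
  have A0 : A ≠ 0 := by rw [hA]; exact div_ne_zero s1 (mul_ne_zero t0 n1)
  have A0' : A' ≠ 0 := by simpa [hA'] using A0
  have hT : A + A' ≠ 0 := by
    rw [show A + A' = -(s0 * (t - t')) / (t * t' * (1 - t) * (1 - t')) by rw [hA2, hA]; field_simp; ring]
    exact div_ne_zero (neg_ne_zero.2 (mul_ne_zero s1 tt)) (by simp [t0, t0', n1, n2])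
  have hrel : A * t + A' * t' = t * t' * (A + A') := by rw [hA2, hA]; field_simp; ring
  obtain ⟨l, hl⟩ : ∃ l, l = -(3 * A + A') / A ^ 2 := ⟨_, rfl⟩
  have hl' : σ l = -(3 * A' + A) / A' ^ 2 := by simp [hl, ← hA', hA3, map_ofNat]
  obtain ⟨x, hx⟩ := hσ.exists_norm (μ := l + σ l) (by rw [map_add, hσ.invol, add_comm])
  have x0 : x ≠ 0 := fun e => by
    rw [e, mul_zero, hl', hl, show -(3 * A + A') / A ^ 2 + -(3 * A' + A) / A' ^ 2 = -(A + A') ^ 3 / (A * A') ^ 2 by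
      field_simp; ring, eq_comm] at hx
    exact div_ne_zero (neg_ne_zero.2 (pow_ne_zero 3 hT)) (by simp [A0, A0']) hx
  obtain ⟨L, hL⟩ : ∃ L, L = t ^ 2 * t' := ⟨_, rfl⟩
  obtain ⟨L', hL'⟩ : ∃ L', L' = σ L := ⟨_, rfl⟩
  have hL2 : L' = t' ^ 2 * t := by simp [hL', hL, ← ht, ht']
  have hL3 : σ L' = L := by rw [hL', hσ.invol]
  have L0 : L ≠ 0 := by simp [hL, t0, t0']
  have L0' : L' ≠ 0 := by simp [hL2, t0, t0']
  obtain ⟨c, hc⟩ : ∃ c, c = (3 + A * l * L + A' * L' / (A * L)) / (L * A) := ⟨_, rfl⟩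
  have hc' : σ c = -c := by
    have : σ c + c = ((A * t + A' * t') ^ 3 - (t * t' * (A + A')) ^ 3) / (L * L' * A ^ 2 * A' ^ 2) := by
      simp only [hc, map_div₀, map_add, map_mul, map_ofNat, ← hA', ← hL', hA3, hL3, hl']
      rw [hl, hL2, hL]; field_simp; ring
    rw [hrel, sub_self, zero_div] at this
    linear_combination this
  have tr1 : -(A * l * L) - A' * L' / (A * L) + L * c * A = 3 := by rw [hc]; field_simp; ring
  have tr2 : -(A' * σ l * L') - A * L / (A' * L') - L' * c * A' = 3 := by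
    have := congrArg σ tr1
    simp only [map_div₀, map_add, map_sub, map_neg, map_mul, map_ofNat, ← hA', ← hL', hA3, hL3, hc'] at this
    linear_combination this
  have he : B3 σ ![1, 0, 0] ![1, 0, 0] = 0 := by simp [B3_apply]
  have hd : ∀ c : F, B3 σ ![1, 0, 0] ![0, c, 0] = 0 := by simp [B3_apply]
  have hx' : l + σ l = B3 σ ![0, x, 0] ![0, x, 0] := by simp [B3_apply, hx]
  let n := hB.ofLin (toLin' !![0, 0, A'⁻¹; 0, -(A' / A), 0; A, 0, 0]) (fun y z => by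
    simp [B3_apply, mulVec, dotProduct, Fin.sum_univ_three, ← hA', hA3]; field_simp; ring)
  let y := hB.ofLin (toLin' !![L, 0, L * c; 0, L' / L, 0; 0, 0, L'⁻¹]) (fun y z => by
    simp [B3_apply, mulVec, dotProduct, Fin.sum_univ_three, ← hL', hL3, hc']; field_simp; ring)
  have hn : ∀ z, n.1 z = ![A'⁻¹ * z 2, -(A' / A) * z 1, A * z 0] := fun z => by
    ext i; fin_cases i <;> simp [n, mulVec, dotProduct, Fin.sum_univ_three]
  have hy : ∀ z, y.1 z = !![L, 0, L * c; 0, L' / L, 0; 0, 0, L'⁻¹] *ᵥ z := fun z => rfl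
  have hnS : n ∈ SUG _ := by
    rw [mem_SUG, detU_apply]
    exact (LinearMap.det_toLin' _).trans (by simp [det_fin_three]; field_simp)
  obtain ⟨u, hu0⟩ : ∃ u, u = hB.eich ![1, 0, 0] ![0, x, 0] l * n := ⟨_, rfl⟩
  have hu : ∀ z, u.1 z = !![-(A * l), -(A' / A) * σ x, A'⁻¹; -(A * x), -(A' / A), 0; A, 0, 0] *ᵥ z := fun z => by
    rw [hu0, UG.mul_apply, hB.eich_apply he (hd x) hx', hn]
    ext i; fin_cases i <;> simp [B3_apply, mulVec, dotProduct, Fin.sum_univ_three] <;> ring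
  have hv : ∀ z, (u * y).1 z = (!![-(A * l), -(A' / A) * σ x, A'⁻¹; -(A * x), -(A' / A), 0; A, 0, 0] *
      !![L, 0, L * c; 0, L' / L, 0; 0, 0, L'⁻¹]) *ᵥ z := fun z => by rw [UG.mul_apply, hu, hy, mulVec_mulVec]
  have hu2 : ∀ z, u.1 z = ![-(A * l) * z 0 + -(A' / A) * σ x * z 1 + A'⁻¹ * z 2, -(A * x) * z 0 + -(A' / A) * z 1,
      A * z 0] := fun z => by
    rw [hu]; ext i; fin_cases i <;> simp [mulVec, dotProduct, Fin.sum_univ_three]
  have hy2 : ∀ z, y.1 z = ![L * z 0 + L * c * z 2, L' / L * z 1, L'⁻¹ * z 2] := fun z => by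
    rw [hy]; ext i; fin_cases i <;> simp [mulVec, dotProduct, Fin.sum_univ_three]
  have cu : ∀ z, u.1 (u.1 (u.1 z)) = (3 : F) • u.1 (u.1 z) - (3 : F) • u.1 z + z := fun z => by
    simp only [hu]
    refine cub (L := 1) (L' := 1) (c := 0) A0 A0' one_ne_zero one_ne_zero hx ?_ ?_ z (by simp [← one_fin_three])
    · rw [hl]; field_simp; ring
    · rw [hl']; field_simp; ring
  have cv : ∀ z, (u * y).1 ((u * y).1 ((u * y).1 z)) = (3 : F) • (u * y).1 ((u * y).1 z) - (3 : F) • (u * y).1 z + z :=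
    fun z => by simp only [hv]; exact cub A0 A0' L0 L0' hx tr1 tr2 z rfl
  have ue : B3 σ ![1, 0, 0] (u.1 ![1, 0, 0]) = A := by simp [hu, B3_apply]
  have ve : B3 σ ![1, 0, 0] ((u * y).1 ![1, 0, 0]) = A * L := by simp [hu2, hy2, B3_apply]
  have D1 : (of ![![1, 0, 0], u.1 ![1, 0, 0], u.1 (u.1 ![1, 0, 0])]).det = -(A * A' * x) := by
    simp [hu, det_fin_three, mulVec, dotProduct, Fin.sum_univ_three]; field_simp; ring
  have D2 : (of ![![1, 0, 0], (u * y).1 ![1, 0, 0], (u * y).1 ((u * y).1 ![1, 0, 0])]).det = -(A * A' * x * L * L') := by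
    simp only [hv, mul_fin_three]
    simp [det_fin_three, mulVec, dotProduct, Fin.sum_univ_three]; field_simp; ring
  obtain ⟨g, hg, hg'⟩ := conj3 hB cu cv he (r := t * t') (by simp [← ht, ht', mul_comm]) (mul_ne_zero t0 t0')
    (by rwa [ue, ← hA']) (by rw [ue, ve, map_mul, ← hA', ← hL', hL, hL2]; linear_combination t * t' * hrel)
    (by rw [D1, D2, hL, hL2]; ring) (by rw [D2]; simp [A0, A0', x0, L0, L0'])
  refine ⟨u, hu0 ▸ (SUG _).mul_mem (hB.eich_mem_SUG _ _ _) hnS, g, hg, LinearMap.ext fun z => ?_, fun e => ?_,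
    fun K hK hK' => ?_⟩
  · simp only [pow_succ, pow_zero, one_mul, Module.End.mul_apply, LinearMap.sub_apply, Module.End.one_apply, map_sub,
      LinearEquiv.coe_coe, cu, LinearMap.zero_apply]
    module
  · have := congrFun (LinearMap.congr_fun e ![1, 0, 0]) 2
    simp [pow_two, hu2, hl] at this
    field_simp at this
    exact hT (by linear_combination this)
  rw [hg'] at hK'
  have hyK : y ∈ K := (K.mul_mem_cancel_left hK).1 hK'
  have yp : ∀ (k : ℕ) (z : Fin 3 → F), (y ^ k).1 z = ![L ^ k * (z 0 + c * (∑ i ∈ Finset.range k, (L * L')⁻¹ ^ i) * z 2),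
      (L' / L) ^ k * z 1, L'⁻¹ ^ k * z 2] := fun k z => by
    induction k with
    | zero => ext i; fin_cases i <;> simp
    | succ k ih =>
      rw [pow_succ', UG.mul_apply, ih, hy2, Finset.sum_range_succ]
      ext i; fin_cases i <;> simp [mul_pow]
      · field_simp; ring
      · ring
      · ring
  have pw : ∀ a : F, a ≠ 0 → a ^ (q * (q - 1)) = a / σ a := fun a a0 => by
    obtain ⟨r, rfl⟩ : ∃ r, q = r + 1 := ⟨q - 1, by omega⟩
    rw [pow_mul, ← hq, Nat.add_sub_cancel, eq_div_iff (by simpa using a0), ← pow_succ, ← hq, hσ.invol]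
  have hG : ∑ i ∈ Finset.range (q * (q - 1)), (L * L')⁻¹ ^ i = 0 := by
    by_cases h : (L * L')⁻¹ = 1
    · simp [h, q0]
    · rw [geom_sum_eq h, pw _ (by simp [L0, L0'])]
      simp [← hL', hL3, mul_comm, L0, L0']
  have hs : ∀ z, (y ^ (q * (q - 1))).1 z = ![t / t' * z 0, (t' / t) ^ 2 * z 1, t / t' * z 2] := fun z => by
    rw [yp, hG, pw _ L0, pw _ (div_ne_zero L0' L0), pw _ (inv_ne_zero L0')]
    simp only [map_div₀, map_inv₀, ← hL', hL3]
    rw [hL2, hL]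
    ext i; fin_cases i <;> simp <;> field_simp <;> simp
  have hsK := K.pow_mem hyK (q * (q - 1))
  generalize y ^ (q * (q - 1)) = s at hs hsK
  have ns : n * s * n⁻¹ = s := by
    rw [mul_inv_eq_iff_eq_mul]
    refine UG.ext fun z => ?_
    simp only [UG.mul_apply, hs, hn]
    ext i; fin_cases i <;> simp <;> ring
  have h1 : hB.eich ![1, 0, 0] ![0, x, 0] l * (s * (hB.eich ![1, 0, 0] ![0, x, 0] l)⁻¹ * s⁻¹) ∈ K := by
    have := K.mul_mem (K.mul_mem (K.mul_mem hK hsK) (K.inv_mem hK)) (K.inv_mem hsK)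
    rw [hu0] at this
    convert this using 1
    conv_lhs => rw [← ns]
    rw [ns]
    nth_rewrite 1 [← ns]
    group
  have h2 : l + σ l = B3 σ (s.1 ![0, x, 0]) (s.1 ![0, x, 0]) := by rw [UG.map_b, hx']
  have h3 : B3 σ ![1, 0, 0] (s.1 ![0, x, 0]) = 0 := by simp [hs, B3_apply]
  rw [← mul_inv_rev_conj, hB.eich_conj, show s.1 ![1, 0, 0] = (t / t') • ![1, 0, 0] by simp [hs],
    hB.eich_smul_left he h3 h2] at h1
  have h4 : σ (t / t') • s.1 ![0, x, 0] = ![0, (t' / t) ^ 3 * x, 0] := by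
    simp [hs, ← ht, ht']; ring
  have h5 : t / t' * σ (t / t') * l = l := by simp [← ht, ht']; field_simp
  have h6 : l + σ l = B3 σ ![0, (t' / t) ^ 3 * x, 0] ![0, (t' / t) ^ 3 * x, 0] := by
    simp [B3_apply, ← hx, ← ht, ht']; field_simp
  have h7 : σ l + σ (σ l) = B3 σ (-![0, (t' / t) ^ 3 * x, 0]) (-![0, (t' / t) ^ 3 * x, 0]) := by
    rw [hσ.invol, add_comm, h6, map_neg, b_neg_left, neg_neg]
  rw [h4, h5, hB.eich_inv he (hd _) h6, hB.eich_mul he (hd _) hx' (by simp [B3_apply]) h7] at h1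
  have h8 : ![0, (1 - (t' / t) ^ 3) * x, 0] ∈ AE hB K he := by
    have : ![0, (1 - (t' / t) ^ 3) * x, 0] = ![0, x, 0] + -![0, (t' / t) ^ 3 * x, 0] := by simp; ring
    rw [this]
    exact ⟨by simp [B3_apply], _, hB.trace_add hx' h7, h1⟩
  let S : AddSubgroup F :=
    { carrier := {a | ![0, a, 0] ∈ AE hB K he}
      zero_mem' := by simpa [← Matrix.zero_empty] using (AE hB K he).zero_mem
      add_mem' := fun h h' => by simpa using (AE hB K he).add_mem h h'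
      neg_mem' := fun h => by simpa using (AE hB K he).neg_mem h }
  have hS := hgen (mulR (RingHom.id F) S) fun a ha => by
    have := AE_map hB (he := he) he hyK (c := L) (by simp [hy2]) ha L0
    change ![0, t' ^ 3 * a, 0] ∈ AE hB K he
    convert this using 1
    rw [hy2, ← hL', hL2, hL]
    simp
    field_simp
  have h9 : (1 - (t' / t) ^ 3) * x ≠ 0 := mul_ne_zero (fun e => hμ (by field_simp at e; linear_combination -e)) x0
  refine su_fin hB (by simp) he (full_of hB he (fun w hw => ?_) (hd 1) (by simp [B3_apply])) hK (by rwa [ue])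
  have h10 := hS (w 1 / ((1 - (t' / t) ^ 3) * x)) _ h8
  rw [RingHom.id_apply, div_mul_cancel₀ _ h9] at h10
  convert (AE hB K he).add_mem (AE_self hB he (w 0)) h10 using 1
  have : w 2 = 0 := by simpa [B3_apply] using hw
  ext i; fin_cases i <;> simp [this]

theorem su3_main [Fintype F] {q : ℕ} (hF : Nat.card F = q ^ 2) (hq : 3 ≤ q) :
    ∃ u g : Cfsg.SU 3 F q, (IsNilpotent (u.1.1 - 1) ∧ (u.1.1 - 1) ^ 2 ≠ 0) ∧ Subgroup.closure {u, g * u * g⁻¹} = ⊤ := by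
  have hσ := inv_frob hF
  have hc : Fintype.card F = q ^ 2 := by rw [← hF, Nat.card_eq_fintype_card]
  obtain ⟨z, z0, ho, hgen⟩ := cube_gen (F := F) (by rw [hc]; nlinarith)
  obtain ⟨u, hu, g, hg, h1, h2, H⟩ := su3_core hσ (t := frob hF z) (by simpa using z0) (fun e => by
      obtain ⟨q, rfl⟩ : ∃ k, q = k + 1 := ⟨q - 1, by omega⟩
      rw [hσ.invol, frob_apply, ← pow_mul, add_mul, one_mul, pow_add] at e
      have := Nat.le_of_dvd (by omega) (orderOf_dvd_of_pow_eq_one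
        (mul_right_cancel₀ (pow_ne_zero 3 z0) (e.symm.trans (one_mul _).symm)))
      nlinarith) (by rwa [hσ.invol]) (frob_apply hF) (by
      have := FiniteField.cast_card_eq_zero F
      rw [hc] at this
      simpa using this) (by omega)
  obtain ⟨u', φ, h3, h4⟩ := su_finish hF (B3_hf hσ) (n := 3) (by simp) hu hg hg (fun K h h' _ => H K h h') h1 h2
  exact ⟨u', _, h3, by rwa [Set.pair_eq_singleton] at h4⟩

end Cfsg.Agent.Pres.RU
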