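import Mathlib
import Cfsg.Agent.Pres.RG12
import Cfsg.Agent.Pres.FP2

/-! Symplectic systems: plane groups and short root elements. -/

set_option autoImplicit false
set_option linter.unusedSectionVars false

namespace Cfsg.Agent.Pres.SA

open Matrix Subgroup Sum Cfsg.Agent.Classical.SpWitt Cfsg.Agent.Classical.SpMat Cfsg.Agent.Root
open scoped commutatorElement MatrixGroups

variable {F H : Type*} [Field F] [Group H]

/-- the form on the plane -/
def om (u v : Fin 2 → F) : F := u 1 * v 0 - u 0 * v 1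

/-- the action on the plane -/
def ac (g : SL(2, F)) (v : Fin 2 → F) : Fin 2 → F := g.1 *ᵥ v

/-- transvections of the plane -/
def tS (u : Fin 2 → F) (c : F) : SL(2, F) :=
  ⟨!![1 - c * u 0 * u 1, c * u 0 ^ 2; -(c * u 1 ^ 2), 1 + c * u 0 * u 1], by simp [det_fin_two]; ring⟩

theorem ac0 (g : SL(2, F)) (v : Fin 2 → F) : ac g v 0 = g.1 0 0 * v 0 + g.1 0 1 * v 1 := by
  simp [ac, mulVec, dotProduct]

theorem ac1 (g : SL(2, F)) (v : Fin 2 → F) : ac g v 1 = g.1 1 0 * v 0 + g.1 1 1 * v 1 := by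
  simp [ac, mulVec, dotProduct]

theorem ext2 {u v : Fin 2 → F} (h0 : u 0 = v 0) (h1 : u 1 = v 1) : u = v := by
  ext i; fin_cases i <;> assumption

theorem ac_mul (g h : SL(2, F)) (v : Fin 2 → F) : ac (g * h) v = ac g (ac h v) := (mulVec_mulVec ..).symm
@[simp] theorem ac_one (v : Fin 2 → F) : ac 1 v = v := by simp [ac]
@[simp] theorem ac_inv (g : SL(2, F)) (v : Fin 2 → F) : ac g (ac g⁻¹ v) = v := by rw [← ac_mul, mul_inv_cancel, ac_one]
@[simp] theorem inv_ac (g : SL(2, F)) (v : Fin 2 → F) : ac g⁻¹ (ac g v) = v := by rw [← ac_mul, inv_mul_cancel, ac_one]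
theorem ac_smul (g : SL(2, F)) (c : F) (v : Fin 2 → F) : ac g (c • v) = c • ac g v := mulVec_smul ..
theorem ac_add (g : SL(2, F)) (u v : Fin 2 → F) : ac g (u + v) = ac g u + ac g v := mulVec_add ..
@[simp] theorem ac_zero (g : SL(2, F)) : ac g 0 = 0 := mulVec_zero _

theorem ac_ext {g h : SL(2, F)} (e : ∀ v, ac g v = ac h v) : g = h :=
  Subtype.ext (Matrix.ext_of_mulVec_single fun _ => e _)

theorem ac_tS (u : Fin 2 → F) (c : F) (v : Fin 2 → F) : ac (tS u c) v = v + (c * om v u) • u :=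
  ext2 (by rw [ac0]; simp [tS, om]; ring) (by rw [ac1]; simp [tS, om]; ring)

theorem det2 (g : SL(2, F)) : g.1 0 0 * g.1 1 1 - g.1 0 1 * g.1 1 0 = 1 := by rw [← det_fin_two]; exact g.2

theorem om_ac (g : SL(2, F)) (u v : Fin 2 → F) : om (ac g u) (ac g v) = om u v := by
  simp only [om, ac0, ac1]; linear_combination (u 1 * v 0 - u 0 * v 1) * det2 g

@[simp] theorem om_self (u : Fin 2 → F) : om u u = 0 := by simp [om, mul_comm]
@[simp] theorem om_smul_l (c : F) (u v : Fin 2 → F) : om (c • u) v = c * om u v := by simp [om]; ring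
@[simp] theorem om_smul_r (c : F) (u v : Fin 2 → F) : om u (c • v) = c * om u v := by simp [om]; ring
@[simp] theorem om_zero_l (u : Fin 2 → F) : om 0 u = 0 := by simp [om]
@[simp] theorem om_zero_r (u : Fin 2 → F) : om u 0 = 0 := by simp [om]
@[simp] theorem om_add_l (u v w : Fin 2 → F) : om (u + v) w = om u w + om v w := by simp [om]; ring
@[simp] theorem om_add_r (u v w : Fin 2 → F) : om u (v + w) = om u v + om u w := by simp [om]; ring
theorem om_swap (u v : Fin 2 → F) : om u v = -om v u := by simp [om]; ring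

theorem tS_add (u : Fin 2 → F) (c d : F) : tS u (c + d) = tS u c * tS u d :=
  ac_ext fun v => by simp only [ac_mul, ac_tS, om_add_l, om_smul_l, om_self]; module

@[simp] theorem tS_zero (u : Fin 2 → F) : tS u 0 = 1 := ac_ext fun v => by simp [ac_tS]
@[simp] theorem zero_tS (c : F) : tS (0 : Fin 2 → F) c = 1 := ac_ext fun v => by simp [ac_tS]

theorem tS_neg (u : Fin 2 → F) (c : F) : tS u (-c) = (tS u c)⁻¹ :=
  eq_inv_of_mul_eq_one_left (by rw [← tS_add, neg_add_cancel, tS_zero])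

theorem tS_smul (u : Fin 2 → F) (a c : F) : tS (a • u) c = tS u (a ^ 2 * c) :=
  ac_ext fun v => by simp only [ac_tS, om_smul_r]; module

theorem conj_tS (g : SL(2, F)) (u : Fin 2 → F) (c : F) : g * tS u c * g⁻¹ = tS (ac g u) c :=
  ac_ext fun v => by
    rw [ac_mul, ac_mul, ac_tS, ac_tS, ac_add, ac_smul, ac_inv, ← om_ac g, ac_inv]

theorem tS_e0 (c : F) : tS ![1, 0] c = mU c := Subtype.ext (by simp [tS])
theorem tS_e1 (c : F) : tS ![0, 1] c = mL (-c) := Subtype.ext (by simp [tS])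

theorem sl2_tS {K : Subgroup SL(2, F)} (h0 : ∀ t, tS ![1, 0] t ∈ K) (h1 : ∀ t, tS ![0, 1] t ∈ K) (g : SL(2, F)) : g ∈ K :=
  (sl2_top' (fun t => tS_e0 t ▸ h0 t) fun t => by simpa [tS_e1] using h1 (-t)).ge (mem_top g)

/-- the element with given columns -/
def mk2 (u v : Fin 2 → F) (h : om v u = 1) : SL(2, F) :=
  ⟨!![u 0, v 0; u 1, v 1], by rw [← h]; simp [det_fin_two, om]; ring⟩

theorem mk2_0 (u v : Fin 2 → F) (h : om v u = 1) : ac (mk2 u v h) ![1, 0] = u :=
  ext2 (by rw [ac0]; simp [mk2]) (by rw [ac1]; simp [mk2])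
theorem mk2_1 (u v : Fin 2 → F) (h : om v u = 1) : ac (mk2 u v h) ![0, 1] = v :=
  ext2 (by rw [ac0]; simp [mk2]) (by rw [ac1]; simp [mk2])

theorem ex_ac {u : Fin 2 → F} (h : u ≠ 0) : ∃ g, ac g ![1, 0] = u := by
  by_cases h0 : u 0 = 0
  · have h1 : u 1 ≠ 0 := fun e => h (ext2 h0 e)
    exact ⟨_, mk2_0 u ![-(u 1)⁻¹, 0] (by simp [om, h1])⟩
  · exact ⟨_, mk2_0 u ![0, (u 0)⁻¹] (by simp [om, h0])⟩

theorem ex_ac' (u : Fin 2 → F) : ∃ g, ∃ c : F, c • ac g ![1, 0] = u := by
  by_cases h : u = 0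
  · exact ⟨1, 0, by simp [h]⟩
  · exact (ex_ac h).imp fun g e => ⟨1, by rw [one_smul, e]⟩

theorem par_of_om {u v : Fin 2 → F} (h : om u v = 0) : ∃ g, ∃ c d : F, c • ac g ![1, 0] = u ∧ d • ac g ![1, 0] = v := by
  have key : ∀ u v : Fin 2 → F, u ≠ 0 → om u v = 0 → ∃ g, ∃ c d : F, c • ac g ![1, 0] = u ∧ d • ac g ![1, 0] = v := by
    intro u v hu h
    obtain ⟨g, rfl⟩ := ex_ac hu
    refine ⟨g, 1, ac g⁻¹ v 0, one_smul .., ?_⟩
    rw [← ac_inv g v, om_ac] at h
    rw [← ac_smul, ← ac_inv g v, inv_ac]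
    congr 1
    exact ext2 (by simp) (by simpa [om, eq_comm] using h)
  by_cases hu : u = 0
  · obtain ⟨g, c, e⟩ := ex_ac' v
    exact ⟨g, 0, c, by simp [hu], e⟩
  · exact key u v hu h

/-- the relations in rank two -/
structure Edge (s t : SL(2, F) →* H) (E : (Fin 2 → F) → (Fin 2 → F) → H) : Prop where
  comm : ∀ g h, Commute (s g) (t h)
  act : ∀ g u v, s g * E u v * (s g)⁻¹ = E (ac g u) v
  act' : ∀ g u v, t g * E u v * (t g)⁻¹ = E u (ac g v)
  smul : ∀ (c : F) u v, E (c • u) v = E u (c • v)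
  mul : ∀ u v v', E u v * E u v' = E u (v + v') * s (tS u (om v' v))
  mul' : ∀ u u' v, E u v * E u' v = E (u + u') v * t (tS v (om u' u))

namespace Edge
variable {s t : SL(2, F) →* H} {E : (Fin 2 → F) → (Fin 2 → F) → H} (h : Edge s t E)
include h

theorem symm : Edge t s fun v u => E u v :=
  ⟨fun a b => (h.comm b a).symm, fun g u v => h.act' g v u, fun g u v => h.act g v u,
    fun c u v => (h.smul c v u).symm, fun u v v' => h.mul' v v' u, fun u u' v => h.mul v u u'⟩

theorem map {K : Type*} [Group K] (f : H →* K) : Edge (f.comp s) (f.comp t) fun u v => f (E u v) :=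
  ⟨fun a b => (h.comm a b).map f, fun g u v => by simp [← h.act], fun g u v => by simp [← h.act'],
    fun c u v => by rw [h.smul], fun u v v' => by simpa using congrArg f (h.mul u v v'),
    fun u u' v => by simpa using congrArg f (h.mul' u u' v)⟩

theorem zero (u : Fin 2 → F) : E u 0 = 1 := by simpa using h.mul u 0 0
theorem zero' (u : Fin 2 → F) : E 0 u = 1 := h.symm.zero u

theorem add_smul (u v : Fin 2 → F) (c d : F) : E u ((c + d) • v) = E u (c • v) * E u (d • v) := by
  simp [h.mul, _root_.add_smul]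

theorem neg (u v : Fin 2 → F) : E u (-v) = (E u v)⁻¹ :=
  eq_inv_of_mul_eq_one_left (by simpa [h.zero] using (h.add_smul u v (-1) 1).symm)

theorem neg' (u v : Fin 2 → F) : E (-u) v = (E u v)⁻¹ := h.symm.neg v u

theorem comm_s {g : SL(2, F)} {u : Fin 2 → F} (e : ac g u = u) (v : Fin 2 → F) : Commute (s g) (E u v) := by
  have := h.act g u v
  rwa [e, mul_inv_eq_iff_eq_mul] at this

theorem comm_T (u v : Fin 2 → F) (c : F) : Commute (s (tS u c)) (E u v) := h.comm_s (by simp [ac_tS]) v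

theorem comm_E {v v' : Fin 2 → F} (u : Fin 2 → F) (e : om v v' = 0) : Commute (E u v) (E u v') := by
  rw [Commute, SemiconjBy, h.mul, h.mul, add_comm, om_swap v', e, neg_zero]

theorem commutator (u v v' : Fin 2 → F) : ⁅E u v, E u v'⁆ = s (tS u (2 * om v' v)) := by
  rw [commutatorElement_def, mul_inv_eq_iff_eq_mul, mul_inv_eq_iff_eq_mul, mul_assoc, h.mul, h.mul, ← mul_assoc,
    (h.comm_T ..).eq, mul_assoc, ← map_mul, ← tS_add, add_comm v, om_swap v]
  congr 3; ring

end Edge

/-- the relations in all ranks -/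
structure Sys (I F H : Type*) [Field F] [Group H] where
  s : I → SL(2, F) →* H
  E : I → I → (Fin 2 → F) → (Fin 2 → F) → H
  edge : ∀ {i j}, i ≠ j → Edge (s i) (s j) (E i j)
  symm : ∀ {i j}, i ≠ j → ∀ u v, E i j u v = E j i v u
  far : ∀ {i j k}, i ≠ j → k ≠ i → k ≠ j → ∀ g u v, Commute (s k g) (E i j u v)
  tri : ∀ {i j k}, i ≠ j → j ≠ k → i ≠ k → ∀ u v v' w, ⁅E i j u v, E j k v' w⁆ = E i k u (om v' v • w)
  quad : ∀ {i j k l}, i ≠ j → k ≠ l → i ≠ k → i ≠ l → j ≠ k → j ≠ l → ∀ u v u' v', Commute (E i j u v) (E k l u' v')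

section
variable {V : Type*} [AddCommGroup V] [Module F V] {B : LinearMap.BilinForm F V} (hA : B.IsAlt)

/-- short root elements -/
def eE (x y : V) : SG B := tv hA (x + y) 1 * tv hA x (-1) * tv hA y (-1)

theorem eE_apply {x y : V} (h : B x y = 0) (v : V) : (eE hA x y).1 v = v + B v x • y + B v y • x := by
  have h' : B y x = 0 := by rw [← hA.neg_eq, h, neg_zero]
  simp only [eE, SG.mul_apply, tv_apply, map_add, map_smul, LinearMap.add_apply, LinearMap.smul_apply, h, h',
    hA.self_eq_zero, smul_eq_mul]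
  module

theorem conj_eE (g : SG B) (x y : V) : g * eE hA x y * g⁻¹ = eE hA (g.1 x) (g.1 y) := by
  simp only [eE, ← map_add, ← conj_tv]; group

theorem eE_symm {x y : V} (h : B x y = 0) : eE hA x y = eE hA y x := SG.ext fun v => by
  rw [eE_apply hA h, eE_apply hA (by rw [← hA.neg_eq, h, neg_zero])]; abel

theorem eE_smul {x y : V} (h : B x y = 0) (c : F) : eE hA (c • x) y = eE hA x (c • y) := SG.ext fun v => by
  rw [eE_apply hA (by simp [h]), eE_apply hA (by simp [h])]; simp only [map_smul, smul_eq_mul]; module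

theorem eE_mul {x y y' : V} (h : B x y = 0) (h' : B x y' = 0) :
    eE hA x y * eE hA x y' = eE hA x (y + y') * tv hA x (B y' y) := SG.ext fun v => by
  have h1 : B y' x = 0 := by rw [← hA.neg_eq, h', neg_zero]
  have h2 : B x (y + y') = 0 := by simp [h, h']
  simp only [SG.mul_apply, eE_apply hA h, eE_apply hA h', eE_apply hA h2, tv_apply, map_add, map_smul,
    LinearMap.add_apply, LinearMap.smul_apply, h, h', h1, hA.self_eq_zero, smul_eq_mul]
  module

end

variable {I : Type*} [DecidableEq I] [Fintype I]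

/-- coordinates in a plane -/
def pr (i : I) (x : I ⊕ I → F) : Fin 2 → F := ![x (inl i), x (inr i)]

/-- vectors from their coordinates -/
def un (f : I → Fin 2 → F) : I ⊕ I → F := Sum.elim (fun i => f i 0) fun i => f i 1

@[simp] theorem pr_un (f : I → Fin 2 → F) (i : I) : pr i (un f) = f i := ext2 rfl rfl

theorem pr_ext {x y : I ⊕ I → F} (h : ∀ i, pr i x = pr i y) : x = y := by
  ext (i | i)
  exacts [congrFun (h i) 0, congrFun (h i) 1]

@[simp] theorem pr_add (i : I) (x y : I ⊕ I → F) : pr i (x + y) = pr i x + pr i y := ext2 rfl rfl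
@[simp] theorem pr_smul (i : I) (c : F) (x : I ⊕ I → F) : pr i (c • x) = c • pr i x := ext2 rfl rfl

theorem sB_pr (x y : I ⊕ I → F) : sB I F x y = ∑ i, om (pr i x) (pr i y) := sB_eq_sum x y

/-- the planes -/
def emb (i : I) (u : Fin 2 → F) : I ⊕ I → F := un (Pi.single i u)

theorem pr_emb (i j : I) (u : Fin 2 → F) : pr j (emb i u) = if j = i then u else 0 := by
  rw [emb, pr_un, Pi.single_apply]

theorem sB_emb (x : I ⊕ I → F) (i : I) (u : Fin 2 → F) : sB I F x (emb i u) = om (pr i x) u := by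
  simp [sB_pr, pr_emb, apply_ite]

theorem emb_smul (i : I) (c : F) (u : Fin 2 → F) : emb i (c • u) = c • emb i u :=
  pr_ext fun j => by simp [pr_emb]

theorem emb_add (i : I) (u v : Fin 2 → F) : emb i (u + v) = emb i u + emb i v :=
  pr_ext fun j => by simp only [pr_emb, pr_add]; split_ifs <;> simp

theorem emb_orth {i j : I} (h : i ≠ j) (u v : Fin 2 → F) : sB I F (emb i u) (emb j v) = 0 := by
  simp [sB_emb, pr_emb, h.symm]

theorem emb_emb (i : I) (u v : Fin 2 → F) : sB I F (emb i u) (emb i v) = om u v := by simp [sB_emb, pr_emb]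

/-- block diagonal maps -/
def blkL (g : I → SL(2, F)) : (I ⊕ I → F) →ₗ[F] (I ⊕ I → F) where
  toFun x := un fun i => ac (g i) (pr i x)
  map_add' x y := pr_ext fun i => by simp [ac_add]
  map_smul' c x := pr_ext fun i => by simp [ac_smul]

@[simp] theorem pr_blkL (g : I → SL(2, F)) (x : I ⊕ I → F) (i : I) : pr i (blkL g x) = ac (g i) (pr i x) := pr_un ..

/-- block diagonal isometries -/
noncomputable def blk : (I → SL(2, F)) →* SG (sB I F) where
  toFun g := ⟨LinearEquiv.ofLinear (blkL g) (blkL g⁻¹) (LinearMap.ext fun x => pr_ext fun i => by simp)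
    (LinearMap.ext fun x => pr_ext fun i => by simp), fun x y => by simp [sB_pr, om_ac]⟩
  map_one' := SG.ext fun x => pr_ext fun i => by simp
  map_mul' g h := SG.ext fun x => pr_ext fun i => by simp [ac_mul]

theorem pr_blk (g : I → SL(2, F)) (x : I ⊕ I → F) (i : I) : pr i ((blk g).1 x) = ac (g i) (pr i x) := pr_un ..

theorem blk_inj : Function.Injective (blk : (I → SL(2, F)) →* _) := fun g h e => funext fun i => ac_ext fun v => by
  simpa [pr_blk, pr_emb] using congrArg (fun k : SG (sB I F) => pr i (k.1 (emb i v))) e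

/-- the plane groups -/
noncomputable def s0 (i : I) : SL(2, F) →* SG (sB I F) := blk.comp (MonoidHom.mulSingle (fun _ => SL(2, F)) i)

theorem pr_s0 (i : I) (g : SL(2, F)) (x : I ⊕ I → F) (j : I) :
    pr j ((s0 i g).1 x) = if j = i then ac g (pr j x) else pr j x := by
  rw [s0, MonoidHom.comp_apply, pr_blk, MonoidHom.mulSingle_apply, Pi.mulSingle_apply]; split_ifs <;> simp

theorem s0_emb (i : I) (g : SL(2, F)) (u : Fin 2 → F) : (s0 i g).1 (emb i u) = emb i (ac g u) :=
  pr_ext fun j => by simp only [pr_s0, pr_emb]; split_ifs <;> simp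

theorem s0_emb' {i j : I} (h : i ≠ j) (g : SL(2, F)) (u : Fin 2 → F) : (s0 i g).1 (emb j u) = emb j u :=
  pr_ext fun k => by simp only [pr_s0, pr_emb]; split_ifs <;> simp_all

theorem s0_tS (i : I) (u : Fin 2 → F) (c : F) : s0 i (tS u c) = tv sB_alt (emb i u) c :=
  SG.ext fun x => pr_ext fun j => by
    simp only [pr_s0, tv_apply, pr_add, pr_smul, pr_emb, sB_emb, ac_tS]; split_ifs <;> simp_all

/-- the short root elements -/
noncomputable def E0 (i j : I) (u v : Fin 2 → F) : SG (sB I F) := eE sB_alt (emb i u) (emb j v)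

theorem E0_apply {i j : I} (h : i ≠ j) (u v : Fin 2 → F) (x : I ⊕ I → F) :
    (E0 i j u v).1 x = x + om (pr i x) u • emb j v + om (pr j x) v • emb i u := by
  rw [E0, eE_apply _ (emb_orth h _ _), sB_emb, sB_emb]

theorem E0_symm {i j : I} (h : i ≠ j) (u v : Fin 2 → F) : E0 i j u v = E0 j i v u := eE_symm _ (emb_orth h _ _)

theorem s0_comm {i j : I} (h : i ≠ j) (a b : SL(2, F)) : Commute (s0 i a) (s0 j b) :=
  SG.ext fun x => pr_ext fun k => by simp only [SG.mul_apply, pr_s0]; split_ifs <;> simp_all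

theorem edge0 {i j : I} (h : i ≠ j) : Edge (s0 i) (s0 j) (E0 (F := F) i j) where
  comm := s0_comm h
  act g u v := by rw [E0, conj_eE, s0_emb, s0_emb' h, E0]
  act' g u v := by rw [E0, conj_eE, s0_emb, s0_emb' h.symm, E0]
  smul c u v := by rw [E0, E0, emb_smul, emb_smul, eE_smul _ (emb_orth h _ _)]
  mul u v v' := by rw [E0, E0, E0, eE_mul _ (emb_orth h _ _) (emb_orth h _ _), emb_add, s0_tS, emb_emb]
  mul' u u' v := by
    rw [E0_symm h, E0_symm h, E0_symm h, E0, E0, E0, eE_mul _ (emb_orth h.symm _ _) (emb_orth h.symm _ _), emb_add,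
      s0_tS, emb_emb]

variable (I F) in
/-- the standard system -/
noncomputable def sys0 : Sys I F (SG (sB I F)) where
  s := s0
  E := E0
  edge := edge0
  symm := E0_symm
  far h h1 h2 g u v := by rw [Commute, SemiconjBy, ← mul_inv_eq_iff_eq_mul, E0, conj_eE, s0_emb' h1, s0_emb' h2]
  tri {i j k} h1 h2 h3 u v v' w := by
    rw [commutatorElement_def, mul_inv_eq_iff_eq_mul, mul_inv_eq_iff_eq_mul]
    refine SG.ext fun x => ?_
    simp only [SG.mul_apply, E0_apply h1, E0_apply h2, E0_apply h3, pr_add, pr_smul, pr_emb, h1, h2, h3, h1.symm,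
      h2.symm, h3.symm, if_true, if_false, om_add_l, om_smul_l, om_smul_r, om_self, om_zero_l, emb_smul, smul_zero,
      add_zero, om_swap v v']
    module
  quad {i j k l} h1 h2 h3 h4 h5 h6 u v u' v' := by
    rw [Commute, SemiconjBy, ← mul_inv_eq_iff_eq_mul, E0.eq_1 k, conj_eE, E0_apply h1, E0_apply h1]
    simp [pr_emb, *]

end Cfsg.Agent.Pres.SA
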