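import Mathlib
import Cfsg.Agent.Pres.SA1

/-! The symplectic group is universal for symplectic systems. -/

set_option autoImplicit false
set_option linter.unusedSectionVars false

namespace Cfsg.Agent.Pres.SA

open Matrix Subgroup Sum Equiv Cfsg.Agent.Classical.SpWitt Cfsg.Agent.Classical.SpMat Cfsg.Agent.Root
open scoped commutatorElement MatrixGroups

variable {F G I : Type*} [Field F] [Group G] [DecidableEq I] [Fintype I]

theorem bruhat1 {X X' T : Subgroup G} {n : G} (hT : T ≤ normalizer (X : Set G)) (hn : ∀ t ∈ T, n * t * n⁻¹ ∈ T)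
    (hn2 : n * n ∈ T) (h1 : ∀ x ∈ X, n * x * n⁻¹ ∈ X') (h2 : ∀ x ∈ X', n⁻¹ * x * n ∈ X)
    (h3 : ∀ x ∈ X', x ≠ 1 → ∃ y ∈ X, y * x * y * n⁻¹ ∈ T) {g : G} (hg : g ∈ X ⊔ X') :
    g ∈ X ⊔ T ∨ ∃ b1 ∈ X ⊔ T, ∃ b2 ∈ X ⊔ T, g = b1 * n * b2 := by
  let Y : G → Prop := fun g => g ∈ X ⊔ T ∨ ∃ b1 ∈ X ⊔ T, ∃ b2 ∈ X ⊔ T, g = b1 * n * b2
  let K : Subgroup G :=
    { carrier := {g | ∀ y, Y y → Y (g * y) ∧ Y (g⁻¹ * y)}
      one_mem' := fun y hy => by simpa using hy
      mul_mem' := fun h h' y hy => by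
        simpa only [mul_assoc, _root_.mul_inv_rev] using And.intro (h _ (h' y hy).1).1 (h' _ (h y hy).2).2
      inv_mem' := fun h y hy => by simpa only [inv_inv] using (h y hy).symm }
  have hB : ∀ b ∈ X ⊔ T, ∀ y, Y y → Y (b * y) := by
    rintro b hb y (hy | ⟨b1, h1, b2, h2, rfl⟩)
    · exact .inl (mul_mem hb hy)
    · exact .inr ⟨_, mul_mem hb h1, b2, h2, by group⟩
  have hN : ∀ y, Y y → Y (n * y) := by
    rintro y (hy | ⟨b1, hb, b2, hb2, rfl⟩)
    · exact .inr ⟨1, one_mem _, y, hy, by group⟩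
    obtain ⟨x, hx, t, ht, rfl⟩ := mem_sup_norm hT hb
    have h4 : n * t * n⁻¹ * (n * n) * b2 ∈ X ⊔ T := mul_mem (mem_sup_right (mul_mem (hn t ht) hn2)) hb2
    by_cases e : n * x * n⁻¹ = 1
    · exact .inl (by convert h4 using 1; rw [← one_mul (n * t * n⁻¹), ← e]; group)
    obtain ⟨y, hy, h5⟩ := h3 _ (h1 x hx) e
    exact .inr ⟨_, mul_mem (mem_sup_left (inv_mem hy)) (mem_sup_right h5), _,
      mul_mem (mem_sup_left (inv_mem hy)) h4, by group⟩
  have hBK : X ⊔ T ≤ K := fun b hb y hy => ⟨hB b hb y hy, hB _ (inv_mem hb) y hy⟩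
  have hnK : n ∈ K := fun y hy => ⟨hN y hy, by
    convert hB _ (mem_sup_right (inv_mem hn2)) _ (hN y hy) using 1; group⟩
  have : X ⊔ X' ≤ K := sup_le (le_sup_left.trans hBK) fun x hx => by
    convert mul_mem (mul_mem hnK (hBK (mem_sup_left (h2 x hx)))) (inv_mem hnK) using 1; group
  simpa using (this hg 1 (.inl (one_mem _))).1

theorem Lift.ker_sup {n : ℕ} {D : UD (Fin (n + 2) ⊕ Fin (n + 2)) F} {π : G →* HH (Fin (n + 2) ⊕ Fin (n + 2)) F}
    (Λ : Lift D π) (hR : D.Rk) (hL : ∃ u b, D.L u b ∧ b ≠ 0) {g : G} (hg : g ∈ XS Λ.U fun _ => True) (e : π g = 1)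
    {K : Subgroup G} (h1 : ∀ i, Λ.Y i ≤ K) (h2 : ∀ i j, D2 i j → ∀ g ∈ Λ.X i j ⊔ Λ.X j i, (g, 1) ∈ Λ.M → g ∈ K) :
    g ∈ K := by
  have hi : Function.Injective (ht (n + 2) (n + 2)) := by
    rintro (_ | a | a) (_ | b | b) <;>
      simp only [ht, Option.some.injEq, inl.injEq, inr.injEq, reduceCtorEq, implies_true] <;> omega
  have hf := ht_od (n + 2) (n + 2)
  have hu := fun (k : Fin (n + 1)) b => simX hf (D2_inl (Fin.castSucc_lt_succ (i := k)).ne) (by simp [ht]; ring)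
    (by simp only [ht]; omega) b fun x _ k _ e => .inl (hi e)
  have hv := simY hf hi (i := inl (Fin.last _)) (by simp [ht])
  refine iSup_le (a := K) ?_ (Λ.ker_torus hR hf (fun δ : Option (Fin (n + 1)) => δ.elim (some (inl (Fin.last _)), none)
      fun k => (some (inl k.castSucc), some (inl k.succ)))
    (by
      rintro (_ | k)
      · obtain ⟨u, b, hL, hb⟩ := hL
        refine .inr ⟨_, rfl, fun e => hb ?_⟩
        have h1 : D.Y (inl (Fin.last _)) u b = 1 := mem_bot.mp (e ▸ UD.Y_mem _ hL)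
        simpa [UD.Y_apply] using congrArg (fun g : HH _ F => g (ee (some (inr (Fin.last _)))) (some (inl (Fin.last _)))) h1
      · exact .inl ⟨_, _, D2_inl (Fin.castSucc_lt_succ (i := k)).ne, rfl⟩)
    (fun a h => by
      obtain ⟨x, y⟩ := a
      obtain rfl : x = y := hi (sub_eq_zero.mp h)
      exact fam_o ..)
    (by rintro (_ | k) <;> simp [lv, ht])
    (by
      rintro (_ | k) b hb
      · exact ((hv b).1 hb).imp_right .inl
      · exact ((hu k b).1 hb).imp_right .inl)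
    (by
      rintro (_ | k) b hb
      · exact .inl ((hv b).2 hb)
      · exact ((hu k b).2 hb).imp_right fun h => by have := h.1; simp only [ht] at this; omega)
    (fun b => by
      set W := closure (Set.range fun δ : Option (Fin (n + 1)) => rfl' (δ.elim
        (some (inl (Fin.last (n + 1)) : Fin (n + 2) ⊕ Fin (n + 2)), none) fun k => (some (inl k.castSucc), some (inl k.succ))))
      have h1 := dp_mem (W := W) fun k => subset_closure ⟨some k, rfl⟩
      have h2 : ∀ k, rfl' (some k, none) ∈ W := by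
        have : ∀ a, rfl' (some (inl a : Fin (n + 2) ⊕ Fin (n + 2)), none) ∈ W := fun a => by
          simpa using rfl'_mem (h1 (swap (Fin.last _) a)) (dp_cm _) (a := (some (inl (Fin.last _)), none))
            (subset_closure ⟨none, rfl⟩)
        rintro (a | a)
        · exact this a
        · have := this a
          rw [rfl', fam_y] at this ⊢
          rwa [Equiv.swap_comm]
      rcases root_cases b with ⟨x, rfl⟩ | ⟨i, j, hd, rfl⟩ | ⟨i, rfl⟩ | ⟨i, rfl⟩ | ⟨i, rfl⟩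
      · exact .inl (fam_o ..)
      · refine .inr (rflX_mem h1 (fun a b h => ?_) hd)
        have := rfl'_mem (h2 (inl b)) (UD.rfl'_cm _) (dp_swap h ▸ h1 _)
        simpa [rfl', fam_y, swap_apply_def, h] using this
      · exact .inr (by rw [rfl', fam_z]; exact h2 i)
      · exact .inr (h2 i)
      · exact .inr (by rw [rfl', fam_y']; exact h2 i)) hg e)
  rintro (_ | k)
  · exact inf_le_left.trans (sup_le (h1 _) ((Λ.U_y' (inr (Fin.last _))).le.trans (h1 _)))
  · have := D2_inl (Fin.castSucc_lt_succ (i := k)).ne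
    exact fun g hg => h2 _ _ this g (by rw [← Λ.U_x this, ← Λ.U_x this.symm]; exact hg.1) hg.2

/-- basis vectors of the planes -/
def bv (a : I ⊕ I) : Fin 2 → F := a.elim (fun _ => ![1, 0]) fun _ => ![0, 1]

theorem emb_bv (a : I ⊕ I) : emb (ab a) (bv a) = (Pi.single a 1 : I ⊕ I → F) := by
  rcases a with a | a <;> ext (b | b) <;> simp [emb, un, bv, Pi.single_apply, ite_apply]

theorem om_bv (x : I ⊕ I → F) (a : I ⊕ I) : om (pr (ab a) x) (bv a) = -((spD I F).η a * x (bar a)) := by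
  rcases a with a | a <;> simp [om, pr, bv, spD]

@[simp] theorem ab_bar (a : I ⊕ I) : ab (bar a) = ab a := by cases a <;> rfl

theorem ab_eq {a b : I ⊕ I} (h : ab a = ab b) (h' : a ≠ bar b) : a = b := by
  rcases a with a | a <;> rcases b with b | b <;> simp_all

/-- the comparison map -/
noncomputable def rho : SG (sB I F) →* HH (I ⊕ I) F := lf.comp (SG _).subtype

theorem rho_inj : Function.Injective (rho : SG (sB I F) →* _) := lf_inj.comp Subtype.val_injective

theorem rho_E {a b : I ⊕ I} (h : D2 a b) (t : F) :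
    rho (E0 (ab a) (ab b) (bv a) (((spD I F).η b * t) • bv (bar b))) = (spD I F).X a b t := by
  refine LinearEquiv.ext fun v => funext fun x => ?_
  have h1 := emb_bv (F := F) (bar b)
  have h2 := om_bv (fun k => v (some k)) (bar b)
  have h3 := (spD I F).η_sq b
  rw [ab_bar] at h1 h2
  rcases x with _ | x
  · simp [rho, UD.X_apply _ h]
  simp only [rho, MonoidHom.comp_apply, lf_some, coe_subtype, E0_apply (D2_iff.1 h), UD.X_apply _ h, emb_smul, h1,
    emb_bv, om_smul_r, om_bv, h2, UD.η_bar, Pi.add_apply, Pi.sub_apply, Pi.smul_apply, Pi.single_apply, ee_apply,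
    Option.some.injEq, bar_bar, smul_eq_mul, show (spD I F).ε = -1 from rfl, show ∀ t, (spD I F).σ t = t from fun _ => rfl]
  linear_combination (t * v (some b) * if x = a then 1 else 0) * h3

theorem rho_T (a : I ⊕ I) (t : F) : rho (s0 (ab a) (tS (bv a) (-((spD I F).η a * t)))) = (spD I F).Y a 0 t := by
  refine LinearEquiv.ext fun v => funext fun x => ?_
  have h3 := (spD I F).η_sq a
  rcases x with _ | x
  · simp [rho, UD.Y_apply]
  simp only [rho, MonoidHom.comp_apply, lf_some, coe_subtype, s0_tS, tv_apply, sB_emb, om_bv, UD.Y_apply,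
    Pi.add_apply, Pi.smul_apply, ee_apply, Option.some.injEq, smul_eq_mul, map_zero]
  simp only [emb_bv, Pi.single_apply]
  linear_combination (t * v (some (bar a)) * if x = a then 1 else 0) * h3

theorem rho_range [Nonempty I] : (rho : SG (sB I F) →* _).range = (spD I F).E := by
  obtain ⟨l⟩ := ‹Nonempty I›
  have h1 : ∀ g, lf g ∈ (spD I F).Iso ↔ g ∈ SG (sB I F) := fun g => by
    rw [UD.Bf_lf]
    refine forall₂_congr fun v w => ?_
    simp [sB_eq_sum, spD, Finset.sum_sub_distrib, neg_add_eq_sub]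
  trans (spD I F).Iso ⊓ Fx (ee none)
  · ext g
    refine ⟨?_, fun h => ?_⟩
    · rintro ⟨A, rfl⟩; exact ⟨(h1 _).mpr (Subtype.prop _), lf_ee _⟩
    · obtain ⟨g, rfl⟩ := exists_lf h.2 (UD.iso_none h.1 h.2)
      exact ⟨⟨g, (h1 g).mp h.1⟩, rfl⟩
  refine UD.genC (le_inf (UD.E_iso _) (UD.E_le _ (fun i j a h => ?_) fun i u b h => ?_)) inf_le_left
    (fun g hg k a c u b hc h => ?_) (inl l) ⟨0, 1, rfl, one_ne_zero⟩
    (fun g hg c c' _ h _ => ⟨0, 1, 0, -c, rfl, rfl, one_ne_zero, neg_ne_zero.mpr (UD.ne_of_apply h), by simp [spD]⟩)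
    fun g hg h => UD.fix_all hg.1 h (.inl hg.2)
  · simp [mem_Fx, UD.X_apply _ h]
  · simp [mem_Fx, UD.Y_apply, show u = 0 from h]
  · simpa [h, hc, spD] using UD.iso_none hg.1 hg.2 (ee (some k))

theorem gen0 [Nonempty I] {K : Subgroup (SG (sB I F))} (h1 : ∀ i g, s0 i g ∈ K)
    (h2 : ∀ i j, i ≠ j → ∀ u v, E0 i j u v ∈ K) (g : SG (sB I F)) : g ∈ K := by
  obtain ⟨k, hk, e⟩ := UD.E_le _ (K := K.map rho) (fun i j a h => ⟨_, h2 _ _ (D2_iff.1 h) _ _, rho_E h a⟩)
    (fun i u b h => ⟨_, h1 _ _, (rho_T i b).trans (by rw [show u = 0 from h])⟩)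
    ((rho_range (I := I) (F := F)).le ⟨g, rfl⟩)
  rwa [← rho_inj e]

theorem mem_closure_add {f : F → G} (h : ∀ s t, f (s + t) = f s * f t) {x : G} :
    x ∈ closure (Set.range f) ↔ ∃ t, f t = x := by
  let φ := MonoidHom.mk' (fun t : Multiplicative F => f t.toAdd) h
  exact (show closure (Set.range f) = φ.range from closure_eq φ.range) ▸ Iff.rfl

theorem Edge.mem {s t : SL(2, F) →* G} {E : (Fin 2 → F) → (Fin 2 → F) → G} (h : Edge s t E) {K : Subgroup G}
    (h1 : ∀ g, s g ∈ K) (h2 : ∀ g, t g ∈ K) (h3 : ∀ c : F, E ![1, 0] (c • ![1, 0]) ∈ K) (u v : Fin 2 → F) : E u v ∈ K := by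
  obtain ⟨g, c, rfl⟩ := ex_ac' u
  obtain ⟨g', d, rfl⟩ := ex_ac' v
  rw [h.smul, smul_smul, ← ac_smul, ← h.act, ← h.act']
  exact mul_mem (mul_mem (h1 _) (mul_mem (mul_mem (h2 _) (h3 _)) (inv_mem (h2 _)))) (inv_mem (h1 _))

theorem Edge.prod {H : Type*} [Group H] {s t : SL(2, F) →* G} {E : (Fin 2 → F) → (Fin 2 → F) → G} (h : Edge s t E)
    {s' t' : SL(2, F) →* H} {E' : (Fin 2 → F) → (Fin 2 → F) → H} (h' : Edge s' t' E') :
    Edge (s.prod s') (t.prod t') fun u v => (E u v, E' u v) :=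
  ⟨fun a b => Prod.ext (h.comm a b) (h'.comm a b), fun g u v => Prod.ext (h.act g u v) (h'.act g u v),
    fun g u v => Prod.ext (h.act' g u v) (h'.act' g u v), fun g u v => Prod.ext (h.smul g u v) (h'.smul g u v),
    fun g u v => Prod.ext (h.mul g u v) (h'.mul g u v), fun g u v => Prod.ext (h.mul' g u v) (h'.mul' g u v)⟩

namespace Sys

variable (S : Sys I F G)

theorem comm_gen {i j k l : I} (h : i ≠ j) (h' : k ≠ l) {u v u' v' : Fin 2 → F} (h1 : k = i → om u u' = 0)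
    (h2 : k = j → om v u' = 0) (h3 : l = i → om u v' = 0) (h4 : l = j → om v v' = 0) :
    Commute (S.E i j u v) (S.E k l u' v') := by
  have A : ∀ {i j : I}, i ≠ j → ∀ {u v u' v' : Fin 2 → F}, om u u' = 0 → om v v' = 0 →
      Commute (S.E i j u v) (S.E i j u' v') := fun h u v u' v' h1 h2 => by
    obtain ⟨g, c, d, rfl, rfl⟩ := par_of_om h1
    rw [(S.edge h).smul, (S.edge h).smul]
    exact (S.edge h).comm_E _ (by simp [h2])
  have B : ∀ {i j k : I}, i ≠ j → j ≠ k → i ≠ k → ∀ {u v u' v' : Fin 2 → F}, om v u' = 0 →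
      Commute (S.E i j u v) (S.E j k u' v') := fun h1 h2 h3 u v u' v' h => by
    rw [← commutatorElement_eq_one_iff_commute, S.tri h1 h2 h3, om_swap, h, neg_zero, zero_smul, (S.edge h3).zero]
  by_cases e1 : k = i
  · subst e1
    by_cases e2 : l = j
    · subst e2; exact A h (h1 rfl) (h4 rfl)
    · rw [S.symm h]; exact B h.symm h' (Ne.symm e2) (h1 rfl)
  by_cases e2 : k = j
  · subst e2
    by_cases e3 : l = i
    · subst e3; rw [S.symm h']; exact A h (h3 rfl) (h2 rfl)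
    · exact B h h' (Ne.symm e3) (h2 rfl)
  by_cases e3 : l = i
  · subst e3; rw [S.symm h, S.symm h']; exact B h.symm h'.symm (Ne.symm e2) (h3 rfl)
  by_cases e4 : l = j
  · subst e4; rw [S.symm h']; exact B h h'.symm (Ne.symm e1) (h4 rfl)
  exact S.quad h h' (Ne.symm e1) (Ne.symm e3) (Ne.symm e2) (Ne.symm e4) ..

/-- short root elements -/
def xe (a b : I ⊕ I) (t : F) : G := S.E (ab a) (ab b) (bv a) (((spD I F).η b * t) • bv (bar b))

/-- long root elements -/
def ye (a : I ⊕ I) (t : F) : G := S.s (ab a) (tS (bv a) (-((spD I F).η a * t)))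

theorem xe_add {a b : I ⊕ I} (h : D2 a b) (s t : F) : S.xe a b (s + t) = S.xe a b s * S.xe a b t := by
  rw [xe, mul_add, (S.edge (D2_iff.1 h)).add_smul]; rfl

theorem ye_add (a : I ⊕ I) (s t : F) : S.ye a (s + t) = S.ye a s * S.ye a t := by
  rw [ye, mul_add, neg_add, tS_add, map_mul]; rfl

theorem xe_zero {a b : I ⊕ I} (h : D2 a b) : S.xe a b 0 = 1 := by simp [xe, (S.edge (D2_iff.1 h)).zero]

theorem xe_neg {a b : I ⊕ I} (h : D2 a b) (t : F) : S.xe a b (-t) = (S.xe a b t)⁻¹ :=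
  eq_inv_of_mul_eq_one_left (by rw [← S.xe_add h, neg_add_cancel, S.xe_zero h])

theorem E_mem (a b : I ⊕ I) (t : F) :
    S.E (ab a) (ab b) (bv a) (t • bv (bar b)) ∈ closure (Set.range (S.xe a b)) :=
  subset_closure ⟨(spD I F).η b * t, by rw [xe, ← mul_assoc, UD.η_sq, one_mul]⟩

theorem T_mem (a : I ⊕ I) (t : F) : S.s (ab a) (tS (bv a) t) ∈ closure (Set.range (S.ye a)) :=
  subset_closure ⟨-((spD I F).η a * t), by rw [ye, mul_neg, neg_neg, ← mul_assoc, UD.η_sq, one_mul]⟩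

variable {π : G →* SG (sB I F)} (hs : ∀ i g, π (S.s i g) = s0 i g)
  (hE : ∀ i j, i ≠ j → ∀ u v, π (S.E i j u v) = E0 i j u v)

include hE in
theorem π_xe {a b : I ⊕ I} (h : D2 a b) (t : F) : rho.comp π (S.xe a b t) = (spD I F).X a b t := by
  rw [MonoidHom.comp_apply, xe, hE _ _ (D2_iff.1 h), rho_E h]

include hs in
theorem π_ye (a : I ⊕ I) (t : F) : rho.comp π (S.ye a t) = (spD I F).Y a 0 t := by
  rw [MonoidHom.comp_apply, ye, hs, rho_T]

/-- the root subgroups -/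
noncomputable def lift : Lift (spD I F) (rho.comp π) :=
  Lift.mk' (fun a b => closure (Set.range (S.xe a b))) (fun a => closure (Set.range (S.ye a)))
    (fun h => by
      rw [MonoidHom.map_closure, ← Set.range_comp, show _ ∘ _ = _ from funext (S.π_xe hE h)]
      exact closure_eq (UD.RX ..))
    (fun a => by
      rw [MonoidHom.map_closure, ← Set.range_comp, show _ ∘ _ = _ from funext (S.π_ye hs a), ← closure_eq (UD.RY ..)]
      congr 1
      exact Set.ext fun g => ⟨fun ⟨t, e⟩ => ⟨0, t, rfl, e⟩, fun ⟨u, t, h, e⟩ => ⟨t, by rw [← e, show u = 0 from h]⟩⟩)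
    (fun {a b} h x hx e => by
      obtain ⟨t, rfl⟩ := (mem_closure_add (S.xe_add h)).1 hx
      rw [S.π_xe hE h] at e
      obtain rfl : t = 0 := by
        simpa [UD.X_apply _ h, h.all] using congrArg (fun g : HH _ F => g (ee (some b)) (some a)) e
      exact S.xe_zero h)
    (fun a x hx e => by
      obtain ⟨t, rfl⟩ := (mem_closure_add (S.ye_add a)).1 hx
      rw [S.π_ye hs] at e
      obtain rfl : t = 0 := by
        simpa [UD.Y_apply] using congrArg (fun g : HH _ F => g (ee (some (bar a))) (some a)) e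
      simp [ye])
    (fun h => by
      have key : ∀ {a b : I ⊕ I}, D2 a b →
          closure (Set.range (S.xe (bar b) (bar a))) ≤ closure (Set.range (S.xe a b)) := fun h => by
        rw [closure_le]
        rintro _ ⟨t, rfl⟩
        rw [xe, ab_bar, ab_bar, bar_bar, ← S.symm (D2_iff.1 h), (S.edge (D2_iff.1 h)).smul]
        exact S.E_mem _ _ _
      exact le_antisymm (key h) (by simpa using key h.dual))
    (fun h1 h2 h3 x hx y hy => by
      obtain ⟨t, rfl⟩ := (mem_closure_add (S.xe_add h1)).1 hx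
      obtain ⟨t', rfl⟩ := (mem_closure_add (S.xe_add h2)).1 hy
      rw [xe, xe, S.tri (D2_iff.1 h1) (D2_iff.1 h2) (D2_iff.1 h3), smul_smul]
      exact S.E_mem _ _ _)
    (fun h1 h2 e1 e2 e3 e4 x hx y hy => by
      obtain ⟨t, rfl⟩ := (mem_closure_add (S.xe_add h1)).1 hx
      obtain ⟨t', rfl⟩ := (mem_closure_add (S.xe_add h2)).1 hy
      refine S.comm_gen (D2_iff.1 h1) (D2_iff.1 h2) (fun e => by simp [ab_eq e e2]) (fun e => ?_) (fun e => ?_)
        fun e => by simp [ab_eq e e4]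
      · simp [ab_eq (e.trans (ab_bar _).symm) (by simpa using e1)]
      · simp [ab_eq (e.trans (ab_bar _).symm) (by simpa using e3)])
    (fun h x hx y hy => by
      obtain ⟨t, rfl⟩ := (mem_closure_add (S.xe_add h)).1 hx
      obtain ⟨t', rfl⟩ := (mem_closure_add (S.xe_add h.barr)).1 hy
      rw [xe, xe, ab_bar, (S.edge (D2_iff.1 h)).commutator]
      exact S.T_mem _ _)
    (fun {a b} h x hx y hy => by
      obtain ⟨t, rfl⟩ := (mem_closure_add (S.xe_add h)).1 hx
      obtain ⟨t', rfl⟩ := (mem_closure_add (S.ye_add b)).1 hy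
      have h1 := S.edge (D2_iff.1 h)
      rw [xe, ye, commutatorElement_def, ← h1.neg, mul_assoc, mul_assoc, ← mul_assoc (S.s _ _), h1.act', h1.mul, ac_tS,
        add_neg_cancel_left]
      exact mul_mem (mem_sup_left (by simpa only [ab_bar, bar_bar] using S.E_mem a (bar b) _)) (mem_sup_right (S.T_mem _ _)))
    (fun {a b c} h e1 e2 x hx y hy => by
      obtain ⟨t, rfl⟩ := (mem_closure_add (S.ye_add a)).1 hx
      obtain ⟨t', rfl⟩ := (mem_closure_add (S.xe_add h)).1 hy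
      have h1 := S.edge (D2_iff.1 h)
      by_cases e3 : ab b = ab a
      · obtain rfl := ab_eq e3 e1
        exact h1.comm_T ..
      by_cases e4 : ab c = ab a
      · obtain rfl := ab_eq (e4.trans (ab_bar _).symm) (by simpa using e2)
        rw [ab_bar] at h1
        rw [xe, ab_bar, bar_bar]
        exact h1.symm.comm_s (by simp [ac_tS]) _
      exact S.far (D2_iff.1 h) (Ne.symm e3) (Ne.symm e4) ..)
    fun {a b} h x hx y hy => by
      obtain ⟨t, rfl⟩ := (mem_closure_add (S.ye_add a)).1 hx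
      obtain ⟨t', rfl⟩ := (mem_closure_add (S.ye_add b)).1 hy
      exact Commute.cmem ((S.edge (D2_iff.1 h)).comm ..) _

theorem Y_le (a : I ⊕ I) : (S.lift hs hE).Y a ≤ ⨆ i, (S.s i).range :=
  (closure_le _).2 (by rintro _ ⟨t, rfl⟩; exact mem_iSup_of_mem (ab a) ⟨_, rfl⟩)

theorem s_mem {K : Subgroup G} (h : ∀ a, (S.lift hs hE).Y a ≤ K) (i : I) (g : SL(2, F)) : S.s i g ∈ K :=
  sl2_tS (K := K.comap (S.s i)) (fun t => h (inl i) (S.T_mem (inl i) t)) (fun t => h (inr i) (S.T_mem (inr i) t)) g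

theorem M_norm {g : G} {w : Perm (Option (I ⊕ I))} (h : (g, w) ∈ (S.lift hs hE).M) {x : G}
    (hx : x ∈ ⨆ i, (S.s i).range) : g * x * g⁻¹ ∈ ⨆ i, (S.s i).range :=
  iSup_le (a := (⨆ i, (S.s i).range).comap (MulAut.conj g).toMonoidHom) (fun i => by
    rintro _ ⟨k, rfl⟩
    refine S.s_mem hs hE (fun a y hy => ?_) i k
    obtain ⟨s, h1, -⟩ := h.1.2.1.ex
    have := h.2.1 (some a, none) y hy
    simp only [Prod.smul_mk, Perm.smul_def, h1, h.1.2.1.non] at this
    exact S.Y_le hs hE _ this) hx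

theorem short_torus (hR : (spD I F).Rk) {a b : I ⊕ I} (h : D2 a b) {g : G}
    (hg : g ∈ (S.lift hs hE).X a b ⊔ (S.lift hs hE).X b a) (hM : (g, 1) ∈ (S.lift hs hE).M) :
    g ∈ ⨆ i, (S.s i).range := by
  set Λ := S.lift hs hE
  let n : F → G := fun t => S.xe b a (-t⁻¹) * S.xe a b t * S.xe b a (-t⁻¹)
  have hx : ∀ a b t, S.xe a b t ∈ Λ.X a b := fun a b t => subset_closure ⟨t, rfl⟩
  have n1 : ∀ t, t ≠ 0 → (n t, rfl' (some a, some b)) ∈ Λ.M := fun t ht =>
    Λ.mem_MX hR h (mul_mem (mul_mem (mem_sup_right (hx _ _ _)) (mem_sup_left (hx _ _ _))) (mem_sup_right (hx _ _ _)))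
      (by simpa only [n, map_mul, S.π_xe hE h, S.π_xe hE h.symm] using (spD I F).Mon_X h ht) (.inr rfl)
  let T := (⨆ i, (S.s i).range) ⊓ Λ.M.comap (MonoidHom.inl G _)
  have n2 : ∀ t, t ≠ 0 → n t * (n 1)⁻¹ ∈ T := fun t ht => by
    refine mem_inf.2 ⟨?_, by simpa using mul_mem (n1 t ht) (inv_mem (n1 1 one_ne_zero))⟩
    obtain ⟨d, d1, d2⟩ : ∃ d : SL(2, F), ac d (bv a) = t • bv a ∧ ac d (bv (bar a)) = t⁻¹ • bv (bar a) := by
      rcases a with a | a
      · exact ⟨mk2 (t • ![1, 0]) (t⁻¹ • ![0, 1]) (by simp [om, ht]), mk2_0 .., mk2_1 ..⟩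
      · exact ⟨mk2 (t⁻¹ • ![1, 0]) (t • ![0, 1]) (by simp [om, ht]), mk2_1 .., mk2_0 ..⟩
    have e1 : S.s (ab a) d * S.xe a b 1 * (S.s (ab a) d)⁻¹ = S.xe a b t := by
      rw [xe, (S.edge (D2_iff.1 h)).act, d1, (S.edge (D2_iff.1 h)).smul, smul_smul, xe, mul_one, mul_comm]
    have e2 : S.s (ab a) d * S.xe b a (-1⁻¹) * (S.s (ab a) d)⁻¹ = S.xe b a (-t⁻¹) := by
      rw [xe, (S.edge (D2_iff.1 h.symm)).act', ac_smul, d2, smul_smul, xe]; simp
    have h1 : S.s (ab a) d ∈ ⨆ i, (S.s i).range := mem_iSup_of_mem (ab a) ⟨_, rfl⟩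
    convert mul_mem h1 (S.M_norm hs hE (n1 1 one_ne_zero) (inv_mem h1)) using 1
    simp only [n, ← e1, ← e2]; group
  have r1 : rfl' (some a, some b) (some b) = some a := by simp [rfl', fam_x _ _ _ _ h, swap_apply_def, h.all]
  have r2 : rfl' (some a, some b) (some a) = some b := by simp [rfl', fam_x _ _ _ _ h, swap_apply_def, h.all]
  have hT : T ≤ normalizer (Λ.X b a : Set G) := le_norm_of fun t ht x hx => by
    have := ht.2.2.1 (some b, some a) x (Λ.U_x h.symm ▸ hx)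
    rwa [MonoidHom.inl_apply, one_smul, Λ.U_x h.symm] at this
  have N := n1 1 one_ne_zero
  obtain ⟨f, hf, hl⟩ := exists_od (x := some b) (y := some a) (by simp [h.all])
  rcases bruhat1 (n := n 1) hT (fun t ht => mem_inf.2 ⟨S.M_norm hs hE N ht.1, by
      simpa using mul_mem (mul_mem N ht.2) (inv_mem N)⟩)
    (by
      convert inv_mem (n2 (-1) (by simp)) using 1
      simp only [n, inv_neg, inv_one, neg_neg, S.xe_neg h, S.xe_neg h.symm]; group)
    (fun x hx => by
      have := N.2.1 (some b, some a) x (Λ.U_x h.symm ▸ hx)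
      rwa [Prod.smul_mk, Perm.smul_def, Perm.smul_def, r1, r2, Λ.U_x h] at this)
    (fun x hx => by
      have := N.2.2 (some a, some b) x (Λ.U_x h ▸ hx)
      rwa [inv_eq_of_mul_eq_one_left (rfl'_sq _), Prod.smul_mk, Perm.smul_def, Perm.smul_def, r1, r2,
        Λ.U_x h.symm] at this)
    (fun x hx' h0 => by
      obtain ⟨t, rfl⟩ := (mem_closure_add (S.xe_add h)).1 hx'
      exact ⟨_, hx _ _ _, n2 t fun e => h0 (e ▸ S.xe_zero h)⟩) (sup_comm (Λ.X a b) _ ▸ hg) with h1 | ⟨b1, h1, b2, h2, e⟩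
  · obtain ⟨x, hx, t, ht, rfl⟩ := mem_sup_norm hT h1
    obtain ⟨f, hf, hl⟩ := exists_od (x := some a) (y := some b) (by simp [h.all])
    have h2 : (x, 1) ∈ Λ.M := by simpa using mul_mem hM (inv_mem ht.2)
    rw [Λ.X_inj h.symm x hx ((spD I F).triv_of_Up hf (b := (some b, some a)) (by simpa [lv] using hl)
      (Λ.π_mem (Λ.U_x h.symm ▸ hx)) (UD.diag_Up h2.1 f)), one_mul]
    exact ht.1
  · have hB : Λ.X b a ⊔ T ≤ (Up F f 0).comap (rho.comp π) := sup_le (fun x hx =>
      (spD I F).R_le_Up hf (b := (some b, some a)) (by simpa [lv] using hl.le) (Λ.π_mem (Λ.U_x h.symm ▸ hx)))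
      fun t ht => UD.diag_Up ht.2.1 f
    have h3 : g ∈ (Up F f 0).comap (rho.comp π) := UD.diag_Up hM.1 f
    rw [e, mul_mem_cancel_right (hB h2), mul_mem_cancel_left (hB h1)] at h3
    obtain ⟨d, hd⟩ := N.1.2.2 (some b)
    have h4 := h3.1 (some a) (some b) (by simpa using hl)
    rw [ent_one, ent, hd, r1] at h4
    exact absurd (by simpa [h.all] using h4) (UD.ne_of_apply hd)

include hs in
theorem inj_s {g : G} (hg : g ∈ ⨆ i, (S.s i).range) (e : π g = 1) : g = 1 := by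
  have hc : Pairwise fun i j => ∀ x y, Commute (S.s i x) (S.s j y) := fun i j h => (S.edge h).comm
  rw [← MonoidHom.noncommPiCoprod_range (hcomm := hc)] at hg
  obtain ⟨f, rfl⟩ := hg
  have : π.comp (MonoidHom.noncommPiCoprod S.s hc) = blk := MonoidHom.pi_ext fun i x => by
    rw [MonoidHom.comp_apply, MonoidHom.noncommPiCoprod_mulSingle, hs]; rfl
  rw [blk_inj ((DFunLike.congr_fun this f).symm.trans (e.trans (map_one _).symm)), map_one]

end Sys

theorem Sys.exists_hom {n : ℕ} (S : Sys (Fin (n + 2)) F G) : ∃ Φ : SG (sB (Fin (n + 2)) F) →* G,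
    (∀ i g, Φ (s0 i g) = S.s i g) ∧ ∀ i j, i ≠ j → ∀ u v, Φ (E0 i j u v) = S.E i j u v := by
  let S0 := sys0 F (Fin (n + 2))
  let P : Sys (Fin (n + 2)) F (G × SG (sB (Fin (n + 2)) F)) :=
    { s := fun i => (S.s i).prod (s0 i)
      E := fun i j u v => (S.E i j u v, E0 i j u v)
      edge := fun h => (S.edge h).prod (edge0 h)
      symm := fun h u v => Prod.ext (S.symm h u v) (E0_symm h u v)
      far := fun h h1 h2 g u v => Prod.ext (S.far h h1 h2 g u v) (S0.far h h1 h2 g u v)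
      tri := fun h h1 h2 u v v' w => Prod.ext (S.tri h h1 h2 u v v' w) (S0.tri h h1 h2 u v v' w)
      quad := fun h1 h2 h3 h4 h5 h6 u v u' v' =>
        Prod.ext (S.quad h1 h2 h3 h4 h5 h6 u v u' v') (S0.quad h1 h2 h3 h4 h5 h6 u v u' v') }
  have hs : ∀ i g, MonoidHom.snd _ _ (P.s i g) = s0 i g := fun _ _ => rfl
  have hE : ∀ i j, i ≠ j → ∀ u v, MonoidHom.snd _ _ (P.E i j u v) = E0 i j u v := fun _ _ _ _ _ => rfl
  let K := XS (P.lift hs hE).U fun _ => True
  have hR : (spD (Fin (n + 2)) F).Rk := ⟨fun k => by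
    obtain ⟨a, ha⟩ := exists_ne (ab k)
    exact ⟨inl a, D2_iff.2 ha.symm⟩, fun _ _ _ => .inr ⟨1, one_ne_zero, rfl⟩⟩
  have h1 : ∀ i g, P.s i g ∈ K := P.s_mem hs hE fun a => le_XS (P.lift hs hE).U (b := (some a, none)) trivial
  have h2 : ∀ i j, i ≠ j → ∀ u v, P.E i j u v ∈ K := fun i j h => (P.edge h).mem (h1 i) (h1 j) fun c =>
    le_XS (P.lift hs hE).U (b := (some (inl i), some (inr j))) trivial
      (((P.lift hs hE).U_x (i := inl i) (j := inr j) (D2_iff.2 h)).ge (P.E_mem (inl i) (inr j) c))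
  let e := MulEquiv.ofBijective ((MonoidHom.snd _ _).comp K.subtype) ⟨(injective_iff_map_eq_one _).2 fun g e =>
    Subtype.ext (P.inj_s hs (Lift.ker_sup _ hR ⟨0, 1, rfl, one_ne_zero⟩ g.2 (by
      rw [MonoidHom.comp_apply, show MonoidHom.snd _ _ g.1 = 1 from e, map_one]) (P.Y_le hs hE)
        fun i j h g => P.short_torus hs hE hR h) e),
    gen0 (K := MonoidHom.range _) (fun i g => ⟨⟨_, h1 i g⟩, rfl⟩) fun i j h u v => ⟨⟨_, h2 i j h u v⟩, rfl⟩⟩
  refine ⟨((MonoidHom.fst _ _).comp K.subtype).comp e.symm.toMonoidHom, fun i g => ?_, fun i j h u v => ?_⟩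
  · exact congrArg (fun x : K => x.1.1) (e.symm_apply_eq.2 rfl : _ = ⟨_, h1 i g⟩)
  · exact congrArg (fun x : K => x.1.1) (e.symm_apply_eq.2 rfl : _ = ⟨_, h2 i j h u v⟩)

end Cfsg.Agent.Pres.SA
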