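import Mathlib
import Cfsg.Agent.Pres.SA2
import Cfsg.Agent.Fischer.CoxA

/-! Symplectic systems in rank three. -/

set_option autoImplicit false
set_option linter.unusedSectionVars false

namespace Cfsg.Agent.Pres.SA

open Matrix Subgroup Sum Equiv Cfsg.Agent.Classical.SpWitt Cfsg.Agent.Classical.SpMat Cfsg.Agent.Root
open scoped commutatorElement MatrixGroups

variable {F H : Type*} [Field F] [Group H]

/-- exchanging two planes -/
def swL : (Fin 2 ⊕ Fin 2 → F) →ₗ[F] (Fin 2 ⊕ Fin 2 → F) where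
  toFun x := un ![pr 1 x, pr 0 x]
  map_add' x y := pr_ext fun i => by fin_cases i <;> simp
  map_smul' c x := pr_ext fun i => by fin_cases i <;> simp

theorem swL0 (x : Fin 2 ⊕ Fin 2 → F) : pr 0 (swL x) = pr 1 x := pr_un ..
theorem swL1 (x : Fin 2 ⊕ Fin 2 → F) : pr 1 (swL x) = pr 0 x := pr_un ..

theorem pr2 {x y : Fin 2 ⊕ Fin 2 → F} (h0 : pr 0 x = pr 0 y) (h1 : pr 1 x = pr 1 y) : x = y :=
  pr_ext (Fin.forall_fin_two.2 ⟨h0, h1⟩)

variable (F) in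
/-- exchanging two planes -/
noncomputable def sw : SG (sB (Fin 2) F) :=
  ⟨LinearEquiv.ofInvolutive swL fun x => pr2 (by rw [swL0, swL1]) (by rw [swL1, swL0]), fun x y => by
    change sB _ _ (swL x) (swL y) = _
    simp [sB_pr, swL0, swL1, add_comm]⟩

theorem sw0 (x : Fin 2 ⊕ Fin 2 → F) : pr 0 ((sw F).1 x) = pr 1 x := swL0 x
theorem sw1 (x : Fin 2 ⊕ Fin 2 → F) : pr 1 ((sw F).1 x) = pr 0 x := swL1 x

theorem sw_sq : sw F * sw F = 1 := SG.ext fun x => pr2 (by rw [SG.mul_apply, sw0, sw1]; rfl) (by rw [SG.mul_apply, sw1, sw0]; rfl)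

theorem sw_s0 (g : SL(2, F)) : sw F * s0 0 g * (sw F)⁻¹ = s0 1 g := by
  rw [mul_inv_eq_iff_eq_mul]
  exact SG.ext fun x => pr2 (by simp [SG.mul_apply, sw0, sw1, pr_s0]) (by simp [SG.mul_apply, sw0, sw1, pr_s0])

theorem sw_s1 (g : SL(2, F)) : sw F * s0 1 g * (sw F)⁻¹ = s0 0 g := by
  rw [mul_inv_eq_iff_eq_mul]
  exact SG.ext fun x => pr2 (by simp [SG.mul_apply, sw0, sw1, pr_s0]) (by simp [SG.mul_apply, sw0, sw1, pr_s0])

theorem sw_E (u v : Fin 2 → F) : sw F * E0 0 1 u v * (sw F)⁻¹ = E0 0 1 v u := by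
  rw [E0, conj_eE, E0_symm (by simp), E0]
  congr 1 <;> exact pr2 (by simp [sw0, pr_emb]) (by simp [sw1, pr_emb])

/-- diagonal elements -/
def dS (a : F) (h : a ≠ 0) : SL(2, F) := mk2 (a • ![1, 0]) (a⁻¹ • ![0, 1]) (by simp [om, h])

theorem ac_dS (a : F) (h : a ≠ 0) (v : Fin 2 → F) : ac (dS a h) v = ![a * v 0, a⁻¹ * v 1] :=
  ext2 (by rw [ac0]; simp [dS, mk2]) (by rw [ac1]; simp [dS, mk2])

theorem E01_0 (u v : Fin 2 → F) (x : Fin 2 ⊕ Fin 2 → F) : pr 0 ((E0 0 1 u v).1 x) = pr 0 x + om (pr 1 x) v • u := by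
  simp [E0_apply, pr_emb]

theorem E01_1 (u v : Fin 2 → F) (x : Fin 2 ⊕ Fin 2 → F) : pr 1 ((E0 0 1 u v).1 x) = pr 1 x + om (pr 0 x) u • v := by
  simp [E0_apply, pr_emb]

theorem id1 {c : F} (h : c ≠ 0) : E0 0 1 (c • ![0, 1]) ![1, 0] * E0 0 1 ![1, 0] (-c⁻¹ • ![0, 1]) =
    sw F * (E0 0 1 (c⁻¹ • ![0, 1]) ![1, 0] * s0 0 (dS (-c) (neg_ne_zero.2 h))) * s0 1 (dS c⁻¹ (inv_ne_zero h)) := by
  refine SG.ext fun x => pr2 (ext2 ?_ ?_) (ext2 ?_ ?_) <;>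
    simp only [SG.mul_apply, sw0, sw1, pr_s0, E01_0, E01_1, ac_dS, om, Pi.add_apply, Pi.smul_apply, smul_eq_mul,
      cons_val_zero, cons_val_one, if_true, zero_ne_one, one_ne_zero, if_false] <;> field_simp <;> ring

theorem id2 {c : F} (h : 1 + c ≠ 0) : E0 0 1 (c • ![0, 1]) ![1, 0] * E0 0 1 ![1, 0] (-(1 + c)⁻¹ • ![0, 1]) =
    E0 (0 : Fin 2) 1 ![1, 0] (-![0, 1]) * (E0 0 1 ((c * (1 + c)⁻¹) • ![0, 1]) ![1, 0] * s0 0 (dS (1 + c) h)) *
      s0 1 (dS (1 + c)⁻¹ (inv_ne_zero h)) := by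
  refine SG.ext fun x => pr2 (ext2 ?_ ?_) (ext2 ?_ ?_) <;>
    simp only [SG.mul_apply, pr_s0, E01_0, E01_1, ac_dS, om, Pi.add_apply, Pi.smul_apply, smul_eq_mul, Pi.neg_apply,
      cons_val_zero, cons_val_one, if_true, zero_ne_one, one_ne_zero, if_false] <;> field_simp <;> ring

/-- representations of the rank two group -/
structure Rep (φ : SG (sB (Fin 2) F) →* H) (s t : SL(2, F) →* H) (E : (Fin 2 → F) → (Fin 2 → F) → H) : Prop where
  hs : ∀ g, φ (s0 0 g) = s g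
  ht : ∀ g, φ (s0 1 g) = t g
  hE : ∀ u v, φ (E0 0 1 u v) = E u v

section
variable {φ : SG (sB (Fin 2) F) →* H} {s t : SL(2, F) →* H} {E : (Fin 2 → F) → (Fin 2 → F) → H}

theorem Edge.exists_rep (h : Edge s t E) : ∃ φ, Rep φ s t E := by
  let S : Sys (Fin (0 + 2)) F H :=
    { s := ![s, t]
      E := ![fun _ => E, fun _ v u => E u v]
      edge := fun {i j} e => by fin_cases i <;> fin_cases j <;> first | exact absurd rfl e | exact h | exact h.symm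
      symm := fun {i j} e u v => by fin_cases i <;> fin_cases j <;> first | exact absurd rfl e | rfl
      far := fun h1 h2 h3 => by omega
      tri := fun h1 h2 h3 => by omega
      quad := fun h1 h2 h3 h4 h5 => by omega }
  obtain ⟨φ, h1, h2⟩ := S.exists_hom
  exact ⟨φ, h1 0, h1 1, h2 0 1 (by simp)⟩

theorem gen2 {K : Subgroup (SG (sB (Fin 2) F))} (h0 : ∀ g, s0 0 g ∈ K) (h1 : ∀ g, s0 1 g ∈ K) (h2 : ∀ u v, E0 0 1 u v ∈ K)
    (g : SG (sB (Fin 2) F)) : g ∈ K :=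
  gen0 (Fin.forall_fin_two.2 ⟨h0, h1⟩) (fun i j e u v => by
    fin_cases i <;> fin_cases j <;> first | exact absurd rfl e | exact h2 u v | exact E0_symm e u v ▸ h2 v u) g

theorem Rep.comm (h : Rep φ s t E) {x : H} (h0 : ∀ g, Commute (s g) x) (h1 : ∀ g, Commute (t g) x)
    (h2 : ∀ u v, Commute (E u v) x) (g : SG (sB (Fin 2) F)) : Commute (φ g) x :=
  mem_centralizer_singleton_iff.1 (gen2 (K := (centralizer {x}).comap φ)
    (fun g => mem_centralizer_singleton_iff.2 (h.hs g ▸ h0 g)) (fun g => mem_centralizer_singleton_iff.2 (h.ht g ▸ h1 g))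
    (fun u v => mem_centralizer_singleton_iff.2 (h.hE u v ▸ h2 u v)) g)

theorem Rep.p_s (h : Rep φ s t E) (g : SL(2, F)) : φ (sw F) * s g * (φ (sw F))⁻¹ = t g := by
  simpa [h.hs, h.ht] using congrArg φ (sw_s0 g)

theorem Rep.p_t (h : Rep φ s t E) (g : SL(2, F)) : φ (sw F) * t g * (φ (sw F))⁻¹ = s g := by
  simpa [h.hs, h.ht] using congrArg φ (sw_s1 g)

theorem Rep.p_E (h : Rep φ s t E) (u v : Fin 2 → F) : φ (sw F) * E u v * (φ (sw F))⁻¹ = E v u := by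
  simpa [h.hE] using congrArg φ (sw_E u v)

theorem Rep.symm (h : Rep φ s t E) : Rep (φ.comp (MulAut.conj (sw F)).toMonoidHom) t s fun v u => E u v :=
  ⟨fun g => (congrArg φ (sw_s0 g)).trans (h.ht g), fun g => (congrArg φ (sw_s1 g)).trans (h.hs g),
    fun u v => (congrArg φ (sw_E u v)).trans (h.hE v u)⟩

end

theorem comm_of_comm {x y z : H} (h : Commute y z) : ⁅x * y, z⁆ = ⁅x, z⁆ := by
  simp only [commutatorElement_def, _root_.mul_inv_rev, mul_assoc]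
  rw [← mul_assoc y, h.eq]; group

theorem conj_of_comm {x y : H} (h : Commute x y) : x * y * x⁻¹ = y := by rw [h.eq, mul_inv_cancel_right]

theorem conj_comm' (g x y : H) : g * ⁅x, y⁆ * g⁻¹ = ⁅g * x * g⁻¹, g * y * g⁻¹⁆ := by
  simp only [commutatorElement_def]; group

/-- the relations along a path of length two -/
structure P3 (s1 s2 s3 : SL(2, F) →* H) (A B : (Fin 2 → F) → (Fin 2 → F) → H) : Prop where
  hA : Edge s1 s2 A
  hB : Edge s2 s3 B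
  f1 : ∀ g u v, Commute (s1 g) (B u v)
  f3 : ∀ g u v, Commute (s3 g) (A u v)
  adj : ∀ c d : F, Commute (A ![1, 0] (c • ![1, 0])) (B ![1, 0] (d • ![1, 0]))

namespace P3
variable {s1 s2 s3 : SL(2, F) →* H} {A B : (Fin 2 → F) → (Fin 2 → F) → H} (h : P3 s1 s2 s3 A B)
include h

theorem symm : P3 s3 s2 s1 (fun v u => B u v) fun v u => A u v :=
  ⟨h.hB.symm, h.hA.symm, fun g u v => h.f3 g v u, fun g u v => h.f1 g v u, fun c d => by
    rw [h.hA.smul, h.hB.smul]; exact (h.adj d c).symm⟩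

theorem conj (g1 g2 g3 : SL(2, F)) (u v v' w : Fin 2 → F) :
    ∃ k, ⁅A (ac g1 u) (ac g2 v), B (ac g2 v') (ac g3 w)⁆ = k * ⁅A u v, B v' w⁆ * k⁻¹ := by
  refine ⟨s1 g1 * (s2 g2 * s3 g3), ?_⟩
  rw [conj_comm', ← h.hA.act, ← h.hA.act', ← conj_of_comm (h.f3 g3 u v), ← conj_of_comm (h.f1 g1 (ac g2 v') _),
    ← h.hB.act, ← h.hB.act', conj_of_comm (h.f3 g3 u v)]
  congr 1
  · rw [← conj_of_comm (h.f3 g3 u v)]; nth_rewrite 2 [conj_of_comm (h.f3 g3 u v)]; group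
  · group

theorem par {v v' : Fin 2 → F} (e : om v v' = 0) (u w : Fin 2 → F) : Commute (A u v) (B v' w) := by
  obtain ⟨g1, a, rfl⟩ := ex_ac' u
  obtain ⟨g3, b, rfl⟩ := ex_ac' w
  obtain ⟨g2, c, d, rfl, rfl⟩ := par_of_om e
  obtain ⟨k, hk⟩ := h.conj g1 g2 g3 ![1, 0] ((a * c) • ![1, 0]) ![1, 0] ((d * b) • ![1, 0])
  rw [← commutatorElement_eq_one_iff_commute, h.hA.smul, h.hB.smul, smul_smul, smul_smul, ← ac_smul, ← ac_smul, hk,
    (h.adj ..).commutator_eq]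
  group

theorem g1 (u v v' w : Fin 2 → F) (c : F) : ⁅A u (v + c • v'), B v' w⁆ = ⁅A u v, B v' w⁆ := by
  rw [← comm_of_comm (h.f1 _ v' w), ← h.hA.mul, comm_of_comm (h.par (by simp) u w)]

theorem g1' (u v v' w : Fin 2 → F) (c : F) : Commute (A u (c • v')) ⁅A u v, B v' w⁆ := by
  have := h.g1 u v v' w c
  rw [add_comm, ← comm_of_comm (h.f1 _ v' w), ← h.hA.mul] at this
  rw [Commute, SemiconjBy, ← mul_inv_eq_iff_eq_mul, conj_comm', conj_of_comm (h.par (by simp) u w),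
    comm_of_comm (h.par (by simp) u w).inv_left, this]

theorem g2 (u v v' w : Fin 2 → F) (c : F) : ⁅A u v, B (v' + c • v) w⁆ = ⁅A u v, B v' w⁆ := by
  rw [← _root_.inv_inj, commutatorElement_inv, commutatorElement_inv]; exact h.symm.g1 w v' v u c

theorem g2' (u v v' w : Fin 2 → F) (c : F) : Commute (B (c • v) w) ⁅A u v, B v' w⁆ := by
  rw [← commutatorElement_inv]; exact (h.symm.g1' w v' v u c).inv_right

theorem cB (u v v' w : Fin 2 → F) : Commute (B v' w) ⁅A u v, B v' w⁆ := by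
  have h1 := h.g2' u (v + (1 : F) • v') v' w 1
  rw [h.g1] at h1
  have h2 := h1.mul_left (h.g2' u v v' w (-1))
  rw [h.hB.mul', show (1 : F) • (v + (1 : F) • v') + (-1 : F) • v = v' by module] at h2
  have h3 : ∀ c, Commute (s3 (tS w c)) ⁅A u v, B v' w⁆ := fun c =>
    ((((h.f3 ..).mul_right (h.hB.symm.comm_T ..)).mul_right (h.f3 ..).inv_right).mul_right
      (h.hB.symm.comm_T ..).inv_right)
  generalize om (F := F) _ _ = c at h2
  simpa using h2.mul_left (h3 c).inv_left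

theorem dep (u v v' w : Fin 2 → F) : ⁅A u v, B v' w⁆ = ⁅A u (om v v' • ![0, 1]), B ![1, 0] w⁆ := by
  have key : ∀ (c : F) g, ⁅A u (ac g (c • ![0, 1])), B (ac g ![1, 0]) w⁆ = ⁅A u (c • ![0, 1]), B ![1, 0] w⁆ := fun c g => by
    by_cases hc : c = 0
    · simp [hc, h.hA.zero]
    have h1 : ∀ g, s2 g ∈ centralizer {⁅A u (c • ![0, 1]), B ![1, 0] w⁆} ↔
        ⁅A u (ac g (c • ![0, 1])), B (ac g ![1, 0]) w⁆ = ⁅A u (c • ![0, 1]), B ![1, 0] w⁆ := fun g => by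
      rw [mem_centralizer_singleton_iff, ← mul_inv_eq_iff_eq_mul, conj_comm', h.hA.act', h.hB.act]
    refine (h1 g).1 (sl2_tS (K := (centralizer _).comap s2) (fun t => (h1 _).2 ?_) (fun t => (h1 _).2 ?_) g)
    · rw [ac_tS, ac_tS, om_self, mul_zero, zero_smul, add_zero, h.g1]
    · rw [ac_tS, ac_tS, om_smul_l, om_self, mul_zero, mul_zero, zero_smul, add_zero, ← div_mul_cancel₀ (t * _) hc,
        mul_smul, h.g2]
  by_cases e : v' = 0
  · simp [e, h.hA.zero, h.hB.zero']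
  obtain ⟨g, rfl⟩ := ex_ac e
  rw [← ac_inv g v, om_ac, ← key _ g, ← h.g1 u (ac g (_ • _)) _ w (ac g⁻¹ v 0), ← ac_smul, ← ac_add]
  congr 3
  exact ext2 (by simp) (by simp [om])

variable {φ : SG (sB (Fin 2) F) →* H} (hφ : Rep φ s1 s2 A) (hF : ∃ a : F, a ≠ 0 ∧ a ≠ 1)
include hφ hF

theorem key0 (w : Fin 2 → F) : φ (sw F) * B ![1, 0] w * (φ (sw F))⁻¹ = ⁅A ![1, 0] (-![0, 1]), B ![1, 0] w⁆ := by
  obtain ⟨a, a0, a1⟩ := hF
  have c0 : -a ≠ 0 := neg_ne_zero.2 a0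
  have c1 : 1 + -a ≠ 0 := fun e => a1 (by linear_combination -e)
  generalize -a = c at c0 c1
  have e1 := congrArg φ (id1 c0)
  have e2 := congrArg φ (id2 c1)
  simp only [map_mul, hφ.hs, hφ.ht, hφ.hE] at e1 e2
  have h1 : ∀ r : F, Commute (A (r • ![0, 1]) ![1, 0]) (B ![1, 0] w) := fun r => h.par (by simp) ..
  have h2 : ∀ (t : F) (t0 : t ≠ 0) (k m : H) (r : F) g, m * A ![1, 0] (-t⁻¹ • ![0, 1]) =
      k * (A (r • ![0, 1]) ![1, 0] * s1 g) * s2 (dS t⁻¹ (inv_ne_zero t0)) →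
      m * (⁅A ![1, 0] (-![0, 1]), B ![1, 0] w⁆ * B (t • ![1, 0]) w) * m⁻¹ = k * B ![1, 0] w * k⁻¹ := by
    intro t t0 k m r g e
    have h3 : ⁅A ![1, 0] (-![0, 1]), B ![1, 0] w⁆ = ⁅A ![1, 0] (-t⁻¹ • ![0, 1]), B (t • ![1, 0]) w⁆ := by
      rw [h.dep, h.dep _ (-t⁻¹ • _)]; simp [om, t0]
    have h4 : ac (dS t⁻¹ (inv_ne_zero t0)) (t • ![1, 0]) = ![1, 0] := by simp [ac_dS, t0]
    have h5 := h.hB.act (dS t⁻¹ (inv_ne_zero t0)) (t • ![1, 0]) w
    rw [h4] at h5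
    rw [h3, commutatorElement_def, inv_mul_cancel_right, ← conj_of_comm (h1 r), ← conj_of_comm (h.f1 g ![1, 0] w), ← h5,
      eq_mul_inv_of_mul_eq e]
    group
  have h3 := h2 c c0 _ _ _ _ e1
  have h4 := h2 _ c1 _ _ _ _ e2
  have h5 := h.cB ![1, 0] (-![0, 1]) ![1, 0] w
  have h6 := h.hB.mul' ![1, 0] (c • ![1, 0]) w
  rw [om_smul_l, om_self, mul_zero, tS_zero, map_one, mul_one] at h6
  rw [add_smul, one_smul, ← h6, ← mul_assoc _ (B _ _), ← h5.eq, mul_assoc (B _ _), ← mul_assoc (A _ _), (h1 c).eq,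
    mul_assoc, mul_assoc, ← mul_assoc (A _ _), h3] at h4
  rw [← mul_right_inj (B ![1, 0] w), h4, h5.eq, commutatorElement_def, inv_mul_cancel_right]

theorem tri (u v v' w : Fin 2 → F) : ⁅A u v, B v' w⁆ = φ (sw F) * B u (om v' v • w) * (φ (sw F))⁻¹ := by
  rw [h.dep, ← h.hB.smul, om_swap v, neg_smul, ← smul_neg, ← h.hA.smul]
  generalize om v' v • u = u
  by_cases e : u = 0
  · simp [e, h.hA.zero', h.hB.zero']
  obtain ⟨g, rfl⟩ := ex_ac e
  rw [← h.hA.act, ← conj_of_comm (h.f1 g ![1, 0] w), ← conj_comm', ← h.key0 hφ hF, ← h.hB.act, ← hφ.p_t]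
  group

theorem key2 {ψ : SG (sB (Fin 2) F) →* H} (hψ : Rep ψ s2 s3 B) (u v : Fin 2 → F) :
    ψ (sw F) * A u v * (ψ (sw F))⁻¹ = φ (sw F) * B u v * (φ (sw F))⁻¹ := by
  have h1 := h.symm.tri hψ.symm hF v (-![0, 1]) ![1, 0] u
  have h2 := h.tri hφ hF u ![1, 0] (-![0, 1]) v
  rw [← commutatorElement_inv, h1] at h2
  simp [om, h.hB.neg] at h2
  simpa [mul_assoc] using congrArg (·⁻¹) h2

end P3

end Cfsg.Agent.Pres.SA
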