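import Mathlib
import Cfsg.Agent.Pres.SA3

/-! Symplectic systems from relations along a path. -/

set_option autoImplicit false
set_option linter.unusedSectionVars false

namespace Cfsg.Agent.Pres.SA

open Matrix Subgroup Sum Equiv Cfsg.Agent.Classical.SpWitt Cfsg.Agent.Classical.SpMat Cfsg.Agent.Root Cfsg.Agent.Fischer
open scoped commutatorElement MatrixGroups

variable {F H : Type*} [Field F] [Group H]

theorem perm_stab {N : ℕ} {K : Subgroup (Perm (Fin (N + 1)))} (h : ∀ k, 2 ≤ k → k < N → adjSwap N k ∈ K)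
    {τ : Perm (Fin (N + 1))} (h0 : ∀ i : Fin (N + 1), i.1 < 2 → τ i = i) : τ ∈ K := by
  have h1 : ∀ (j : ℕ) (hj : j < N + 1) (i : Fin (N + 1)), 2 ≤ i.1 → i.1 ≤ j → swap i ⟨j, hj⟩ ∈ K := by
    intro j
    induction j with
    | zero => omega
    | succ j ih =>
      intro hj i h2 h3
      rcases h3.eq_or_lt with e | e
      · rw [show i = ⟨j + 1, hj⟩ from Fin.ext e, swap_self]; exact one_mem _
      have h4 := h j (by omega) (by omega)
      rw [adjSwap, dif_pos (by omega)] at h4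
      by_cases e' : i.1 = j
      · rwa [show i = ⟨j, by omega⟩ from Fin.ext e']
      have := mul_mem (mul_mem h4 (ih (by omega) i h2 (by omega))) (inv_mem h4)
      rwa [← swap_apply_apply, swap_apply_left, swap_apply_of_ne_of_ne (Fin.ne_of_val_ne e') (Fin.ne_of_val_ne e.ne)] at this
  have h2 : ∀ i j : Fin (N + 1), 2 ≤ i.1 → 2 ≤ j.1 → swap i j ∈ K := fun i j hi hj => by
    rcases le_total i.1 j.1 with e | e
    exacts [h1 _ _ i hi e, swap_comm j i ▸ h1 _ _ j hj e]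
  induction hn : τ.support.card using Nat.strong_induction_on generalizing τ with
  | h m ih =>
  by_cases e : τ = 1
  · exact e ▸ one_mem _
  obtain ⟨x, hx⟩ : ∃ x, τ x ≠ x := by simpa [Equiv.ext_iff] using e
  have h3 : 2 ≤ x.1 := not_lt.1 fun e => hx (h0 x e)
  have h4 : 2 ≤ (τ x).1 := not_lt.1 fun e => hx (τ.injective (h0 _ e))
  rw [← mul_mem_cancel_left (h2 x _ h3 h4)]
  refine ih _ (hn ▸ Perm.card_support_swap_mul hx) (fun i hi => ?_) rfl
  rw [Perm.mul_apply, h0 i hi, swap_apply_of_ne_of_ne (Fin.ne_of_val_ne (by omega)) (Fin.ne_of_val_ne (by omega))]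

theorem Edge.comm_of {s t : SL(2, F) →* H} {E : (Fin 2 → F) → (Fin 2 → F) → H} (h : Edge s t E) {x : H}
    (h1 : ∀ g, Commute (s g) x) (h2 : ∀ g, Commute (t g) x) (h3 : ∀ c : F, Commute (E ![1, 0] (c • ![1, 0])) x)
    (u v : Fin 2 → F) : Commute (E u v) x :=
  mem_centralizer_singleton_iff.1 (h.mem (fun g => mem_centralizer_singleton_iff.2 (h1 g))
    (fun g => mem_centralizer_singleton_iff.2 (h2 g)) (fun g => mem_centralizer_singleton_iff.2 (h3 g)) u v)

/-- the relations along a path -/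
structure Path (N : ℕ) (s : ℕ → SL(2, F) →* H) (E : ℕ → (Fin 2 → F) → (Fin 2 → F) → H) : Prop where
  edge : ∀ k, k + 1 < N → Edge (s k) (s (k + 1)) (E k)
  comm : ∀ i j, i < N → j < N → i ≠ j → ∀ g h, Commute (s i g) (s j h)
  far0 : ∀ i k, i < N → k + 1 < N → i ≠ k → i ≠ k + 1 → ∀ g (c : F), Commute (E k ![1, 0] (c • ![1, 0])) (s i g)
  quad0 : ∀ k l, k < l → l + 1 < N → ∀ c d : F, Commute (E k ![1, 0] (c • ![1, 0])) (E l ![1, 0] (d • ![1, 0]))

namespace Path
variable {N : ℕ} {s : ℕ → SL(2, F) →* H} {E : ℕ → (Fin 2 → F) → (Fin 2 → F) → H} (h : Path N s E)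
include h

theorem far {i k : ℕ} (h1 : i < N) (h2 : k + 1 < N) (h3 : i ≠ k) (h4 : i ≠ k + 1) (g : SL(2, F)) (u v : Fin 2 → F) :
    Commute (E k u v) (s i g) :=
  (h.edge k h2).comm_of (fun _ => h.comm _ _ (by omega) h1 h3.symm _ _) (fun _ => h.comm _ _ h2 h1 h4.symm _ _)
    (h.far0 i k h1 h2 h3 h4 g) u v

theorem quad {k l : ℕ} (h1 : k + 2 ≤ l) (h2 : l + 1 < N) (u v u' v' : Fin 2 → F) : Commute (E k u v) (E l u' v') :=
  (h.edge k (by omega)).comm_of (fun _ => (h.far (by omega) h2 (by omega) (by omega) _ _ _).symm)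
    (fun _ => (h.far (by omega) h2 (by omega) (by omega) _ _ _).symm) (fun c => ((h.edge l h2).comm_of
      (fun _ => (h.far (by omega) (by omega) (by omega) (by omega) _ _ _).symm)
      (fun _ => (h.far (by omega) (by omega) (by omega) (by omega) _ _ _).symm)
      (fun d => (h.quad0 k l (by omega) h2 c d).symm) u' v').symm) u v

theorem p3 {k : ℕ} (h1 : k + 1 + 1 < N) : P3 (s k) (s (k + 1)) (s (k + 1 + 1)) (E k) (E (k + 1)) :=
  ⟨h.edge k (by omega), h.edge _ h1, fun _ _ _ => (h.far (by omega) h1 (by omega) (by omega) _ _ _).symm,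
    fun _ _ _ => (h.far h1 (by omega) (by omega) (by omega) _ _ _).symm, h.quad0 _ _ (by omega) h1⟩

end Path

theorem Path.exists_sys (hF : ∃ a : F, a ≠ 0 ∧ a ≠ 1) {n : ℕ} {s : ℕ → SL(2, F) →* H}
    {E : ℕ → (Fin 2 → F) → (Fin 2 → F) → H} (h : Path (n + 2) s E) : ∃ S : Sys (Fin (n + 2)) F H,
      (∀ i, S.s i = s i) ∧ ∀ i j : Fin (n + 2), j.1 = i + 1 → S.E i j = E i := by
  have : ∀ k, ∃ φ, k + 1 < n + 2 → Rep φ (s k) (s (k + 1)) (E k) := fun k => by
    by_cases e : k + 1 < n + 2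
    · exact (h.edge k e).exists_rep.imp fun _ h _ => h
    · exact ⟨1, fun h => absurd h e⟩
  choose φ hφ using this
  have psq : ∀ k, φ k (sw F) * φ k (sw F) = 1 := fun k => by rw [← map_mul, sw_sq, map_one]
  have ps : ∀ k i, k + 1 < n + 2 → i < n + 2 → i ≠ k → i ≠ k + 1 → ∀ x g, Commute (φ k x) (s i g) :=
    fun k i h1 h2 h3 h4 x g => (hφ k h1).comm (fun _ => h.comm _ _ (by omega) h2 h3.symm _ _)
      (fun _ => h.comm _ _ h1 h2 h4.symm _ _) (h.far h2 h1 h3 h4 g) x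
  have pE : ∀ k l, k + 2 ≤ l → l + 1 < n + 2 → ∀ x u v, Commute (φ l x) (E k u v) := fun k l h1 h2 x u v =>
    (hφ l h2).comm (fun _ => (h.far (by omega) (by omega) (by omega) (by omega) _ _ _).symm)
      (fun _ => (h.far (by omega) (by omega) (by omega) (by omega) _ _ _).symm) (fun _ _ => (h.quad h1 h2 ..).symm) x
  have pq : ∀ k, k + 1 + 1 < n + 2 → ∀ u v, φ k (sw F) * φ (k + 1) (sw F) * E k u v * (φ k (sw F) * φ (k + 1) (sw F))⁻¹ =
      E (k + 1) u v := fun k hk u v => by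
    rw [_root_.mul_inv_rev, mul_assoc, mul_assoc, ← mul_assoc (E _ _ _), ← mul_assoc (φ (k + 1) _), ← mul_assoc (φ (k + 1) _),
      (h.p3 hk).key2 (hφ k (by omega)) hF (hφ _ hk), ← mul_assoc, ← mul_assoc, ← mul_assoc, psq, one_mul, mul_assoc,
      ← _root_.mul_inv_rev, psq, inv_one, mul_one]
  obtain ⟨θ, hθ⟩ := coxA_hom (n := n + 1) (g := fun k => φ k (sw F)) ⟨fun k _ => psq k, fun k hk => by
    have h1 := hφ k (by omega)
    have h2 := hφ (k + 1) (by omega)
    have : ∀ x, x ∈ ((MulAut.conj (φ k (sw F) * φ (k + 1) (sw F))).toMonoidHom.comp (φ k)).eqLocus (φ (k + 1)) :=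
      gen2 (fun g => by
        change _ * φ k _ * _ = φ (k + 1) _
        rw [h1.hs, h2.hs, ← h1.p_s, mul_assoc (φ k _), (ps _ k (by omega) (by omega) (by omega) (by omega) ..).eq]; group)
      (fun g => by
        change _ * φ k _ * _ = φ (k + 1) _
        rw [h1.ht, h2.ht, ← conj_of_comm (ps k (k + 1 + 1) (by omega) (by omega) (by omega) (by omega) (sw F) g),
          ← h2.p_s]; group)
      fun u v => by
        change _ * φ k _ * _ = φ (k + 1) _
        rw [h1.hE, h2.hE, pq k (by omega)]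
    exact (mul_inv_eq_iff_eq_mul.1 (this (sw F))).trans (mul_assoc ..).symm,
    fun k l h1 h2 => (hφ k (by omega)).comm (fun _ => (ps _ _ (by omega) (by omega) (by omega) (by omega) _ _).symm)
      (fun _ => (ps _ _ (by omega) (by omega) (by omega) (by omega) _ _).symm)
      (fun _ _ => (pE _ _ h1 (by omega) _ _ _).symm) _⟩
  have θs : ∀ τ (i : Fin (n + 2)) g, θ τ * s i g * (θ τ)⁻¹ = s (τ i) g := fun τ => by
    let K : Subgroup (Perm (Fin (n + 2))) :=
      { carrier := {τ | ∀ (i : Fin (n + 2)) g, θ τ * s i g * (θ τ)⁻¹ = s (τ i) g}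
        one_mem' := fun i g => by simp
        mul_mem' := fun h h' i g => by rw [Perm.mul_apply, ← h, ← h', map_mul]; group
        inv_mem' := fun {τ} h i g => by
          conv_lhs => rw [show i = τ (τ⁻¹ i) by simp, ← h, map_inv]
          group }
    refine ((coxSub_adjSwap (n + 1)).ge.trans ((closure_le K).2 ?_)) (mem_top τ)
    rintro _ ⟨k, hk, rfl⟩ i g
    have hk : k < n + 1 := hk
    rw [hθ k hk, adjSwap, dif_pos hk]
    by_cases e : i.1 = k
    · rw [show i = ⟨k, by omega⟩ from Fin.ext e, swap_apply_left]; exact (hφ k (by omega)).p_s g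
    by_cases e' : i.1 = k + 1
    · rw [show i = ⟨k + 1, by omega⟩ from Fin.ext e', swap_apply_right]; exact (hφ k (by omega)).p_t g
    rw [swap_apply_of_ne_of_ne (Fin.ne_of_val_ne e) (Fin.ne_of_val_ne e'), conj_of_comm (ps k i (by omega) i.2 e e' ..)]
  let EE : Fin (n + 2) → Fin (n + 2) → (Fin 2 → F) → (Fin 2 → F) → H := fun i j u v =>
    θ (swap 0 i * swap 1 (swap 0 i j)) * E 0 u v * (θ (swap 0 i * swap 1 (swap 0 i j)))⁻¹
  have t0 : ∀ {i j : Fin (n + 2)}, i ≠ j → ∃ τ : Perm (Fin (n + 2)), τ 0 = i ∧ τ 1 = j ∧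
      ∀ u v, EE i j u v = θ τ * E 0 u v * (θ τ)⁻¹ := fun {i j} e => ⟨swap 0 i * swap 1 (swap 0 i j), by
    rw [Perm.mul_apply, swap_apply_of_ne_of_ne zero_ne_one, swap_apply_left]
    rw [Ne, eq_comm, swap_apply_eq_iff, swap_apply_left]; exact e.symm, by simp, fun _ _ => rfl⟩
  have wd : ∀ (τ : Perm (Fin (n + 2))) u v, θ τ * E 0 u v * (θ τ)⁻¹ = EE (τ 0) (τ 1) u v := fun τ u v => by
    obtain ⟨τ', h0, h1, h2⟩ := t0 (τ.injective.ne zero_ne_one)
    have : τ'⁻¹ * τ ∈ (centralizer {E 0 u v}).comap θ := perm_stab (fun k h1 h2 => by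
      rw [mem_comap, mem_centralizer_singleton_iff, hθ k h2]; exact pE 0 k h1 (by omega) ..) fun i hi => by
        rw [Perm.mul_apply, Perm.inv_eq_iff_eq]
        rcases (by omega : i.1 = 0 ∨ i.1 = 1) with e | e
        · rw [show i = 0 from Fin.ext e, h0]
        · rw [show i = 1 from Fin.ext e, h1]
    rw [h2]
    conv_rhs => rw [← conj_of_comm (mem_centralizer_singleton_iff.1 this), map_mul, map_inv]
    group
  have cj : ∀ (τ : Perm (Fin (n + 2))) {i j}, i ≠ j → ∀ u v, θ τ * EE i j u v * (θ τ)⁻¹ = EE (τ i) (τ j) u v :=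
    fun τ i j e u v => by
      obtain ⟨τ', rfl, rfl, h2⟩ := t0 e
      rw [h2, ← Perm.mul_apply, ← Perm.mul_apply, ← wd, map_mul]; group
  have ek : ∀ k (hk : k + 1 < n + 2), EE ⟨k, by omega⟩ ⟨k + 1, hk⟩ = E k := fun k => by
    induction k with
    | zero => exact fun _ => funext₂ fun u v => by simpa using (wd 1 u v).symm
    | succ k ih =>
      refine fun hk => funext₂ fun u v => ?_
      rw [← pq k hk, ← hθ k (by omega), ← hθ (k + 1) (by omega), ← map_mul, ← ih (by omega), cj _ (by simp)]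
      simp [adjSwap, show k < n + 1 by omega, show k < n by omega, swap_apply_def, Fin.ext_iff,
        show k ≠ k + 1 + 1 by omega, show k + 1 + 1 ≠ k by omega]
  refine ⟨{ s := fun i => s i
            E := EE
            edge := fun e => ?_
            symm := fun e u v => ?_
            far := fun {i j k} e h1 h2 g u v => ?_
            tri := fun {i j k} h1 h2 h3 u v v' w => ?_
            quad := fun {i j k l} h1 h2 h3 h4 h5 h6 u v u' v' => ?_ }, fun _ => rfl, fun i j e => ?_⟩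
  · obtain ⟨τ, rfl, rfl, h2⟩ := t0 e
    convert (h.edge 0 (by omega)).map (MulAut.conj (θ τ)).toMonoidHom using 1
    exacts [MonoidHom.ext fun g => (θs τ 0 g).symm, MonoidHom.ext fun g => (θs τ 1 g).symm, funext₂ h2]
  · obtain ⟨τ, rfl, rfl, h2⟩ := t0 e
    have := wd (τ * adjSwap (n + 1) 0) v u
    rw [map_mul, hθ 0 (by omega)] at this
    rw [h2, ← (hφ 0 (by omega)).p_E]
    convert this using 1
    · group
    · simp [adjSwap]
  · obtain ⟨τ, rfl, rfl, h3⟩ := t0 e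
    obtain ⟨k, rfl⟩ := τ.surjective k
    rw [h3, ← θs]
    exact (h.far k.2 (by omega) (fun e => h1 (by rw [show k = 0 from Fin.ext e]))
      (fun e => h2 (by rw [show k = 1 from Fin.ext e])) ..).symm.map (MulAut.conj (θ τ))
  · have hn : 1 + 1 < n + 2 := by omega
    obtain ⟨τ, e⟩ := Perm.exists_extending_pair _ _ (inj3 (a := (⟨0, by omega⟩ : Fin (n + 2))) (b := ⟨0 + 1, by omega⟩)
      (c := ⟨1 + 1, hn⟩) (by simp) (by simp [Fin.ext_iff]) (by simp)) (inj3 h1 h2 h3)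
    obtain rfl : τ ⟨0, _⟩ = i := e 0
    obtain rfl : τ ⟨0 + 1, _⟩ = j := e 1
    obtain rfl : τ ⟨1 + 1, _⟩ = k := e 2
    rw [← cj τ (by simp), ← cj τ (by simp [Fin.ext_iff]), ← cj τ (by simp), ← conj_comm', ek 0, ek 1 hn,
      (h.p3 hn).tri (hφ 0 (by omega)) hF, ← ek 1 hn, ← hθ 0 (by omega), cj _ (by simp [Fin.ext_iff])]
    simp [adjSwap, swap_apply_def, Fin.ext_iff]
  · have hn : 2 + 1 < n + 2 := by omega
    obtain ⟨τ, e⟩ := Perm.exists_extending_pair _ _ (inj4 (a := (⟨0, by omega⟩ : Fin (n + 2))) (b := ⟨0 + 1, by omega⟩)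
      (c := ⟨2, by omega⟩) (d := ⟨2 + 1, hn⟩) (by simp) (by simp) (by simp) (by simp [Fin.ext_iff]) (by simp [Fin.ext_iff])
      (by simp)) (inj4 h1 h3 h4 h5 h6 h2)
    obtain rfl : τ ⟨0, _⟩ = i := e 0
    obtain rfl : τ ⟨0 + 1, _⟩ = j := e 1
    obtain rfl : τ ⟨2, _⟩ = k := e 2
    obtain rfl : τ ⟨2 + 1, _⟩ = l := e 3
    rw [← cj τ (by simp), ← cj τ (by simp), ek 0, ek 2 hn]
    exact (h.quad le_rfl hn ..).map (MulAut.conj (θ τ))
  · obtain ⟨j, hj⟩ := j
    obtain rfl : j = i + 1 := e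
    exact ek i hj

end Cfsg.Agent.Pres.SA
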