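import Mathlib
import Cfsg.Agent.Pres.SA4

/-! The symplectic group as the universal completion of an amalgam of small subgroups. -/

set_option autoImplicit false
set_option linter.unusedSectionVars false

namespace Cfsg.Agent.Pres.SA

open Matrix Subgroup Sum Equiv Cfsg.Agent.Classical.SpWitt Cfsg.Agent.Classical.SpMat Cfsg.Agent.Root
open scoped commutatorElement MatrixGroups

variable {F H : Type*} [Field F] [Group H]

theorem edge_of {s t : SL(2, F) →* H} {f1 f2 : (Fin 2 → F) → H} (hc : ∀ g h, Commute (s g) (t h))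
    (a1 : ∀ g u, s g * f1 u * (s g)⁻¹ = f1 (ac g u)) (m1 : ∀ u u', f1 u * f1 u' = f1 (u + u') * t (tS ![1, 0] (om u' u)))
    (a2 : ∀ g u, t g * f2 u * (t g)⁻¹ = f2 (ac g u)) (m2 : ∀ u u', f2 u * f2 u' = f2 (u + u') * s (tS ![1, 0] (om u' u)))
    (e : ∀ c : F, f1 (c • ![1, 0]) = f2 (c • ![1, 0])) : ∃ E, Edge s t E ∧ ∀ v, E ![1, 0] v = f2 v := by
  choose g c hg using ex_ac' (F := F)
  have W' : ∀ g' h (a d : F), s g' * f2 (a • d • ac h ![1, 0]) * (s g')⁻¹ = t h * f1 (d • a • ac g' ![1, 0]) * (t h)⁻¹ :=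
    fun g' h a d => by
      rw [smul_smul, smul_smul, ← ac_smul, ← ac_smul, ← a1, ← a2, e, mul_comm d, ← mul_assoc, ← mul_assoc, (hc _ _).eq,
        mul_assoc _ (t h)⁻¹, ← (hc _ _).inv_inv.eq]
      group
  have W : ∀ u v g' (a : F), a • ac g' ![1, 0] = u →
      s (g u) * f2 (c u • v) * (s (g u))⁻¹ = s g' * f2 (a • v) * (s g')⁻¹ := fun u v g' a h => by
    rw [← hg v, W', W', hg, h]
  refine ⟨fun u v => s (g u) * f2 (c u • v) * (s (g u))⁻¹, ⟨hc, fun k u v => ?_, fun k u v => ?_, fun a u v => ?_,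
    fun u v v' => ?_, fun u u' v => ?_⟩, fun v => by simpa using W ![1, 0] v 1 1 (by simp)⟩
  · rw [W (ac k u) _ (k * g u) (c u) (by rw [ac_mul, ← ac_smul, hg]), map_mul]; group
  · rw [← ac_smul, ← a2, ← mul_assoc, ← mul_assoc, ← (hc _ _).eq, mul_assoc _ _ (t k)⁻¹, (hc _ _).inv_inv.eq]; group
  · rw [W _ _ (g u) (a * c u) (by rw [mul_smul, hg]), smul_smul, mul_comm]
  · conv_rhs => rw [smul_add, ← congrArg (tS · _) (hg u), tS_smul, ← conj_tS, map_mul, map_mul, map_inv,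
      show c u ^ 2 * om v' v = om (c u • v') (c u • v) by simp; ring, eq_mul_inv_of_mul_eq (m2 ..).symm]
    group
  · have := hg v
    generalize g v = h, c v = d at this
    subst this
    rw [W', W', W', hg, hg, hg, tS_smul, ← conj_tS, map_mul, map_mul, map_inv, smul_add,
      show d ^ 2 * om u' u = om (d • u') (d • u) by simp; ring, eq_mul_inv_of_mul_eq (m1 ..).symm]
    group

/-- partial homomorphisms -/
def PH {Γ : Type*} [Group Γ] (K : Subgroup Γ) (f : Γ → H) : Prop := ∀ x ∈ K, ∀ y ∈ K, f (x * y) = f x * f y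

/-- compatible partial homomorphisms -/
def Am {Γ : Type*} [Group Γ] (K L : Subgroup Γ) (f g : Γ → H) : Prop :=
  ∃ ψ, PH (K ⊔ L) ψ ∧ (∀ x ∈ K, ψ x = f x) ∧ ∀ x ∈ L, ψ x = g x

section
variable {Γ : Type*} [Group Γ] {K L : Subgroup Γ} {f g : Γ → H}

theorem PH.conj (h : PH K f) {x y : Γ} (hx : x ∈ K) (hy : y ∈ K) : f x * f y * (f x)⁻¹ = f (x * y * x⁻¹) := by
  rw [mul_inv_eq_iff_eq_mul, ← h _ hx _ hy, ← h _ (mul_mem (mul_mem hx hy) (inv_mem hx)) _ hx, inv_mul_cancel_right]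

theorem Am.comm (h : Am K L f g) {x y : Γ} (hx : x ∈ K) (hy : y ∈ L) (e : Commute x y) : Commute (f x) (g y) := by
  obtain ⟨ψ, h1, h2, h3⟩ := h
  rw [Commute, SemiconjBy, ← h2 x hx, ← h3 y hy, ← h1 _ (mem_sup_left hx) _ (mem_sup_right hy),
    ← h1 _ (mem_sup_right hy) _ (mem_sup_left hx), e.eq]

theorem Am.eq (h : Am K L f g) {x : Γ} (hx : x ∈ K) (hy : x ∈ L) : f x = g x := by
  obtain ⟨ψ, -, h2, h3⟩ := h
  rw [← h2 x hx, h3 x hy]

open _root_.Classical in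
/-- extension by one -/
noncomputable def ex1 (φ : K →* H) (x : Γ) : H := if h : x ∈ K then φ ⟨x, h⟩ else 1

theorem ex1_eq (φ : K →* H) {x : Γ} (h : x ∈ K) : ex1 φ x = φ ⟨x, h⟩ := dif_pos h

theorem ph_ex1 {Γ' : Type*} [Group Γ'] (e : Γ' →* Γ) {K' : Subgroup Γ'} (h : K' ≤ K.comap e) (φ : K →* H) :
    PH K' fun x => ex1 φ (e x) := fun x hx y hy => by
  dsimp only
  rw [ex1_eq φ (x := e x) (h hx), ex1_eq φ (x := e y) (h hy), ex1_eq φ (x := e _) (h (mul_mem hx hy)), ← map_mul φ]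
  congr 1; exact Subtype.ext (map_mul ..)

theorem PH.hom {A : Type*} [Group A] {e : A →* Γ} (h : PH e.range f) : ∃ s : A →* H, ∀ g, s g = f (e g) :=
  ⟨MonoidHom.mk' (fun g => f (e g)) fun g g' => by rw [map_mul, h _ ⟨g, rfl⟩ _ ⟨g', rfl⟩], fun _ => rfl⟩

theorem am_ex1 {Γ' : Type*} [Group Γ'] (e : Γ' →* Γ) {K' L' : Subgroup Γ'} (h : K' ≤ K.comap e) (h' : L' ≤ L.comap e)
    {φ : K →* H} {χ : L →* H} (H1 : ∃ Ψ : ↥(K ⊔ L) →* H, (∀ g (hg : g ∈ K), Ψ ⟨g, mem_sup_left hg⟩ = φ ⟨g, hg⟩) ∧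
      ∀ g (hg : g ∈ L), Ψ ⟨g, mem_sup_right hg⟩ = χ ⟨g, hg⟩) :
    Am K' L' (fun x => ex1 φ (e x)) fun x => ex1 χ (e x) := by
  obtain ⟨Ψ, h1, h2⟩ := H1
  exact ⟨_, ph_ex1 e (sup_le (h.trans (comap_mono le_sup_left)) (h'.trans (comap_mono le_sup_right))) Ψ,
    fun x hx => (ex1_eq _ _).trans ((h1 _ (h hx)).trans (ex1_eq _ _).symm),
    fun x hx => (ex1_eq _ _).trans ((h2 _ (h' hx)).trans (ex1_eq _ _).symm)⟩

end

section
variable {I : Type*} [DecidableEq I] [Fintype I]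

variable (F) in
/-- the abelian members of the amalgam -/
noncomputable def M0 (i j : I) : Subgroup (SG (sB I F)) := closure (Set.range (fun c => s0 i (tS ![1, 0] c)) ∪
  Set.range (fun c => s0 j (tS ![1, 0] c)) ∪ Set.range fun c : F => E0 i j ![1, 0] (c • ![1, 0]))

theorem M0_1 (i j : I) (c : F) : s0 i (tS ![1, 0] c) ∈ M0 F i j := subset_closure (.inl (.inl ⟨c, rfl⟩))
theorem M0_2 (i j : I) (c : F) : s0 j (tS ![1, 0] c) ∈ M0 F i j := subset_closure (.inl (.inr ⟨c, rfl⟩))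
theorem M0_3 (i j : I) (c : F) : E0 i j ![1, 0] (c • ![1, 0]) ∈ M0 F i j := subset_closure (.inr ⟨c, rfl⟩)

theorem edge_am {i j : I} (h : i ≠ j) {s t : SL(2, F) →* H} {σ τ μ : SG (sB I F) → H} (hs : ∀ g, s g = σ (s0 i g))
    (ht : ∀ g, t g = τ (s0 j g)) (h0 : Am (s0 i).range (s0 j).range σ τ) (h1 : Am (M0 F i j) (s0 i).range μ σ)
    (h2 : Am (M0 F i j) (s0 j).range μ τ) :
    ∃ E, Edge s t E ∧ ∀ c : F, E ![1, 0] (c • ![1, 0]) = μ (E0 i j ![1, 0] (c • ![1, 0])) := by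
  have e0 := edge0 (F := F) h
  have k1 : ∀ u, E0 i j u ![1, 0] ∈ M0 F i j ⊔ (s0 i).range := fun u => by
    obtain ⟨g, c, rfl⟩ := ex_ac' u
    rw [← ac_smul, ← e0.act, e0.smul]
    exact mul_mem (mul_mem (mem_sup_right ⟨g, rfl⟩) (mem_sup_left (M0_3 _ _ _))) (inv_mem (mem_sup_right ⟨g, rfl⟩))
  have k2 : ∀ u, E0 i j ![1, 0] u ∈ M0 F i j ⊔ (s0 j).range := fun u => by
    obtain ⟨g, c, rfl⟩ := ex_ac' u
    rw [← ac_smul, ← e0.act']
    exact mul_mem (mul_mem (mem_sup_right ⟨g, rfl⟩) (mem_sup_left (M0_3 _ _ _))) (inv_mem (mem_sup_right ⟨g, rfl⟩))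
  have k3 := fun c => h1.eq (M0_1 i j c) ⟨_, rfl⟩
  have k4 := fun c => h2.eq (M0_2 i j c) ⟨_, rfl⟩
  obtain ⟨ψ, p1, p2, p3⟩ := h1
  obtain ⟨χ, q1, q2, q3⟩ := h2
  obtain ⟨E, h3, h4⟩ := edge_of (s := s) (t := t) (f1 := fun u => ψ (E0 i j u ![1, 0])) (f2 := fun u => χ (E0 i j ![1, 0] u))
    (fun g g' => by rw [hs, ht]; exact h0.comm ⟨g, rfl⟩ ⟨g', rfl⟩ (e0.comm ..))
    (fun g u => by rw [hs, ← p3 _ ⟨g, rfl⟩, p1.conj (mem_sup_right ⟨g, rfl⟩) (k1 u), e0.act])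
    (fun u u' => by rw [← p1 _ (k1 u) _ (k1 u'), e0.mul', p1 _ (k1 _) _ (mem_sup_left (M0_2 _ _ _)), p2 _ (M0_2 _ _ _), k4, ht])
    (fun g u => by rw [ht, ← q3 _ ⟨g, rfl⟩, q1.conj (mem_sup_right ⟨g, rfl⟩) (k2 u), e0.act'])
    (fun u u' => by rw [← q1 _ (k2 u) _ (k2 u'), e0.mul, q1 _ (k2 _) _ (mem_sup_left (M0_1 _ _ _)), q2 _ (M0_1 _ _ _), k3, hs])
    (fun c => by rw [e0.smul, p2 _ (M0_3 _ _ _), q2 _ (M0_3 _ _ _)])
  exact ⟨E, h3, fun c => by rw [h4, q2 _ (M0_3 _ _ _)]⟩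

theorem sg_ext {g h : SG (sB I F)} (e0 : ∀ k, g.1 (emb k ![1, 0]) = h.1 (emb k ![1, 0]))
    (e1 : ∀ k, g.1 (emb k ![0, 1]) = h.1 (emb k ![0, 1])) : g = h :=
  Subtype.ext (LinearEquiv.toLinearMap_injective (LinearMap.pi_ext' fun a => LinearMap.ext_ring (by
    have := emb_bv (F := F) a
    simp only [LinearMap.comp_apply, LinearMap.single_apply, LinearEquiv.coe_coe, ← this]
    cases a
    exacts [e0 _, e1 _])))

theorem pr_fix {g : SG (sB I F)} {k : I} {w : Fin 2 → F} (h : g.1 (emb k w) = emb k w) (x : I ⊕ I → F) :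
    om (pr k (g.1 x)) w = om (pr k x) w := by rw [← sB_emb, ← h, SG.map, sB_emb]

theorem mem_s0 {g : SG (sB I F)} {j : I} (h0 : ∀ k, k ≠ j → g.1 (emb k ![1, 0]) = emb k ![1, 0])
    (h1 : ∀ k, k ≠ j → g.1 (emb k ![0, 1]) = emb k ![0, 1]) : g ∈ (s0 j).range := by
  have h2 : ∀ w, g.1 (emb j w) = emb j (pr j (g.1 (emb j w))) := fun w => pr_ext fun k => by
    rw [pr_emb]
    split_ifs with e
    · rw [e]
    · exact ext2 (by simpa [om, pr_emb, e] using pr_fix (h1 k e) (emb j w))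
        (by simpa [om, pr_emb, e] using pr_fix (h0 k e) (emb j w))
  refine ⟨mk2 (pr j (g.1 (emb j ![1, 0]))) (pr j (g.1 (emb j ![0, 1]))) (by
    rw [← emb_emb j, ← h2, ← h2, SG.map, emb_emb]; simp [om]), sg_ext (fun k => ?_) fun k => ?_⟩
  all_goals by_cases e : k = j
  · rw [e, s0_emb, mk2_0, ← h2]
  · rw [s0_emb' (Ne.symm e), h0 k e]
  · rw [e, s0_emb, mk2_1, ← h2]
  · rw [s0_emb' (Ne.symm e), h1 k e]

theorem mem_M0 {g : SG (sB I F)} {i j : I} (h : i ≠ j) (h0 : ∀ k, g.1 (emb k ![1, 0]) = emb k ![1, 0])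
    (h1 : ∀ k, k ≠ i → k ≠ j → g.1 (emb k ![0, 1]) = emb k ![0, 1]) : g ∈ M0 F i j := by
  have h2 : ∀ x k, pr k (g.1 x) 1 = pr k x 1 := fun x k => by simpa [om] using pr_fix (h0 k) x
  have h3 : ∀ x k, k ≠ i → k ≠ j → pr k (g.1 x) 0 = pr k x 0 := fun x k e e' => by simpa [om] using pr_fix (h1 k e e') x
  have h4 : pr i (g.1 (emb j ![0, 1])) 0 = pr j (g.1 (emb i ![0, 1])) 0 := by
    have := SG.map g (emb i ![0, 1]) (emb j ![0, 1])
    rw [emb_orth h, sB_pr, Finset.sum_eq_add_of_mem i j (Finset.mem_univ _) (Finset.mem_univ _) h fun k _ e => by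
      simp [om, h2, pr_emb, e]] at this
    simpa [om, h2, pr_emb, h, h.symm, ← sub_eq_add_neg, sub_eq_zero] using this
  rw [show g = s0 i (tS ![1, 0] (pr i (g.1 (emb i ![0, 1])) 0)) *
    E0 i j ![1, 0] (pr j (g.1 (emb i ![0, 1])) 0 • ![1, 0]) * s0 j (tS ![1, 0] (pr j (g.1 (emb j ![0, 1])) 0)) from ?_]
  · exact mul_mem (mul_mem (M0_1 _ _ _) (M0_3 _ _ _)) (M0_2 _ _ _)
  refine sg_ext (fun k => pr_ext fun l => ?_) fun k => pr_ext fun l => ext2 ?_ ?_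
  · simp only [h0, SG.mul_apply, pr_s0, E0_apply h, pr_add, pr_smul, pr_emb, ac_tS]
    split_ifs <;> simp_all [om]
  · simp only [SG.mul_apply, pr_s0, E0_apply h, pr_add, pr_smul, pr_emb, ac_tS]
    by_cases e : k ≠ i ∧ k ≠ j
    · rw [h1 k e.1 e.2, pr_emb]; split_ifs <;> simp_all [om]
    by_cases e' : l ≠ i ∧ l ≠ j
    · rw [h3 _ l e'.1 e'.2, pr_emb]; split_ifs <;> simp_all [om]
    rw [not_and_or, not_not, not_not] at e e'
    rcases e with rfl | rfl <;> rcases e' with rfl | rfl <;> simp [h, h.symm, om, h4]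
  · simp only [h2, SG.mul_apply, pr_s0, E0_apply h, pr_add, pr_smul, pr_emb, ac_tS]
    split_ifs <;> simp_all [om]

theorem M0_le {i j : I} (h : i ≠ j) {g : SG (sB I F)} (hg : g ∈ M0 F i j) : (∀ k, g.1 (emb k ![1, 0]) = emb k ![1, 0]) ∧
    ∀ k, k ≠ i → k ≠ j → g.1 (emb k ![0, 1]) = emb k ![0, 1] := by
  have h1 : ∀ x, (∀ l, l = i ∨ l = j → om (pr l x) ![1, 0] = 0) → g.1 x = x := fun x hx =>
    (closure_le (MulAction.stabilizer _ x)).2 (by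
      rintro _ ((⟨c, rfl⟩ | ⟨c, rfl⟩) | ⟨c, rfl⟩) <;>
        simp only [SetLike.mem_coe, MulAction.mem_stabilizer_iff, SG.smul_def, s0_tS, tv_apply, sB_emb, E0_apply h, om_smul_r, hx, true_or, or_true, mul_zero, zero_smul,
          add_zero]) hg
  refine ⟨fun k => h1 _ fun l _ => ?_, fun k e e' => h1 _ fun l hl => ?_⟩
  · rw [pr_emb]; split_ifs <;> simp
  · rw [pr_emb, if_neg (by rintro rfl; tauto), om_zero_l]

end

theorem gen_path {n : ℕ} {K : Subgroup (SG (sB (Fin (n + 2)) F))} (h1 : ∀ i g, s0 i g ∈ K)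
    (h2 : ∀ i j : Fin (n + 2), j.1 = i + 1 → M0 F i j ≤ K) (g : SG (sB (Fin (n + 2)) F)) : g ∈ K := by
  have h3 : ∀ i j : Fin (n + 2), j.1 = i + 1 → ∀ u v, E0 i j u v ∈ K := fun i j e =>
    (edge0 (Fin.ne_of_val_ne (by omega))).mem (h1 i) (h1 j) fun c => h2 i j e (M0_3 _ _ _)
  have h4 : ∀ (d : ℕ) (i j : Fin (n + 2)), j.1 = i + 1 + d → ∀ u v, E0 i j u v ∈ K := fun d => by
    induction d with
    | zero => exact h3
    | succ d ih =>
      intro i j e u v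
      have := (sys0 F (Fin (n + 2))).tri (i := i) (j := ⟨i + 1 + d, by omega⟩) (k := j) (Fin.ne_of_val_ne (by simp; omega))
        (Fin.ne_of_val_ne (by simp; omega)) (Fin.ne_of_val_ne (by omega)) u ![1, 0] ![0, 1] v
      rw [show om ![0, 1] ![1, 0] = (1 : F) by simp [om], one_smul] at this
      exact (show _ = E0 i j u v from this) ▸ comm_mem (ih _ _ rfl _ _) (h3 _ _ e _ _)
  refine gen0 h1 (fun i j e u v => ?_) g
  rcases lt_or_gt_of_ne (Fin.val_ne_of_ne e) with h | h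
  · exact h4 (j - i - 1) i j (by omega) u v
  · exact E0_symm e u v ▸ h4 (i - j - 1) j i (by omega) v u

theorem amalg (hF : ∃ a : F, a ≠ 0 ∧ a ≠ 1) {n : ℕ} {σ μ : Fin (n + 2) → SG (sB (Fin (n + 2)) F) → H}
    (hS : ∀ i, PH (s0 i).range (σ i)) (hSS : ∀ i j, i ≠ j → Am (s0 i).range (s0 j).range (σ i) (σ j))
    (hMM : ∀ i j k l : Fin (n + 2), i ≠ k → j.1 = i + 1 → l.1 = k + 1 → Am (M0 F i j) (M0 F k l) (μ i) (μ k))
    (hMS : ∀ i j k : Fin (n + 2), j.1 = i + 1 → Am (M0 F i j) (s0 k).range (μ i) (σ k)) :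
    ∃ Φ : SG (sB (Fin (n + 2)) F) →* H, (∀ i g, Φ (s0 i g) = σ i (s0 i g)) ∧
      ∀ i j : Fin (n + 2), j.1 = i + 1 → ∀ g ∈ M0 F i j, Φ g = μ i g := by
  have : ∀ k, ∃ s : SL(2, F) →* H, ∀ h : k < n + 2, ∀ g, s g = σ ⟨k, h⟩ (s0 ⟨k, h⟩ g) := fun k => by
    by_cases h : k < n + 2
    · exact (hS ⟨k, h⟩).hom.imp fun _ h _ => h
    · exact ⟨1, fun h' => absurd h' h⟩
  choose s hs using this
  have : ∀ k, ∃ E, ∀ h : k + 1 < n + 2, Edge (s k) (s (k + 1)) E ∧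
      ∀ c : F, E ![1, 0] (c • ![1, 0]) = μ ⟨k, by omega⟩ (E0 ⟨k, by omega⟩ ⟨k + 1, h⟩ ![1, 0] (c • ![1, 0])) := fun k => by
    by_cases h : k + 1 < n + 2
    · have hk : k < n + 2 := by omega
      exact (edge_am (j := ⟨k + 1, h⟩) (i := ⟨k, hk⟩) (σ := σ ⟨k, hk⟩) (τ := σ ⟨k + 1, h⟩) (μ := μ ⟨k, hk⟩) (by simp) (hs k hk)
        (hs _ h) (hSS _ _ (by simp)) (hMS _ _ _ rfl) (hMS _ _ _ rfl)).imp
        fun _ h _ => h
    · exact ⟨fun _ _ => 1, fun h' => absurd h' h⟩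
  choose E hE using this
  obtain ⟨S, h1, h2⟩ := Path.exists_sys hF (n := n) (s := s) (E := E) ⟨fun k h => (hE k h).1, fun i j hi hj e g h => by
      rw [hs i hi, hs j hj]; exact (hSS _ _ (by simpa)).comm ⟨g, rfl⟩ ⟨h, rfl⟩ (s0_comm (by simpa) _ _),
    fun i k hi hk e e' g c => by
      rw [hs i hi, (hE k hk).2]
      exact (hMS _ _ _ rfl).comm (M0_3 _ _ _) ⟨g, rfl⟩ ((sys0 F _).far (by simp) (by simpa) (by simpa) ..).symm,
    fun k l e hl c d => by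
      rw [(hE l hl).2, (hE k (by omega)).2]
      exact (hMM _ _ _ _ (by simpa using e.ne) rfl rfl).comm (M0_3 _ _ _) (M0_3 _ _ _)
        ((sys0 F _).comm_gen (by simp) (by simp) (by simp) (by simp [om]) (by simp [om]) (by simp [om]))⟩
  obtain ⟨Φ, h3, h4⟩ := S.exists_hom
  have h5 : ∀ i g, Φ (s0 i g) = σ i (s0 i g) := fun i g => by rw [h3, h1, hs i i.2]
  refine ⟨Φ, h5, fun i j e g hg => ?_⟩
  obtain ⟨ψ, p1, p2, -⟩ := hMS i j i e
  rw [← p2 g hg]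
  induction hg using closure_induction with
  | mem x hx =>
    rw [p2 x (subset_closure hx)]
    rcases hx with (⟨c, rfl⟩ | ⟨c, rfl⟩) | ⟨c, rfl⟩
    · rw [h5, (hMS i j i e).eq (M0_1 _ _ _) ⟨_, rfl⟩]
    · rw [h5, (hMS i j j e).eq (M0_2 _ _ _) ⟨_, rfl⟩]
    · obtain ⟨j, hj⟩ := j
      obtain rfl : j = i + 1 := e
      rw [h4 _ _ (Fin.ne_of_val_ne (by simp)), h2 _ _ rfl, (hE i hj).2]
  | one => simpa [eq_comm] using p1 1 (one_mem _) 1 (one_mem _)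
  | mul x y hx hy e1 e2 => rw [map_mul, e1, e2, p1 _ (mem_sup_left hx) _ (mem_sup_left hy)]
  | inv x hx e1 =>
    rw [map_inv, e1, inv_eq_iff_mul_eq_one, ← p1 _ (mem_sup_left hx) _ (mem_sup_left (inv_mem hx)), mul_inv_cancel]
    simpa using p1 1 (one_mem _) 1 (one_mem _)

end Cfsg.Agent.Pres.SA
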