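import Mathlib
import Cfsg.Agent.Pres.TG2

/-! Two generators for unitary groups of dimension at least four. -/

set_option autoImplicit false
set_option linter.unusedSectionVars false

namespace Cfsg.Agent.Pres

open Subgroup Equiv Polynomial Sum UD
open scoped commutatorElement

variable {J F : Type*} [Bar J] [Field F] [DecidableEq J] [Fintype J]

/-- diagonal maps -/
noncomputable def dgH (e : Option J → F) (he : ∀ y, e y ≠ 0) : HH J F :=
  LinearEquiv.piCongrRight fun y => LinearEquiv.smulOfNeZero F F (e y) (he y)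

theorem dgH_apply (e : Option J → F) (he : ∀ y, e y ≠ 0) (v : VV J F) (y : Option J) : dgH e he v y = e y * v y := rfl

theorem dgH_ee (e : Option J → F) (he : ∀ y, e y ≠ 0) (y : Option J) : dgH e he (ee y) = e y • ee y := by
  ext x; simp only [dgH_apply, ee_apply, Pi.smul_apply, smul_eq_mul]; split_ifs with h <;> simp [h]

section
variable {σ : F →+* F} (hσ : Herm.Inv σ)
include hσ

theorem su_diag [Finite F] {I : Type} [DecidableEq I] [Fintype I] [Nonempty I] (od : Prop) (e : Option (I ⊕ I) → F)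
    (h1 : ∀ y, σ (e y) * e (ob y) = 1) (h2 : ∏ y, e y = 1) (h3 : ¬ od → e none = 1) :
    ∃ h ∈ (suD I hσ od).E, ∀ y, h (ee y) = e y • ee y := by
  have h0 : ∀ y, e y ≠ 0 := fun y => by simpa using left_ne_zero_of_mul_eq_one (h1 y)
  refine ⟨dgH e h0, ?_, dgH_ee e h0⟩
  rw [← su_gen]
  refine ⟨⟨fun v w => Finset.sum_congr rfl fun y _ => ?_, Units.ext ((det_diag (dgH_ee e h0)).trans h2)⟩,
    mem_iInf.mpr fun h => by rw [mem_Fx, dgH_ee, h3 h, one_smul]⟩
  simp only [dgH_apply, map_mul, show (suD I hσ od).σ = σ from rfl]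
  linear_combination ((suD I hσ od).η' y * σ (v y) * w (ob y)) * h1 y

theorem fix_span {x : F} (hx : σ x ≠ x) (c : F) : ∃ s s', σ s = s ∧ σ s' = s' ∧ c = s * x + s' := by
  have h1 : x - σ x ≠ 0 := sub_ne_zero.mpr hx.symm
  have h2 : σ x - x ≠ 0 := sub_ne_zero.mpr hx
  exact ⟨(c - σ c) / (x - σ x), c - (c - σ c) / (x - σ x) * x, by
    simp only [map_div₀, map_sub, hσ.invol]; field_simp; ring, by
    simp only [map_div₀, map_sub, map_mul, hσ.invol]; field_simp; ring, by simp⟩

theorem exists_nonreal : ∃ γ, σ γ ≠ γ ∧ σ γ ≠ -γ := by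
  obtain ⟨t, ht⟩ := hσ.ne
  by_cases h : σ t = -t
  · exact ⟨t + 1, by simpa using ht, fun e => ht (by simp only [map_add, map_one] at e; grind)⟩
  · exact ⟨t, ht, h⟩

theorem su_y {I : Type*} (od : Prop) : ∃ u b, (suD I hσ od).L u b ∧ ((b ≠ 0 ∧ ∀ u b, (suD I hσ od).L u b → u = 0) ∧ ¬ od ∨
    (u ≠ 0 ∧ 2 * b + σ u * u ≠ 0) ∧ od) := by
  obtain ⟨θ, θ0, hθ⟩ := hσ.exists_skew
  by_cases h : od
  · obtain ⟨b, hb⟩ := hσ.exists_trace (c := -1) (by simp)
    by_cases e : 2 * b + 1 = 0
    · exact ⟨1, b + θ, ⟨.inl h, by simp only [map_add, map_one]; grind⟩, .inr ⟨⟨one_ne_zero, by grind⟩, h⟩⟩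
    · exact ⟨1, b, ⟨.inl h, by simp only [map_one]; grind⟩, .inr ⟨⟨one_ne_zero, by simpa using e⟩, h⟩⟩
  · exact ⟨0, θ, ⟨.inr rfl, by simpa [add_comm] using hθ⟩, .inl ⟨⟨θ0, fun _ _ e => e.1.resolve_left h⟩, h⟩⟩

theorem fix_div {I : Type*} {od : Prop} {b c : F} (hb : (suD I hσ od).L 0 b) (hc : (suD I hσ od).L 0 c) :
    σ (b / c) = b / c := by
  rw [map_div₀, show σ b = -b by linear_combination (norm := simp) hb.2,
    show σ c = -c by linear_combination (norm := simp) hc.2, neg_div_neg_eq]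

theorem su_two_gen [Fintype F] (od : Prop) (n : ℕ) :
    ∃ f : Fin 2 → (suD (Fin (n + 2)) hσ od).E, closure (Set.range f) = ⊤ := by
  obtain ⟨θ, θ0, hθ⟩ := hσ.exists_skew
  have hθ' : (suD (Fin (n + 2)) hσ od).L 0 θ := ⟨.inr rfl, by simpa [add_comm] using hθ⟩
  obtain ⟨C, h1, h2, h3⟩ := exists_Cx _ hθ' θ0
  obtain ⟨u, b, hL, hz⟩ := su_y hσ (I := Fin (n + 2)) od
  have d2 := C.d2
  rcases n with _ | n
  · have : Fintype (Herm.fixF σ) := Fintype.ofFinite _
    by_cases hq : 2 < Fintype.card (Herm.fixF σ)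
    · have k0 : C.d (some C.a) / C.d (some (bar C.l)) ≠ 0 := div_ne_zero (C.d_ne _) (C.d_ne _)
      generalize hκ : C.d (some C.a) / C.d (some (bar C.l)) = κ at k0
      obtain ⟨α, α0, hα⟩ : ∃ α, α ≠ 0 ∧ σ (κ * σ α / (α * θ)) ≠ κ * σ α / (α * θ) := by
        by_contra! h
        obtain ⟨γ, g1, g2⟩ := exists_nonreal hσ
        have g0 : γ ≠ 0 := by rintro rfl; simp at g1
        have e1 := h 1 one_ne_zero
        have e2 := h γ g0
        have e3 : σ γ ≠ 0 := by simpa using g0
        have e4 : σ θ ≠ 0 := by simpa using θ0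
        simp only [map_div₀, map_mul, map_one, hσ.invol] at e1 e2
        field_simp at e1 e2
        grind
      refine C.two_gen_hY hq (Herm.fixF σ).subtype θ0 (fun b => by simp [suD, add_comm, skew_iff hσ θ0 hθ]) (α := α) hL
        (hz.imp And.left And.left) fun S s1 s2 s3 t => ?_
      obtain ⟨s, s', e1, e2, e3⟩ := fix_span hσ hα (t / (α * θ))
      have := add_mem (s1 ⟨s, e1⟩ _ (hκ ▸ s3 (by rw [h1, h2]; exact h3 0))) (s1 ⟨s', e2⟩ _ s2)
      convert this using 1
      simp only [suD, Subfield.coe_subtype]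
      field_simp at e3 ⊢
      exact e3
    have h4 : ∀ s, σ s = s → s = 0 ∨ s = 1 := fun s hs => by
      classical
      by_contra! ht
      let s' : Herm.fixF σ := ⟨s, hs⟩
      have := Finset.card_le_univ ({0, 1, s'} : Finset (Herm.fixF σ))
      rw [Finset.card_eq_three.mpr ⟨0, 1, s', zero_ne_one, fun e => ht.1 (congrArg Subtype.val e).symm,
        fun e => ht.2 (congrArg Subtype.val e).symm, rfl⟩] at this
      omega
    obtain ⟨ω, hω⟩ := hσ.ne
    have ω0 : ω ≠ 0 := by rintro rfl; simp at hω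
    have ω1 : σ ω * ω = 1 := (h4 _ (by simp [hσ.invol, mul_comm])).resolve_left (by simp [ω0])
    have ω2 : σ ω + ω = 1 := (h4 _ (by simp [hσ.invol, add_comm])).resolve_left fun e => by
      rcases h4 2 (map_ofNat σ 2) with h | h <;> grind
    have t2 : (2 : F) = 0 := (h4 2 (map_ofNat σ 2)).resolve_right fun h => one_ne_zero (by linear_combination h : (1 : F) = 0)
    classical
    obtain ⟨h, hE, he⟩ := su_diag hσ (I := Fin (0 + 2)) od (fun y => y.elim (if od then ω else 1) fun k =>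
      if ab k = 0 then ω else if od then 1 else σ ω) (by
        have : ∀ y, ab (bar y : Fin (0 + 2) ⊕ Fin (0 + 2)) = ab y := by rintro (_ | _) <;> rfl
        rintro (_ | k) <;> simp only [Option.elim, ob_some, ob_none, this]
        · split_ifs <;> simp [ω1]
        · by_cases e : ab k = 0 <;> by_cases e' : od <;> simp [e, e', hσ.invol, ω1, mul_comm ω])
      (by simp [Fintype.prod_option]; split_ifs <;> grind) (by simp +contextual)
    refine C.two_gen hE he (α := 1) (by simp [h1]) (by simp [h1, h2]; split_ifs <;> grind) θ0 hθ' hL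
      (hz.imp And.left fun h => ⟨h.1.1, h.1.2, by simp [h1, h.2], 0, by grind⟩) (fun S _ c hc c0 h5 b hb => ?_)
      fun S s1 s2 _ t => ?_
    · rcases h4 _ (fix_div hσ hb h5) with e | e
      · rw [(div_eq_zero_iff.mp e).resolve_right c0]; exact zero_mem _
      · rwa [(div_eq_one_iff_eq c0).mp e]
    · obtain ⟨s, s', e1, e2, e3⟩ := fix_span hσ (x := (if od then 1 else σ ω) / ω) (by
        have : σ ω ≠ 0 := by simpa using ω0
        split_ifs <;> simp only [map_div₀, map_one, hσ.invol] <;> field_simp <;> grind) (t / θ)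
      have h5 : ∀ s, σ s = s → s ∈ mulR (RingHom.id F) S := fun s hs => by rcases h4 s hs with e | e <;> simp [e]
      have := add_mem (mul_mem (h5 s e1) (show _ / ω ∈ mulR (RingHom.id F) S by simpa [h1, h2, mem_mulR] using s1)) (h5 s' e2)
        _ (s2 θ hθ')
      rw [← e3] at this
      simpa [θ0] using this
  obtain ⟨ζ, ζ0, -, hζ⟩ := exists_prim F
  have j1 : D2 C.l (inl (Fin.castSucc 1)) := h2 ▸ D2_inl (Fin.castSucc_lt_last _).ne'
  have j2 : D2 C.a (inl (Fin.castSucc 1)) := h1 ▸ D2_inl (by simp [Fin.ext_iff])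
  generalize (inl (Fin.castSucc 1) : Fin (n + 1 + 2) ⊕ Fin (n + 1 + 2)) = j at j1 j2
  obtain ⟨h, hE, he⟩ := exists_hX (D := suD _ hσ od) j1 ζ0
  refine C.two_gen hE (e := fun y => if y = some C.l then ζ else if y = some j then ζ⁻¹ else
      if y = some (bar C.l) then (σ ζ)⁻¹ else if y = some (bar j) then σ ζ else 1) (fun y => ?_) (α := 1)
    (by simp [d2.all, j2.all]) ?_ θ0 hθ' hL (hz.imp And.left fun h => ⟨h.1.1, h.1.2, by simp [d2.all, j2.all], ?_⟩)
    (fun S s1 c hc c0 h5 b hb => ?_) fun S s1 s2 _ t => ?_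
  · rw [he]
    split_ifs with e1 e2 e3 e4
    iterate 4 subst_vars; simp [j1.all, suD]; module
    simp [Ne.symm e1, Ne.symm e2, Ne.symm e3, Ne.symm e4]
  · simp only [d2.all, j2.all, if_true, if_false, Option.some.injEq]
    rintro rfl
    obtain ⟨t, ht⟩ := hσ.ne
    obtain ⟨k, rfl⟩ := hζ t (by rintro rfl; simp at ht)
    simp at ht
  · obtain ⟨k, hk⟩ := hζ (-1) (by simp)
    exact ⟨k, by simp [j1.all, ← map_pow, hk]⟩
  · obtain ⟨x, hx⟩ := hσ.exists_norm (fix_div hσ hb h5)
    by_cases e : x = 0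
    · rw [(div_eq_zero_iff.mp (hx.symm.trans (by simp [e]))).resolve_right c0]; exact zero_mem _
    obtain ⟨k, rfl⟩ := hζ x e
    have := pow_mem (show σ ζ * ζ ∈ mulR (RingHom.id F) S by simpa [j1.all, mul_comm, mem_mulR] using s1) k c hc
    rw [mul_pow, ← map_pow, hx] at this
    simpa [c0] using this
  · by_cases e : t = 0
    · rw [e]; exact zero_mem _
    obtain ⟨k, hk⟩ := hζ (t / θ) (div_ne_zero e θ0)
    have := pow_mem (show ζ ∈ mulR (RingHom.id F) S by simpa [d2.all, j2.all, mem_mulR] using s1) k _ (s2 θ hθ')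
    simpa [hk, θ0] using this

end

end Cfsg.Agent.Pres
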