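import Mathlib
import Cfsg.Agent.Pres.TG3

/-! Tools for the presentation of `SU₃(q)`. -/

set_option autoImplicit false
set_option linter.unusedSectionVars false

namespace Cfsg.Agent.Pres

open Subgroup Polynomial
open scoped commutatorElement

variable {G H F : Type*} [Group G] [Group H] [Field F]

theorem commute_closure {S T : Set G} (h : ∀ a ∈ S, ∀ b ∈ T, Commute a b) {a b : G} (ha : a ∈ closure S)
    (hb : b ∈ closure T) : Commute a b := by
  refine (mem_centralizer_iff.mp ((closure_le (centralizer (closure T))).mpr (fun x hx => ?_) ha) b hb).symm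
  exact mem_centralizer_iff.mpr fun y hy => mem_centralizer_singleton_iff.mp
    ((closure_le (centralizer {x})).mpr (fun z hz => mem_centralizer_singleton_iff.mpr (h x hx z hz).symm.eq) hy)

theorem baum_gen {h u m : G} {n k e : ℕ} (h0 : 1 ≤ n) (h1 : ∀ i ≤ n, Commute u (cu h u i))
    (hm : m ∈ closure (cu h u '' Set.Ioo 0 n)) (h2 : cu h u k ^ e = u * m * cu h u n) (i j : ℕ) :
    Commute (cu h u i) (cu h u j) := by
  have key : ∀ r, ∀ i ≤ r + n, Commute u (cu h u i) := by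
    intro r
    induction r with
    | zero => simpa using h1
    | succ r ih =>
      intro i hi
      rcases hi.lt_or_eq with hi | rfl
      · exact ih i (by omega)
      have e1 := ((commute_conj (ih (r + 1) (by omega)) (h ^ k)).pow_left e).pow_right e
      rw [← cu_add, add_comm k, cu_add, ← cu, conj_pow, h2, show h ^ (r + 1) * (u * m * cu h u n) * (h ^ (r + 1))⁻¹ =
        cu h u (r + 1) * (h ^ (r + 1) * m * (h ^ (r + 1))⁻¹) * cu h u (r + 1 + n) by
          rw [cu_add h u (r + 1) n, show cu h u (r + 1) = h ^ (r + 1) * u * (h ^ (r + 1))⁻¹ from rfl]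
          generalize cu h u n = a; group, mul_assoc u] at e1
      have c : ∀ {S T : Set ℕ}, (∀ i ∈ S, ∀ j ∈ T, i ≤ j + (r + n) ∧ j ≤ i + (r + n)) → ∀ {a b},
          a ∈ closure (cu h u '' S) → b ∈ closure (cu h u '' T) → Commute a b := fun H _ _ => commute_closure (by
        rintro _ ⟨i, hi, rfl⟩ _ ⟨j, hj, rfl⟩; exact cu_comm_of_le ih (H i hi j hj).1 (H i hi j hj).2)
      have m1 : m * cu h u n ∈ closure (cu h u '' Set.Icc 1 n) :=
        mul_mem (Subgroup.closure_mono (Set.image_mono (t := Set.Icc 1 n) fun i hi => ⟨hi.1, hi.2.le⟩) hm) (subset_closure ⟨n, by simpa, rfl⟩)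
      have m2 : cu h u (r + 1) * (h ^ (r + 1) * m * (h ^ (r + 1))⁻¹) ∈ closure (cu h u '' Set.Icc (r + 1) (r + n)) :=
        mul_mem (subset_closure ⟨r + 1, by simpa, rfl⟩) (mem_comap.mp ((closure_le (Subgroup.comap
          (MulAut.conj (h ^ (r + 1))).toMonoidHom _)).mpr (by
            rintro _ ⟨i, hi, rfl⟩
            exact Subgroup.subset_closure ⟨r + 1 + i, ⟨by omega, by have := hi.2; omega⟩, cu_add ..⟩) hm))
      refine baum_step e1 (c (S := {0}) ?_ (subset_closure ⟨0, rfl, cu_zero ..⟩) m2) (c ?_ m1 m2)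
        (c (T := {r + 1 + n}) ?_ m1 (subset_closure ⟨_, rfl, rfl⟩))
      all_goals simp only [Set.mem_Icc, Set.mem_singleton_iff]; omega
  exact cu_comm_of_le (key (i + j)) (by omega) (by omega)

theorem presOn_of_mem {ι : Type} (f : ι → H) (hf : closure (Set.range f) = ⊤) (L : List (FreeGroup ι × Set (FreeGroup ι)))
    (h0 : MemL (mapL (FreeGroup.lift f) L))
    (h : ∀ (G : Type) [Group G] (g : ι → G), closure (Set.range g) = ⊤ → MemL (mapL (FreeGroup.lift g) L) →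
      ∀ π : G →* H, (∀ i, π (g i) = f i) → Function.Injective π) : PresOn f L.length := by
  have : ∀ p : FreeGroup ι × Set (FreeGroup ι), ∃ y, p ∈ L → y ∈ closure p.2 ∧
      FreeGroup.lift f y = FreeGroup.lift f p.1 := fun p => by
    by_cases hp : p ∈ L
    · have := h0 _ (List.mem_map_of_mem hp)
      rw [Prod.map_snd, ← MonoidHom.map_closure] at this
      obtain ⟨y, hy⟩ := this
      exact ⟨y, fun _ => hy⟩
    · exact ⟨1, fun e => absurd e hp⟩
  choose y hy using this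
  have := presOn_of_list f hf (L.map fun p => (p.1, y p)) (by
    rw [List.map_map, holds_map]; exact fun p hp => (hy p hp).2.symm) fun G _ g h1 h2 => h G g h1 (by
      rw [List.map_map, holds_map] at h2
      intro p hp
      obtain ⟨q, hq, rfl⟩ := List.mem_map.mp hp
      rw [Prod.map_snd, ← MonoidHom.map_closure]
      exact ⟨y q, (hy q hq).1, (h2 q hq).symm⟩)
  simpa using this

theorem memL_of_inj {φ : G →* H} (hφ : Function.Injective φ) {L : List (G × Set G)} (h : MemL (mapL φ L)) : MemL L :=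
  fun p hp => by
    have := h _ (List.mem_map_of_mem hp)
    rw [Prod.map_snd, ← MonoidHom.map_closure] at this
    exact (mem_map_iff_mem hφ).mp this

theorem rank_one_inj {A : Type*} [Group A] {ψ : A →* G} {t : G} (hg : ψ.range ⊔ closure {t} = ⊤)
    (h : ∀ a, t * ψ a * t ∈ ψ.range ∨ ∃ b b', t * ψ a * t = ψ b * t * ψ b') (h2 : t * t ∈ ψ.range) {π : G →* H}
    (h3 : Function.Injective (π.comp ψ)) (h4 : π t ∉ (π.comp ψ).range) : Function.Injective π := by
  obtain ⟨s, hs⟩ := h2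
  let S : Subgroup G :=
    { carrier := {g | g ∈ ψ.range ∨ ∃ b b', g = ψ b * t * ψ b'}
      one_mem' := .inl (one_mem _)
      mul_mem' := by
        rintro _ _ (⟨a, rfl⟩ | ⟨a, a', rfl⟩) (⟨b, rfl⟩ | ⟨b, b', rfl⟩)
        · exact .inl ⟨a * b, map_mul ..⟩
        · exact .inr ⟨a * b, b', by simp [mul_assoc]⟩
        · exact .inr ⟨a, a' * b, by simp [mul_assoc]⟩
        · rcases h (a' * b) with ⟨c, e⟩ | ⟨c, c', e⟩
          · exact .inl ⟨a * c * b', by simp [e, mul_assoc]⟩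
          · exact .inr ⟨a * c, c' * b', by
              rw [map_mul, map_mul, ← mul_assoc _ (ψ c'), mul_assoc (ψ a) (ψ c), mul_assoc (ψ a) (ψ c * t), ← e]
              simp [mul_assoc]⟩
      inv_mem' := by
        rintro _ (⟨a, rfl⟩ | ⟨a, a', rfl⟩)
        · exact .inl ⟨a⁻¹, map_inv ..⟩
        · exact .inr ⟨a'⁻¹ * s⁻¹, a⁻¹, by simp [hs, mul_assoc]⟩ }
  refine (injective_iff_map_eq_one π).mpr fun g e => ?_
  rcases sup_le (c := S) (fun _ h => .inl h) ((closure_le _).mpr (by rintro _ rfl; exact .inr ⟨1, 1, by simp⟩))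
    (hg ▸ mem_top g) with ⟨a, rfl⟩ | ⟨a, a', rfl⟩
  · rw [h3 (a₁ := a) (a₂ := 1) (by simpa using e), map_one]
  · refine absurd ⟨a⁻¹ * a'⁻¹, ?_⟩ h4
    simp only [map_mul, mul_eq_one_iff_eq_inv, ← eq_inv_mul_iff_mul_eq] at e
    simp [e]

theorem cube_mem [Fintype F] {ε β : F} (h0 : ε ≠ 0) (h : Fintype.card F < (orderOf ε + 1) ^ 4) {S : AddSubgroup F}
    (h1 : ∀ t ∈ S, ε * t ∈ S) (h2 : ∀ i < 3, β ^ i ∈ S) : β ^ 3 ∈ S := by
  let K : Subfield F := { mulR (RingHom.id F) S with inv_mem' := fun _ h => subring_inv (R := mulR (RingHom.id F) S) h }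
  have k1 : orderOf ε + 1 ≤ Nat.card K := by
    let θ' : K := ⟨ε, h1⟩
    have h2 : θ' ≠ 0 := fun e => h0 (congrArg Subtype.val e)
    have h3 : orderOf (Units.mk0 θ' h2) = orderOf ε := by
      rw [← orderOf_units, ← orderOf_injective K.subtype.toMonoidHom Subtype.val_injective]; rfl
    have := _root_.orderOf_le_card (x := Units.mk0 θ' h2)
    rw [h3, Nat.card_units] at this
    have : 0 < Nat.card K := Nat.card_pos
    omega
  have k2 : Module.finrank K F ≤ 3 := by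
    have e := Module.natCard_eq_pow_finrank (K := K) (V := F)
    by_contra h4
    have : (orderOf ε + 1) ^ 4 ≤ Nat.card K ^ Module.finrank K F :=
      (Nat.pow_le_pow_left k1 4).trans (Nat.pow_le_pow_right Nat.card_pos (by omega))
    rw [← e, Nat.card_eq_fintype_card] at this
    omega
  have k3 := minpoly.monic (IsIntegral.of_finite K β)
  have k4 : ((Polynomial.X ^ 3) %ₘ minpoly K β).natDegree < 3 :=
    (natDegree_modByMonic_lt _ k3 (minpoly.ne_one K β)).trans_le ((minpoly.natDegree_le β).trans k2)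
  have := aeval_modByMonic_eq_self_of_root (p := Polynomial.X ^ 3) (minpoly.aeval K β)
  rw [aeval_eq_sum_range' k4] at this
  rw [show β ^ 3 = aeval β (Polynomial.X ^ 3 : K[X]) by simp, ← this]
  exact sum_mem fun i hi => (((Polynomial.X ^ 3) %ₘ minpoly K β).coeff i).2 _ (h2 i (Finset.mem_range.mp hi))

/-- data for `SU₃(q)` -/
structure U3 (F : Type*) [Field F] [Fintype F] where
  σ : F →+* F
  hσ : Herm.Inv σ
  q : ℕ
  hF : Fintype.card F = q ^ 2
  hq : 3 ≤ q
  ζ : F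
  ζ0 : ζ ≠ 0
  ord : orderOf ζ + 1 = Fintype.card F
  prim : ∀ t, t ≠ 0 → ∃ k : ℕ, ζ ^ k = t
  θ : F
  θ0 : θ ≠ 0
  hθ : θ + σ θ = 0

namespace U3

variable [Fintype F] (U : U3 F)

/-- character on the top of the root group -/
def β : F := U.σ U.ζ ^ 2 / U.ζ

theorem σ_eq (a : F) : U.σ a = a ^ U.q := U.hσ.apply_pow (Herm.natCard_of_card U.hF) a

theorem σζ0 : U.σ U.ζ ≠ 0 := by simpa using U.ζ0

theorem β0 : U.β ≠ 0 := div_ne_zero (pow_ne_zero _ U.σζ0) U.ζ0

theorem β_cube : U.β ^ (2 * U.q + 1) = U.ζ ^ 3 := by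
  have := U.ζ0
  have := U.σζ0
  rw [pow_succ, mul_comm 2, pow_mul, ← σ_eq, β]
  simp only [map_div₀, map_pow, U.hσ.invol]; field_simp

theorem β_norm : U.β * U.σ U.β = U.ζ * U.σ U.ζ := by
  have := U.ζ0
  have := U.σζ0
  simp only [β, map_div₀, map_pow, U.hσ.invol]; field_simp

theorem β_ord {m : ℕ} (h : U.β ^ m = 1) : U.q ^ 2 - 1 ∣ 3 * m := by
  rw [← U.hF, ← U.ord, Nat.add_sub_cancel, orderOf_dvd_iff_pow_eq_one, pow_mul, ← β_cube, ← pow_mul, mul_comm, pow_mul,
    h, one_pow]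

theorem ord_pos {x : F} (h : x ≠ 0) : 0 < orderOf x := by
  simpa [← orderOf_units] using orderOf_pos (Units.mk0 x h)

theorem β_gen {p : ℕ} [Fact p.Prime] [Algebra (ZMod p) F] (t : F) : ∃ f : (ZMod p)[X], aeval U.β f = t := by
  refine aeval_surj_of_card U.β0 ?_ t
  have h1 := Nat.le_of_dvd (by have := ord_pos U.β0; omega) (U.β_ord (pow_orderOf_eq_one _))
  have h2 := U.hq
  have h3 : U.q ≤ orderOf U.β := by
    by_contra! h
    have : U.q ^ 2 ≤ 3 * U.q - 2 := by omega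
    obtain ⟨k, hk⟩ : ∃ k, U.q = k + 3 := ⟨U.q - 3, by omega⟩
    rw [hk] at this; ring_nf at this; omega
  rw [U.hF]
  exact Nat.pow_lt_pow_left (by omega) two_ne_zero

theorem β_top (R : Subring F) (h : U.β ∈ R) (t : F) : t ∈ R := by
  obtain ⟨p, hp⟩ := CharP.exists F
  have : Fact p.Prime := ⟨CharP.char_is_prime F p⟩
  let _ := ZMod.algebra F p
  obtain ⟨f, rfl⟩ := U.β_gen (p := p) t
  exact aeval_mem_subring h f

theorem β_ne : U.σ U.β ≠ U.β := fun e => by
  obtain ⟨t, ht⟩ := U.hσ.ne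
  exact ht (U.β_top (Herm.fixF U.σ).toSubring e t)

theorem β_cube_mem {S : AddSubgroup F} (h1 : ∀ t ∈ S, U.β ^ (U.q - 1) * t ∈ S) (h2 : ∀ i < 3, U.β ^ i ∈ S) :
    U.β ^ 3 ∈ S := by
  have h0 := pow_ne_zero (U.q - 1) U.β0
  refine cube_mem h0 ?_ h1 h2
  have h3 := U.β_ord (m := (U.q - 1) * orderOf (U.β ^ (U.q - 1))) (by rw [pow_mul, pow_orderOf_eq_one])
  have h4 := ord_pos h0
  have h5 := U.hq
  generalize orderOf (U.β ^ (U.q - 1)) = m at h3 h4 ⊢
  obtain ⟨k, hk⟩ : ∃ k, U.q = k + 1 := ⟨U.q - 1, by omega⟩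
  rw [hk, show (k + 1) ^ 2 - 1 = k * (k + 2) from Nat.sub_eq_of_eq_add (by ring),
    Nat.add_sub_cancel, mul_left_comm, Nat.mul_dvd_mul_iff_left (by omega)] at h3
  have h6 := Nat.le_of_dvd (by omega) h3
  rw [U.hF, hk, show 4 = 2 * 2 from rfl, pow_mul]
  exact Nat.pow_lt_pow_left (by nlinarith) two_ne_zero

theorem cube_pow (t : F) : ∃ k e : ℕ, (e = 0 ∧ t = 0 ∨ e = 1) ∧ e * U.β ^ k = t ^ 3 := by
  by_cases h : t = 0
  · exact ⟨0, 0, .inl ⟨rfl, h⟩, by simp [h]⟩
  obtain ⟨k, rfl⟩ := U.prim t h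
  exact ⟨(2 * U.q + 1) * k, 1, .inr rfl, by rw [pow_mul, β_cube, ← pow_mul, ← pow_mul, mul_comm 3]; simp⟩

theorem orbit {t : F} (h : t ≠ 0) : ∃ k : ℕ, ∃ r : Fin 3, t = U.β ^ k * U.ζ ^ r.val := by
  obtain ⟨k, rfl⟩ := U.prim t h
  exact ⟨(2 * U.q + 1) * (k / 3), ⟨k % 3, Nat.mod_lt _ three_pos⟩, by
    rw [pow_mul, β_cube, ← pow_mul, ← pow_add, Nat.div_add_mod]⟩

theorem norm_pow {s : F} (h : U.σ s = s) (h0 : s ≠ 0) : ∃ k : ℕ, (U.ζ * U.σ U.ζ) ^ k = s := by
  obtain ⟨x, rfl⟩ := U.hσ.exists_norm h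
  obtain ⟨k, rfl⟩ := U.prim x (right_ne_zero_of_mul h0)
  exact ⟨k, by rw [mul_pow, map_pow, mul_comm]⟩

theorem factor {x y b N : F} (hxy : U.σ (x * y) ≠ x * y) (hx : U.σ (b / x) ≠ b / x) (hy : U.σ (b / y) ≠ b / y)
    (hN : U.σ b + b + N = 0) (N0 : N ≠ 0) : ∃ r s a, U.σ r = r ∧ U.σ s = s ∧ r ≠ 0 ∧ s ≠ 0 ∧
      U.σ (r * x) + r * x + U.σ a * a * N = 0 ∧ s * y = b + U.σ (r * x) + U.σ a * N := by
  have i := U.hσ.invol
  obtain ⟨Δ, hΔ⟩ : ∃ Δ, Δ = x * y - U.σ x * U.σ y := ⟨_, rfl⟩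
  have Δ0 : Δ ≠ 0 := by rw [hΔ, ← map_mul]; exact sub_ne_zero.mpr hxy.symm
  have σΔ : U.σ Δ = -Δ := by simp [hΔ, i]
  have σN : U.σ N = N := by rw [show N = -(U.σ b + b) by linear_combination hN]; simp [i, add_comm]
  obtain ⟨c, hc⟩ : ∃ c, c = (x + U.σ x) * N := ⟨_, rfl⟩
  have σc : U.σ c = c := by simp [hc, i, σN, add_comm]
  obtain ⟨v, hv⟩ := U.hσ.exists_norm (μ := -(c ^ 2 * (U.σ y * y) / Δ ^ 2) - c * ((b * U.σ y - U.σ b * y) / Δ)) (by
    simp only [map_sub, map_neg, map_mul, map_div₀, map_pow, σc, σΔ, i]; field_simp; ring)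
  obtain ⟨z, hz⟩ : ∃ z, z = v + c * y / Δ := ⟨_, rfl⟩
  obtain ⟨r, hr⟩ : ∃ r, r = ((z + b) * U.σ y - (U.σ z + U.σ b) * y) / Δ := ⟨_, rfl⟩
  obtain ⟨s, hs⟩ : ∃ s, s = ((z + b) * x - (U.σ z + U.σ b) * U.σ x) / Δ := ⟨_, rfl⟩
  have σr : U.σ r = r := by simp only [hr, map_sub, map_add, map_mul, map_div₀, σΔ, i]; field_simp; ring
  have σs : U.σ s = s := by simp only [hs, map_sub, map_add, map_mul, map_div₀, σΔ, i]; field_simp; ring
  have e1 : U.σ z * z + c * r = 0 := by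
    simp only [hr, hz, map_add, map_mul, map_div₀, σΔ, σc]
    field_simp at hv ⊢
    linear_combination hv
  have e2 : s * y = b + r * U.σ x + z := by rw [hr, hs]; field_simp; rw [hΔ]; ring
  clear hr hs hz hv
  refine ⟨r, s, U.σ z / N, σr, σs, ?_, ?_, ?_, ?_⟩
  · rintro rfl
    obtain rfl : z = 0 := by simpa using e1
    have y0 : y ≠ 0 := by rintro rfl; simp at hxy
    exact hy (by rw [show b / y = s by field_simp; linear_combination -e2, σs])
  · rintro rfl
    have x0 : x ≠ 0 := by rintro rfl; simp at hxy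
    obtain rfl : z = -b - r * U.σ x := by linear_combination -e2
    have : U.σ (r * x - b) * (r * x - b) = 0 := by
      simp only [map_sub, map_neg, map_mul, σr, i] at e1 ⊢
      linear_combination e1 - r * hc - r * (x + U.σ x) * hN
    obtain rfl : b = r * x := (sub_eq_zero.mp (by simpa only [mul_eq_zero, map_eq_zero, or_self] using this)).symm
    exact hx (by rw [mul_div_cancel_right₀ _ x0, σr])
  · simp only [map_mul, map_div₀, σr, σN, i]; field_simp; linear_combination e1 - r * hc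
  · simp only [map_mul, map_div₀, σr, σN, i]; field_simp; exact e2

end U3

end Cfsg.Agent.Pres
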