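import Mathlib
import Cfsg.Agent.Pres.U3a

/-! The Borel subgroup of `SU₃(q)`. -/

set_option autoImplicit false
set_option linter.unusedSectionVars false

namespace Cfsg.Agent.Pres

open Subgroup Polynomial Sum Equiv UD
open scoped commutatorElement

variable {G H F : Type*} [Group G] [Group H] [Field F]

/-- index set in rank one -/
abbrev J3 := Fin 1 ⊕ Fin 1

/-- the first index -/
def i3 : J3 := inl 0

theorem J3_cases (k : J3) : k = i3 ∨ k = bar i3 := by revert k; decide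

theorem J3_ext {g g' : HH J3 F} (h0 : g (ee none) = g' (ee none)) (h1 : g (ee (some i3)) = g' (ee (some i3)))
    (h2 : g (ee (some (bar i3))) = g' (ee (some (bar i3)))) : g = g' := basis_ext <| by
  rintro (_ | k)
  · exact h0
  · rcases J3_cases k with rfl | rfl
    exacts [h1, h2]

namespace U3

variable [Fintype F] (U : U3 F)

/-- the form data -/
def D : UD J3 F := suD (Fin 1) U.hσ True

theorem L_iff {u b : F} : U.D.L u b ↔ U.σ b + b + U.σ u * u = 0 := and_iff_right (.inl trivial)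

@[simp] theorem D_σ : U.D.σ = U.σ := rfl
@[simp] theorem D_η' (y : Option J3) : U.D.η' y = 1 := by cases y <;> rfl

theorem Lθ : U.D.L 0 U.θ := U.L_iff.mpr (by simpa [add_comm] using U.hθ)

theorem exists_L (u : F) : ∃ b, U.D.L u b := by
  obtain ⟨b, hb⟩ := U.hσ.exists_trace (c := -(U.σ u * u)) (by simp [U.hσ.invol, mul_comm])
  exact ⟨b, U.L_iff.mpr (by linear_combination hb)⟩

/-- diagonal entries of the torus generator -/
def e (y : Option J3) : F := if y = some i3 then U.ζ else if y = some (bar i3) then (U.σ U.ζ)⁻¹ else U.σ U.ζ / U.ζ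

theorem exists_h : ∃ h ∈ U.D.E, ∀ y, h (ee y) = U.e y • ee y := by
  have := U.ζ0
  have := U.σζ0
  refine su_diag U.hσ True U.e ?_ ?_ (by simp)
  · rintro (_ | k)
    · simp [e, U.hσ.invol]; field_simp
    · rcases J3_cases k with rfl | rfl <;> simp [e, U.hσ.invol, *]
  · simp [Fintype.prod_option, e, i3]; field_simp

/-- the torus generator -/
noncomputable def h : HH J3 F := U.exists_h.choose

theorem h_E : U.h ∈ U.D.E := U.exists_h.choose_spec.1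
theorem h_ee (y : Option J3) : U.h (ee y) = U.e y • ee y := U.exists_h.choose_spec.2 y
theorem h_mon : (U.h, 1) ∈ U.D.Mon := ⟨U.D.E_iso U.h_E, fun _ => rfl, fun y => ⟨_, U.h_ee y⟩⟩

/-- the norm of the primitive element -/
def ν : F := U.ζ * U.σ U.ζ

theorem h_Y {u b : F} (hL : U.D.L u b) : U.h * U.D.Y i3 u b * U.h⁻¹ = U.D.Y i3 (U.β * u) (U.ν * b) := by
  have := U.ζ0
  have := U.σζ0
  rw [Mon_conjY U.h_mon U.h_ee rfl hL]
  congr 2 <;> simp [e, β, ν]; field_simp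

theorem L_β {u b : F} (hL : U.D.L u b) : U.D.L (U.β * u) (U.ν * b) := by
  simpa [β_norm, ν] using U.D.L_smul hL U.β

theorem cu_Y {u b : F} (hL : U.D.L u b) (k : ℕ) : U.D.L (U.β ^ k * u) (U.ν ^ k * b) ∧
    cu U.h (U.D.Y i3 u b) k = U.D.Y i3 (U.β ^ k * u) (U.ν ^ k * b) := by
  induction k with
  | zero => simpa [cu_zero] using hL
  | succ k ih => rw [cu_succ, ih.2, U.h_Y ih.1, pow_succ', pow_succ', mul_assoc, mul_assoc]; exact ⟨U.L_β ih.1, rfl⟩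

theorem h_pow_eq_one {k : ℕ} : U.h ^ k = 1 ↔ U.ζ ^ k = 1 := by
  refine ⟨fun e => by simpa [e, U3.e] using (congrFun (diag_pow U.h_ee k (some i3)) (some i3)).symm, fun e => ?_⟩
  refine J3_ext ?_ ?_ ?_ <;> rw [diag_pow U.h_ee] <;> simp [U3.e, div_pow, ← map_pow, e]

theorem diag_mem {g : HH J3 F} (hg : g ∈ U.D.E) (hm : (g, 1) ∈ U.D.Mon) : ∃ k : ℕ, g = U.h ^ k := by
  obtain ⟨d, h1, -, h3⟩ := Mon_ex hm
  obtain ⟨k, hk⟩ := U.prim _ (ne_of_apply (h1 (some i3)))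
  have h4 := mul_mem (inv_mem (pow_mem U.h_E k)) hg
  refine ⟨k, (inv_mul_eq_one.mp (fix_all (U.D.E_iso h4) (fun j => ?_) (.inr (det_E h4)))).symm⟩
  rw [LinearEquiv.mul_apply, LinearEquiv.coe_inv, LinearEquiv.symm_apply_eq, h1, diag_pow U.h_ee]
  rcases J3_cases j with rfl | rfl
  · simp [e, hk]
  · have := h3 (some i3)
    simp only [D_σ, D_η', mul_one, ob_some] at this
    simp [e, ← map_pow, hk, eq_inv_of_mul_eq_one_right this]

/-- the reflection -/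
noncomputable def n : HH J3 F := U.D.nY i3 U.θ

theorem n_E : U.n ∈ U.D.E := nY_E _ U.Lθ U.θ0
theorem n_mon : (U.n, swap (some i3) (some (bar i3))) ∈ U.D.Mon := nY_mon _ U.Lθ U.θ0

theorem n_sq : ∃ k : ℕ, U.n * U.n = U.h ^ k :=
  U.diag_mem (mul_mem U.n_E U.n_E) (by simpa using mul_mem U.n_mon U.n_mon)

theorem n_h : ∃ k : ℕ, U.n * U.h * U.n⁻¹ = U.h ^ k :=
  U.diag_mem (mul_mem (mul_mem U.n_E U.h_E) (inv_mem U.n_E))
    (by simpa using mul_mem (mul_mem U.n_mon U.h_mon) (inv_mem U.n_mon))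

/-- the Borel subgroup -/
noncomputable def B : Subgroup (HH J3 F) := U.D.RY i3 ⊔ zpowers U.h

theorem Y_B {u b : F} (hL : U.D.L u b) : U.D.Y i3 u b ∈ U.B := mem_sup_left (UD.Y_mem _ hL)
theorem h_B : U.h ∈ U.B := mem_sup_right (mem_zpowers _)
theorem B_E : U.B ≤ U.D.E := sup_le (by rintro _ ⟨u, b, h, rfl⟩; exact Y_E _ h) (zpowers_le.mpr U.h_E)

theorem mem_B {g : HH J3 F} (hg : g ∈ U.B) : ∃ u b, ∃ k : ℕ, U.D.L u b ∧ g = U.D.Y i3 u b * U.h ^ k := by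
  have : Finite (HH J3 F) := Finite.of_injective (fun g : HH J3 F => (g : VV J3 F → VV J3 F)) DFunLike.coe_injective
  obtain ⟨_, ⟨u, b, hL, rfl⟩, y, hy, rfl⟩ := mem_sup_norm (K := U.D.RY i3) (L := zpowers U.h) (le_norm_of fun g hg x hx => by
    obtain ⟨k, rfl⟩ := mem_powers_iff_mem_zpowers.mpr hg
    obtain ⟨u, b, hL, rfl⟩ := hx
    exact ⟨_, _, (U.cu_Y hL k).1, (U.cu_Y hL k).2.symm⟩) hg
  obtain ⟨k, rfl⟩ := mem_powers_iff_mem_zpowers.mpr hy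
  exact ⟨u, b, k, hL, rfl⟩

theorem B_ent {g : HH J3 F} (hg : g ∈ U.B) : ∃ l, l ≠ 0 ∧ g (ee (some i3)) = l • ee (some i3) ∧
    ∀ v, g v (some (bar i3)) = (U.σ l)⁻¹ * v (some (bar i3)) := by
  obtain ⟨u, b, k, -, rfl⟩ := U.mem_B hg
  obtain ⟨d, h1, h2, -⟩ := Mon_ex (show (U.h ^ k, (1 : Perm (Option J3))) ∈ U.D.Mon by simpa using pow_mem U.h_mon k)
  refine ⟨U.ζ ^ k, pow_ne_zero _ U.ζ0, by simp [diag_pow U.h_ee, Y_apply, e], fun v => ?_⟩
  have := congrFun ((h1 (some (bar i3))).symm.trans (diag_pow U.h_ee k _)) (some (bar i3))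
  simpa [Y_apply, show d _ = _ by simpa [e] using this] using h2 v (some (bar i3))

theorem n_not_B : U.n ∉ U.B := fun h => by
  obtain ⟨l, -, h1, -⟩ := U.B_ent h
  simpa [n, U.D.nY_ee _ U.θ0, U.θ0] using congrFun h1 (some (bar i3))

variable (K : Subgroup (HH J3 F)) in
/-- top coefficients of root elements in a subgroup -/
def AU : AddSubgroup F where
  carrier := {u | ∃ b, U.D.L u b ∧ U.D.Y i3 u b ∈ K}
  add_mem' := fun ⟨_, h1, h2⟩ ⟨_, h1', h2'⟩ => ⟨_, U.D.L_mul h1 h1', U.D.Y_mul .. ▸ mul_mem h2 h2'⟩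
  zero_mem' := ⟨0, U.D.L_zero, U.D.Y_zero _ ▸ one_mem _⟩
  neg_mem' := fun ⟨_, h1, h2⟩ => ⟨_, U.D.L_inv h1, U.D.Y_inv .. ▸ inv_mem h2⟩

theorem Y_comm (u b u' b' : F) : ⁅U.D.Y i3 u b, U.D.Y i3 u' b'⁆ = U.D.Y i3 0 (U.σ u' * u - U.σ u * u') := by
  simp only [commutatorElement_def, Y_inv, Y_mul, D_σ, map_add, map_neg]
  congr 1 <;> ring

theorem mem_of_AU {K : Subgroup (HH J3 F)} (hZ : U.D.RZ i3 ≤ K) {u b : F} (hL : U.D.L u b) (h : u ∈ U.AU K) :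
    U.D.Y i3 u b ∈ K := by
  obtain ⟨c, h1, h2⟩ := h
  have := mul_mem h2 (RZ_le'.mp hZ (b - c) (by convert U.D.L_mul (U.D.L_inv h1) hL using 1 <;> simp; ring))
  simpa [Y_mul] using this

theorem RY_le {K : Subgroup (HH J3 F)} (hK : U.h ∈ K) {u b : F} (hL : U.D.L u b) (hu : u ≠ 0) (h : U.D.Y i3 u b ∈ K) :
    U.D.RY i3 ≤ K := by
  have h1 : ∀ t, t ∈ U.AU K := fun t => by
    have := U.β_top (mulR (RingHom.id F) (U.AU K)) (fun t ⟨b, h1, h2⟩ =>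
      ⟨_, U.L_β h1, U.h_Y h1 ▸ mul_mem (mul_mem hK h2) (inv_mem hK)⟩) (t / u) u ⟨b, hL, h⟩
    simpa [hu] using this
  rintro _ ⟨u, b, hL, rfl⟩
  refine U.mem_of_AU (RZ_le'.mpr fun c hc => ?_) hL (h1 u)
  obtain ⟨a, rfl⟩ := U.hσ.exists_sub (c := c) (by simpa [add_comm] using U.L_iff.mp hc)
  obtain ⟨b1, -, h2⟩ := h1 a
  obtain ⟨b2, -, h3⟩ := h1 1
  simpa [Y_comm] using comm_mem h2 h3

theorem E_le' {K : Subgroup (HH J3 F)} (h1 : U.D.RY i3 ≤ K) (h2 : U.n ∈ K) : U.D.E ≤ K := by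
  refine U.D.E_le (fun i j _ h => absurd h (by clear h; revert i j; unfold D2; decide)) fun i u b hL => ?_
  rcases J3_cases i with rfl | rfl
  · exact h1 (UD.Y_mem _ hL)
  · exact (Mon_le (x := 1) U.n_mon (by simpa) (b := (some i3, none)) fun _ _ => Commute.one_left _).mpr h1
      (by simpa [swap_apply_of_ne_of_ne, R, fam_y] using UD.Y_mem (bar i3) hL)

theorem bruhat {u b : F} (hL : U.D.L u b) (hb : b ≠ 0) : ∃ g ∈ U.B, ∃ g' ∈ U.B, U.n * U.D.Y i3 u b * U.n = g * U.n * g' := by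
  obtain ⟨t, s, -, s0, -, h1, h2⟩ := Mon_Y' U.n_mon (swap_apply_left _ _) hL
  have h3 := Mon_Y (bar i3) h1 (mul_ne_zero s0 hb)
  obtain ⟨h4, h5⟩ := L_aux h1 (mul_ne_zero s0 hb) i3
  rw [bar_bar] at h3
  obtain ⟨k, hk⟩ := U.diag_mem (mul_mem (mul_mem (mul_mem (Y_E _ h4) (Y_E _ h1)) (Y_E _ h5)) (inv_mem U.n_E))
    (by simpa [swap_comm (some i3)] using mul_mem h3 (inv_mem U.n_mon))
  obtain ⟨j, hj⟩ := U.n_sq
  refine ⟨_, mul_mem (inv_mem (U.Y_B h4)) (pow_mem U.h_B k), _, mul_mem (inv_mem (U.Y_B h5)) (pow_mem U.h_B j), ?_⟩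
  rw [← hk, ← hj, ← h2]; group

theorem two_gen : ∃ f : Fin 2 → U.D.E, closure (Set.range f) = ⊤ := by
  obtain ⟨b, hb⟩ := U.exists_L 1
  refine two_gen_of U.h_E (mul_mem (Y_E i3 hb) U.n_E) fun K k1 k2 => ?_
  obtain ⟨k, hk⟩ := U.n_h
  have h1 := mul_mem (mul_mem (mul_mem k2 k1) (inv_mem k2)) (inv_mem (pow_mem k1 k))
  rw [show U.D.Y i3 1 b * U.n * U.h * (U.D.Y i3 1 b * U.n)⁻¹ * (U.h ^ k)⁻¹ =
    U.D.Y i3 1 b * cu U.h (U.D.Y i3 1 b)⁻¹ k by rw [cu]; nth_rw 2 [← hk]; group,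
    Y_inv, (U.cu_Y (U.D.L_inv hb) k).2, Y_mul] at h1
  have h2 := U.RY_le k1 (U.D.L_mul hb (U.cu_Y (U.D.L_inv hb) k).1) (fun e => ?_) h1
  · exact U.E_le' h2 ((K.mul_mem_cancel_left (h2 (UD.Y_mem _ hb))).mp k2)
  rw [mul_inv_eq_iff_eq_mul] at hk
  have e1 := congrArg (fun g : HH J3 F => g (ee none) none) hk
  have e2 := congrArg (fun g : HH J3 F => g (ee (some i3)) (some (bar i3))) hk
  simp [n, U.D.nY_ee _ U.θ0, U.h_ee, diag_pow U.h_ee, U3.e, swap_apply_of_ne_of_ne, U.θ0] at e1 e2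
  have := U.ζ0
  have := U.σζ0
  have e3 : U.β = U.σ U.ζ / U.ζ * U.σ U.ζ := by rw [β]; ring
  have e4 : U.β ^ k * U.ζ = U.σ U.ζ / U.ζ := by
    rw [e3, mul_pow, ← e1, mul_assoc]
    have := U.θ0
    field_simp at e2 ⊢
    grind
  refine U.β_ne ?_
  rw [show U.β ^ k = 1 by linear_combination -e] at e4
  have e5 := congrArg U.σ e4
  simp only [β, map_div₀, map_mul, map_one, map_pow, U.hσ.invol] at e5 ⊢
  field_simp at e4 e5 ⊢
  grind

end U3

theorem exists_U3 [Fintype F] {q : ℕ} (hF : Fintype.card F = q ^ 2) (hq : q ≠ 2) :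
    ∃ U : U3 F, U.D = suD (Fin 1) (Herm.inv_frob (Herm.natCard_of_card hF)) True := by
  obtain ⟨ζ, h0, h1, h2⟩ := exists_prim F
  obtain ⟨θ, h3, h4⟩ := (Herm.inv_frob (Herm.natCard_of_card hF)).exists_skew
  exact ⟨⟨_, Herm.inv_frob (Herm.natCard_of_card hF), q, hF, by have := Herm.two_le_of_card (Herm.natCard_of_card hF); omega, ζ, h0, h1, h2, θ, h3, h4⟩, rfl⟩

end Cfsg.Agent.Pres
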