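import Mathlib
import Cfsg.Agent.Pres.U3b

/-! A presentation of the Borel subgroup of `SU₃(q)`. -/

set_option autoImplicit false
set_option linter.unusedSectionVars false

namespace Cfsg.Agent.Pres

open Subgroup Polynomial Sum Equiv UD
open scoped commutatorElement

variable {G H F : Type*} [Group G] [Group H] [Field F] {p : ℕ} [Fact p.Prime]

/-- the central generator -/
def bw (h y : G) : G := ⁅y, cu h y 1⁆
/-- generators of the centre -/
def bZ (h y : G) : Set G := Set.range (cu h (bw h y))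
/-- generators of the centraliser of the central generator -/
def bM (q : ℕ) (h y : G) : Set G := Set.range (fun x : Fin 3 × ℕ => cu (h ^ (q - 1)) (cu h y x.1) x.2) ∪ bZ h y

/-- relations of the Borel subgroup -/
noncomputable def bL (q k e k' e' : ℕ) (m m' : (ZMod p)[X]) (h y : G) : List (G × Set G) :=
  [(h ^ (q ^ 2 - 1), ∅), (⁅bw h y, cu h (bw h y) 1⁆, ∅),
    ((cu h (bw h y) k ^ e)⁻¹ * (bw h y * 1 * cu h (bw h y) 1), ∅), (bw h y ^ p, ∅), (PW h (bw h y) m, ∅),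
    (⁅bw h y, cu h y 0⁆, ∅), (⁅bw h y, cu h y 1⁆, ∅), (⁅bw h y, cu h y 2⁆, ∅), (cu h y 3, bM q h y),
    (⁅y, cu h y 2⁆, bZ h y), (⁅y, cu h y 3⁆, bZ h y),
    ((cu h y k' ^ e')⁻¹ * (y * (cu h y 1 ^ 3 * cu h y 2 ^ 3) * cu h y 3), bZ h y), (y ^ p, bZ h y), (PW h y m', bZ h y)]

theorem map_bw (φ : G →* H) (h y : G) : φ (bw h y) = bw (φ h) (φ y) := by simp [bw, map_commutatorElement, map_cu]

theorem map_bZ (φ : G →* H) (h y : G) : φ '' bZ h y = bZ (φ h) (φ y) := by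
  simp only [bZ, ← Set.range_comp, Function.comp_def, map_cu, map_bw]

theorem map_bM (φ : G →* H) (q : ℕ) (h y : G) : φ '' bM q h y = bM q (φ h) (φ y) := by
  simp only [bM, Set.image_union, map_bZ, ← Set.range_comp, Function.comp_def, map_cu, map_pow]

theorem map_bL (φ : G →* H) (q k e k' e' : ℕ) (m m' : (ZMod p)[X]) (h y : G) :
    mapL φ (bL q k e k' e' m m' h y) = bL q k e k' e' m m' (φ h) (φ y) := by
  simp only [bL, mapL, List.map_cons, List.map_nil, Prod.map, Set.image_empty, map_bZ, map_bM, map_pow, map_mul, map_inv,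
    map_one, map_commutatorElement, map_cu, map_PW, map_bw]

theorem closure_conj {S : Set G} {g : G} (h : ∀ x ∈ S, g * x * g⁻¹ ∈ closure S) {x : G} (hx : x ∈ closure S) :
    g * x * g⁻¹ ∈ closure S :=
  mem_comap.mp ((closure_le ((closure S).comap (MulAut.conj g).toMonoidHom)).mpr h hx)

theorem bM_conj (q : ℕ) (h y : G) {x : G} (hx : x ∈ closure (bM q h y)) :
    h ^ (q - 1) * x * (h ^ (q - 1))⁻¹ ∈ closure (bM q h y) := closure_conj (by
  rintro _ (⟨⟨i, j⟩, rfl⟩ | ⟨j, rfl⟩)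
  · exact Subgroup.subset_closure (.inl ⟨(i, j + 1), cu_succ ..⟩)
  · exact Subgroup.subset_closure (.inr ⟨_, cu_add ..⟩)) hx

theorem bM_mem (q : ℕ) (h y : G) {i : ℕ} (hi : i < 3) : cu h y i ∈ closure (bM q h y) :=
  Subgroup.subset_closure (.inl ⟨(⟨i, hi⟩, 0), cu_zero ..⟩)

theorem cu_conj_comm {τ h : G} (c : Commute h τ) (a : G) (j : ℕ) : h * cu τ a j * h⁻¹ = cu τ (h * a * h⁻¹) j := by
  simp only [cu, ← mul_assoc, (c.pow_right j).eq]
  rw [mul_assoc _ _ h⁻¹, mul_assoc _ h⁻¹, (c.pow_right j).inv_inv.eq]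

namespace U3

variable [Fintype F] (U : U3 F)

/-- elements of the root group with given top coefficient -/
def Yu (g : HH J3 F) (u : F) : Prop := ∃ b, U.D.L u b ∧ g = U.D.Y i3 u b

variable {U}

theorem Yu.mul {g g' : HH J3 F} {u u' : F} (h : U.Yu g u) (h' : U.Yu g' u') : U.Yu (g * g') (u + u') := by
  obtain ⟨b, h1, rfl⟩ := h
  obtain ⟨b', h1', rfl⟩ := h'
  exact ⟨_, U.D.L_mul h1 h1', U.D.Y_mul ..⟩

theorem Yu.inv {g : HH J3 F} {u : F} (h : U.Yu g u) : U.Yu g⁻¹ (-u) := by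
  obtain ⟨b, h1, rfl⟩ := h
  exact ⟨_, U.D.L_inv h1, U.D.Y_inv ..⟩

theorem Yu_one : U.Yu 1 0 := ⟨0, U.D.L_zero, (U.D.Y_zero _).symm⟩

theorem Yu.pow {g : HH J3 F} {u : F} (h : U.Yu g u) (n : ℕ) : U.Yu (g ^ n) (n * u) := by
  induction n with
  | zero => simpa using Yu_one
  | succ n ih => simpa [pow_succ, add_mul] using ih.mul h

theorem Yu.cu {g : HH J3 F} {u : F} (h : U.Yu g u) (k : ℕ) : U.Yu (cu U.h g k) (U.β ^ k * u) := by
  obtain ⟨b, h1, rfl⟩ := h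
  exact ⟨_, U.cu_Y h1 k⟩

theorem Yu.pw [Algebra (ZMod p) F] {g : HH J3 F} {u : F} (h : U.Yu g u) (f : (ZMod p)[X]) :
    U.Yu (PW U.h g f) (aeval U.β f * u) := by
  rw [PW, aeval_eq_sum_range]
  generalize f.natDegree + 1 = n
  induction n with
  | zero => simpa [WW] using Yu_one
  | succ n ih =>
    rw [WW, Finset.sum_range_succ, add_mul]
    convert ih.mul ((h.cu n).pow _) using 2
    conv_lhs => rw [← ZMod.natCast_zmod_val (f.coeff n), Nat.cast_smul_eq_nsmul, nsmul_eq_mul, mul_assoc]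

theorem Yu.zero {g : HH J3 F} {u : F} (h : U.Yu g u) (e : u = 0) : g ∈ U.D.RZ i3 := by
  obtain ⟨b, h1, rfl⟩ := h
  subst e
  exact Z_mem _ h1

theorem Yu.eq_zero {u : F} (h : U.Yu 1 u) : u = 0 := by
  obtain ⟨b, -, e⟩ := h
  exact (Y_inj' (e.symm.trans (U.D.Y_zero _).symm)).1

variable (U)

/-- the generator of the fixed field -/
def ν0 : Herm.fixF U.σ := ⟨U.ν, by simp [Herm.mem_fixF, ν, U.hσ.invol, mul_comm]⟩

theorem ν0_pow (s : Herm.fixF U.σ) (h : s ≠ 0) : ∃ k : ℕ, U.ν0 ^ k = s :=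
  (U.norm_pow s.2 (by simpa using h)).imp fun _ e => Subtype.ext (by simpa [ν0, ν] using e)

theorem ν0_ord : U.ν0 ^ (U.q - 1) = 1 := by
  have h0 : U.ν ≠ 0 := mul_ne_zero U.ζ0 U.σζ0
  have := U.ν0.2
  rw [Herm.mem_fixF, σ_eq, show U.q = U.q - 1 + 1 by have := U.hq; omega, pow_succ] at this
  exact Subtype.ext (by simpa using (mul_eq_right₀ h0).mp this)

theorem L_fix {c : F} (hc : U.D.L 0 c) (s : Herm.fixF U.σ) : U.D.L 0 (s * c) := by
  rw [L_iff] at hc ⊢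
  rw [map_mul, show U.σ s = s from s.2]
  linear_combination s * hc

theorem bw_eq {b : F} (hb : U.D.L 1 b) : bw U.h (U.D.Y i3 1 b) = U.D.Y i3 0 (U.σ U.β - U.β) := by
  rw [bw, (U.cu_Y hb 1).2, Y_comm]; simp

theorem L_c : U.D.L 0 (U.σ U.β - U.β) := by simp [L_iff, U.hσ.invol]

theorem c0 : U.σ U.β - U.β ≠ 0 := sub_ne_zero.mpr U.β_ne

theorem hν [Algebra (ZMod p) (Herm.fixF U.σ)] (t : Herm.fixF U.σ) : ∃ f : (ZMod p)[X], aeval U.ν0 f = t := by
  by_cases h : t = 0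
  · exact ⟨0, by simp [h]⟩
  · obtain ⟨k, rfl⟩ := U.ν0_pow t h
    exact ⟨Polynomial.X ^ k, by simp⟩

/-- central elements -/
noncomputable def x0 (s : Herm.fixF U.σ) : HH J3 F := U.D.Y i3 0 (s * (U.σ U.β - U.β))

theorem a0 (s t : Herm.fixF U.σ) : U.x0 (s + t) = U.x0 s * U.x0 t := by simp [x0, Y_mul, add_mul]

theorem b0 (t : Herm.fixF U.σ) : U.h * U.x0 t * U.h⁻¹ = U.x0 (U.ν0 * t) := by
  rw [x0, x0, U.h_Y (U.L_fix U.L_c t)]; simp [ν0, mul_assoc]

theorem w0 {b : F} (hb : U.D.L 1 b) : bw U.h (U.D.Y i3 1 b) = U.x0 1 := by simp [x0, U.bw_eq hb]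

variable [Algebra (ZMod p) F] [Algebra (ZMod p) (Herm.fixF U.σ)]

theorem bL_holds {b : F} (hb : U.D.L 1 b) {k e k' e' : ℕ} (hk : e * U.ν0 ^ k = 1 + U.ν0)
    (hk' : e' * U.β ^ k' = (1 + U.β) ^ 3) :
    MemL (bL U.q k e k' e' (minpoly (ZMod p) U.ν0) (minpoly (ZMod p) U.β) U.h (U.D.Y i3 1 b)) := by
  have : CharP F p := charP_of_injective_algebraMap (algebraMap (ZMod p) F).injective p
  have a0 := U.a0
  have b0 := U.b0
  have w0 := U.w0 hb
  have y0 : U.Yu (U.D.Y i3 1 b) 1 := ⟨b, hb, rfl⟩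
  have hZ : U.D.RZ i3 ≤ closure (bZ U.h (U.D.Y i3 1 b)) := RZ_le'.mpr fun c hc => by
    obtain ⟨f, hf⟩ := U.hν (p := p) ⟨_, fix_div U.hσ hc U.L_c⟩
    have := PW_mem (K := closure (bZ U.h (U.D.Y i3 1 b))) (fun i => Subgroup.subset_closure ⟨i, rfl⟩) f
    rw [w0, PW_eq a0 b0, hf, x0] at this
    simpa [U.c0] using this
  have cw : ∀ {g u}, U.Yu g u → ⁅U.x0 1, g⁆ = 1 := by
    rintro _ u ⟨b, -, rfl⟩
    simp [x0, Y_comm, U.D.Y_zero]
  simp only [bL, memL_cons, memL_nil, Subgroup.closure_empty, mem_bot, w0, and_true]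
  refine ⟨U.h_pow_eq_one.mpr (by rw [← U.hF, ← U.ord]; exact pow_orderOf_eq_one _), ?_, ?_, ?_, ?_,
    cw (y0.cu 0), cw (y0.cu 1), cw (y0.cu 2), ?_, ?_, ?_, hZ ?_, hZ ((y0.pow p).zero (by simp)),
    hZ ((y0.pw _).zero (by simp))⟩
  · rw [commutatorElement_eq_one_iff_mul_comm, cu_eq b0, ← a0, ← a0, add_comm]
  · simp [cu_eq b0, ← a0, ← add_nsmul_eq a0, hk]
  · simp [← add_nsmul_eq a0, add_zero_eq a0]
  · simp [PW_eq a0 b0, add_zero_eq a0]
  · obtain ⟨c, h1, h2⟩ := y0.cu 3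
    rw [h2]
    refine U.mem_of_AU (hZ.trans (Subgroup.closure_mono Set.subset_union_right)) h1 ?_
    rw [mul_one]
    refine U.β_cube_mem (fun t ⟨c, h1, h2⟩ => ⟨_, (U.cu_Y h1 _).1, by
      rw [← (U.cu_Y h1 _).2]; exact bM_conj _ _ _ h2⟩) fun i hi => ?_
    obtain ⟨c, h1, h2⟩ := y0.cu i
    rw [mul_one] at h1 h2
    exact ⟨c, h1, by rw [← h2]; exact Subgroup.subset_closure (.inl ⟨(⟨i, hi⟩, 0), cu_zero _ (cu U.h _ i)⟩)⟩
  · exact hZ ((((y0.mul (y0.cu 2)).mul y0.inv).mul (y0.cu 2).inv).zero (by ring))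
  · exact hZ ((((y0.mul (y0.cu 3)).mul y0.inv).mul (y0.cu 3).inv).zero (by ring))
  · exact (((y0.cu k').pow e').inv.mul ((y0.mul (((y0.cu 1).pow 3).mul ((y0.cu 2).pow 3))).mul (y0.cu 3))).zero
      (by push_cast; linear_combination -hk')

theorem bL_inj {b : F} (hb : U.D.L 1 b) {k e k' e' : ℕ} {h y : G} (hg' : closure {h, y} = ⊤)
    (hr : MemL (bL U.q k e k' e' (minpoly (ZMod p) U.ν0) (minpoly (ZMod p) U.β) h y)) {π' : G →* HH J3 F}
    (p1 : π' h = U.h) (p2 : π' y = U.D.Y i3 1 b) : Function.Injective π' := by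
  have a0 := U.a0
  have b0 := U.b0
  have w0 := U.w0 hb
  have y0 : U.Yu (U.D.Y i3 1 b) 1 := ⟨b, hb, rfl⟩
  have hν := U.hν (p := p)
  refine (injective_iff_map_eq_one π').mpr ?_
  simp only [bL, memL_cons, memL_nil, Subgroup.closure_empty, mem_bot, and_true, commutatorElement_eq_one_iff_commute,
    inv_mul_eq_one] at hr
  obtain ⟨r1, r2, r3, r4, r5, r6, r7, r8, r9, r10, r11, r12, r13, r14⟩ := hr
  have hc := baum_gen le_rfl (fun i hi => by interval_cases i; exacts [by rw [cu_zero], r2]) (one_mem _) r3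
  obtain ⟨x, xa, xh, xf⟩ := exists_mod hc r4 hν r5
  have x1 : x 1 = bw h y := by simpa [PW_one] using xf 1
  have m1 : ∀ i, Commute (bw h y) (cu h y i) := by
    have m2 : Commute (bw h y) (h ^ (U.q - 1)) := by
      have := cu_eq xh 1 (U.q - 1)
      rw [U.ν0_ord, one_mul, x1, cu, mul_inv_eq_iff_eq_mul] at this
      exact this.symm
    have m3 : ∀ i, cu h y i ∈ closure (bM U.q h y) := fun i => by
      induction i with
      | zero => exact Subgroup.subset_closure (.inl ⟨(0, 0), cu_zero ..⟩)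
      | succ i ih =>
        rw [cu_succ]
        refine closure_conj ?_ ih
        rintro _ (⟨⟨i, j⟩, rfl⟩ | ⟨j, rfl⟩)
        · rw [cu_conj_comm ((Commute.refl h).pow_right _), ← cu_succ]
          by_cases hi : i.val + 1 < 3
          · exact Subgroup.subset_closure (.inl ⟨(⟨_, hi⟩, j), rfl⟩)
          rw [show i.val + 1 = 3 by omega]
          induction j with
          | zero => rwa [cu_zero]
          | succ j ih => rw [cu_succ]; exact bM_conj _ _ _ ih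
        · exact Subgroup.subset_closure (.inr ⟨j + 1, cu_succ ..⟩)
    refine fun i => commute_closure (S := {bw h y}) ?_ (Subgroup.subset_closure rfl) (m3 i)
    rintro _ rfl _ (⟨⟨i, j⟩, rfl⟩ | ⟨j, rfl⟩)
    · refine ((m2.pow_right j).mul_right ?_).mul_right (m2.pow_right j).inv_right
      fin_cases i
      exacts [r6, r7, r8]
    · simpa [cu_zero] using hc 0 j
  obtain ⟨N, hN⟩ : ∃ N, U.q ^ 2 - 1 = N + 1 := ⟨U.q ^ 2 - 2, by have := Nat.pow_le_pow_left U.hq 2; omega⟩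
  have hZ : ∀ z, z ∈ closure (bZ h y) ↔ ∃ s, x s = z := fun z => by
    refine ⟨fun hz => (closure_le (MonoidHom.mk' (fun s : Multiplicative _ => x s.toAdd) xa).range).mpr ?_ hz, ?_⟩
    · rintro _ ⟨i, rfl⟩; exact ⟨.ofAdd (U.ν0 ^ i * 1), by rw [← x1, cu_eq xh]; rfl⟩
    · rintro ⟨s, rfl⟩
      obtain ⟨f, rfl⟩ := hν s
      exact xf f ▸ PW_mem (fun i => Subgroup.subset_closure (Set.mem_range_self i)) f
  have : (closure (bZ h y)).Normal := normalizer_eq_top_iff.mp (top_unique (hg' ▸ (closure_le _).mpr (by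
    rintro _ (rfl | rfl)
    · refine le_norm_of (K := zpowers _) (fun g hg z hz => ?_) (mem_zpowers _)
      obtain ⟨k, rfl⟩ := (isOfFinOrder_iff_pow_eq_one.mpr ⟨_, by omega, r1⟩).mem_powers_iff_mem_zpowers.mpr hg
      obtain ⟨s, rfl⟩ := (hZ z).mp hz
      exact (hZ _).mpr ⟨_, (cu_eq xh s k).symm⟩
    · refine centralizer_le_normalizer _ (mem_centralizer_iff.mpr fun z hz => commute_closure (T := {_}) ?_ hz
        (Subgroup.subset_closure rfl))
      rintro _ ⟨j, rfl⟩ _ rfl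
      have := commute_conj (m1 (N * j)) (h ^ j)
      rwa [← cu_add, ← cu, ← one_add_mul, add_comm, ← hN, cu.eq_1 h _ (_ * j), pow_mul, r1, one_pow, inv_one, one_mul,
        mul_one] at this)))
  let φ := QuotientGroup.mk' (closure (bZ h y))
  have hφ : ∀ z, φ z = 1 ↔ z ∈ closure (bZ h y) := fun z => QuotientGroup.eq_one_iff z
  simp only [← hφ, map_commutatorElement, commutatorElement_eq_one_iff_commute, map_mul, map_inv, map_pow, map_cu, map_PW,
    inv_mul_eq_one] at r10 r11 r12 r13 r14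
  obtain ⟨x', xa', xh', xf'⟩ := exists_mod (baum_gen (by norm_num) (fun i hi => by
    interval_cases i
    exacts [by rw [cu_zero], by
      rw [← commutatorElement_eq_one_iff_commute, ← bw, ← map_bw, hφ]; exact Subgroup.subset_closure ⟨0, cu_zero ..⟩, r10, r11])
    (mul_mem (pow_mem (Subgroup.subset_closure (Set.mem_image_of_mem _ (by simp))) _) (pow_mem (Subgroup.subset_closure (Set.mem_image_of_mem _ (by simp))) _)) r12)
    r13 U.β_gen r14
  have y1 : x' 1 = φ y := by simpa [PW_one] using xf' 1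
  intro g hg
  obtain ⟨t, j, hj⟩ : ∃ t, ∃ j : ℕ, φ g = x' t * φ h ^ j := by
    clear hg
    induction (hg' ▸ mem_top g : g ∈ closure {h, y}) using closure_induction'' with
    | mem a ha =>
      rcases ha with rfl | rfl
      exacts [⟨0, 1, by simp [add_zero_eq xa']⟩, ⟨1, 0, by simp [y1]⟩]
    | inv_mem a ha =>
      rcases ha with rfl | rfl
      · exact ⟨0, N, by rw [add_zero_eq xa', one_mul, ← map_pow, eq_inv_of_mul_eq_one_left (a := a ^ N) (by rw [← pow_succ, ← hN, r1])]⟩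
      · exact ⟨-1, 0, by simp [add_neg_eq xa', y1]⟩
    | one => exact ⟨0, 0, by simp [add_zero_eq xa']⟩
    | mul a b _ _ iha ihb =>
      obtain ⟨t, j, e1⟩ := iha
      obtain ⟨t', j', e2⟩ := ihb
      exact ⟨t + U.β ^ j * t', j + j', by rw [map_mul, e1, e2, xa', ← cu_eq xh', cu, pow_add]; group⟩
  obtain ⟨f, rfl⟩ := U.β_gen (p := p) t
  have pz : ∀ s, π' (x s) = U.x0 s := fun s => by
    obtain ⟨f, rfl⟩ := hν s
    rw [xf, map_PW, map_bw, p1, p2, w0, PW_eq a0 b0, mul_one]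
  have hj' := hj
  rw [xf', ← map_PW, ← map_pow, ← map_mul, eq_comm, QuotientGroup.mk'_eq_mk'] at hj'
  obtain ⟨z, hz, e1⟩ := hj'
  obtain ⟨s, rfl⟩ := (hZ z).mp hz
  have e2 := congrArg π' e1
  obtain ⟨c, h1, h2⟩ := y0.pw f
  rw [hg, map_mul, map_mul, map_pow, map_PW, p1, p2, pz] at e2
  have e3 : U.ζ ^ j = 1 := by
    simpa [h2, x0, Y_apply, diag_pow U.h_ee, U3.e] using congrArg (fun g : HH J3 F => g (ee (some i3)) (some i3)) e2
  have e4 := U.h_pow_eq_one.mpr e3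
  rw [← orderOf_dvd_iff_pow_eq_one, show orderOf U.ζ = U.q ^ 2 - 1 by rw [← U.hF, ← U.ord]; rfl] at e3
  obtain ⟨j, rfl⟩ := e3
  rw [e4, mul_one] at e2
  have e5 := (e2 ▸ (y0.pw f).mul ⟨_, U.L_fix U.L_c s, rfl⟩).eq_zero
  rw [mul_one, add_zero] at e5
  rw [e5, add_zero_eq xa', ← map_pow, pow_mul, r1, one_pow, map_one, mul_one, hφ, hZ] at hj
  obtain ⟨s, rfl⟩ := hj
  rw [pz, x0, ← U.D.Y_zero i3] at hg
  rw [show s = 0 by simpa [U.c0] using (Y_inj' hg).2, add_zero_eq xa]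


omit [Algebra (ZMod p) F] [Algebra (ZMod p) (Herm.fixF U.σ)] in
theorem borel_pres {b : F} (hb : U.D.L 1 b) : PresOn (![⟨U.h, U.h_B⟩, ⟨_, U.Y_B hb⟩] : Fin 2 → U.B) 14 := by
  obtain ⟨p, hp⟩ := CharP.exists F
  have : Fact p.Prime := ⟨CharP.char_is_prime F p⟩
  let _ := ZMod.algebra F p
  let _ := ZMod.algebra (Herm.fixF U.σ) p
  obtain ⟨k, e, hk⟩ : ∃ k e : ℕ, e * U.ν0 ^ k = 1 + U.ν0 := by
    by_cases h : 1 + U.ν0 = 0
    · exact ⟨0, 0, by simp [h]⟩
    · exact (U.ν0_pow _ h).imp fun k hk => ⟨1, by simp [hk]⟩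
  obtain ⟨k', e', -, hk'⟩ := U.cube_pow (1 + U.β)
  refine presOn_of_mem _ ?_ (bL U.q k e k' e' (minpoly (ZMod p) U.ν0) (minpoly (ZMod p) U.β) (.of 0) (.of 1))
    (memL_of_inj U.B.subtype_injective ?_) fun G _ g hg hr π hπ => ?_
  · refine top_unique fun x _ => ?_
    have h1 : U.h ∈ (closure (Set.range (![⟨U.h, U.h_B⟩, ⟨_, U.Y_B hb⟩] : Fin 2 → U.B))).map U.B.subtype :=
      ⟨_, Subgroup.subset_closure ⟨0, rfl⟩, rfl⟩
    obtain ⟨y, hy, e⟩ := sup_le (U.RY_le h1 hb one_ne_zero ⟨_, Subgroup.subset_closure ⟨1, rfl⟩, rfl⟩) (zpowers_le.mpr h1) x.2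
    exact Subtype.ext e ▸ hy
  · simpa only [map_bL, FreeGroup.lift_apply_of, Matrix.cons_val_zero, Matrix.cons_val_one, coe_subtype] using
      U.bL_holds hb hk hk'
  simp only [map_bL, FreeGroup.lift_apply_of] at hr
  exact Function.Injective.of_comp (f := U.B.subtype) (U.bL_inj hb (π' := U.B.subtype.comp π) (by
    rw [← hg]; congr 1; ext; simp [Fin.exists_fin_two, eq_comm]) hr (by simp [hπ]) (by simp [hπ]))

end U3

end Cfsg.Agent.Pres
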