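import Mathlib
import Cfsg.Agent.Pres.U3c

/-! A presentation of `SU₃(q)` with three generators and 23 relations. -/

set_option autoImplicit false
set_option linter.unusedSectionVars false

namespace Cfsg.Agent.Pres

open Subgroup Sum Equiv UD

variable {G F : Type*} [Group G] [Field F]

namespace U3

variable [Fintype F] (U : U3 F)

theorem n_app (v : VV J3 F) : U.n v (some (bar i3)) = -U.θ⁻¹ * v (some i3) := by
  obtain ⟨d, h1, h2, -⟩ := Mon_ex U.n_mon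
  have := congrFun ((h1 (some i3)).symm.trans (U.D.nY_ee _ U.θ0 _)) (some (bar i3))
  simpa [show d _ = _ by simpa using this] using h2 v (some i3)

theorem n_ee : U.n (ee (some i3)) = -U.θ⁻¹ • ee (some (bar i3)) := by simp [n, U.D.nY_ee _ U.θ0]

theorem tetra {b1 b1' b2 b2' : HH J3 F} (h1 : b1 ∈ U.B) (h1' : b1' ∈ U.B) (h2 : b2 ∈ U.B) (h2' : b2' ∈ U.B)
    {u1 v1 u2 v2 u3 v3 u v : F} {k : ℕ} (e1 : U.n * U.D.Y i3 u1 v1 * U.n = b1 * U.n * b1')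
    (e2 : U.n * U.D.Y i3 u2 v2 * U.n = b2 * U.n * b2') (e3 : b1' * (U.n * U.n)⁻¹ * b2 = U.D.Y i3 u3 v3 * U.h ^ k)
    (e : U.D.Y i3 u1 v1 * U.D.Y i3 u2 v2 = U.D.Y i3 u v) : ∃ r, U.σ r = r ∧ r ≠ 0 ∧ v3 * v1 * v2 = r * v := by
  have e4 : U.n * U.D.Y i3 u v * U.n = b1 * (U.n * (U.D.Y i3 u3 v3 * U.h ^ k) * U.n) * b2' := by
    rw [← e, ← e3]
    calc _ = U.n * U.D.Y i3 u1 v1 * U.n * (U.n * U.n)⁻¹ * (U.n * U.D.Y i3 u2 v2 * U.n) := by group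
      _ = _ := by rw [e1, e2]; group
  obtain ⟨l1, n1, -, a1⟩ := U.B_ent h1
  obtain ⟨l1', n1', c1, a1'⟩ := U.B_ent h1'
  obtain ⟨l2, n2, -, a2⟩ := U.B_ent h2
  obtain ⟨l2', n2', c2, -⟩ := U.B_ent h2'
  obtain ⟨l, -, c, a⟩ := U.B_ent (g := (U.n * U.n)⁻¹) (by obtain ⟨j, hj⟩ := U.n_sq; exact hj ▸ inv_mem (pow_mem U.h_B j))
  rw [LinearEquiv.coe_inv, LinearEquiv.symm_apply_eq] at c
  obtain rfl : l = -1 := by
    have := congrFun c (some i3)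
    simp [n, U.D.nY_ee _ U.θ0, U.θ0] at this
    linear_combination this
  have f1 := congrArg (fun g : HH J3 F => g (ee (some i3)) (some (bar i3))) e1
  have f2 := congrArg (fun g : HH J3 F => g (ee (some i3)) (some (bar i3))) e2
  have f3 := congrArg (fun g : HH J3 F => g (ee (some (bar i3))) (some (bar i3))) e3
  have f4 := congrArg (fun g : HH J3 F => g (ee (some i3)) (some (bar i3))) e4
  simp only [LinearEquiv.mul_apply, a1, a1', a2, a, c1, c2, n_ee, map_smul, n_app, diag_pow U.h_ee, Pi.smul_apply,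
    smul_eq_mul] at f1 f2 f3 f4
  simp [Y_apply, U3.e] at f1 f2 f3 f4
  have t0 := U.θ0
  have t1 : U.σ U.θ = -U.θ := by linear_combination U.hθ
  have s1 : U.σ l1 ≠ 0 := by simpa using n1
  have s1' : U.σ l1' ≠ 0 := by simpa using n1'
  have s2 : U.σ l2 ≠ 0 := by simpa using n2
  have := U.σζ0
  refine ⟨-(U.θ ^ 2 * (l1' * U.σ l1')), by simp [t1, U.hσ.invol, mul_comm], by simp [t0, n1'], ?_⟩
  field_simp at f1 f2 f3 f4
  apply mul_left_cancel₀ (mul_ne_zero s1 s2)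
  linear_combination (v3 * v2 * U.σ l2) * f1 - (v3 * U.θ * l1') * f2 - U.θ ^ 2 * l1' * f4 -
    (U.θ ^ 2 * l1' * U.σ l1 * v) * f3

theorem exists_rep (x : F) (r : ℕ) : ∃ u0 b0, U.D.L u0 b0 ∧ b0 ≠ 0 ∧ ∀ (k : ℕ) b, U.D.L (U.β ^ k * U.ζ ^ r) b →
    U.σ (b / x) = b / x → x ≠ 0 → u0 = U.ζ ^ r ∧ b = U.ν ^ k * b0 := by
  have n0 : U.ν ≠ 0 := mul_ne_zero U.ζ0 U.σζ0
  have n1 : U.σ U.ν = U.ν := U.ν0.2
  have z0 := pow_ne_zero r U.ζ0
  have key : ∀ (k : ℕ) b, U.D.L (U.β ^ k * U.ζ ^ r) b → U.σ (b / x) = b / x →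
      U.D.L (U.ζ ^ r) (b / U.ν ^ k) ∧ U.σ (b / U.ν ^ k / x) = b / U.ν ^ k / x := fun k b h1 h2 => by
    refine ⟨?_, by rw [div_right_comm, map_div₀, h2, map_pow, n1]⟩
    rw [L_iff] at h1 ⊢
    have := U.β_norm
    simp only [map_mul, map_pow, map_div₀, n1] at h1 ⊢
    field_simp
    rw [ν, ← this, mul_pow]
    linear_combination h1
  by_cases h : ∃ b, U.D.L (U.ζ ^ r) b ∧ U.σ (b / x) = b / x
  · obtain ⟨b0, h1, h2⟩ := h
    refine ⟨_, b0, h1, fun e => z0 (u_zero (e ▸ h1)), fun k b h3 h4 x0 => ⟨rfl, ?_⟩⟩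
    obtain ⟨h5, h6⟩ := key k b h3 h4
    rw [mul_comm (U.ν ^ k), ← div_eq_iff (pow_ne_zero _ n0)]
    generalize b / U.ν ^ k = b1 at h5 h6
    rw [L_iff] at h1 h5
    have : U.σ x ≠ 0 := by simpa using x0
    have : U.σ (U.ζ ^ r) ≠ 0 := by simpa using z0
    simp only [map_div₀] at h2 h6
    field_simp at h2 h6
    grind
  · exact ⟨0, U.θ, U.Lθ, U.θ0, fun k b h1 h2 _ => absurd ⟨_, key k b h1 h2⟩ h⟩

/-- good elements of the Borel subgroup -/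
def Good (ψ : U.B →* G) (t : G) (a : U.B) : Prop := ∃ c c', t * ψ a * t = ψ c * t * ψ c'

theorem su3_inj {ψ : U.B →* G} {t : G} (hg : ψ.range ⊔ closure {t} = ⊤) {π : G →* HH J3 F} (p1 : ∀ a, π (ψ a) = a)
    (p2 : π t = U.n) (r1 : t * t ∈ ψ.range) (r2 : t * ψ ⟨_, U.h_B⟩ * t⁻¹ ∈ ψ.range)
    (r3 : U.Good ψ t ⟨_, U.Y_B U.Lθ⟩) (r4 : ∀ x, x = 1 ∨ x = U.ζ → ∀ r : Fin 3, ∃ u0 b0, ∃ h : U.D.L u0 b0,
      U.Good ψ t ⟨_, U.Y_B h⟩ ∧ ∀ (k : ℕ) b, U.D.L (U.β ^ k * U.ζ ^ r.val) b → U.σ (b / x) = b / x → x ≠ 0 →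
        u0 = U.ζ ^ r.val ∧ b = U.ν ^ k * b0) : Function.Injective π := by
  obtain ⟨s, hs⟩ := r1
  let S := (ψ.range.comap (MulAut.conj t).toMonoidHom).comap ψ
  have hS : (⟨_, U.h_B⟩ : U.B) ∈ S := r2
  have g1 : ∀ c ∈ S, ∀ d ∈ S, ∀ a, U.Good ψ t a → U.Good ψ t (c * a * d) := by
    rintro c ⟨c', hc⟩ d ⟨d', hd⟩ a ⟨b, b', e⟩
    refine ⟨c' * b, b' * (s⁻¹ * d' * s), ?_⟩
    simp only [map_mul, map_inv, hc, hd, hs, MulEquiv.coe_toMonoidHom, MulAut.conj_apply]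
    calc _ = t * ψ c * t⁻¹ * (t * ψ a * t) * (t⁻¹ * ψ d * t) := by group
      _ = _ := by rw [e]; group
  have g2 : ∀ {u b} (h : U.D.L u b) (k : ℕ), U.Good ψ t ⟨_, U.Y_B h⟩ → ∀ h' : U.D.L (U.β ^ k * u) (U.ν ^ k * b),
      U.Good ψ t ⟨_, U.Y_B h'⟩ := fun h k e h' => by
    convert g1 _ (pow_mem hS k) _ (inv_mem (pow_mem hS k)) _ e using 2
    exact (U.cu_Y h k).2.symm
  have g3 : ∀ {b} (h : U.D.L 0 b), b ≠ 0 → U.Good ψ t ⟨_, U.Y_B h⟩ := fun {b} h b0 => by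
    obtain ⟨k, hk⟩ := U.norm_pow (fix_div U.hσ h U.Lθ) (div_ne_zero b0 U.θ0)
    obtain rfl : b = U.ν ^ k * U.θ := by rw [ν, hk, div_mul_cancel₀ _ U.θ0]
    simpa using g2 U.Lθ k r3 (by simpa using h)
  have g4 : ∀ x, x = 1 ∨ x = U.ζ → ∀ {u b} (h : U.D.L u b), b ≠ 0 → U.σ (b / x) = b / x → U.Good ψ t ⟨_, U.Y_B h⟩ :=
    fun x hx u b h b0 e => by
      by_cases u0 : u = 0
      · subst u0; exact g3 h b0
      obtain ⟨k, r, rfl⟩ := U.orbit u0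
      obtain ⟨u0, b0, h1, h2, h3⟩ := r4 x hx r
      obtain ⟨rfl, rfl⟩ := h3 k b h e (by rcases hx with rfl | rfl; exacts [one_ne_zero, U.ζ0])
      exact g2 h1 k h2 h
  have g5 : ∀ (k : ℕ) {u b} (h : U.D.L u b), b ≠ 0 → U.σ (b / U.ζ ^ k) = b / U.ζ ^ k → U.Good ψ t ⟨_, U.Y_B h⟩ := by
    intro k
    induction k with
    | zero => intro u b; simpa using g4 1 (.inl rfl) (u := u) (b := b)
    | succ k ih =>
      intro u b h b0 e
      by_cases u0 : u = 0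
      · subst u0; exact g3 h b0
      by_cases e1 : U.σ (b / 1) = b / 1
      · exact g4 1 (.inl rfl) h b0 e1
      by_cases e2 : U.σ (b / U.ζ) = b / U.ζ
      · exact g4 _ (.inr rfl) h b0 e2
      by_cases e3 : U.σ (b / U.ζ ^ k) = b / U.ζ ^ k
      · exact ih h b0 e3
      have z0 := U.ζ0
      have z1 := pow_ne_zero k U.ζ0
      obtain ⟨r, r', a, f1, f2, f3, f4, f5, f6⟩ := U.factor (x := U.ζ ^ k) (y := U.ζ) (fun e4 => e1 (by
        rw [pow_succ, map_div₀, e4, div_left_inj' (mul_ne_zero z1 z0)] at e; simpa using e)) e3 e2 (U.L_iff.mp h)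
        (by simp [u0])
      have l1 : U.D.L (a * u) (r * U.ζ ^ k) := U.L_iff.mpr (by rw [map_mul U.σ a]; linear_combination f5)
      have l2 : U.D.L (u - a * u) (r' * U.ζ) := by
        convert U.D.L_mul (U.D.L_inv l1) h using 1
        · ring
        · simp only [D_σ, map_mul, map_neg] at f5 f6 ⊢; linear_combination f6 + f5
      have l3 : U.D.Y i3 (a * u) (r * U.ζ ^ k) * U.D.Y i3 (u - a * u) (r' * U.ζ) = U.D.Y i3 u b := by
        rw [Y_mul]; congr 1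
        · ring
        · simp only [D_σ, map_mul] at f5 f6 ⊢; linear_combination f6 + f5
      obtain ⟨b1, b1', k1⟩ := ih l1 (mul_ne_zero f3 z1) (by rwa [mul_div_cancel_right₀ _ z1])
      obtain ⟨b2, b2', k2⟩ := g4 _ (.inr rfl) l2 (mul_ne_zero f4 z0) (by rwa [mul_div_cancel_right₀ _ z0])
      obtain ⟨u3, v3, j, l4, l5⟩ := U.mem_B (b1' * s⁻¹ * b2).2
      have k1' := congrArg π k1
      have k2' := congrArg π k2
      have k3 := congrArg π hs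
      simp only [map_mul, p1, p2] at k1' k2' k3
      obtain ⟨ρ, ρ1, ρ2, ρ3⟩ := U.tetra b1.2 b1'.2 b2.2 b2'.2 k1' k2' (by rw [← k3]; exact l5) l3
      obtain ⟨c, c', k4⟩ := g1 1 (one_mem _) _ (pow_mem hS j) _ (g4 1 (.inl rfl) l4 (fun e => by simp [e, ρ2, b0] at ρ3) (by
        rw [show v3 / 1 = ρ / (r * r') * (b / U.ζ ^ (k + 1)) by field_simp; linear_combination ρ3, map_mul, e]
        simp [ρ1, f1, f2]))
      rw [one_mul, show (⟨_, U.Y_B l4⟩ * ⟨_, U.h_B⟩ ^ j : U.B) = b1' * s⁻¹ * b2 from Subtype.ext l5.symm] at k4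
      refine ⟨b1 * c, c' * b2', ?_⟩
      rw [show (⟨_, U.Y_B h⟩ : U.B) = ⟨_, U.Y_B l1⟩ * ⟨_, U.Y_B l2⟩ from Subtype.ext l3.symm]
      simp only [map_mul, map_inv, hs] at k4 ⊢
      generalize ψ ⟨_, U.Y_B l1⟩ = a1, ψ ⟨_, U.Y_B l2⟩ = a2 at k1 k2 ⊢
      calc _ = t * a1 * t * (t * t)⁻¹ * (t * a2 * t) := by group
        _ = ψ b1 * (t * (ψ b1' * (t * t)⁻¹ * ψ b2) * t) * ψ b2' := by rw [k1, k2]; group
        _ = _ := by rw [k4]; group
  refine rank_one_inj hg (fun a => ?_) ⟨s, hs⟩ (fun a b e => Subtype.ext (by simpa [p1] using e))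
    (by rintro ⟨a, e⟩; exact U.n_not_B (by simp only [MonoidHom.comp_apply, p1, p2] at e; exact e ▸ a.2))
  obtain ⟨u, b, k, h, e⟩ := U.mem_B a.2
  obtain rfl : a = 1 * ⟨_, U.Y_B h⟩ * ⟨_, U.h_B⟩ ^ k := Subtype.ext (by simpa using e)
  by_cases b0 : b = 0
  · subst b0
    obtain rfl := u_zero h
    obtain ⟨c, hc⟩ := pow_mem hS k
    refine .inl ⟨c * s, ?_⟩
    simp only [U.D.Y_zero, map_mul, hc, hs, show (⟨1, _⟩ : U.B) = 1 from rfl]
    simp [mul_assoc]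
  · obtain ⟨j, rfl⟩ := U.prim b b0
    exact .inr (g1 1 (one_mem _) _ (pow_mem hS k) _ (g5 j h b0 (by simp [b0])))

theorem su3_pres : ∃ f : Fin 2 ⊕ Fin 1 → U.D.E, PresOn f 23 := by
  obtain ⟨b, hb⟩ := U.exists_L 1
  choose u0 b0 h1 h2 h3 using U.exists_rep
  choose c hc c' hc' h4 using @U.bruhat
  obtain ⟨j, hj⟩ := U.n_sq
  obtain ⟨k, hk⟩ := U.n_h
  let T : FreeGroup (U.B ⊕ Fin 1) := .of (inr 0)
  let R : ∀ {u b}, U.D.L u b → b ≠ 0 → FreeGroup (U.B ⊕ Fin 1) × FreeGroup (U.B ⊕ Fin 1) := fun h e =>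
    (T * .of (inl ⟨_, U.Y_B h⟩) * T, .of (inl ⟨_, hc h e⟩) * T * .of (inl ⟨_, hc' h e⟩))
  refine ⟨_, (U.borel_pres hb).extend (inclusion U.B_E) ![⟨_, U.n_E⟩] (top_unique fun x _ => ?_)
    [(T * T, .of (inl (⟨_, U.h_B⟩ ^ j))), (T * .of (inl ⟨_, U.h_B⟩) * T⁻¹, .of (inl (⟨_, U.h_B⟩ ^ k))), R U.Lθ U.θ0,
      R (h1 1 0) (h2 1 0), R (h1 1 1) (h2 1 1), R (h1 1 2) (h2 1 2),
      R (h1 U.ζ 0) (h2 U.ζ 0), R (h1 U.ζ 1) (h2 U.ζ 1), R (h1 U.ζ 2) (h2 U.ζ 2)] ?_ fun G _ ψ g hg hr π e1 e2 => ?_⟩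
  · obtain ⟨y, hy, e⟩ := U.E_le' (K := ((inclusion U.B_E).range ⊔ closure (Set.range ![⟨_, U.n_E⟩])).map U.D.E.subtype)
      (fun y hy => ⟨_, mem_sup_left ⟨⟨y, mem_sup_left hy⟩, rfl⟩, rfl⟩)
      ⟨_, mem_sup_right (Subgroup.subset_closure ⟨0, rfl⟩), rfl⟩ x.2
    exact Subtype.ext e ▸ hy
  · simp only [R, T, List.map_cons, List.map_nil, Prod.map, holds_cons, holds_nil, map_mul, map_inv, map_pow,
      FreeGroup.lift_apply_of, Sum.elim_inl, Sum.elim_inr, Matrix.cons_val_zero, Subtype.ext_iff, coe_mul, coe_inv,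
      SubmonoidClass.coe_pow, coe_inclusion, hj, hk, true_and, and_true]
    exact ⟨h4 _ _, h4 _ _, h4 _ _, h4 _ _, h4 _ _, h4 _ _, h4 _ _⟩
  simp only [R, T, List.map_cons, List.map_nil, Prod.map, holds_cons, holds_nil, map_mul, map_inv,
    FreeGroup.lift_apply_of, Sum.elim_inl, Sum.elim_inr] at hr
  obtain ⟨r1, r2, r3, r4, r5, r6, r7, r8, r9, -⟩ := hr
  refine Function.Injective.of_comp (f := U.D.E.subtype) (U.su3_inj (π := U.D.E.subtype.comp π) (t := g 0)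
    (by rw [← hg]; congr 2; ext; simp [eq_comm]) (by simp [e1]) (by simp [e2]) ⟨_, r1.symm⟩ ⟨_, r2.symm⟩ ⟨_, _, r3⟩ ?_)
  rintro x (rfl | rfl) r <;> refine ⟨_, _, h1 _ r, ?_, h3 _ r⟩ <;> fin_cases r
  exacts [⟨_, _, r4⟩, ⟨_, _, r5⟩, ⟨_, _, r6⟩, ⟨_, _, r7⟩, ⟨_, _, r8⟩, ⟨_, _, r9⟩]

theorem cyc_center : IsCyclic (center U.D.E) := by
  have h1 : ∀ z : center U.D.E, ∀ i, z.1.1 (ee (some i)) = z.1.1 (ee (some (bar i))) (some (bar i)) • ee (some i) := by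
    intro z i
    have := congrArg (fun g : U.D.E => U.θ⁻¹ • g.1 (ee (some (bar i)))) (mem_center_iff.mp z.2 ⟨_, Y_E i U.Lθ⟩)
    simpa [Y_apply, smul_smul, U.θ0] using this.symm
  have h2 : ∀ z : center U.D.E, ∀ i, z.1.1 (ee (some i)) = z.1.1 (ee (some i3)) (some i3) • ee (some i) := by
    intro z i
    have := h1 z (bar i3)
    rw [bar_bar] at this
    rcases J3_cases i with rfl | rfl
    · simpa [this] using h1 z i3
    · exact this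
  let φ : center U.D.E →* F :=
    { toFun := fun z => z.1.1 (ee (some i3)) (some i3)
      map_one' := by simp
      map_mul' := fun z z' => by
        change z.1.1 (z'.1.1 (ee (some i3))) (some i3) = _
        rw [h2 z' i3, map_smul]; simp [mul_comm] }
  have : Finite (HH J3 F) := Finite.of_injective (fun g : HH J3 F => (g : VV J3 F → VV J3 F)) DFunLike.coe_injective
  refine isCyclic_of_injective_ringHom φ ((injective_iff_map_eq_one φ).mpr fun z hz => ?_)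
  exact Subtype.ext (Subtype.ext (fix_all (U.D.E_iso z.1.2) (fun k => by
    rw [h2 z k, show z.1.1 (ee (some i3)) (some i3) = 1 from hz, one_smul]) (.inr (det_E z.1.2))))

end U3

theorem su_data [Fintype F] {q : ℕ} (hF : Fintype.card F = q ^ 2) {n : ℕ} (hn : 3 ≤ n) (h : n = 3 → q ≠ 2) :
    ∃ (J : Type) (_ : DecidableEq J) (_ : Bar J) (D : UD J F), Nonempty (D.E ≃* Cfsg.SU n F q) ∧
      IsCyclic (center D.E) ∧ (∃ f : Fin 2 → D.E, closure (Set.range f) = ⊤) ∧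
        ∃ (κ : Type) (f : κ → D.E), PresOn f 39 := by
  by_cases e : n = 3
  · obtain ⟨U, hU⟩ := exists_U3 hF (h e)
    obtain ⟨f, hf⟩ := U.su3_pres
    exact ⟨_, _, _, U.D, hU ▸ su_equiv_odd hF (by simp [e]), U.cyc_center, U.two_gen, _, f, hf.mono (by norm_num)⟩
  obtain ⟨k, od, e⟩ : ∃ k od, Nonempty ((suD (Fin (k + 2)) (Herm.inv_frob (Herm.natCard_of_card hF)) od).E ≃*
      Cfsg.SU n F q) := by
    rcases Nat.even_or_odd' n with ⟨k, rfl | rfl⟩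
    · exact ⟨k - 2, False, su_equiv_even hF (by simp; omega)⟩
    · exact ⟨k - 2, True, su_equiv_odd hF (by simp; omega)⟩
  refine ⟨_, _, _, _, e, UD.cyc_center ex_D2, su_two_gen _ _ _, ?_⟩
  rcases k with _ | _ | k
  · obtain ⟨g, hg⟩ := su_pres2 (Herm.inv_frob (Herm.natCard_of_card hF)) od
    exact ⟨_, g, hg.mono (by norm_num)⟩
  · obtain ⟨f, hf⟩ := sl3_pres F
    obtain ⟨g, hg⟩ := su_pres (Herm.inv_frob (Herm.natCard_of_card hF)) od (n := 1) le_rfl hf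
    exact ⟨_, g, hg.mono (by norm_num)⟩
  · obtain ⟨f, hf⟩ := ((sl_pres_fin F).2.2 (k + 1 + 1 + 2) (by omega)).2
    exact ⟨_, su_pres (Herm.inv_frob (Herm.natCard_of_card hF)) od (by omega) hf⟩

end Cfsg.Agent.Pres
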