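import Mathlib
import Cfsg.Agent.Pres.CV2
import Cfsg.Agent.Chev.Nrm

/-! Weakly closed subgroups of the maximal unipotent subgroup. -/

set_option autoImplicit false
set_option linter.unusedSectionVars false
set_option maxRecDepth 100000

namespace Cfsg.Agent.Chev.WC

open Cfsg.Lie StSys Cfsg.Agent.BN Tw CV
open Cfsg.Agent.Pres (exists_prim_sq mulR mem_mulR)

section
variable {D : ChevalleyDatum} [g : Good2 D] {F : Type*} [Field F] [Fintype F] {G : Type*} [Group G] {S : StSys D F G}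
  {X : Subgroup G}

theorem strip {h y : G} {β : Rt D} {c s : F} (hY : ∀ z ∈ X, h * z * h⁻¹ ∈ X) (h1 : h * y * h⁻¹ = y)
    (h2 : ∀ s, h * S.x β s * h⁻¹ = S.x β (c * s)) (hc : c ≠ 1) (h3 : y * S.x β s ∈ X) : y ∈ X := by
  have h4 : (c - 1) * s ∈ par X _ (S.add β) := by
    have := mul_mem (inv_mem h3) (hY _ h3)
    rw [← conj_mul, h1, h2, mul_inv_rev, mul_assoc, inv_mul_cancel_left, ← S.x_neg, ← S.add] at this
    rw [mem_par]; convert this using 2; ring
  have h5 : c - 1 ∈ mulR (RingHom.id F) (par X _ (S.add β)) :=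
    sub_mem (fun t ht => by simpa [mem_par, ← h2] using hY _ ht) (one_mem _)
  have h6 := pow_mem h5 (Fintype.card F - 2) _ h4
  rw [RingHom.id_apply, ← mul_assoc, ← pow_succ, show Fintype.card F - 2 + 1 = Fintype.card F - 1 by
    have := Fintype.one_lt_card (α := F); omega, FiniteField.pow_card_sub_one_eq_one _ (sub_ne_zero.2 hc), one_mul] at h6
  exact (mul_mem_cancel_right (mem_par.mp h6)).mp h3

theorem sim_mem {i : Ix D} (hX : X ≤ S.U) (hB : ∀ b ∈ S.B, ∀ x ∈ X, b * x * b⁻¹ ∈ X) (hi : ¬ X ≤ S.Ui i)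
    (hs : ∀ β, Pos β → β ≠ sim i → (∀ s, S.x β s ∈ X) ∨ ∃ r, ∃ c : F, c ≠ 0 ∧ pr r (sim i) = 0 ∧ c ^ pr r β ≠ 1) (t : F) :
    S.x (sim i) t ∈ X := by
  obtain ⟨x, hx, h1⟩ := SetLike.not_le_iff_exists.mp hi
  obtain ⟨z, hz, y, hy, rfl⟩ := exists_U_split' (sW i) (hX hx)
  obtain ⟨s, rfl⟩ := S.mem_XS_singleton.mp (S.XS_mono (T' := {sim i}) (fun r hr =>
    eq_sim_of_not_pos_rf (mem_invs.mp hr).1 (mem_invs.mp hr).2) hz)
  have s0 : s ≠ 0 := by rintro rfl; exact h1 (by rw [S.x_zero, one_mul]; exact hy)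
  have hN : ∀ k, S.XS (lev owt {r | Pos r} k ∩ {r | Pos r ∧ Pos (sW i • r)}) = S.XS (lev owt {r | Pos r} k) ⊓ S.Ui i :=
    fun k => (S.XS_inf uni_pos (uni_pos.lev_uni k) (uni_ninvs _) (lev_subset _ _ _) fun _ h => h.1).symm
  have key : ∀ k, S.x (sim i) s ∈ S.XS (lev owt {r | Pos r} (k + 1) ∩ {r | Pos r ∧ Pos (sW i • r)}) ⊔ X := fun k => by
    induction k with
    | zero =>
      rw [zero_add, uni_pos.lev_one, Set.inter_eq_right.mpr fun _ h => h.1]
      exact (mul_mem_cancel_right (Subgroup.mem_sup_left hy)).mp (Subgroup.mem_sup_right hx)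
    | succ k ih =>
      have nm : ∀ k, X ≤ Subgroup.normalizer
          (S.XS (lev owt {r | Pos r} k ∩ {r | Pos r ∧ Pos (sW i • r)}) : Set G) := fun k =>
        hX.trans (le_normalizer_of fun a ha y hy => by
          rw [hN] at hy ⊢; exact Subgroup.mem_inf.mpr ⟨by simpa using S.conj_lev uni_pos (inv_mem ha) hy.1, conj_mem_Ui ha hy.2⟩)
      obtain ⟨w, hw, x, hx, e⟩ := (mem_sup_of_normalizes (nm _)).mp (inv_mem ih)
      by_cases h2 : ∃ β : Rt D, β ∈ lev owt {r | Pos r} (k + 1) ∩ {r | Pos r ∧ Pos (sW i • r)} ∧ β ∉ lev owt {r | Pos r} (k + 1 + 1)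
      · obtain ⟨β, h2, h3⟩ := h2
        obtain ⟨_, h4, v, hv, rfl⟩ := S.exists_mul ((uni_pos.lev_uni (k + 1)).inter (uni_ninvs (sW i))) (T := {β})
          (T' := lev owt {r | Pos r} (k + 1 + 1) ∩ {r | Pos r ∧ Pos (sW i • r)}) (by simpa using h2)
          (Set.inter_subset_inter_left _ (lev_mono _ _ (by omega))) (fun r hr => by
            by_cases h : r ∈ lev owt {r | Pos r} (k + 1 + 1)
            · exact Or.inr ⟨h, hr.2⟩
            · refine Or.inl (ord_strictMono.injective ?_)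
              have a1 := hr.1.2
              have a2 := h2.1.2
              have a3 := mt (And.intro hr.1.1) h
              have a4 := mt (And.intro h2.1.1) h3
              simp only [ph_owt] at *
              push_cast at *
              omega) hw
        obtain ⟨u, rfl⟩ := S.mem_XS_singleton.mp h4
        have h5 : S.x (sim i) s * S.x β u ∈ S.XS (lev owt {r | Pos r} (k + 1 + 1) ∩ {r | Pos r ∧ Pos (sW i • r)}) ⊔ X := by
          rw [show S.x (sim i) s * S.x β u = (v * x)⁻¹ by rw [← inv_inv (S.x (sim i) s), e]; group]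
          exact inv_mem (mul_mem (Subgroup.mem_sup_left hv) (Subgroup.mem_sup_right hx))
        rcases hs β h2.2.1 ((pos_rf_iff' h2.2.1).mp h2.2.2) with h6 | ⟨r, c, c0, h6, h7⟩
        · exact (mul_mem_cancel_right (Subgroup.mem_sup_right (h6 u))).mp h5
        · refine strip (h := S.h r c) (fun z hz => ?_) (by rw [S.h_conj r c0, h6]; simp) (S.h_conj r c0 β) h7 h5
          obtain ⟨w, hw, x, hx, rfl⟩ := (mem_sup_of_normalizes (nm _)).mp hz
          rw [← conj_mul]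
          exact mul_mem (Subgroup.mem_sup_left (H_conj_mem (S.h_mem_H r c0) hw))
            (Subgroup.mem_sup_right (hB _ (S.H_le_B (S.h_mem_H r c0)) x hx))
      · exact sup_le_sup_right (S.XS_mono fun r hr => And.intro (by_contra fun h => h2 ⟨r, hr, h⟩) hr.2) X ih
  obtain ⟨k, h2, h3⟩ := exists_lev_empty owt {r : Rt D | Pos r}
  have h4 := key (k - 1)
  rw [Nat.sub_add_cancel h2, h3, Set.empty_inter, XS_empty, bot_sup_eq] at h4
  obtain ⟨ζ, ζ0, -, -, z3⟩ := exists_prim_sq F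
  refine all_mem z3 (A := par X _ (S.add (sim i))) (fun t ht => ?_) h4 s0 t
  simpa [mem_par, S.h_conj _ ζ0, zpow_ofNat] using hB _ (S.H_le_B (S.h_mem_H (sim i) ζ0)) _ ht

theorem eq_UJ (hX : X ≤ S.U) (hwc : ∀ a ∈ S.grp, (∀ x ∈ X, a * x * a⁻¹ ∈ S.U) → a ∈ Subgroup.normalizer (X : Set G))
    (h1 : ∀ i, ¬ X ≤ S.Ui i → ∀ t, S.x (sim i) t ∈ X)
    (h2 : ∀ i γ, Pos γ → 0 < ca i γ → γ ≠ sim i → (∀ t, S.x (sim i) t ∈ X) → ∀ t, S.x γ t ∈ X) :
    X = S.UJ {i | X ≤ S.Ui i} := by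
  have hn : ∀ i ∈ {i | X ≤ S.Ui i}, S.ns i ∈ Subgroup.normalizer (X : Set G) := fun i hi =>
    hwc _ (S.N_le_grp (S.ns_mem i)) fun x hx => (S.mono_ns i).conj_mem (fun _ h => h.2) (hi hx)
  refine le_antisymm (fun x hx => ?_) (S.XS_le.mpr fun γ hγ => ?_)
  · obtain ⟨a, ha, hm⟩ := S.exists_N (w0 {i | X ≤ S.Ui i})
    have h3 := mem_of_mono (fun b hb => hwc b (S.H_le_grp hb) fun x hx => H_conj_mem hb (hX hx)) hn ha hm (w0_mem _)
    obtain ⟨y, hy, z, hz, rfl⟩ := exists_U_split (w0 {i | X ≤ S.Ui i}) (hX hx)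
    have h4 := hX ((Subgroup.mem_normalizer_iff.mp h3 _).mp hx)
    rw [← conj_mul, mul_mem_cancel_left (show _ ∈ S.U from hm.conj_mem (fun _ h => h.2) hy)] at h4
    rw [conj_eq_one_iff.mp (one_of_mem_B_V (S.U_le_B h4) (hm.conj_Uw hz)), mul_one]
    exact S.XS_mono (fun r hr => And.intro hr.1 fun h => not_pos_w0 hr.1 h hr.2) hy
  · induction γ using WellFoundedLT.induction with
    | ind γ ih =>
      obtain ⟨i, hi⟩ := exists_ca_pos hγ.1
      by_cases h3 : X ≤ S.Ui i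
      · have h4 : γ ≠ sim i := by
          rintro rfl
          exact hγ.2 fun j hj => by rw [co_sim, Pi.single_eq_of_ne]; rintro rfl; exact hj h3
        intro t
        obtain ⟨c, c0, h5, -⟩ := (S.mono_ns i).exists_conj (rf i γ)
        have := (Subgroup.mem_normalizer_iff.mp (hn i h3) _).mp (ih (rf i γ) (ord_strictMono.lt_iff_lt.mp (by
          rw [ord_rf]; linarith [mul_pos hi (owt_pos i)])) ⟨pos_rf hγ.1 h4, fun h =>
            hγ.2 ((phiK_smul (sW_mem_WK h3)).mp h)⟩ (c⁻¹ * t))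
        rwa [h5, sW_smul, rf_rf, mul_inv_cancel_left₀ c0] at this
      · by_cases h4 : γ = sim i
        · exact h4 ▸ h1 i h3
        · exact h2 i γ hγ.1 hi h4 (h1 i h3)

/-- the shape of a commutator relation -/
def okT (n γ : ℕ) : List (ℕ × ℤ × ℕ × ℕ) → Bool
  | [(v, C, 1, 1)] => v == γ && C.natAbs == 1
  | [(v, C, 1, 1), (v', C', a, b)] => (v == γ || v' == γ) && C.natAbs == 1 && C'.natAbs == 1 && v < n && v' < n &&
      (a == 2 && b == 1 || a == 1 && b == 2)
  | _ => false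

theorem okT_spec {a b γ : Rt D} (h1 : b ≠ a) (h2 : b ≠ ng a) (h : okT D.nroots γ (D.commTerms a b) = true)
    (hq : Fintype.card F ≠ 2) (hc : ∀ t u, (S.x a t * S.x b u)⁻¹ * (S.x b u * S.x a t) ∈ X) (t : F) : S.x γ t ∈ X := by
  have hC : ∀ C : ℤ, C.natAbs = 1 → (C : F) ≠ 0 := fun C h => by rcases Int.natAbs_eq C with e | e <;> rw [e, h] <;> simp
  simp only [S.comm a b h1 h2, inv_mul_cancel_left, ChevalleyDatum.commWord] at hc
  generalize D.commTerms a b = l at h hc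
  unfold okT at h
  split at h
  · rename_i v C
    simp only [Bool.and_eq_true, beq_iff_eq] at h
    obtain ⟨rfl, h3⟩ := h
    simpa [hC C h3] using hc (-1) ((C : F)⁻¹ * t)
  · rename_i v C v' C' i j
    simp only [Bool.and_eq_true, Bool.or_eq_true, beq_iff_eq, decide_eq_true_eq] at h
    obtain ⟨⟨⟨⟨⟨h3, h4⟩, h5⟩, h6⟩, h7⟩, h8⟩ := h
    lift v to Rt D using h6
    lift v' to Rt D using h7
    simp only [List.map_cons, List.map_nil, wd_cons, wd_nil, mul_one, pow_one] at hc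
    obtain ⟨l, l0, l1⟩ := exists_ne_zero_one (F := F) (by have := Fintype.one_lt_card (α := F); omega)
    have k : ∀ t, S.x v' t ∈ X := fun t => by
      have e := hC C' h5
      have e' := sub_ne_zero.2 l1
      rcases h8 with ⟨rfl, rfl⟩ | ⟨rfl, rfl⟩
      · have := mul_mem (inv_mem (hc (-1) (l * (t / (C' * l * (l - 1)))))) (hc (-l) (t / (C' * l * (l - 1))))
        rw [mul_inv_rev, mul_assoc, neg_neg, neg_neg, mul_one, ← mul_assoc _ l, inv_mul_cancel_left, ← S.x_neg, ← S.add] at this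
        convert this using 2; field_simp; ring
      · have := mul_mem (inv_mem (hc (-(l * (t / (C' * l * (l - 1))))) 1)) (hc (-(t / (C' * l * (l - 1)))) l)
        rw [mul_inv_rev, mul_assoc, neg_neg, neg_neg, mul_one, mul_comm l, ← mul_assoc (C : F), inv_mul_cancel_left, ← S.x_neg,
          ← S.add] at this
        convert this using 2; field_simp; ring
    rcases h3 with e | e <;> obtain rfl := Fin.ext e
    · simpa [hC C h4] using (mul_mem_cancel_right (k _)).mp (hc (-1) ((C : F)⁻¹ * t))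
    · exact k t
  · exact absurd h (by simp)

/-- separation of the roots by the torus -/
noncomputable def chkSep (c : Cert) (D : ChevalleyDatum) (m : ℤ) (E : List (ℕ × ℕ)) : Bool :=
  allN D.rank fun i => force (D.simple i) fun a => allN D.nroots fun b => Nat.beq b a || Nat.beq b (Cert.ng D a) ||
    E.contains (i, b) || anyN D.nroots fun r => ieq (c.cpr D r a) 0 && (ieq (c.cpr D r b) 1 || ieq (c.cpr D r b) m)

theorem chkSep_spec {m : ℤ} {E : List (ℕ × ℕ)} (h : chkSep g.cert D m E = true) (hq : Fintype.card F ≠ 2)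
    (hm : m = 1 ∨ m = 2 ∧ Fintype.card F ≠ 3) (i : Ix D) (β : Rt D) (h1 : Pos β) (h2 : β ≠ sim i) :
    ((i : ℕ), (β : ℕ)) ∈ E ∨ ∃ r, ∃ c : F, c ≠ 0 ∧ pr r (sim i) = 0 ∧ c ^ pr r β ≠ 1 := by
  have := (allN_iff _ _).mp h i i.2
  rw [force_eq] at this
  have := (allN_iff _ _).mp this β β.2
  simp only [Bool.or_eq_true, Nat.beq_eq, List.contains_iff_mem, anyN_iff, Bool.and_eq_true, ieq_iff] at this
  have h0 := Fintype.one_lt_card (α := F)
  rcases this with ((e | e) | e) | ⟨r, hr, h3, h4⟩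
  · exact absurd (Fin.ext e) h2
  · exact absurd (Fin.ext (e.trans (ng_val' (sim i)).symm) ▸ h1) (not_pos_ng_sim i)
  · exact Or.inl e
  · lift r to Rt D using hr
    rw [cpr_eq] at h4
    obtain ⟨l, l0, l1⟩ := exists_ne_zero_one (F := F) (by omega)
    rcases hm with rfl | ⟨rfl, hm⟩
    · exact Or.inr ⟨r, l, l0, (cpr_eq r (sim i)).symm.trans h3, by rw [h4.elim id id]; simpa⟩
    · obtain ⟨l', l2, l3⟩ := exists_sq_ne_one (F := F) (by omega)
      exact Or.inr (h4.elim (fun e => ⟨r, l, l0, (cpr_eq r (sim i)).symm.trans h3, by rw [e]; simpa⟩)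
        fun e => ⟨r, l', l2, (cpr_eq r (sim i)).symm.trans h3, by rw [e]; simpa [zpow_ofNat] using l3⟩)

theorem comm_mem (hB : ∀ b ∈ S.B, ∀ x ∈ X, b * x * b⁻¹ ∈ X) {y z : G} (hy : y ∈ X) (hz : z ∈ S.U) :
    (y * z)⁻¹ * (z * y) ∈ X := by
  simpa [mul_assoc] using mul_mem (hB _ (inv_mem (S.U_le_B hz)) _ (inv_mem hy)) hy

theorem eq_UJ' {m : ℤ} (h : chkSep g.cert D m [] = true) (hq : Fintype.card F ≠ 2) (hm : m = 1 ∨ m = 2 ∧ Fintype.card F ≠ 3)
    (h' : ∀ (i : Ix D) (γ : Rt D), Pos γ → 0 < ca i γ → γ ≠ sim i → okT D.nroots γ (D.commTerms (sim i) (rf i γ)) = true)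
    (hX : X ≤ S.U) (hwc : ∀ a ∈ S.grp, (∀ x ∈ X, a * x * a⁻¹ ∈ S.U) → a ∈ Subgroup.normalizer (X : Set G)) :
    X = S.UJ {i | X ≤ S.Ui i} := by
  have hB : ∀ b ∈ S.B, ∀ x ∈ X, b * x * b⁻¹ ∈ X := fun b hb x hx =>
    (Subgroup.mem_normalizer_iff.mp (hwc b (S.B_le_grp hb) fun x hx => B_conj_U hb (hX hx)) x).mp hx
  refine eq_UJ hX hwc (fun i hi => sim_mem hX hB hi fun β h1 h2 =>
    Or.inr ((chkSep_spec h hq hm i β h1 h2).resolve_left (by simp))) fun i γ h1 h2 h3 h4 =>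
    okT_spec (fun e => ?_) (fun e => ?_) (h' i γ h1 h2 h3) hq fun t u => comm_mem hB (h4 t) (S.x_mem (pos_rf h1 h3) u)
  · rw [← rf_rf i γ, e, rf_sim] at h1; exact not_pos_ng_sim i h1
  · rw [← rf_rf i γ, e, rf_ng_sim] at h3; exact h3 rfl

end

attribute [local instance] good2G2

/-- the roots by number -/
abbrev rG (n : Fin 12) : Rt chevG2 := n

variable {F : Type*} [Field F] [Fintype F] {G : Type*} [Group G] {S : StSys chevG2 F G} {X : Subgroup G}

theorem g2_mem (hq : 3 < Fintype.card F) (hB : ∀ b ∈ S.B, ∀ x ∈ X, b * x * b⁻¹ ∈ X)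
    (hc : ∀ t u, (S.x (rG 6) t * S.x (rG 7) u)⁻¹ * (S.x (rG 7) u * S.x (rG 6) t) ∈ X) :
    ∀ r ∈ [rG 8, rG 9, rG 10, rG 11], ∀ t, S.x r t ∈ X := by
  have h1 : ∀ t u, S.x (rG 8) (t * u) * (S.x (rG 9) (t * u ^ 2) * (S.x (rG 10) (-(t * u ^ 3)) *
      S.x (rG 11) (-2 * t ^ 2 * u ^ 3))) ∈ X := fun t u => by
    have := hc (-t) u
    rw [S.comm_of (r := rG 6) (l := [((rG 8 : ℕ), 1, 1, 1), ((rG 9 : ℕ), 1, 1, 2), ((rG 10 : ℕ), -1, 1, 3), ((rG 11 : ℕ), -2, 2, 3)])
      (by decide +kernel), inv_mul_cancel_left] at this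
    simpa only [List.map_cons, List.map_nil, wd_cons, wd_nil, mul_one, Int.cast_one, Int.cast_neg, one_mul, neg_neg, pow_one,
      Int.cast_ofNat, neg_mul] using this
  have c0 : ∀ r b : Rt chevG2, (b ≠ r ∧ b ≠ ng r ∧ chevG2.commTerms r b = []) → ∀ t u,
      S.x r t * S.x b u * (S.x r t)⁻¹ = S.x b u := fun r b h t u => (S.commute_nil h t u).mul_inv_cancel
  have h2 : ∀ t, S.x (rG 11) t ∈ X := fun t => by
    have := mul_mem (inv_mem (h1 1 1)) (hB _ (S.U_le_B (S.x_mem (r := rG 6) (by decide +kernel : Pos (rG 6)) (-t))) _ (h1 1 1))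
    rw [← conj_mul, ← conj_mul, ← conj_mul, c0 _ _ (by decide +kernel), c0 _ _ (by decide +kernel),
      conj1 (v := rG 11) (C := 1) (by decide +kernel), c0 _ _ (by decide +kernel), mul_assoc (S.x (rG 10) _), S.x_comm_self] at this
    simpa [← mul_assoc] using this
  have h3 : ∀ s u, u ≠ 0 → S.x (rG 8) s * (S.x (rG 9) (s * u) * S.x (rG 10) (-(s * u ^ 2))) ∈ X := fun s u hu => by
    have := h1 (s / u) u
    rw [← mul_assoc, ← mul_assoc, mul_mem_cancel_right (h2 _), mul_assoc] at this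
    convert this using 3
    · field_simp
    · congr 1; field_simp
    · congr 2; field_simp
  have h4 : ∀ s u, u ≠ 0 → u ≠ 1 → S.x (rG 9) s * S.x (rG 10) (-(s * (u + 1))) ∈ X := fun s u hu h => by
    have h := sub_ne_zero.2 h
    have := mul_mem (inv_mem (h3 (s / (u - 1)) 1 one_ne_zero)) (h3 (s / (u - 1)) u hu)
    rw [mul_inv_rev, mul_assoc, inv_mul_cancel_left, (S.commute_nil (by decide +kernel) _ _).eq, mul_inv_rev, ← S.x_neg, ← S.x_neg,
      (S.commute_nil (r := rG 9) (s := rG 10) (by decide +kernel) _ _).symm.mul_mul_mul_comm, ← S.add, ← S.add] at this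
    convert this using 3 <;> field_simp <;> ring
  obtain ⟨l, l0, l2⟩ := exists_sq_ne_one hq
  have l1 : l ≠ 1 := fun e => l2 (by simp [e])
  have l3 : l ^ 2 - l ≠ 0 := fun e => l1 (mul_left_cancel₀ l0 (by linear_combination e))
  have h5 : ∀ t, S.x (rG 10) t ∈ X := fun t => by
    have := mul_mem (inv_mem (h4 (t / (l ^ 2 - l)) _ (pow_ne_zero 2 l0) l2)) (h4 (t / (l ^ 2 - l)) l l0 l1)
    rw [mul_inv_rev, mul_assoc, inv_mul_cancel_left, ← S.x_neg, ← S.add] at this
    convert this using 2; field_simp; ring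
  have h6 : ∀ t, S.x (rG 9) t ∈ X := fun t => (mul_mem_cancel_right (h5 _)).mp (h4 t l l0 l1)
  simpa using ⟨fun t => (mul_mem_cancel_right (mul_mem (h6 _) (h5 _))).mp (h3 t 1 one_ne_zero), h6, h5, h2⟩

theorem eq_UJ_G2 (h : chkSep good2G2.cert chevG2 2 [(1, 10), (1, 11), (1, 0), (1, 1)] = true) (hq : 3 < Fintype.card F)
    (hX : X ≤ S.U) (hwc : ∀ a ∈ S.grp, (∀ x ∈ X, a * x * a⁻¹ ∈ S.U) → a ∈ Subgroup.normalizer (X : Set G)) :
    X = S.UJ {i | X ≤ S.Ui i} := by
  have hB : ∀ b ∈ S.B, ∀ x ∈ X, b * x * b⁻¹ ∈ X := fun b hb x hx =>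
    (Subgroup.mem_normalizer_iff.mp (hwc b (S.B_le_grp hb) fun x hx => B_conj_U hb (hX hx)) x).mp hx
  have m : ∀ r : Rt chevG2, Pos r → ∀ t, S.x r t ∈ S.U := fun r h => S.x_mem h
  have sp := chkSep_spec (F := F) h (by omega) (Or.inr ⟨rfl, by omega⟩)
  have key : ∀ i, (∀ t, S.x (sim i) t ∈ X) → ∀ r ∈ [rG 8, rG 9, rG 10, rG 11], ∀ t, S.x r t ∈ X := fun i hi =>
    g2_mem hq hB fun t u => by
      rcases show sim i = rG 6 ∨ sim i = rG 7 by clear hi; revert i; decide +kernel with e | e <;> rw [e] at hi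
      · exact comm_mem hB (hi t) (m _ (by decide +kernel) u)
      · simpa using inv_mem (comm_mem hB (hi u) (m (rG 6) (by decide +kernel) t))
  refine eq_UJ hX hwc (fun i hi => ?_) fun i γ h1 h2 h3 h4 => key i h4 γ (by clear h4; revert i γ; decide +kernel)
  rcases show sim i ≠ rG 6 ∨ sim i = rG 6 from (em _).symm with e | e
  · refine sim_mem hX hB hi fun β h1 h2 => Or.inr ((sp i β h1 h2).resolve_left ?_)
    clear hi; revert i β; decide +kernel
  have hT : ∀ r : Rt chevG2, 3 ≤ ph (Pi.single ⟨0, by decide⟩ 1) r ↔ r = rG 10 ∨ r = rG 11 := by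
    simp only [ph_single]; decide +kernel
  generalize hc : (Pi.single ⟨0, by decide⟩ 1 : Ix chevG2 → ℤ) = c at hT
  have hN : S.B ≤ Subgroup.normalizer (S.XS {r | 3 ≤ ph c r} : Set G) :=
    sup_le (S.le_normalizer_of_cl fun r hr s hs => by
      have h1 : 0 ≤ ph c r := by rw [← hc, ph_single]; exact (pos_iff r).mp hr _
      have h2 : 3 ≤ ph c s := hs
      exact ⟨ne_ng_of_ph (c := c) (by omega), fun v i j hi hj e => by
        rw [Set.mem_setOf_eq, ph_of_co c e]; nlinarith⟩) (S.H_le_normalizer _)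
  have ms := @mem_sup_of_normalizes _ _ _ _ (hX.trans (S.U_le_B.trans hN))
  have h1 := sim_mem (i := i) (X := S.XS {r | 3 ≤ ph c r} ⊔ X) (sup_le (S.XS_mono fun r hr => by
      rcases (hT r).mp hr with rfl | rfl <;> rw [Set.mem_setOf_eq] <;> decide +kernel) hX) (fun b hb x hx => by
      obtain ⟨w, hw, y, hy, rfl⟩ := ms.mp hx
      rw [← conj_mul]
      exact mul_mem (Subgroup.mem_sup_left ((Subgroup.mem_normalizer_iff.mp (hN hb) _).mp hw))
        (Subgroup.mem_sup_right (hB b hb y hy))) (fun h => hi (le_sup_right.trans h))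
    fun β h1 h2 => (sp i β h1 h2).imp_left fun h s => Subgroup.mem_sup_left (S.x_mem ((hT β).mpr (by
      clear hi h2 e; revert i β; decide +kernel)) s)
  have h2 := g2_mem hq hB fun t u => by
    obtain ⟨w, hw, x, hx, e'⟩ := ms.mp (h1 t)
    have c1 : Commute w (S.x (rG 7) u) := comm_XS (fun r hr t => by
      rcases (hT r).mp hr with rfl | rfl <;> exact (S.commute_nil (by decide +kernel) _ _).mul_inv_cancel) hw
    rw [← e, e', ← mul_assoc (S.x (rG 7) u), ← c1.eq, mul_assoc w, mul_assoc w, mul_inv_rev, mul_assoc, inv_mul_cancel_left]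
    exact comm_mem hB hx (m _ (by decide +kernel) u)
  exact fun t => sup_le (S.XS_le.mpr fun r hr => h2 r (by rcases (hT r).mp hr with rfl | rfl <;> simp)) le_rfl (h1 t)

end Cfsg.Agent.Chev.WC
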