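import Mathlib
import Cfsg.Agent.Pres.WC1

/-! Certificates for weakly closed unipotent subgroups. -/

set_option autoImplicit false
set_option maxRecDepth 100000

namespace Cfsg.Agent.Chev.WC

open Cfsg.Lie StSys

attribute [local instance] good2G2 good2B2 good2D4 good2F4 good2E6 good2E7 good2E8

theorem sep_B2 : chkSep good2B2.cert chevB2 2 [] = true := by decide +kernel
theorem sep_G2 : chkSep good2G2.cert chevG2 2 [(1, 10), (1, 11), (1, 0), (1, 1)] = true := by decide +kernel
theorem sep_D4 : chkSep good2D4.cert chevD4 2 [] = true := by decide +kernel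
theorem sep_F4 : chkSep good2F4.cert chevF4 2 [] = true := by decide +kernel
theorem sep_E6 : chkSep good2E6.cert chevE6 1 [] = true := by decide +kernel
theorem sep_E7 : chkSep good2E7.cert chevE7 1 [] = true := by decide +kernel
theorem sep_E8 : chkSep good2E8.cert chevE8 1 [] = true := by decide +kernel

/-- the commutator relations have the expected shape -/
def OkD (D : ChevalleyDatum) [Good2 D] : Prop :=
  ∀ (i : Ix D) (γ : Rt D), Pos γ → 0 < ca i γ → γ ≠ sim i → okT D.nroots γ (D.commTerms (sim i) (rf i γ)) = true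

theorem ok_B2 : OkD chevB2 := by unfold OkD; decide +kernel
theorem ok_D4 : OkD chevD4 := by unfold OkD; decide +kernel
theorem ok_F4 : OkD chevF4 := by unfold OkD; decide +kernel
theorem ok_E6 : OkD chevE6 := by unfold OkD; decide +kernel
theorem ok_E7 : OkD chevE7 := by unfold OkD; decide +kernel
theorem ok_E8 : OkD chevE8 := by unfold OkD; decide +kernel

theorem gl_wc {D : ChevalleyDatum} [g : Good2 D] {F : Type*} [Field F] {X : Subgroup (GL D.Idx F)}
    (h : X ≤ (glSys D F).U → (∀ a ∈ (glSys D F).grp, (∀ x ∈ X, a * x * a⁻¹ ∈ (glSys D F).U) →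
      a ∈ Subgroup.normalizer (X : Set (GL D.Idx F))) → X = (glSys D F).UJ {i | X ≤ (glSys D F).Ui i})
    (hXU : X ≤ D.posUnipotent F) (hwc : ∀ g ∈ D.group F, X.map (MulAut.conj g).toMonoidHom ≤ D.posUnipotent F →
      X.map (MulAut.conj g).toMonoidHom = X) : ∃ J : Set ℕ, (∀ j ∈ J, j < D.rank) ∧ X = D.unipotentRadical F J := by
  rw [posUnipotent_eq, group_eq] at *
  refine ⟨Fin.val '' {i | X ≤ (glSys D F).Ui i}, by rintro _ ⟨i, -, rfl⟩; exact i.2, ?_⟩
  rw [unipotentRadical_eq, show JS D (Fin.val '' {i | X ≤ (glSys D F).Ui i}) = {i | X ≤ (glSys D F).Ui i} from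
    Set.preimage_image_eq _ Fin.val_injective]
  refine h hXU fun a ha h1 => Subgroup.mem_normalizer_iff.mpr fun x => ?_
  have := hwc a ha (by rintro _ ⟨x, hx, rfl⟩; exact h1 x hx)
  exact ⟨fun hx => this.le ⟨x, hx, rfl⟩, fun hx => by
    obtain ⟨y, hy, e⟩ := this.ge hx
    exact (MulAut.conj a).injective e ▸ hy⟩

end Cfsg.Agent.Chev.WC

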